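import Mathlib
import Cfsg.Agent.Lib.helper10.Trace

set_option autoImplicit false

/-!
Gaschütz-style averaging: a 1-cocycle of `G` with values in a commutative normal `p`-subgroup which is
trivial on a subgroup `T` of index prime to `p` is a coboundary.
-/

namespace Cfsg.Agent.Lib.helper10

open scoped IsMulCommutative

variable {G : Type*} [Group G]

/-- In a commutative `p`-group, `m`-th powers are injective for `m` prime to `p`. -/
theorem pow_injective_of_coprime {A : Type*} [CommGroup A] {p m : ℕ} (hA : IsPGroup p A)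
    (hm : m.Coprime p) {a b : A} (h : a ^ m = b ^ m) : a = b := by
  have h1 : (a * b⁻¹) ^ m = 1 := by rw [mul_pow, inv_pow, h, mul_inv_cancel]
  obtain ⟨k, hk⟩ := hA (a * b⁻¹)
  have h3 : orderOf (a * b⁻¹) ∣ Nat.gcd m (p ^ k) :=
    Nat.dvd_gcd (orderOf_dvd_of_pow_eq_one h1) (orderOf_dvd_of_pow_eq_one hk)
  have h4 : Nat.gcd m (p ^ k) = 1 := Nat.Coprime.pow_right k hm
  rw [h4, Nat.dvd_one, orderOf_eq_one_iff] at h3
  exact mul_inv_eq_one.1 h3

theorem cocycle_split [Finite G] {p : ℕ} [Fact p.Prime] (Zc T : Subgroup G)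
    [IsMulCommutative ↥Zc]
    (hZn : ∀ g : G, ∀ z ∈ Zc, g * z * g⁻¹ ∈ Zc) (hZp : IsPGroup p Zc) (hidx : ¬ p ∣ T.index)
    (ε : G → G) (hε : ∀ g, ε g ∈ Zc) (hεT : ∀ g, ∀ t ∈ T, ε (g * t) = ε g)
    (hεmul : ∀ h g, ε (h * g) = ε h * (h * ε g * h⁻¹)) :
    ∃ u ∈ Zc, ∀ h : G, ε h = u * (h * u⁻¹ * h⁻¹) := by
  classical
  have hp : p.Prime := Fact.out
  have : Fintype (G ⧸ T) := Fintype.ofFinite _
  let c : G → (↥Zc →* ↥Zc) := fun g => conjEnd Zc g (hZn g)
  let e : G → ↥Zc := fun g => ⟨ε g, hε g⟩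
  let w : ↥Zc := ∏ q : G ⧸ T, e q.out
  have hm : Fintype.card (G ⧸ T) = T.index := by rw [← Nat.card_eq_fintype_card]; rfl
  have hcop : (T.index).Coprime p := ((Nat.Prime.coprime_iff_not_dvd hp).2 hidx).symm
  have key : ∀ h : G, w = e h ^ T.index * c h w := by
    intro h
    have h1 : ∀ q : G ⧸ T, e ((h • q).out) = e h * c h (e q.out) := by
      intro q
      have h2 : (QuotientGroup.mk (h * q.out) : G ⧸ T) = QuotientGroup.mk ((h • q).out) := by
        rw [QuotientGroup.out_eq']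
        conv_rhs => rw [← QuotientGroup.out_eq' q]
        rfl
      have h3 : (h * q.out)⁻¹ * (h • q).out ∈ T := QuotientGroup.eq.1 h2
      have h4 : ε ((h • q).out) = ε (h * q.out) := by
        have h5 := hεT (h * q.out) _ h3
        rw [← h5]
        congr 1
        group
      apply Subtype.ext
      show ε ((h • q).out) = ε h * (h * ε q.out * h⁻¹)
      rw [h4, hεmul]
    have h5 : ∏ q : G ⧸ T, e ((h • q).out) = w :=
      Fintype.prod_equiv (MulAction.toPerm h) _ _ (fun q => rfl)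
    calc w = ∏ q : G ⧸ T, e ((h • q).out) := h5.symm
      _ = ∏ q : G ⧸ T, (e h * c h (e q.out)) := Finset.prod_congr rfl (fun q _ => h1 q)
      _ = (∏ _q : G ⧸ T, e h) * ∏ q : G ⧸ T, c h (e q.out) := Finset.prod_mul_distrib
      _ = e h ^ T.index * c h w := by
        rw [Finset.prod_const, Finset.card_univ, hm, ← map_prod]
  obtain ⟨k, hk⟩ := hZp w
  have hcop' : Nat.Coprime T.index (orderOf w) :=
    Nat.Coprime.coprime_dvd_right (orderOf_dvd_of_pow_eq_one hk) (Nat.Coprime.pow_right k hcop)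
  obtain ⟨j, hj⟩ := exists_pow_eq_self_of_coprime hcop'
  have hu : (w ^ j) ^ T.index = w := by
    rw [← pow_mul, mul_comm, pow_mul]; exact hj
  refine ⟨((w ^ j : ↥Zc) : G), (w ^ j).2, fun h => ?_⟩
  have h1 : e h ^ T.index = (w ^ j * (c h (w ^ j))⁻¹) ^ T.index := by
    rw [mul_pow, inv_pow, ← map_pow, hu]
    exact eq_mul_inv_of_mul_eq (key h).symm
  have h2 : e h = w ^ j * (c h (w ^ j))⁻¹ := pow_injective_of_coprime hZp hcop h1
  have h3 := congrArg Subtype.val h2
  have h4 : ((w ^ j * (c h (w ^ j))⁻¹ : ↥Zc) : G) =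
      ((w ^ j : ↥Zc) : G) * (h * ((w ^ j : ↥Zc) : G)⁻¹ * h⁻¹) := by
    show ((w ^ j : ↥Zc) : G) * (h * ((w ^ j : ↥Zc) : G) * h⁻¹)⁻¹ = _
    group
  rw [h4] at h3
  exact h3

end Cfsg.Agent.Lib.helper10
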