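import Mathlib
import Cfsg.Agent.S0093
import Cfsg.Agent.S0075

set_option autoImplicit false

namespace Cfsg.Agent.Lib.helper10

open scoped commutatorElement

section CritExp

variable {P : Type*} [Group P]

/-- `y^n x = c^n x y^n` when `y x = c x y` and `c` commutes with `y`. -/
theorem ce_pow_mul {x y c : P} (hc : y * x = c * x * y) (hcy : Commute c y) (n : ℕ) :
    y ^ n * x = c ^ n * x * y ^ n := by
  induction n with
  | zero => simp
  | succ n ih =>
    have h1 : y ^ n * c = c * y ^ n := (hcy.pow_right n).eq.symm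
    calc y ^ (n + 1) * x = y ^ n * (y * x) := by rw [pow_succ, mul_assoc]
      _ = y ^ n * (c * x * y) := by rw [hc]
      _ = (y ^ n * c) * x * y := by simp only [mul_assoc]
      _ = c * (y ^ n * x) * y := by rw [h1]; simp only [mul_assoc]
      _ = c * (c ^ n * x * y ^ n) * y := by rw [ih]
      _ = c ^ (n + 1) * x * y ^ (n + 1) := by
        rw [pow_succ' c, pow_succ y]; simp only [mul_assoc]

/-- `(x y)^n = x^n y^n c^(n choose 2)` when `y x = c x y` and `c` commutes with `x`, `y`. -/
theorem ce_mul_pow {x y c : P} (hc : y * x = c * x * y) (hcx : Commute c x) (hcy : Commute c y)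
    (n : ℕ) : (x * y) ^ n = x ^ n * y ^ n * c ^ (n.choose 2) := by
  induction n with
  | zero => simp
  | succ n ih =>
    have h1 := ce_pow_mul hc hcy n
    have h2 : (n + 1).choose 2 = n + n.choose 2 := by
      rw [Nat.choose_succ_succ, Nat.choose_one_right]
    have hcT : Commute (c ^ (n.choose 2)) (x * y) := (hcx.mul_right hcy).pow_left _
    have h3 : x ^ n * c ^ n = c ^ n * x ^ n := ((hcx.pow_left n).pow_right n).eq.symm
    have h4 : Commute (c ^ n) (x ^ (n + 1) * y ^ (n + 1)) :=
      ((hcx.pow_right (n + 1)).mul_right (hcy.pow_right (n + 1))).pow_left n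
    calc (x * y) ^ (n + 1) = x ^ n * y ^ n * c ^ (n.choose 2) * (x * y) := by rw [pow_succ, ih]
      _ = x ^ n * y ^ n * ((x * y) * c ^ (n.choose 2)) := by rw [← hcT.eq]; simp only [mul_assoc]
      _ = x ^ n * (y ^ n * x) * y * c ^ (n.choose 2) := by simp only [mul_assoc]
      _ = x ^ n * (c ^ n * x * y ^ n) * y * c ^ (n.choose 2) := by rw [h1]
      _ = (x ^ n * c ^ n) * x * y ^ n * y * c ^ (n.choose 2) := by simp only [mul_assoc]
      _ = c ^ n * (x ^ (n + 1) * y ^ (n + 1)) * c ^ (n.choose 2) := by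
        rw [h3, pow_succ x, pow_succ y]; simp only [mul_assoc]
      _ = x ^ (n + 1) * y ^ (n + 1) * c ^ ((n + 1).choose 2) := by
        rw [h4.eq, h2, pow_add c]; simp only [mul_assoc]

variable [Finite P] {p : ℕ} [Fact p.Prime]

omit [Finite P] [Fact (Nat.Prime p)] in
/-- If `α g = g c` with `c` fixed by `α` and the order of `α` is prime to `p`, then `c = 1`. -/
theorem ce_fix_trick (hP : IsPGroup p P) (α : MulAut P) (hα : (orderOf α).Coprime p) (g c : P)
    (h1 : α g = g * c) (h2 : α c = c) : c = 1 := by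
  have h3 : ∀ n : ℕ, (α ^ n) g = g * c ^ n := by
    intro n
    induction n with
    | zero => simp
    | succ n ih =>
      rw [pow_succ', MulAut.mul_apply, ih, map_mul, map_pow, h1, h2, pow_succ', mul_assoc]
  have h4 := h3 (orderOf α)
  rw [pow_orderOf_eq_one, MulAut.one_apply] at h4
  have h5 : c ^ orderOf α = 1 := by
    have h := mul_left_cancel (a := g) (b := 1) (c := c ^ orderOf α) (by rw [mul_one]; exact h4)
    exact h.symm
  obtain ⟨k, hk⟩ := hP c
  have h6 : c ^ Nat.gcd (orderOf α) (p ^ k) = 1 := pow_gcd_eq_one.mpr ⟨h5, hk⟩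
  have h7 : Nat.gcd (orderOf α) (p ^ k) = 1 := Nat.Coprime.pow_right k hα
  rw [h7, pow_one] at h6
  exact h6

/-- the good exponent `q` (`p` for odd `p`, `4` for `p = 2`): the `q`-power map is
multiplicative on a critical subgroup. -/
theorem ce_exists_q (hP : IsPGroup p P) (C : Subgroup P)
    (hCfr : (frattini C).map C.subtype ≤ Subgroup.centralizer (C : Set P))
    (hCcomm : ⁅C, (⊤ : Subgroup P)⁆ ≤ C ⊓ Subgroup.centralizer (C : Set P)) :
    ∃ q : ℕ, p ∣ q ∧ (∀ x ∈ C, ∀ y ∈ C, (x * y) ^ q = x ^ q * y ^ q) ∧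
      (∀ d : P, d ^ q = 1 → d ^ p = 1 ∨ (p = 2 ∧ d ^ 4 = 1)) := by
  have hp : p.Prime := Fact.out
  have key : ∀ q : ℕ, p ∣ q.choose 2 → ∀ x ∈ C, ∀ y ∈ C, (x * y) ^ q = x ^ q * y ^ q := by
    intro q hq x hx y hy
    set c : P := ⁅y, x⁆ with hcdef
    have hc : y * x = c * x * y := by rw [hcdef, commutatorElement_def]; group
    have hcm : c ∈ Subgroup.centralizer (C : Set P) :=
      (hCcomm (Subgroup.commutator_mem_commutator hy (Subgroup.mem_top x))).2
    have hcx : Commute c x := (Subgroup.mem_centralizer_iff.mp hcm x hx).symm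
    have hcy : Commute c y := (Subgroup.mem_centralizer_iff.mp hcm y hy).symm
    have hyp : y ^ p ∈ Subgroup.centralizer (C : Set P) := by
      apply hCfr
      refine ⟨(⟨y, hy⟩ : C) ^ p, Cfsg.Agent.Lib.helper1.pow_mem_frattini p (hP.to_subgroup C) _, ?_⟩
      simp
    have h1 := ce_pow_mul hc hcy p
    have h2 : x * y ^ p = y ^ p * x := Subgroup.mem_centralizer_iff.mp hyp x hx
    have hcp : c ^ p = 1 := by
      have h3 : c ^ p * (x * y ^ p) = x * y ^ p := by
        rw [← mul_assoc, ← h1, h2]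
      exact mul_eq_right.mp h3
    have hcq : c ^ (q.choose 2) = 1 := by
      obtain ⟨m, hm⟩ := hq
      rw [hm, pow_mul, hcp, one_pow]
    rw [ce_mul_pow hc hcx hcy q, hcq, mul_one]
  by_cases h2 : p = 2
  · refine ⟨4, ⟨2, by rw [h2]⟩, key 4 ?_, fun d hd => Or.inr ⟨h2, hd⟩⟩
    rw [h2]; decide
  · refine ⟨p, dvd_rfl, key p ?_, fun d hd => Or.inl hd⟩
    have h3 : 2 < p := lt_of_le_of_ne hp.two_le (Ne.symm h2)
    exact hp.dvd_choose_self (by norm_num) h3

/-- A `p'`-automorphism fixing the kernel of the `q`-power map on an invariant subgroup `X`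
of `C` fixes `X`. -/
theorem ce_pow_ker_fix (hP : IsPGroup p P) (C : Subgroup P) (q : ℕ) (hpq : p ∣ q)
    (hq : ∀ x ∈ C, ∀ y ∈ C, (x * y) ^ q = x ^ q * y ^ q)
    (α : MulAut P) (hα : (orderOf α).Coprime p) :
    ∀ (n : ℕ) (X : Subgroup P), Nat.card X ≤ n → X ≤ C → (∀ x ∈ X, α x ∈ X) →
      (∀ x ∈ X, x ^ q = 1 → α x = x) → ∀ x ∈ X, α x = x := by
  have hp : p.Prime := Fact.out
  intro n
  induction n with
  | zero =>
    intro X hn
    have := Nat.card_pos (α := X)
    omega
  | succ n ih =>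
    intro X hn hXC hinv hker x hx
    let I : Subgroup P :=
      { carrier := {y | ∃ x ∈ X, y = x ^ q}
        mul_mem' := by
          rintro a b ⟨x, hx, rfl⟩ ⟨y, hy, rfl⟩
          exact ⟨x * y, X.mul_mem hx hy, (hq x (hXC hx) y (hXC hy)).symm⟩
        one_mem' := ⟨1, X.one_mem, (one_pow q).symm⟩
        inv_mem' := by
          rintro a ⟨x, hx, rfl⟩
          exact ⟨x⁻¹, X.inv_mem hx, (inv_pow x q).symm⟩ }
    have hIX : I ≤ X := by
      rintro a ⟨x, hx, rfl⟩
      exact X.pow_mem hx q
    by_cases hX : X = ⊥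
    · rw [hX, Subgroup.mem_bot] at hx
      rw [hx, map_one]
    have hIlt : Nat.card I ≤ n := by
      by_contra hcon
      push Not at hcon
      have hIeq : I = X := Subgroup.eq_of_le_of_card_ge hIX (by omega)
      have hcard : p ∣ Nat.card X := by
        rcases (hP.to_subgroup X).card_eq_or_dvd with h | h
        · exact absurd (Subgroup.card_eq_one.mp h) hX
        · exact h
      obtain ⟨w, hw⟩ := exists_prime_orderOf_dvd_card' p hcard
      let f : X → X := fun x => ⟨(x : P) ^ q, X.pow_mem x.2 q⟩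
      have hfs : Function.Surjective f := by
        intro y
        have hy : (y : P) ∈ I := by rw [hIeq]; exact y.2
        obtain ⟨x, hx, hxy⟩ := hy
        exact ⟨⟨x, hx⟩, Subtype.ext hxy.symm⟩
      have hfi : Function.Injective f := Finite.injective_iff_surjective.mpr hfs
      have hw1 : f w = f 1 := by
        apply Subtype.ext
        show (w : P) ^ q = ((1 : X) : P) ^ q
        obtain ⟨m, hm⟩ := hpq
        have hwp : (w : P) ^ p = 1 := by
          have := pow_orderOf_eq_one w
          rw [hw] at this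
          exact_mod_cast congrArg Subtype.val this
        rw [hm, pow_mul, hwp, one_pow, Subgroup.coe_one, one_pow]
      have hw2 : w = 1 := hfi hw1
      rw [hw2, orderOf_one] at hw
      exact hp.one_lt.ne hw
    have hI : ∀ a ∈ I, α a = a := by
      apply ih I hIlt (hIX.trans hXC)
      · rintro a ⟨x, hx, rfl⟩
        exact ⟨α x, hinv x hx, map_pow α x q⟩
      · intro a ha ha'
        exact hker a (hIX ha) ha'
    have hcX : x⁻¹ * α x ∈ X := X.mul_mem (X.inv_mem hx) (hinv x hx)
    have hcq : (x⁻¹ * α x) ^ q = 1 := by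
      rw [hq _ (hXC (X.inv_mem hx)) _ (hXC (hinv x hx)), ← map_pow, hI (x ^ q) ⟨x, hx, rfl⟩,
        inv_pow, inv_mul_cancel]
    have hc1 := ce_fix_trick hP α hα x (x⁻¹ * α x) (by group) (hker _ hcX hcq)
    exact (inv_mul_eq_one.mp hc1).symm

omit [Finite P] in
/-- an element of `D` commuting with a maximal abelian subgroup `A` of `D` lies in `A` -/
theorem ce_max_abelian_mem {D A : Subgroup P} (hAD : A ≤ D) (hA : IsMulCommutative ↥A)
    (hmax : ∀ B : Subgroup P, A ≤ B → B ≤ D → IsMulCommutative ↥B → B = A)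
    (d : P) (hd : d ∈ D) (hcomm : ∀ a ∈ A, a * d = d * a) : d ∈ A := by
  have hAB : A ≤ Subgroup.closure ((A : Set P) ∪ {d}) :=
    fun x hx => Subgroup.subset_closure (Or.inl hx)
  have hBD : Subgroup.closure ((A : Set P) ∪ {d}) ≤ D := by
    rw [Subgroup.closure_le]
    rintro x (hx | hx)
    · exact hAD hx
    · rw [Set.mem_singleton_iff] at hx; rw [hx]; exact hd
  have hAc : ∀ a ∈ A, ∀ b ∈ A, a * b = b * a := fun a ha b hb => by
    have := hA.is_comm.comm (⟨a, ha⟩ : A) ⟨b, hb⟩
    exact congrArg Subtype.val this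
  have hBc : IsMulCommutative ↥(Subgroup.closure ((A : Set P) ∪ {d})) := by
    apply Subgroup.isMulCommutative_closure
    rintro x (hx | hx) y (hy | hy)
    · exact hAc x hx y hy
    · rw [Set.mem_singleton_iff] at hy; rw [hy]; exact hcomm x hx
    · rw [Set.mem_singleton_iff] at hx; rw [hx]; exact (hcomm y hy).symm
    · rw [Set.mem_singleton_iff] at hx hy; rw [hx, hy]
  have h := hmax _ hAB hBD hBc
  rw [← h]; exact Subgroup.subset_closure (Or.inr rfl)

end CritExp

end Cfsg.Agent.Lib.helper10
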