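import Mathlib
import Cfsg.Prelude.Def_LieClassical
import Cfsg.Agent.Lib.helper10.HermNorm

set_option autoImplicit false

/-!
Conjugacy in `GU_n(q)` is controlled by `GL_n(q²)`.
-/

namespace Cfsg.Agent.Lib.helper10.GUConj

open Matrix

universe u

variable {K : Type u} [Field K] {n : ℕ}

/-- the twisted adjoint `M ↦ (σ M)ᵀ` -/
def dag (σ : K →+* K) (M : Matrix (Fin n) (Fin n) K) : Matrix (Fin n) (Fin n) K := (M.map σ)ᵀ

theorem dag_mul (σ : K →+* K) (A B : Matrix (Fin n) (Fin n) K) :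
    dag σ (A * B) = dag σ B * dag σ A := by
  unfold dag; rw [Matrix.map_mul, Matrix.transpose_mul]

theorem dag_add (σ : K →+* K) (A B : Matrix (Fin n) (Fin n) K) :
    dag σ (A + B) = dag σ A + dag σ B := by
  ext i j; simp [dag]

theorem dag_zero (σ : K →+* K) : dag σ (0 : Matrix (Fin n) (Fin n) K) = 0 := by
  ext i j; simp [dag]

theorem dag_one (σ : K →+* K) : dag σ (1 : Matrix (Fin n) (Fin n) K) = 1 := by
  unfold dag; rw [Matrix.map_one σ (map_zero σ) (map_one σ), Matrix.transpose_one]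

theorem dag_dag (σ : K →+* K) (hσ : ∀ a, σ (σ a) = a) (A : Matrix (Fin n) (Fin n) K) :
    dag σ (dag σ A) = A := by
  ext i j; simp [dag, hσ]

theorem dag_algebraMap (σ : K →+* K) (c : K) :
    dag σ (algebraMap K (Matrix (Fin n) (Fin n) K) c) = algebraMap K (Matrix (Fin n) (Fin n) K) (σ c) := by
  ext i j
  simp only [dag, Matrix.transpose_apply, Matrix.map_apply, Matrix.algebraMap_matrix_apply]
  by_cases h : i = j
  · subst h; simp
  · have h' : ¬ j = i := fun e => h e.symm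
    simp [h, h']

theorem herm_eq (σ : K →+* K) (q : ℕ) (hq : ∀ a, σ a = a ^ q) (u v : Fin n → K) :
    Cfsg.hermForm n K q u v = u ⬝ᵥ (σ ∘ v) := by
  unfold Cfsg.hermForm
  simp [dotProduct, hq]

theorem herm_mulVec (σ : K →+* K) (q : ℕ) (hq : ∀ a, σ a = a ^ q)
    (g : Matrix (Fin n) (Fin n) K) (u v : Fin n → K) :
    Cfsg.hermForm n K q (g *ᵥ u) (g *ᵥ v) = u ⬝ᵥ ((gᵀ * g.map σ) *ᵥ (σ ∘ v)) := by
  rw [herm_eq σ q hq]
  have h1 : σ ∘ (g *ᵥ v) = g.map σ *ᵥ (σ ∘ v) := by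
    funext i; exact RingHom.map_mulVec σ g v i
  rw [h1, ← Matrix.mulVec_mulVec, Matrix.dotProduct_mulVec u, Matrix.vecMul_transpose]

theorem mem_GU_iff (σ : K →+* K) (q : ℕ) (hq : ∀ a, σ a = a ^ q) (g : GL (Fin n) K) :
    g ∈ Cfsg.GU n K q ↔ dag σ (g : Matrix (Fin n) (Fin n) K) * (g : Matrix (Fin n) (Fin n) K) = 1 := by
  have hmem : g ∈ Cfsg.GU n K q ↔ ∀ u v : Fin n → K,
      Cfsg.hermForm n K q ((g : Matrix (Fin n) (Fin n) K) *ᵥ u)
        ((g : Matrix (Fin n) (Fin n) K) *ᵥ v) = Cfsg.hermForm n K q u v := Iff.rfl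
  have htr : dag σ (g : Matrix (Fin n) (Fin n) K) * (g : Matrix (Fin n) (Fin n) K) =
      ((g : Matrix (Fin n) (Fin n) K)ᵀ * (g : Matrix (Fin n) (Fin n) K).map σ)ᵀ := by
    unfold dag; rw [Matrix.transpose_mul, Matrix.transpose_transpose]
  rw [hmem, htr]
  constructor
  · intro h
    have key : (g : Matrix (Fin n) (Fin n) K)ᵀ * (g : Matrix (Fin n) (Fin n) K).map σ = 1 := by
      ext a b
      have h1 := h (Pi.single a 1) (Pi.single b 1)
      rw [herm_mulVec σ q hq, herm_eq σ q hq] at h1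
      have h2 : σ ∘ (Pi.single b 1 : Fin n → K) = Pi.single b 1 := by
        funext i
        by_cases hi : i = b
        · subst hi; simp
        · simp [hi]
      rw [h2, single_one_dotProduct, single_one_dotProduct, Matrix.mulVec_single_one] at h1
      rw [Matrix.one_apply]
      simpa [Pi.single_apply, eq_comm] using h1
    rw [key, Matrix.transpose_one]
  · intro h u v
    have key : (g : Matrix (Fin n) (Fin n) K)ᵀ * (g : Matrix (Fin n) (Fin n) K).map σ = 1 := by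
      have := congrArg Matrix.transpose h
      rwa [Matrix.transpose_transpose, Matrix.transpose_one] at this
    rw [herm_mulVec σ q hq, key, Matrix.one_mulVec, herm_eq σ q hq]

theorem sqrt_generic {R : Type u} [CommRing R] [Finite R] (τ : R →+* R)
    (hττ : ∀ x, τ (τ x) = x) (ω : R) (hω : IsUnit (ω - τ ω)) (y yi : R) (hτy : τ y = y)
    (hτyi : τ yi = yi) (hyyi : y * yi = 1) : ∃ u : R, τ u * y * u = 1 := by
  obtain ⟨w, hw⟩ := HermNorm.norm_surj τ hττ ω hω y (IsUnit.of_mul_eq_one yi hyyi) hτy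
  refine ⟨τ w * yi, ?_⟩
  rw [map_mul, hττ, hτyi]
  linear_combination (yi * yi * y) * hw + (y * yi + 1) * hyyi

/-- the double centralizer of a matrix -/
def dcent (Y : Matrix (Fin n) (Fin n) K) : Subring (Matrix (Fin n) (Fin n) K) :=
  Subring.centralizer ((Subring.centralizer ({Y} : Set (Matrix (Fin n) (Fin n) K)) :
    Subring (Matrix (Fin n) (Fin n) K)) : Set (Matrix (Fin n) (Fin n) K))

theorem mem_dcent (Y m : Matrix (Fin n) (Fin n) K) :
    m ∈ dcent Y ↔ ∀ z : Matrix (Fin n) (Fin n) K, Y * z = z * Y → z * m = m * z := by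
  unfold dcent
  rw [Subring.mem_centralizer_iff]
  constructor
  · intro h z hz
    refine h z ?_
    rw [SetLike.mem_coe, Subring.mem_centralizer_iff]
    intro g hg
    rw [Set.mem_singleton_iff] at hg
    rw [hg]; exact hz
  · intro h z hz
    rw [SetLike.mem_coe, Subring.mem_centralizer_iff] at hz
    exact h z (hz Y rfl)

theorem dcent_comm (Y a b : Matrix (Fin n) (Fin n) K) (ha : a ∈ dcent Y) (hb : b ∈ dcent Y) :
    a * b = b * a := by
  rw [mem_dcent] at ha hb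
  exact hb a (ha Y rfl)

theorem dag_mem_dcent (σ : K →+* K) (hσ : ∀ a, σ (σ a) = a) (Y : Matrix (Fin n) (Fin n) K)
    (hY : dag σ Y = Y) (m : Matrix (Fin n) (Fin n) K) (hm : m ∈ dcent Y) :
    dag σ m ∈ dcent Y := by
  rw [mem_dcent] at hm ⊢
  intro z hz
  have h1 : Y * dag σ z = dag σ z * Y := by
    have := congrArg (dag σ) hz
    rw [dag_mul, dag_mul, hY] at this
    exact this.symm
  have h2 := congrArg (dag σ) (hm _ h1)
  rw [dag_mul, dag_mul, dag_dag σ hσ] at h2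
  exact h2.symm

/-- the commutative ring structure on the double centralizer -/
@[reducible] noncomputable def dcentCommRing (Y : Matrix (Fin n) (Fin n) K) : CommRing ↥(dcent Y) :=
  { (inferInstance : Ring ↥(dcent Y)) with
    mul_comm := fun a b => Subtype.ext (dcent_comm Y a.1 b.1 a.2 b.2) }

/-- Every invertible Hermitian `Y` is `W * W†` with `W` in the double centralizer of `Y`;
packaged as: there is `U` in the double centralizer with `U† * Y * U = 1`. -/
theorem exists_dcent_sqrt [Finite K] (σ : K →+* K) (hσ : ∀ a, σ (σ a) = a) (ω₀ : K)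
    (hω₀ : σ ω₀ ≠ ω₀) (Y Yi : Matrix (Fin n) (Fin n) K) (hY : dag σ Y = Y)
    (hYi : dag σ Yi = Yi) (hYYi : Y * Yi = 1) :
    ∃ U : Matrix (Fin n) (Fin n) K, U ∈ dcent Y ∧ dag σ U * Y * U = 1 := by
  let _ : CommRing ↥(dcent Y) := dcentCommRing Y
  have hYiY : Yi * Y = 1 := mul_eq_one_comm.mp hYYi
  have hYmem : Y ∈ dcent Y := by
    rw [mem_dcent]; intro z hz; exact hz.symm
  have hYimem : Yi ∈ dcent Y := by
    rw [mem_dcent]; intro z hz
    calc z * Yi = Yi * Y * (z * Yi) := by rw [hYiY, one_mul]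
      _ = Yi * (Y * z) * Yi := by simp only [mul_assoc]
      _ = Yi * (z * Y) * Yi := by rw [hz]
      _ = Yi * z * (Y * Yi) := by simp only [mul_assoc]
      _ = Yi * z := by rw [hYYi, mul_one]
  let τ : ↥(dcent Y) →+* ↥(dcent Y) :=
    { toFun := fun m => ⟨dag σ m.1, dag_mem_dcent σ hσ Y hY m.1 m.2⟩
      map_one' := Subtype.ext (dag_one σ)
      map_mul' := fun a b => Subtype.ext (by
        show dag σ (a.1 * b.1) = dag σ a.1 * dag σ b.1
        rw [dag_mul]
        exact dcent_comm Y _ _ (dag_mem_dcent σ hσ Y hY b.1 b.2) (dag_mem_dcent σ hσ Y hY a.1 a.2))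
      map_zero' := Subtype.ext (dag_zero σ)
      map_add' := fun a b => Subtype.ext (dag_add σ a.1 b.1) }
  have hτval : ∀ m : ↥(dcent Y), (τ m).1 = dag σ m.1 := fun m => rfl
  have hττ : ∀ m : ↥(dcent Y), τ (τ m) = m := by
    intro m; apply Subtype.ext; rw [hτval, hτval, dag_dag σ hσ]
  have hscal : ∀ c : K, algebraMap K (Matrix (Fin n) (Fin n) K) c ∈ dcent Y := by
    intro c; rw [mem_dcent]; intro z _; exact (Algebra.commutes c z).symm
  have hω : IsUnit ((⟨_, hscal ω₀⟩ : ↥(dcent Y)) - τ ⟨_, hscal ω₀⟩) := by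
    have hne : ω₀ - σ ω₀ ≠ 0 := sub_ne_zero.mpr (Ne.symm hω₀)
    refine IsUnit.of_mul_eq_one (⟨_, hscal (ω₀ - σ ω₀)⁻¹⟩ : ↥(dcent Y)) ?_
    apply Subtype.ext
    show (algebraMap K (Matrix (Fin n) (Fin n) K) ω₀ - dag σ (algebraMap K (Matrix (Fin n) (Fin n) K) ω₀)) *
      algebraMap K (Matrix (Fin n) (Fin n) K) (ω₀ - σ ω₀)⁻¹ = 1
    rw [dag_algebraMap, ← map_sub, ← map_mul, mul_inv_cancel₀ hne, map_one]
  have hyτ : τ ⟨Y, hYmem⟩ = ⟨Y, hYmem⟩ := Subtype.ext hY
  have hτyi : τ ⟨Yi, hYimem⟩ = ⟨Yi, hYimem⟩ := Subtype.ext hYi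
  have hyyi : (⟨Y, hYmem⟩ : ↥(dcent Y)) * ⟨Yi, hYimem⟩ = 1 := Subtype.ext hYYi
  obtain ⟨u, hu⟩ := sqrt_generic τ hττ _ hω _ _ hyτ hτyi hyyi
  refine ⟨u.1, u.2, ?_⟩
  have := congrArg Subtype.val hu
  exact this

theorem gu_conj [Finite K] (σ : K →+* K) (q : ℕ) (hq : ∀ a, σ a = a ^ q)
    (hσ : ∀ a, σ (σ a) = a) (ω₀ : K) (hω₀ : σ ω₀ ≠ ω₀)
    (A B : GL (Fin n) K) (hA : A ∈ Cfsg.GU n K q) (hB : B ∈ Cfsg.GU n K q)
    (x : GL (Fin n) K) (hx : x * A * x⁻¹ = B) :
    ∃ g ∈ Cfsg.GU n K q, g * A * g⁻¹ = B := by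
  rw [mem_GU_iff σ q hq] at hA hB
  obtain ⟨a, ha⟩ : ∃ a : Matrix (Fin n) (Fin n) K, a = (A : Matrix (Fin n) (Fin n) K) := ⟨_, rfl⟩
  obtain ⟨b, hb⟩ : ∃ b : Matrix (Fin n) (Fin n) K, b = (B : Matrix (Fin n) (Fin n) K) := ⟨_, rfl⟩
  obtain ⟨X, hX⟩ : ∃ X : Matrix (Fin n) (Fin n) K, X = (x : Matrix (Fin n) (Fin n) K) := ⟨_, rfl⟩
  obtain ⟨Xi, hXi⟩ : ∃ Xi : Matrix (Fin n) (Fin n) K,
      Xi = ((x⁻¹ : GL (Fin n) K) : Matrix (Fin n) (Fin n) K) := ⟨_, rfl⟩
  rw [← ha] at hA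
  rw [← hb] at hB
  have hXXi : X * Xi = 1 := by rw [hX, hXi, ← Units.val_mul, mul_inv_cancel, Units.val_one]
  have hXiX : Xi * X = 1 := by rw [hX, hXi, ← Units.val_mul, inv_mul_cancel, Units.val_one]
  have hXa : X * a = b * X := by
    have h1 : x * A = B * x := by rw [← hx]; group
    have := congrArg (fun g : GL (Fin n) K => (g : Matrix (Fin n) (Fin n) K)) h1
    simpa [hX, ha, hb] using this
  have hA' : a * dag σ a = 1 := mul_eq_one_comm.mp hA
  -- Y = X† X
  obtain ⟨Y, hYd⟩ : ∃ Y, Y = dag σ X * X := ⟨_, rfl⟩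
  obtain ⟨Yi, hYid⟩ : ∃ Yi, Yi = Xi * dag σ Xi := ⟨_, rfl⟩
  have hY : dag σ Y = Y := by rw [hYd, dag_mul, dag_dag σ hσ]
  have hYi : dag σ Yi = Yi := by rw [hYid, dag_mul, dag_dag σ hσ]
  have hYYi : Y * Yi = 1 := by
    rw [hYd, hYid]
    calc dag σ X * X * (Xi * dag σ Xi) = dag σ X * (X * Xi) * dag σ Xi := by
          simp only [mul_assoc]
      _ = dag σ (Xi * X) := by rw [hXXi, mul_one, dag_mul]
      _ = 1 := by rw [hXiX, dag_one]
  have hYa : Y * a = a * Y := by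
    have h1 : dag σ a * dag σ X = dag σ X * dag σ b := by
      have := congrArg (dag σ) hXa
      rwa [dag_mul, dag_mul] at this
    have h2 : dag σ X * b = a * dag σ X := by
      calc dag σ X * b = (a * dag σ a) * dag σ X * b := by rw [hA', one_mul]
        _ = a * (dag σ a * dag σ X) * b := by simp only [mul_assoc]
        _ = a * (dag σ X * dag σ b) * b := by rw [h1]
        _ = a * dag σ X * (dag σ b * b) := by simp only [mul_assoc]
        _ = a * dag σ X := by rw [hB, mul_one]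
    rw [hYd]
    calc dag σ X * X * a = dag σ X * (X * a) := by rw [mul_assoc]
      _ = dag σ X * b * X := by rw [hXa, mul_assoc]
      _ = a * (dag σ X * X) := by rw [h2, mul_assoc]
  obtain ⟨U, hUmem, hU⟩ := exists_dcent_sqrt σ hσ ω₀ hω₀ Y Yi hY hYi hYYi
  have hUa : a * U = U * a := by
    rw [mem_dcent] at hUmem
    exact hUmem a hYa
  -- g = X U
  have hg1 : dag σ (X * U) * (X * U) = 1 := by
    rw [dag_mul]
    calc dag σ U * dag σ X * (X * U) = dag σ U * (dag σ X * X) * U := by simp only [mul_assoc]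
      _ = 1 := by rw [← hYd, hU]
  have hg2 : (X * U) * dag σ (X * U) = 1 := mul_eq_one_comm.mp hg1
  let g : GL (Fin n) K := ⟨X * U, dag σ (X * U), hg2, hg1⟩
  refine ⟨g, (mem_GU_iff σ q hq g).mpr hg1, ?_⟩
  rw [mul_inv_eq_iff_eq_mul]
  apply Units.ext
  show X * U * (A : Matrix (Fin n) (Fin n) K) = (B : Matrix (Fin n) (Fin n) K) * (X * U)
  rw [← ha, ← hb, mul_assoc, ← hUa, ← mul_assoc, hXa, mul_assoc]

theorem exists_sigma {K : Type u} [Field K] [Fintype K] {q : ℕ} (hK : Fintype.card K = q ^ 2) :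
    ∃ σ : K →+* K, (∀ a, σ a = a ^ q) ∧ (∀ a, σ (σ a) = a) ∧ ∃ ω, σ ω ≠ ω := by
  classical
  obtain ⟨p, hp⟩ := CharP.exists K
  obtain ⟨k, hpp, hcard⟩ := FiniteField.card K p
  have hqd : q ∣ p ^ (k : ℕ) := by rw [← hcard, hK]; exact dvd_pow_self q (by norm_num)
  obtain ⟨j, _, hj⟩ := (Nat.dvd_prime_pow hpp).mp hqd
  have : ExpChar K p := ExpChar.prime hpp
  have hq2 : 2 ≤ q := by
    have h1 : 1 < Fintype.card K := Fintype.one_lt_card
    rw [hK] at h1
    by_contra h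
    have : q ≤ 1 := by omega
    have : q ^ 2 ≤ 1 := by
      interval_cases q <;> simp
    omega
  refine ⟨iterateFrobenius K p j, ?_, ?_, ?_⟩
  · intro a; rw [iterateFrobenius_def, hj]
  · intro a
    rw [iterateFrobenius_def, iterateFrobenius_def, ← hj, ← pow_mul, ← sq, ← hK,
      FiniteField.pow_card]
  · by_contra hall
    push Not at hall
    have hroot : ∀ a : K, a ∈ (Polynomial.X ^ q - Polynomial.X : Polynomial K).roots := by
      intro a
      rw [Polynomial.mem_roots (FiniteField.X_pow_card_sub_X_ne_zero K (by omega))]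
      have := hall a
      rw [iterateFrobenius_def, ← hj] at this
      simp [this]
    have h1 : Fintype.card K ≤ (Polynomial.X ^ q - Polynomial.X : Polynomial K).roots.toFinset.card := by
      rw [← Finset.card_univ]
      exact Finset.card_le_card (fun a _ => Multiset.mem_toFinset.mpr (hroot a))
    have h2 := Multiset.toFinset_card_le (Polynomial.X ^ q - Polynomial.X : Polynomial K).roots
    have h3 := Polynomial.card_roots' (Polynomial.X ^ q - Polynomial.X : Polynomial K)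
    rw [FiniteField.X_pow_card_sub_X_natDegree_eq K (by omega)] at h3
    rw [hK] at h1
    nlinarith

end Cfsg.Agent.Lib.helper10.GUConj
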