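import Mathlib
import Cfsg.Prelude.Def_LieClassical
import Cfsg.Agent.Lib.helper10.GUConj
import Cfsg.Agent.S2570

set_option autoImplicit false

/-!
Every element of `GL_n(q²)` conjugate to its twisted inverse adjoint is conjugate into `GU_n(q)`
(Hilbert 90 in a double centralizer); unipotent classes of `GL_n(q²)` meet `GU_n(q)`.
-/

namespace Cfsg.Agent.Lib.helper10.GUUnip

open Matrix Cfsg.Agent.Lib.helper10.GUConj Cfsg.Agent.Lib.helper18.Jordan

universe u

theorem hilbert90 {R : Type u} [CommRing R] [Finite R] (τ : R →+* R) (hτ : ∀ x, τ (τ x) = x)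
    (ω : R) (hω : IsUnit (ω - τ ω)) (t : R) (ht : t * τ t = 1) :
    ∃ c : R, IsUnit c ∧ c = t * τ c := by
  let T : Rˣ →* Rˣ := Units.map (τ : R →* R)
  have hT : ∀ v : Rˣ, ((T v : Rˣ) : R) = τ (v : R) := fun v => rfl
  have hTT : ∀ v : Rˣ, T (T v) = v := by
    intro v; apply Units.ext; rw [hT, hT, hτ]
  let Nm : Rˣ →* Rˣ := MonoidHom.id Rˣ * T
  let φ : Rˣ →* Rˣ := MonoidHom.id Rˣ * T⁻¹
  have hNm : ∀ v : Rˣ, Nm v = v * T v := fun v => rfl
  have hφ : ∀ v : Rˣ, φ v = v * (T v)⁻¹ := fun v => rfl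
  have hA : φ.range ≤ Nm.ker := by
    rintro _ ⟨v, rfl⟩
    rw [MonoidHom.mem_ker, hNm, hφ, map_mul, map_inv, hTT]
    rw [mul_assoc, inv_mul_cancel_left, mul_inv_cancel]
  have hB : φ.ker ≤ Nm.range := by
    intro v hv
    rw [MonoidHom.mem_ker, hφ, mul_inv_eq_one] at hv
    have hv' : τ (v : R) = v := by
      have := congrArg Units.val hv
      rw [hT] at this
      exact this.symm
    obtain ⟨w, hw⟩ := HermNorm.norm_surj τ hτ ω hω (v : R) v.isUnit hv'
    have hwu : IsUnit w := isUnit_of_mul_isUnit_left (by rw [hw]; exact v.isUnit)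
    obtain ⟨w', rfl⟩ := hwu
    refine ⟨w', ?_⟩
    apply Units.ext
    rw [hNm, Units.val_mul, hT]
    exact hw
  have hcard : Nat.card Nm.ker ≤ Nat.card φ.range := by
    have e1 := Subgroup.card_mul_index Nm.ker
    have e2 := Subgroup.card_mul_index φ.ker
    rw [Subgroup.index_ker] at e1 e2
    have e3 : Nat.card φ.ker ≤ Nat.card Nm.range := Subgroup.card_le_of_le hB
    have hpos : 0 < Nat.card φ.ker := Nat.card_pos
    have e4 : Nat.card φ.ker * Nat.card Nm.ker ≤ Nat.card φ.ker * Nat.card φ.range := by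
      rw [e2, ← e1, mul_comm]
      exact Nat.mul_le_mul_left _ e3
    exact Nat.le_of_mul_le_mul_left e4 hpos
  have heq := Subgroup.eq_of_le_of_card_ge hA hcard
  have htk : Units.mkOfMulEqOne t (τ t) ht ∈ Nm.ker := by
    rw [MonoidHom.mem_ker, hNm]
    apply Units.ext
    rw [Units.val_mul, hT]
    exact ht
  rw [← heq] at htk
  obtain ⟨v, hv⟩ := htk
  refine ⟨v, v.isUnit, ?_⟩
  rw [hφ, mul_inv_eq_iff_eq_mul] at hv
  have := congrArg Units.val hv
  rw [Units.val_mul, hT] at this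
  exact this

variable {K : Type u} [Field K] {n : ℕ}

/-- the twisted anti-automorphism `c ↦ X⁻¹ c† X` -/
def iot (σ : K →+* K) (X Xi : Matrix (Fin n) (Fin n) K) (c : Matrix (Fin n) (Fin n) K) :
    Matrix (Fin n) (Fin n) K := Xi * dag σ c * X

section iota

variable (σ : K →+* K) (hσ : ∀ a, σ (σ a) = a) (X Xi : Matrix (Fin n) (Fin n) K)
  (hXXi : X * Xi = 1) (hXiX : Xi * X = 1)

include hXXi in
theorem iot_mul (a b : Matrix (Fin n) (Fin n) K) :
    iot σ X Xi (a * b) = iot σ X Xi b * iot σ X Xi a := by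
  unfold iot
  rw [dag_mul]
  calc Xi * (dag σ b * dag σ a) * X = Xi * dag σ b * (1 * (dag σ a * X)) := by
        rw [one_mul]; simp only [mul_assoc]
    _ = Xi * dag σ b * X * (Xi * dag σ a * X) := by rw [← hXXi]; simp only [mul_assoc]

include hXiX in
theorem iot_one : iot σ X Xi 1 = 1 := by
  unfold iot; rw [dag_one, mul_one, hXiX]

theorem iot_add (a b : Matrix (Fin n) (Fin n) K) :
    iot σ X Xi (a + b) = iot σ X Xi a + iot σ X Xi b := by
  unfold iot; rw [dag_add, mul_add, add_mul]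

theorem iot_zero : iot σ X Xi 0 = 0 := by
  unfold iot; rw [dag_zero, mul_zero, zero_mul]

include hXiX in
theorem T_mul_Ti : (Xi * dag σ X) * (dag σ Xi * X) = 1 := by
  calc Xi * dag σ X * (dag σ Xi * X) = Xi * (dag σ X * dag σ Xi) * X := by simp only [mul_assoc]
    _ = 1 := by rw [← dag_mul, hXiX, dag_one, mul_one, hXiX]

include hXXi in
theorem Ti_mul_T : (dag σ Xi * X) * (Xi * dag σ X) = 1 := by
  calc dag σ Xi * X * (Xi * dag σ X) = dag σ Xi * (X * Xi) * dag σ X := by simp only [mul_assoc]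
    _ = 1 := by rw [hXXi, mul_one, ← dag_mul, hXXi, dag_one]

include hσ in
theorem iot_iot (c : Matrix (Fin n) (Fin n) K) :
    iot σ X Xi (iot σ X Xi c) = (Xi * dag σ X) * c * (dag σ Xi * X) := by
  unfold iot
  rw [dag_mul, dag_mul, dag_dag σ hσ]
  simp only [mul_assoc]

include hσ hXiX in
theorem iot_T : iot σ X Xi (Xi * dag σ X) = dag σ Xi * X := by
  unfold iot
  rw [dag_mul, dag_dag σ hσ]
  calc Xi * (X * dag σ Xi) * X = (Xi * X) * dag σ Xi * X := by simp only [mul_assoc]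
    _ = dag σ Xi * X := by rw [hXiX, one_mul]

include hσ hXiX in
theorem iot_Ti : iot σ X Xi (dag σ Xi * X) = Xi * dag σ X := by
  unfold iot
  rw [dag_mul, dag_dag σ hσ]
  calc Xi * (dag σ X * Xi) * X = Xi * dag σ X * (Xi * X) := by simp only [mul_assoc]
    _ = Xi * dag σ X := by rw [hXiX, mul_one]

include hσ hXXi hXiX in
theorem iot_comm_T (z : Matrix (Fin n) (Fin n) K)
    (hz : (Xi * dag σ X) * z = z * (Xi * dag σ X)) :
    (Xi * dag σ X) * iot σ X Xi z = iot σ X Xi z * (Xi * dag σ X) := by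
  have h1 : (dag σ Xi * X) * z = z * (dag σ Xi * X) := by
    calc (dag σ Xi * X) * z = (dag σ Xi * X) * z * ((Xi * dag σ X) * (dag σ Xi * X)) := by
          rw [T_mul_Ti σ X Xi hXiX, mul_one]
      _ = (dag σ Xi * X) * (z * (Xi * dag σ X)) * (dag σ Xi * X) := by simp only [mul_assoc]
      _ = (dag σ Xi * X) * ((Xi * dag σ X) * z) * (dag σ Xi * X) := by rw [hz]
      _ = ((dag σ Xi * X) * (Xi * dag σ X)) * z * (dag σ Xi * X) := by simp only [mul_assoc]
      _ = z * (dag σ Xi * X) := by rw [Ti_mul_T σ X Xi hXXi, one_mul]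
  calc (Xi * dag σ X) * iot σ X Xi z = iot σ X Xi (dag σ Xi * X) * iot σ X Xi z := by
        rw [iot_Ti σ hσ X Xi hXiX]
    _ = iot σ X Xi (z * (dag σ Xi * X)) := (iot_mul σ X Xi hXXi _ _).symm
    _ = iot σ X Xi ((dag σ Xi * X) * z) := by rw [h1]
    _ = iot σ X Xi z * iot σ X Xi (dag σ Xi * X) := iot_mul σ X Xi hXXi _ _
    _ = iot σ X Xi z * (Xi * dag σ X) := by rw [iot_Ti σ hσ X Xi hXiX]

include hσ hXiX in
theorem iot_iot_of_comm (z : Matrix (Fin n) (Fin n) K)
    (hz : (Xi * dag σ X) * z = z * (Xi * dag σ X)) :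
    iot σ X Xi (iot σ X Xi z) = z := by
  rw [iot_iot σ hσ, hz, mul_assoc, T_mul_Ti σ X Xi hXiX, mul_one]

include hσ hXXi hXiX in
theorem iot_mem_dcent (c : Matrix (Fin n) (Fin n) K) (hc : c ∈ dcent (Xi * dag σ X)) :
    iot σ X Xi c ∈ dcent (Xi * dag σ X) := by
  rw [mem_dcent] at hc ⊢
  intro z hz
  have hz' := iot_comm_T σ hσ X Xi hXXi hXiX z hz
  have hzz := iot_iot_of_comm σ hσ X Xi hXiX z hz
  have h1 := hc (iot σ X Xi z) hz'
  calc z * iot σ X Xi c = iot σ X Xi (iot σ X Xi z) * iot σ X Xi c := by rw [hzz]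
    _ = iot σ X Xi (c * iot σ X Xi z) := (iot_mul σ X Xi hXXi _ _).symm
    _ = iot σ X Xi (iot σ X Xi z * c) := by rw [h1]
    _ = iot σ X Xi c * iot σ X Xi (iot σ X Xi z) := iot_mul σ X Xi hXXi _ _
    _ = iot σ X Xi c * z := by rw [hzz]

end iota

/-- If `A† X A = X` for an invertible `X` then `A` is conjugate into `GU`. -/
theorem conj_into_GU [Finite K] (σ : K →+* K) (q : ℕ) (hq : ∀ a, σ a = a ^ q)
    (hσ : ∀ a, σ (σ a) = a) (ω₀ : K) (hω₀ : σ ω₀ ≠ ω₀) (A x : GL (Fin n) K)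
    (hx : dag σ (A : Matrix (Fin n) (Fin n) K) * (x : Matrix (Fin n) (Fin n) K) *
      (A : Matrix (Fin n) (Fin n) K) = (x : Matrix (Fin n) (Fin n) K)) :
    ∃ g ∈ Cfsg.GU n K q, IsConj A g := by
  obtain ⟨a, ha⟩ : ∃ a : Matrix (Fin n) (Fin n) K, a = (A : Matrix (Fin n) (Fin n) K) := ⟨_, rfl⟩
  obtain ⟨ai, hai⟩ : ∃ ai : Matrix (Fin n) (Fin n) K,
      ai = ((A⁻¹ : GL (Fin n) K) : Matrix (Fin n) (Fin n) K) := ⟨_, rfl⟩
  obtain ⟨X, hX⟩ : ∃ X : Matrix (Fin n) (Fin n) K, X = (x : Matrix (Fin n) (Fin n) K) := ⟨_, rfl⟩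
  obtain ⟨Xi, hXi⟩ : ∃ Xi : Matrix (Fin n) (Fin n) K,
      Xi = ((x⁻¹ : GL (Fin n) K) : Matrix (Fin n) (Fin n) K) := ⟨_, rfl⟩
  rw [← ha, ← hX] at hx
  have hXXi : X * Xi = 1 := by rw [hX, hXi, ← Units.val_mul, mul_inv_cancel, Units.val_one]
  have hXiX : Xi * X = 1 := by rw [hX, hXi, ← Units.val_mul, inv_mul_cancel, Units.val_one]
  have haai : a * ai = 1 := by rw [ha, hai, ← Units.val_mul, mul_inv_cancel, Units.val_one]
  have hdai : dag σ ai * dag σ a = 1 := by rw [← dag_mul, haai, dag_one]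
  -- X a = ai† X, X† a = ai† X†
  have h1 : X * a = dag σ ai * X := by
    calc X * a = (dag σ ai * dag σ a) * X * a := by rw [hdai, one_mul]
      _ = dag σ ai * (dag σ a * X * a) := by simp only [mul_assoc]
      _ = dag σ ai * X := by rw [hx]
  have hx' : dag σ a * dag σ X * a = dag σ X := by
    have := congrArg (dag σ) hx
    rwa [dag_mul, dag_mul, dag_dag σ hσ, ← mul_assoc] at this
  have h2 : dag σ X * a = dag σ ai * dag σ X := by
    calc dag σ X * a = (dag σ ai * dag σ a) * dag σ X * a := by rw [hdai, one_mul]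
      _ = dag σ ai * (dag σ a * dag σ X * a) := by simp only [mul_assoc]
      _ = dag σ ai * dag σ X := by rw [hx']
  have h3 : a * Xi = Xi * dag σ ai := by
    calc a * Xi = (Xi * X) * a * Xi := by rw [hXiX, one_mul]
      _ = Xi * (X * a) * Xi := by simp only [mul_assoc]
      _ = Xi * dag σ ai * (X * Xi) := by rw [h1]; simp only [mul_assoc]
      _ = Xi * dag σ ai := by rw [hXXi, mul_one]
  have hTa : (Xi * dag σ X) * a = a * (Xi * dag σ X) := by
    calc (Xi * dag σ X) * a = Xi * (dag σ X * a) := by rw [mul_assoc]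
      _ = (Xi * dag σ ai) * dag σ X := by rw [h2, mul_assoc]
      _ = a * (Xi * dag σ X) := by rw [← h3, mul_assoc]
  -- the ring R = dcent T with involution iot
  obtain ⟨T, hT⟩ : ∃ T, T = Xi * dag σ X := ⟨_, rfl⟩
  have hTmem : T ∈ dcent T := by
    rw [mem_dcent]; intro z hz; exact hz.symm
  obtain ⟨C, Ci, hCmem, hCCi, hCeq⟩ : ∃ C Ci : Matrix (Fin n) (Fin n) K, C ∈ dcent T ∧
      C * Ci = 1 ∧ C = T * iot σ X Xi C := by
    let _ : CommRing ↥(dcent T) := dcentCommRing T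
    let τ : ↥(dcent T) →+* ↥(dcent T) :=
      { toFun := fun m => ⟨iot σ X Xi m.1, by
          have := iot_mem_dcent σ hσ X Xi hXXi hXiX m.1 (by rw [← hT]; exact m.2)
          rwa [← hT] at this⟩
        map_one' := Subtype.ext (iot_one σ X Xi hXiX)
        map_mul' := fun a b => Subtype.ext (by
          show iot σ X Xi (a.1 * b.1) = iot σ X Xi a.1 * iot σ X Xi b.1
          rw [iot_mul σ X Xi hXXi]
          have hb := iot_mem_dcent σ hσ X Xi hXXi hXiX b.1 (by rw [← hT]; exact b.2)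
          have ha' := iot_mem_dcent σ hσ X Xi hXXi hXiX a.1 (by rw [← hT]; exact a.2)
          rw [← hT] at hb ha'
          exact dcent_comm T _ _ hb ha')
        map_zero' := Subtype.ext (iot_zero σ X Xi)
        map_add' := fun a b => Subtype.ext (iot_add σ X Xi a.1 b.1) }
    have hτval : ∀ m : ↥(dcent T), (τ m).1 = iot σ X Xi m.1 := fun m => rfl
    have hττ : ∀ m : ↥(dcent T), τ (τ m) = m := by
      intro m
      apply Subtype.ext
      rw [hτval, hτval]
      have hm : (Xi * dag σ X) * m.1 = m.1 * (Xi * dag σ X) := by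
        have := m.2
        rw [mem_dcent] at this
        rw [← hT]
        exact this T rfl
      exact iot_iot_of_comm σ hσ X Xi hXiX m.1 hm
    have hscal : ∀ c : K, algebraMap K (Matrix (Fin n) (Fin n) K) c ∈ dcent T := by
      intro c; rw [mem_dcent]; intro z _; exact (Algebra.commutes c z).symm
    have hiscal : ∀ c : K, iot σ X Xi (algebraMap K (Matrix (Fin n) (Fin n) K) c) =
        algebraMap K (Matrix (Fin n) (Fin n) K) (σ c) := by
      intro c
      unfold iot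
      rw [dag_algebraMap, mul_assoc, Algebra.commutes, ← mul_assoc, hXiX, one_mul]
    have hω : IsUnit ((⟨_, hscal ω₀⟩ : ↥(dcent T)) - τ ⟨_, hscal ω₀⟩) := by
      have hne : ω₀ - σ ω₀ ≠ 0 := sub_ne_zero.mpr (Ne.symm hω₀)
      refine IsUnit.of_mul_eq_one (⟨_, hscal (ω₀ - σ ω₀)⁻¹⟩ : ↥(dcent T)) ?_
      apply Subtype.ext
      show (algebraMap K (Matrix (Fin n) (Fin n) K) ω₀ -
          iot σ X Xi (algebraMap K (Matrix (Fin n) (Fin n) K) ω₀)) *
        algebraMap K (Matrix (Fin n) (Fin n) K) (ω₀ - σ ω₀)⁻¹ = 1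
      rw [hiscal, ← map_sub, ← map_mul, mul_inv_cancel₀ hne, map_one]
    have ht : (⟨T, hTmem⟩ : ↥(dcent T)) * τ ⟨T, hTmem⟩ = 1 := by
      apply Subtype.ext
      show T * iot σ X Xi T = 1
      rw [hT, iot_T σ hσ X Xi hXiX, T_mul_Ti σ X Xi hXiX]
    obtain ⟨c, hcu, hc⟩ := hilbert90 τ hττ _ hω _ ht
    obtain ⟨cu, rfl⟩ := hcu
    refine ⟨(cu : ↥(dcent T)).1, ((cu⁻¹ : (↥(dcent T))ˣ) : ↥(dcent T)).1, (cu : ↥(dcent T)).2, ?_, ?_⟩
    · have := congrArg Subtype.val cu.mul_inv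
      exact this
    · have := congrArg Subtype.val hc
      exact this
  -- C commutes with T and a
  have hCT : T * C = C * T := by
    rw [mem_dcent] at hCmem
    exact hCmem T rfl
  have hCa : a * C = C * a := by
    rw [mem_dcent] at hCmem
    exact hCmem a (by rw [hT]; exact hTa)
  have hCiC : Ci * C = 1 := mul_eq_one_comm.mp hCCi
  -- H = X C is Hermitian
  have hiC : iot σ X Xi C ∈ dcent T := by
    have := iot_mem_dcent σ hσ X Xi hXXi hXiX C (by rw [← hT]; exact hCmem)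
    rwa [← hT] at this
  have hCeq' : C = iot σ X Xi C * T := by
    rw [mem_dcent] at hiC
    have := hiC T rfl
    rw [← this]
    exact hCeq
  have hH : dag σ (X * C) = X * C := by
    rw [dag_mul]
    have h4 : iot σ X Xi C * T = Xi * (dag σ C * dag σ X) := by
      unfold iot
      rw [hT]
      calc Xi * dag σ C * X * (Xi * dag σ X) = Xi * dag σ C * (X * Xi) * dag σ X := by
            simp only [mul_assoc]
        _ = Xi * (dag σ C * dag σ X) := by rw [hXXi, mul_one, mul_assoc]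
    calc dag σ C * dag σ X = (X * Xi) * (dag σ C * dag σ X) := by rw [hXXi, one_mul]
      _ = X * (Xi * (dag σ C * dag σ X)) := by rw [mul_assoc]
      _ = X * C := by rw [← h4, ← hCeq']
  have hHHi : (X * C) * (Ci * Xi) = 1 := by
    calc (X * C) * (Ci * Xi) = X * (C * Ci) * Xi := by simp only [mul_assoc]
      _ = 1 := by rw [hCCi, mul_one, hXXi]
  have hHi : dag σ (Ci * Xi) = Ci * Xi := by
    calc dag σ (Ci * Xi) = dag σ (Ci * Xi) * ((X * C) * (Ci * Xi)) := by rw [hHHi, mul_one]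
      _ = (dag σ (Ci * Xi) * dag σ (X * C)) * (Ci * Xi) := by rw [hH]; simp only [mul_assoc]
      _ = Ci * Xi := by rw [← dag_mul, hHHi, dag_one, one_mul]
  have hinv : dag σ a * (X * C) * a = X * C := by
    calc dag σ a * (X * C) * a = dag σ a * X * (C * a) := by simp only [mul_assoc]
      _ = (dag σ a * X * a) * C := by rw [← hCa]; simp only [mul_assoc]
      _ = X * C := by rw [hx]
  obtain ⟨U, _, hU⟩ := exists_dcent_sqrt σ hσ ω₀ hω₀ (X * C) (Ci * Xi) hH hHi hHHi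
  have hUiU : (dag σ U * (X * C)) * U = 1 := hU
  have hUUi : U * (dag σ U * (X * C)) = 1 := mul_eq_one_comm.mp hUiU
  let u : GL (Fin n) K := ⟨U, dag σ U * (X * C), hUUi, hUiU⟩
  refine ⟨u⁻¹ * A * u, ?_, isConj_iff.mpr ⟨u⁻¹, by rw [inv_inv]⟩⟩
  rw [mem_GU_iff σ q hq]
  have hval : ((u⁻¹ * A * u : GL (Fin n) K) : Matrix (Fin n) (Fin n) K) =
      (dag σ U * (X * C)) * a * U := by
    rw [ha]; rfl
  rw [hval, dag_mul, dag_mul, dag_mul, dag_dag σ hσ, hH]
  calc dag σ U * (dag σ a * (X * C * U)) * (dag σ U * (X * C) * a * U)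
      = dag σ U * dag σ a * (X * C) * (U * (dag σ U * (X * C))) * a * U := by
        simp only [mul_assoc]
    _ = dag σ U * (dag σ a * (X * C) * a) * U := by rw [hUUi, mul_one]; simp only [mul_assoc]
    _ = 1 := by rw [hinv, hU]

theorem rank_map_le (σ : K →+* K) (hσ : ∀ a, σ (σ a) = a) (M : Matrix (Fin n) (Fin n) K) :
    M.rank ≤ (M.map σ).rank := by
  classical
  rw [Matrix.rank_eq_finrank_span_cols M, Matrix.rank_eq_finrank_span_cols (M.map σ)]
  obtain ⟨f, hf, _, hli⟩ := Submodule.exists_fun_fin_finrank_span_eq K (Set.range M.col)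
  choose c hc using hf
  have hli' : LinearIndependent K (fun i => (M.map σ).col (c i)) := by
    rw [Fintype.linearIndependent_iff]
    intro g hg i
    have h1 : ∑ i, σ (g i) • f i = 0 := by
      funext j
      have h2 := congrFun hg j
      simp only [Finset.sum_apply, Pi.smul_apply, smul_eq_mul, Matrix.col_apply, Matrix.map_apply,
        Pi.zero_apply] at h2 ⊢
      have h3 := congrArg σ h2
      rw [map_sum, map_zero] at h3
      simp only [map_mul, hσ] at h3
      rw [← h3]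
      apply Finset.sum_congr rfl
      intro i _
      rw [← hc i]
      rfl
    have h4 := (Fintype.linearIndependent_iff.mp hli) (fun i => σ (g i)) h1 i
    have h5 := congrArg σ h4
    rwa [hσ, map_zero] at h5
  have h6 := finrank_span_eq_card hli'
  rw [Fintype.card_fin] at h6
  have h7 : Submodule.span K (Set.range fun i => (M.map σ).col (c i)) ≤
      Submodule.span K (Set.range (M.map σ).col) := by
    apply Submodule.span_mono
    rintro _ ⟨i, rfl⟩
    exact ⟨c i, rfl⟩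
  have h8 := Submodule.finrank_mono h7
  omega

theorem rank_map_eq (σ : K →+* K) (hσ : ∀ a, σ (σ a) = a) (M : Matrix (Fin n) (Fin n) K) :
    (M.map σ).rank = M.rank := by
  apply le_antisymm
  · have h := rank_map_le σ hσ (M.map σ)
    have h2 : (M.map σ).map σ = M := by
      ext i j; simp [hσ]
    rwa [h2] at h
  · exact rank_map_le σ hσ M

theorem rank_dag (σ : K →+* K) (hσ : ∀ a, σ (σ a) = a) (M : Matrix (Fin n) (Fin n) K) :
    (dag σ M).rank = M.rank := by
  unfold dag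
  rw [Matrix.rank_transpose, rank_map_eq σ hσ]

theorem dag_pow (σ : K →+* K) (M : Matrix (Fin n) (Fin n) K) (k : ℕ) :
    dag σ (M ^ k) = (dag σ M) ^ k := by
  induction k with
  | zero => rw [pow_zero, pow_zero, dag_one]
  | succ k ih => rw [pow_succ, dag_mul, ih, pow_succ']

theorem dag_sub_one (σ : K →+* K) (M : Matrix (Fin n) (Fin n) K) :
    dag σ (M - 1) = dag σ M - 1 := by
  have h := dag_add σ (M - 1) 1
  rw [sub_add_cancel, dag_one] at h
  rw [h, add_sub_cancel_right]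

/-- powers of `A⁻¹† - 1` in terms of powers of `A - 1`. -/
theorem theta_pow (σ : K →+* K) (a ai : Matrix (Fin n) (Fin n) K) (hai : ai * a = 1)
    (haai : a * ai = 1) (k : ℕ) :
    (dag σ ai - 1) ^ k = dag σ ((-ai) ^ k * (a - 1) ^ k) := by
  have h1 : ai - 1 = (-ai) * (a - 1) := by
    rw [neg_mul, mul_sub, hai, mul_one]; abel
  have hc : Commute (-ai) (a - 1) := by
    show (-ai) * (a - 1) = (a - 1) * (-ai)
    rw [neg_mul, mul_neg, mul_sub, sub_mul, hai, haai, mul_one, one_mul]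
  rw [← dag_sub_one, ← dag_pow, h1, hc.mul_pow]

theorem ut_theta (σ : K →+* K) (hσ : ∀ a, σ (σ a) = a) (A B : GL (Fin n) K)
    (hB : (B : Matrix (Fin n) (Fin n) K) = dag σ ((A⁻¹ : GL (Fin n) K) : Matrix (Fin n) (Fin n) K))
    (hA : IsNilpotent (nilp A)) : IsNilpotent (nilp B) ∧ ut B = ut A := by
  have hai : ((A⁻¹ : GL (Fin n) K) : Matrix (Fin n) (Fin n) K) * (A : Matrix (Fin n) (Fin n) K) = 1 := by
    rw [← Units.val_mul, inv_mul_cancel, Units.val_one]
  have haai : (A : Matrix (Fin n) (Fin n) K) * ((A⁻¹ : GL (Fin n) K) : Matrix (Fin n) (Fin n) K) = 1 := by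
    rw [← Units.val_mul, mul_inv_cancel, Units.val_one]
  have hpow : ∀ k, ((B : Matrix (Fin n) (Fin n) K) - 1) ^ k =
      dag σ ((-((A⁻¹ : GL (Fin n) K) : Matrix (Fin n) (Fin n) K)) ^ k *
        ((A : Matrix (Fin n) (Fin n) K) - 1) ^ k) := by
    intro k
    rw [hB]
    exact theta_pow σ _ _ hai haai k
  have hnil : IsNilpotent (nilp B) := by
    obtain ⟨k, hk⟩ := hA
    refine ⟨k, ?_⟩
    rw [nilp_pow_eq_zero_iff] at hk ⊢
    rw [hpow k, hk, mul_zero, dag_zero]
  refine ⟨hnil, ?_⟩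
  rw [ut_eq B hnil, ut_eq A hA]
  apply type_unique _ _ (jtype_pos _ hnil) (jtype_pos _ hA)
  intro k
  rw [← jtype_rank, ← jtype_rank, nilp_pow, nilp_pow, Matrix.toLin'_apply', Matrix.toLin'_apply']
  show (((B : Matrix (Fin n) (Fin n) K) - 1) ^ k).rank = (((A : Matrix (Fin n) (Fin n) K) - 1) ^ k).rank
  rw [hpow k, rank_dag σ hσ]
  apply Matrix.rank_mul_eq_right_of_isUnit_det
  rw [← Matrix.isUnit_iff_isUnit_det]
  have hu : IsUnit (((A⁻¹ : GL (Fin n) K) : Matrix (Fin n) (Fin n) K)) := (A⁻¹).isUnit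
  exact (hu.neg).pow k

/-- every unipotent element of `GL_n(q²)` is conjugate to an element of `GU_n(q)`. -/
theorem unip_conj_into_GU [Finite K] (σ : K →+* K) (q : ℕ) (hq : ∀ a, σ a = a ^ q)
    (hσ : ∀ a, σ (σ a) = a) (ω₀ : K) (hω₀ : σ ω₀ ≠ ω₀) (A : GL (Fin n) K)
    (hA : IsNilpotent (nilp A)) : ∃ g ∈ Cfsg.GU n K q, IsConj A g := by
  have h1 : dag σ ((A⁻¹ : GL (Fin n) K) : Matrix (Fin n) (Fin n) K) * dag σ (A : Matrix (Fin n) (Fin n) K) = 1 := by
    rw [← dag_mul, ← Units.val_mul, mul_inv_cancel, Units.val_one, dag_one]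
  have h2 : dag σ (A : Matrix (Fin n) (Fin n) K) * dag σ ((A⁻¹ : GL (Fin n) K) : Matrix (Fin n) (Fin n) K) = 1 := by
    rw [← dag_mul, ← Units.val_mul, inv_mul_cancel, Units.val_one, dag_one]
  let B : GL (Fin n) K := ⟨dag σ ((A⁻¹ : GL (Fin n) K) : Matrix (Fin n) (Fin n) K),
    dag σ (A : Matrix (Fin n) (Fin n) K), h1, h2⟩
  obtain ⟨hnil, hut⟩ := ut_theta σ hσ A B rfl hA
  obtain ⟨x, hx⟩ := isConj_iff.mp ((isConj_iff_ut A B hA hnil).mpr hut.symm)
  apply conj_into_GU σ q hq hσ ω₀ hω₀ A x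
  have h3 : x * A = B * x := by rw [← hx]; group
  have h4 : (x : Matrix (Fin n) (Fin n) K) * (A : Matrix (Fin n) (Fin n) K) =
      dag σ ((A⁻¹ : GL (Fin n) K) : Matrix (Fin n) (Fin n) K) * (x : Matrix (Fin n) (Fin n) K) := by
    have := congrArg (fun g : GL (Fin n) K => (g : Matrix (Fin n) (Fin n) K)) h3
    exact this
  rw [mul_assoc, h4, ← mul_assoc, h2, one_mul]

/-- the count of classes of elements of order `p` in `GU_n(q)` agrees with that in `GL_n(q²)`. -/
theorem card_classes_GU {K : Type u} [Field K] [Fintype K] {p q n : ℕ} [Fact p.Prime] [CharP K p]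
    (hK : Fintype.card K = q ^ 2) :
    Nat.card {C : ConjClasses ↥(Cfsg.GU n K q) // ∃ g : ↥(Cfsg.GU n K q),
      ConjClasses.mk g = C ∧ orderOf g = p} =
    Nat.card {C : ConjClasses (GL (Fin n) K) // ∃ g : GL (Fin n) K,
      ConjClasses.mk g = C ∧ orderOf g = p} := by
  obtain ⟨σ, hq, hσσ, ω, hω⟩ := exists_sigma hK
  apply Nat.card_congr
  refine Equiv.ofBijective (fun C => ⟨ConjClasses.map (Cfsg.GU n K q).subtype C.1, ?_⟩) ⟨?_, ?_⟩
  · obtain ⟨g, hg, hgo⟩ := C.2
    refine ⟨(g : GL (Fin n) K), ?_, ?_⟩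
    · rw [← hg]; rfl
    · rw [Subgroup.orderOf_coe]; exact hgo
  · rintro ⟨C, g, rfl, hg⟩ ⟨C', g', rfl, hg'⟩ h
    apply Subtype.ext
    have h1 : ConjClasses.mk (g : GL (Fin n) K) = ConjClasses.mk (g' : GL (Fin n) K) :=
      congrArg Subtype.val h
    rw [ConjClasses.mk_eq_mk_iff_isConj] at h1
    obtain ⟨x, hx⟩ := isConj_iff.mp h1
    obtain ⟨y, hy, hyA⟩ := gu_conj σ q hq hσσ ω hω (g : GL (Fin n) K) (g' : GL (Fin n) K) g.2 g'.2 x hx
    show ConjClasses.mk g = ConjClasses.mk g'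
    rw [ConjClasses.mk_eq_mk_iff_isConj]
    exact isConj_iff.mpr ⟨⟨y, hy⟩, Subtype.ext hyA⟩
  · rintro ⟨C, g, rfl, hg⟩
    have hnil : IsNilpotent (nilp g) := (isNilpotent_nilp_iff p g).2 ⟨1, by rw [hg, pow_one]⟩
    obtain ⟨g', hg', hc⟩ := unip_conj_into_GU σ q hq hσσ ω hω g hnil
    have hord : orderOf g' = p := by
      obtain ⟨c, hc'⟩ := isConj_iff.mp hc
      rw [← hg, ← hc']
      exact orderOf_injective (MulAut.conj c).toMonoidHom (MulAut.conj c).injective g
    refine ⟨⟨ConjClasses.mk (⟨g', hg'⟩ : ↥(Cfsg.GU n K q)), ⟨g', hg'⟩, rfl, ?_⟩, ?_⟩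
    · rw [← Subgroup.orderOf_coe]; exact hord
    · apply Subtype.ext
      show ConjClasses.mk g' = ConjClasses.mk g
      rw [ConjClasses.mk_eq_mk_iff_isConj]
      exact hc.symm

end Cfsg.Agent.Lib.helper10.GUUnip
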