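import Mathlib
import Cfsg.Prelude.Def_LieClassical
import Cfsg.Agent.Lib.helper10.GUUnip
import Cfsg.Agent.Lib.helper18.RCF3

/-!
# Unitary elements of prescribed determinant in the centralizer of a semisimple unitary matrix

For `x` unitary (for the standard Hermitian form over the field with `q²` elements) with
`x ^ m = 1`, `m` invertible, and any `δ` of norm one, there is a unitary `c` commuting with `x`
of determinant `δ`.
-/

set_option autoImplicit false

namespace Cfsg.Agent.Lib.helper10.GUDet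

open Matrix Polynomial Cfsg.Agent.Lib.helper10.GUConj Cfsg.Agent.Lib.helper10.GUUnip

universe u

variable {K : Type u} [Field K] {n d : ℕ}

/-- rectangular twisted adjoint -/
def rdag {a b : ℕ} (σ : K →+* K) (M : Matrix (Fin a) (Fin b) K) : Matrix (Fin b) (Fin a) K :=
  (M.map σ)ᵀ

theorem rdag_mul {a b c : ℕ} (σ : K →+* K) (A : Matrix (Fin a) (Fin b) K)
    (B : Matrix (Fin b) (Fin c) K) : rdag σ (A * B) = rdag σ B * rdag σ A := by
  unfold rdag; rw [Matrix.map_mul, Matrix.transpose_mul]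

theorem rdag_rdag {a b : ℕ} (σ : K →+* K) (hσ : ∀ a, σ (σ a) = a) (A : Matrix (Fin a) (Fin b) K) :
    rdag σ (rdag σ A) = A := by
  ext i j; simp [rdag, hσ]

theorem rdag_eq_dag (σ : K →+* K) (A : Matrix (Fin n) (Fin n) K) : rdag σ A = dag σ A := rfl

theorem det_dag (σ : K →+* K) (A : Matrix (Fin n) (Fin n) K) : (dag σ A).det = σ A.det := by
  unfold dag
  rw [Matrix.det_transpose, RingHom.map_det]
  rfl

theorem expand_aux {R : Type*} [Ring R] (e a b : R) (he : e * e = e) (h1 : e * b = b)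
    (h2 : a * e = a) (h3 : a * b = e) : (1 - e + a) * (1 - e + b) = 1 := by
  have : (1 - e + a) * (1 - e + b) = 1 - e - e + e * e + (b - e * b) + (a - a * e) + a * b := by
    noncomm_ring
  rw [this, he, h1, h2, h3]
  noncomm_ring

/-- The matrix core: a `G`-unitary `U` on the frame `B` extends to a unitary matrix. -/
theorem core_matrix (σ : K →+* K) (hσ : ∀ a, σ (σ a) = a)
    (x : Matrix (Fin n) (Fin n) K) (hx : dag σ x * x = 1)
    (B : Matrix (Fin n) (Fin d) K) (X' : Matrix (Fin d) (Fin d) K) (hB : x * B = B * X')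
    (Gi : Matrix (Fin d) (Fin d) K) (hG : Gi * (rdag σ B * B) = 1)
    (U : Matrix (Fin d) (Fin d) K) (hUX : U * X' = X' * U)
    (hU : (Gi * dag σ U * (rdag σ B * B)) * U = 1) :
    ∃ c : Matrix (Fin n) (Fin n) K, dag σ c * c = 1 ∧ c * x = x * c ∧ c.det = U.det := by
  obtain ⟨Bd, hBd⟩ : ∃ Bd, Bd = rdag σ B := ⟨_, rfl⟩
  obtain ⟨G, hGdef⟩ : ∃ G, G = Bd * B := ⟨_, rfl⟩
  rw [← hBd, ← hGdef] at hG hU
  have hG' : G * Gi = 1 := mul_eq_one_comm.mp hG
  have hBdd : rdag σ Bd = B := by rw [hBd, rdag_rdag σ hσ]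
  have hGd : dag σ G = G := by
    show rdag σ G = G
    rw [hGdef, rdag_mul, hBdd, ← hBd]
  have hGid : dag σ Gi = Gi := by
    have h1 : G * dag σ Gi = 1 := by
      have := congrArg (dag σ) hG
      rw [dag_mul, dag_one, hGd] at this
      exact this
    calc dag σ Gi = (Gi * G) * dag σ Gi := by rw [hG, one_mul]
      _ = Gi * (G * dag σ Gi) := by rw [mul_assoc]
      _ = Gi := by rw [h1, mul_one]
  have hP_mul : ∀ M N : Matrix (Fin d) (Fin d) K,
      B * M * Gi * Bd * (B * N * Gi * Bd) = B * (M * N) * Gi * Bd := by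
    intro M N
    calc B * M * Gi * Bd * (B * N * Gi * Bd) = B * M * (Gi * (Bd * B)) * (N * Gi * Bd) := by
          simp only [Matrix.mul_assoc]
      _ = B * (M * N) * Gi * Bd := by
          rw [← hGdef, hG, Matrix.mul_one]; simp only [Matrix.mul_assoc]
  have hP_dag : ∀ M : Matrix (Fin d) (Fin d) K,
      dag σ (B * M * Gi * Bd) = B * (Gi * dag σ M * G) * Gi * Bd := by
    intro M
    have h1 : dag σ (B * M * Gi * Bd) = B * Gi * dag σ M * Bd := by
      show rdag σ (B * M * Gi * Bd) = _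
      rw [rdag_mul, rdag_mul, rdag_mul, hBdd, rdag_eq_dag, rdag_eq_dag, hGid, ← hBd]
      simp only [Matrix.mul_assoc]
    rw [h1]
    calc B * Gi * dag σ M * Bd = B * Gi * dag σ M * ((G * Gi) * Bd) := by
          rw [hG', Matrix.one_mul]
      _ = B * (Gi * dag σ M * G) * Gi * Bd := by simp only [Matrix.mul_assoc]
  -- commutation with x
  have ha : Bd * dag σ x = dag σ X' * Bd := by
    have := congrArg (rdag σ) hB
    rw [rdag_mul, rdag_mul, ← hBd] at this
    exact this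
  have hb : dag σ X' * G * X' = G := by
    calc dag σ X' * G * X' = (dag σ X' * Bd) * (B * X') := by
          rw [hGdef]; simp only [Matrix.mul_assoc]
      _ = (Bd * dag σ x) * (x * B) := by rw [ha, hB]
      _ = Bd * (dag σ x * x) * B := by simp only [Matrix.mul_assoc]
      _ = G := by rw [hx, Matrix.mul_one, hGdef]
  have hc1 : (Gi * dag σ X' * G) * X' = 1 := by
    calc (Gi * dag σ X' * G) * X' = Gi * (dag σ X' * G * X') := by simp only [Matrix.mul_assoc]
      _ = 1 := by rw [hb, hG]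
  have hc2 : X' * (Gi * dag σ X' * G) = 1 := mul_eq_one_comm.mp hc1
  have hd : Bd = dag σ X' * Bd * x := by
    calc Bd = Bd * (dag σ x * x) := by rw [hx, Matrix.mul_one]
      _ = (Bd * dag σ x) * x := by rw [Matrix.mul_assoc]
      _ = dag σ X' * Bd * x := by rw [ha]
  have hkey : Gi * Bd * x = X' * Gi * Bd := by
    calc Gi * Bd * x = (X' * (Gi * dag σ X' * G)) * (Gi * Bd * x) := by rw [hc2, Matrix.one_mul]
      _ = X' * Gi * (dag σ X' * ((G * Gi) * Bd) * x) := by simp only [Matrix.mul_assoc]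
      _ = X' * Gi * (dag σ X' * Bd * x) := by rw [hG', Matrix.one_mul]
      _ = X' * Gi * Bd := by rw [← hd]
  have hP_comm : ∀ M : Matrix (Fin d) (Fin d) K, M * X' = X' * M →
      B * M * Gi * Bd * x = x * (B * M * Gi * Bd) := by
    intro M hM
    calc B * M * Gi * Bd * x = B * M * (Gi * Bd * x) := by simp only [Matrix.mul_assoc]
      _ = B * (M * X') * Gi * Bd := by rw [hkey]; simp only [Matrix.mul_assoc]
      _ = (B * X') * M * Gi * Bd := by rw [hM]; simp only [Matrix.mul_assoc]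
      _ = x * (B * M * Gi * Bd) := by rw [← hB]; simp only [Matrix.mul_assoc]
  refine ⟨(1 : Matrix (Fin n) (Fin n) K) - B * (1 : Matrix (Fin d) (Fin d) K) * Gi * Bd + B * U * Gi * Bd, ?_, ?_, ?_⟩
  · have h1 : dag σ ((1 : Matrix (Fin n) (Fin n) K) - B * (1 : Matrix (Fin d) (Fin d) K) * Gi * Bd + B * U * Gi * Bd) =
        (1 : Matrix (Fin n) (Fin n) K) - B * (1 : Matrix (Fin d) (Fin d) K) * Gi * Bd + B * (Gi * dag σ U * G) * Gi * Bd := by
      have hsub : dag σ ((1 : Matrix (Fin n) (Fin n) K) - B * (1 : Matrix (Fin d) (Fin d) K) * Gi * Bd) = (1 : Matrix (Fin n) (Fin n) K) - B * (1 : Matrix (Fin d) (Fin d) K) * Gi * Bd := by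
        have h2 : dag σ ((1 : Matrix (Fin n) (Fin n) K) - B * (1 : Matrix (Fin d) (Fin d) K) * Gi * Bd) + dag σ (B * (1 : Matrix (Fin d) (Fin d) K) * Gi * Bd) = 1 := by
          rw [← dag_add, sub_add_cancel, dag_one]
        have h3 : dag σ (B * (1 : Matrix (Fin d) (Fin d) K) * Gi * Bd) = B * (1 : Matrix (Fin d) (Fin d) K) * Gi * Bd := by
          rw [hP_dag, dag_one, Matrix.mul_one, hG]
        rw [h3] at h2
        exact eq_sub_of_add_eq h2
      rw [dag_add, hsub, hP_dag]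
    rw [h1]
    apply expand_aux
    · rw [hP_mul, Matrix.mul_one]
    · rw [hP_mul, Matrix.one_mul]
    · rw [hP_mul, Matrix.mul_one]
    · rw [hP_mul, hU]
  · have h1 := hP_comm 1 (by rw [Matrix.one_mul, Matrix.mul_one])
    have h2 := hP_comm U hUX
    rw [add_mul, sub_mul, mul_add, mul_sub, h1, h2, one_mul, mul_one]
  · have h1 : (1 : Matrix (Fin n) (Fin n) K) - B * (1 : Matrix (Fin d) (Fin d) K) * Gi * Bd + B * U * Gi * Bd = (1 : Matrix (Fin n) (Fin n) K) + B * ((U - (1 : Matrix (Fin d) (Fin d) K)) * Gi * Bd) := by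
      rw [Matrix.sub_mul, Matrix.sub_mul, Matrix.mul_sub]
      simp only [Matrix.mul_assoc]
      abel
    rw [h1, Matrix.det_one_add_mul_comm]
    have h2 : (U - (1 : Matrix (Fin d) (Fin d) K)) * Gi * Bd * B = U - 1 := by
      calc (U - (1 : Matrix (Fin d) (Fin d) K)) * Gi * Bd * B = (U - 1) * (Gi * (Bd * B)) := by simp only [Matrix.mul_assoc]
        _ = U - 1 := by rw [← hGdef, hG, Matrix.mul_one]
    rw [h2, add_sub_cancel]

/-- In the matrix ring with the anti-involution `M ↦ G⁻¹ M† G`: from an invertible `Z` in a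
commutative centralizer we get a `G`-unitary `U` with `det U = det Z / σ (det Z)`. -/
theorem exists_star_unitary (σ : K →+* K) (hσ : ∀ a, σ (σ a) = a)
    (G Gi : Matrix (Fin d) (Fin d) K) (hGGi : G * Gi = 1) (hGiG : Gi * G = 1)
    (hGd : dag σ G = G) (X' : Matrix (Fin d) (Fin d) K) (hX : dag σ X' * G * X' = G)
    (hcomm : ∀ a b : Matrix (Fin d) (Fin d) K, a * X' = X' * a → b * X' = X' * b → a * b = b * a)
    (Z : Matrix (Fin d) (Fin d) K) (hZ : Z * X' = X' * Z) (hdet : Z.det ≠ 0) :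
    ∃ U : Matrix (Fin d) (Fin d) K, U * X' = X' * U ∧ (Gi * dag σ U * G) * U = 1 ∧
      U.det * σ Z.det = Z.det := by
  have hGid : dag σ Gi = Gi := by
    have h1 : G * dag σ Gi = 1 := by
      have := congrArg (dag σ) hGiG
      rw [dag_mul, dag_one, hGd] at this
      exact this
    calc dag σ Gi = (Gi * G) * dag σ Gi := by rw [hGiG, one_mul]
      _ = Gi * (G * dag σ Gi) := by rw [mul_assoc]
      _ = Gi := by rw [h1, mul_one]
  have hs_mul : ∀ a b, iot σ G Gi (a * b) = iot σ G Gi b * iot σ G Gi a :=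
    iot_mul σ G Gi hGGi
  have hs_one : iot σ G Gi 1 = 1 := iot_one σ G Gi hGiG
  have hs_s : ∀ c, iot σ G Gi (iot σ G Gi c) = c := by
    intro c
    rw [iot_iot σ hσ, hGd, hGid, hGiG, one_mul, mul_one]
  have hsX1 : iot σ G Gi X' * X' = 1 := by
    unfold iot
    calc Gi * dag σ X' * G * X' = Gi * (dag σ X' * G * X') := by simp only [mul_assoc]
      _ = 1 := by rw [hX, hGiG]
  have hsX2 : X' * iot σ G Gi X' = 1 := mul_eq_one_comm.mp hsX1
  have hA : ∀ a : Matrix (Fin d) (Fin d) K, a * X' = X' * a →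
      iot σ G Gi a * X' = X' * iot σ G Gi a := by
    intro a ha
    have h1 : iot σ G Gi X' * iot σ G Gi a = iot σ G Gi a * iot σ G Gi X' := by
      rw [← hs_mul, ← hs_mul, ha]
    calc iot σ G Gi a * X' = (X' * iot σ G Gi X') * iot σ G Gi a * X' := by rw [hsX2, one_mul]
      _ = X' * (iot σ G Gi X' * iot σ G Gi a) * X' := by simp only [mul_assoc]
      _ = X' * iot σ G Gi a * (iot σ G Gi X' * X') := by rw [h1]; simp only [mul_assoc]
      _ = X' * iot σ G Gi a := by rw [hsX1, mul_one]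
  have hZu : IsUnit Z.det := isUnit_iff_ne_zero.mpr hdet
  have hZZi : Z * Z⁻¹ = 1 := Matrix.mul_nonsing_inv Z hZu
  have hZiZ : Z⁻¹ * Z = 1 := Matrix.nonsing_inv_mul Z hZu
  have hZiX : Z⁻¹ * X' = X' * Z⁻¹ := by
    calc Z⁻¹ * X' = Z⁻¹ * X' * (Z * Z⁻¹) := by rw [hZZi, mul_one]
      _ = Z⁻¹ * (X' * Z) * Z⁻¹ := by simp only [mul_assoc]
      _ = (Z⁻¹ * Z) * X' * Z⁻¹ := by rw [← hZ]; simp only [mul_assoc]
      _ = X' * Z⁻¹ := by rw [hZiZ, one_mul]
  have hsZ := hA Z hZ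
  have hsZi := hA Z⁻¹ hZiX
  have hZsZ : Z * iot σ G Gi Z = iot σ G Gi Z * Z := hcomm _ _ hZ hsZ
  refine ⟨Z * iot σ G Gi Z⁻¹, ?_, ?_, ?_⟩
  · rw [mul_assoc, hsZi, ← mul_assoc, hZ, mul_assoc]
  · have h1 : Gi * dag σ (Z * iot σ G Gi Z⁻¹) * G = Z⁻¹ * iot σ G Gi Z := by
      show iot σ G Gi (Z * iot σ G Gi Z⁻¹) = _
      rw [hs_mul, hs_s]
    rw [h1]
    calc Z⁻¹ * iot σ G Gi Z * (Z * iot σ G Gi Z⁻¹)
        = Z⁻¹ * (iot σ G Gi Z * Z) * iot σ G Gi Z⁻¹ := by simp only [mul_assoc]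
      _ = (Z⁻¹ * Z) * (iot σ G Gi Z * iot σ G Gi Z⁻¹) := by rw [← hZsZ]; simp only [mul_assoc]
      _ = 1 := by rw [hZiZ, one_mul, ← hs_mul, hZiZ, hs_one]
  · have h1 : (iot σ G Gi Z⁻¹).det = σ (Z⁻¹).det := by
      unfold iot
      rw [Matrix.det_mul, Matrix.det_mul, det_dag]
      have h2 : Gi.det * G.det = 1 := by rw [← Matrix.det_mul, hGiG, Matrix.det_one]
      linear_combination σ (Z⁻¹).det * h2
    have h3 : (Z⁻¹).det * Z.det = 1 := by rw [← Matrix.det_mul, hZiZ, Matrix.det_one]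
    rw [Matrix.det_mul, h1, mul_assoc, ← map_mul, h3, map_one, mul_one]

/-! ### Cyclic subspaces and the Hermitian form -/

/-- the map `p ↦ p(x) w` -/
noncomputable def cycMap (x : Matrix (Fin n) (Fin n) K) (w : Fin n → K) : K[X] →ₗ[K] (Fin n → K) where
  toFun p := (aeval x p) *ᵥ w
  map_add' p q := by rw [map_add, Matrix.add_mulVec]
  map_smul' a p := by rw [map_smul, Matrix.smul_mulVec]; rfl

/-- the cyclic subspace `K[x] w` -/
noncomputable def cyc (x : Matrix (Fin n) (Fin n) K) (w : Fin n → K) : Submodule K (Fin n → K) :=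
  LinearMap.range (cycMap x w)

theorem mem_cyc (x : Matrix (Fin n) (Fin n) K) (w u : Fin n → K) :
    u ∈ cyc x w ↔ ∃ p : K[X], aeval x p *ᵥ w = u := Iff.rfl

theorem self_mem_cyc (x : Matrix (Fin n) (Fin n) K) (w : Fin n → K) : w ∈ cyc x w := by
  rw [mem_cyc]
  exact ⟨1, by rw [map_one, Matrix.one_mulVec]⟩

theorem cyc_invt (x : Matrix (Fin n) (Fin n) K) (w u : Fin n → K) (hu : u ∈ cyc x w) :
    x *ᵥ u ∈ cyc x w := by
  rw [mem_cyc] at hu ⊢
  obtain ⟨p, rfl⟩ := hu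
  exact ⟨X * p, by rw [map_mul, aeval_X, Matrix.mulVec_mulVec]⟩

theorem invt_pow (x : Matrix (Fin n) (Fin n) K) (S : Submodule K (Fin n → K))
    (hS : ∀ u ∈ S, x *ᵥ u ∈ S) (k : ℕ) (u : Fin n → K) (hu : u ∈ S) : (x ^ k) *ᵥ u ∈ S := by
  induction k with
  | zero => rw [pow_zero, Matrix.one_mulVec]; exact hu
  | succ k ih => rw [pow_succ', ← Matrix.mulVec_mulVec]; exact hS _ ih

theorem cyc_le (x : Matrix (Fin n) (Fin n) K) (w : Fin n → K) (S : Submodule K (Fin n → K))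
    (hS : ∀ u ∈ S, x *ᵥ u ∈ S) (hw : w ∈ S) : cyc x w ≤ S := by
  intro u hu
  rw [mem_cyc] at hu
  obtain ⟨p, rfl⟩ := hu
  induction p using Polynomial.induction_on' with
  | add p q hp hq => rw [map_add, Matrix.add_mulVec]; exact S.add_mem hp hq
  | monomial k a =>
    rw [aeval_monomial, ← Matrix.mulVec_mulVec, Algebra.algebraMap_eq_smul_one,
      Matrix.smul_mulVec, Matrix.one_mulVec]
    exact S.smul_mem a (invt_pow x S hS k w hw)

/-- the Hermitian form `Σ σ(u_i) v_i` -/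
def hm (σ : K →+* K) (u v : Fin n → K) : K := (σ ∘ u) ⬝ᵥ v

theorem hm_symm (σ : K →+* K) (hσ : ∀ a, σ (σ a) = a) (u v : Fin n → K) :
    hm σ u v = σ (hm σ v u) := by
  unfold hm
  simp only [dotProduct, Function.comp_apply, map_sum, map_mul, hσ]
  exact Finset.sum_congr rfl fun i _ => mul_comm _ _

theorem hm_add_left (σ : K →+* K) (u u' v : Fin n → K) :
    hm σ (u + u') v = hm σ u v + hm σ u' v := by
  unfold hm
  have : σ ∘ (u + u') = σ ∘ u + σ ∘ u' := by funext i; simp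
  rw [this, add_dotProduct]

theorem hm_add_right (σ : K →+* K) (u v v' : Fin n → K) :
    hm σ u (v + v') = hm σ u v + hm σ u v' := by
  unfold hm; rw [dotProduct_add]

theorem hm_mulVec_left {a b : ℕ} (σ : K →+* K) (B : Matrix (Fin a) (Fin b) K) (c : Fin b → K)
    (u : Fin a → K) : hm σ (B *ᵥ c) u = (σ ∘ c) ⬝ᵥ (rdag σ B *ᵥ u) := by
  unfold hm rdag
  have h1 : σ ∘ (B *ᵥ c) = B.map σ *ᵥ (σ ∘ c) := by
    funext i; exact RingHom.map_mulVec σ B c i
  rw [h1, Matrix.dotProduct_mulVec, Matrix.vecMul_transpose]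

theorem hm_unitary (σ : K →+* K) (x : Matrix (Fin n) (Fin n) K) (hx : dag σ x * x = 1)
    (u v : Fin n → K) : hm σ (x *ᵥ u) (x *ᵥ v) = hm σ u v := by
  rw [hm_mulVec_left, Matrix.mulVec_mulVec, rdag_eq_dag, hx, Matrix.one_mulVec]
  rfl

/-- the orthogonal of a subspace -/
def orth (σ : K →+* K) (W : Submodule K (Fin n → K)) : Submodule K (Fin n → K) where
  carrier := {u | ∀ w ∈ W, hm σ w u = 0}
  add_mem' := by
    intro a b ha hb w hw
    rw [hm_add_right, ha w hw, hb w hw, add_zero]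
  zero_mem' := by
    intro w _
    unfold hm; rw [dotProduct_zero]
  smul_mem' := by
    intro c a ha w hw
    unfold hm; rw [dotProduct_smul]
    have := ha w hw
    unfold hm at this
    rw [this, smul_zero]

theorem mem_orth (σ : K →+* K) (W : Submodule K (Fin n → K)) (u : Fin n → K) :
    u ∈ orth σ W ↔ ∀ w ∈ W, hm σ w u = 0 := Iff.rfl

/-- there is a non-degenerate cyclic subspace generated by a non-isotropic vector -/
theorem exists_nondeg_cyc (σ : K →+* K) (hσ : ∀ a, σ (σ a) = a)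
    (x : Matrix (Fin n) (Fin n) K) (hx : dag σ x * x = 1) (m : ℕ) (hm0 : (m : K) ≠ 0)
    (hxm : x ^ m = 1) (hn : 0 < n) :
    ∃ w : Fin n → K, hm σ w w ≠ 0 ∧ cyc x w ⊓ orth σ (cyc x w) = ⊥ := by
  classical
  have hex : ∃ k, ∃ w : Fin n → K, hm σ w w ≠ 0 ∧ Module.finrank K (cyc x w) = k := by
    refine ⟨_, Pi.single ⟨0, hn⟩ 1, ?_, rfl⟩
    unfold hm
    have h1 : σ ∘ (Pi.single (⟨0, hn⟩ : Fin n) (1 : K)) = Pi.single (⟨0, hn⟩ : Fin n) (1 : K) := by
      funext i
      by_cases hi : i = ⟨0, hn⟩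
      · subst hi; simp
      · simp [Pi.single_eq_of_ne hi]
    rw [h1, single_dotProduct, one_mul, Pi.single_eq_same]
    exact one_ne_zero
  obtain ⟨w, hw, hk⟩ := Nat.find_spec hex
  have hmin : ∀ w' : Fin n → K, hm σ w' w' ≠ 0 →
      Module.finrank K (cyc x w) ≤ Module.finrank K (cyc x w') := by
    intro w' hw'
    rw [hk]
    exact Nat.find_min' hex ⟨w', hw', rfl⟩
  refine ⟨w, hw, ?_⟩
  have hm1 : 1 ≤ m := by
    rcases Nat.eq_zero_or_pos m with h | h
    · subst h; exact absurd Nat.cast_zero hm0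
    · exact h
  obtain ⟨T, hT⟩ : ∃ T : Module.End K (Fin n → K), T = Matrix.toLin' x := ⟨_, rfl⟩
  have hTa : ∀ u, T u = x *ᵥ u := by
    intro u; rw [hT, Matrix.toLin'_apply]
  have hss : T.IsSemisimple := by
    apply Module.End.isSemisimple_of_squarefree_aeval_eq_zero
      (separable_X_pow_sub_C (1 : K) hm0 one_ne_zero).squarefree
    rw [map_sub, map_pow, aeval_X, aeval_C, hT, ← Matrix.toLin'_pow, hxm, Matrix.toLin'_one]
    rw [map_one]
    exact sub_self (1 : Module.End K (Fin n → K))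
  have hinvW : ∀ u ∈ cyc x w, x *ᵥ u ∈ cyc x w := cyc_invt x w
  have hinvO : ∀ u ∈ orth σ (cyc x w), x *ᵥ u ∈ orth σ (cyc x w) := by
    intro u hu w' hw'
    have h1 : x *ᵥ ((x ^ (m - 1)) *ᵥ w') = w' := by
      rw [Matrix.mulVec_mulVec, ← pow_succ', Nat.sub_add_cancel hm1, hxm, Matrix.one_mulVec]
    rw [← h1, hm_unitary σ x hx]
    exact hu _ (invt_pow x _ hinvW (m - 1) w' hw')
  have hR : cyc x w ⊓ orth σ (cyc x w) ∈ T.invtSubmodule := by
    rw [Module.End.mem_invtSubmodule]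
    intro u hu
    rw [Submodule.mem_comap, hTa]
    exact ⟨hinvW u hu.1, hinvO u hu.2⟩
  obtain ⟨Q, hQ, hRQ⟩ := (Module.End.isSemisimple_iff.mp hss) _ hR
  have hinvQ : ∀ u ∈ Q, x *ᵥ u ∈ Q := by
    intro u hu
    have := (Module.End.mem_invtSubmodule _).mp hQ hu
    rwa [Submodule.mem_comap, hTa] at this
  have hwtop : w ∈ (cyc x w ⊓ orth σ (cyc x w)) ⊔ Q := by
    rw [hRQ.sup_eq_top]; exact Submodule.mem_top
  obtain ⟨r, hr, w', hw', hsum⟩ := Submodule.mem_sup.mp hwtop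
  have hw'W : w' ∈ cyc x w := by
    have : w' = w - r := by rw [← hsum]; abel
    rw [this]
    exact Submodule.sub_mem _ (self_mem_cyc x w) hr.1
  have hne : hm σ w' w' ≠ 0 := by
    have h1 : hm σ r r = 0 := hr.2 r hr.1
    have h2 : hm σ w' r = 0 := hr.2 w' hw'W
    have h3 : hm σ r w' = 0 := by rw [hm_symm σ hσ, h2, map_zero]
    have h4 : hm σ w w = hm σ w' w' := by
      rw [← hsum, hm_add_left, hm_add_right, hm_add_right, h1, h2, h3]
      ring
    rw [← h4]; exact hw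
  have hle : cyc x w' ≤ cyc x w ⊓ Q := by
    apply cyc_le
    · intro u hu
      exact ⟨hinvW u hu.1, hinvQ u hu.2⟩
    · exact ⟨hw'W, hw'⟩
  have hfin : Module.finrank K (cyc x w) ≤ Module.finrank K ↥(cyc x w ⊓ Q) :=
    (hmin w' hne).trans (Submodule.finrank_mono hle)
  have heq : cyc x w ⊓ Q = cyc x w := Submodule.eq_of_le_of_finrank_le inf_le_left hfin
  have hWQ : cyc x w ≤ Q := by rw [← heq]; exact inf_le_right
  have hbot := hRQ.inf_eq_bot
  rw [← le_bot_iff, ← hbot]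
  exact le_inf le_rfl (inf_le_left.trans hWQ)

/-! ### Frames of invariant non-degenerate subspaces -/

theorem exists_frame (σ : K →+* K) (x : Matrix (Fin n) (Fin n) K)
    (W : Submodule K (Fin n → K)) (hW : ∀ u ∈ W, x *ᵥ u ∈ W) (hnd : W ⊓ orth σ W = ⊥) :
    ∃ (d : ℕ) (B : Matrix (Fin n) (Fin d) K) (X' : Matrix (Fin d) (Fin d) K),
      d = Module.finrank K W ∧ x * B = B * X' ∧ IsUnit (rdag σ B * B).det ∧
      (∀ c, B *ᵥ c ∈ W) ∧ (∀ u ∈ W, ∃ c, B *ᵥ c = u) ∧ (∀ c, B *ᵥ c = 0 → c = 0) := by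
  classical
  obtain ⟨b⟩ : Nonempty (Module.Basis (Fin (Module.finrank K W)) K W) := ⟨Module.finBasis K W⟩
  obtain ⟨B, hBdef⟩ : ∃ B : Matrix (Fin n) (Fin (Module.finrank K W)) K,
      B = Matrix.of fun i j => (b j : Fin n → K) i := ⟨_, rfl⟩
  have hBv : ∀ c : Fin (Module.finrank K W) → K,
      B *ᵥ c = ((∑ j, c j • b j : W) : Fin n → K) := by
    intro c
    funext i
    rw [hBdef]
    simp [Matrix.mulVec, dotProduct, mul_comm]
  have hBW : ∀ c, B *ᵥ c ∈ W := by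
    intro c; rw [hBv]; exact Subtype.property _
  have hBsurj : ∀ u ∈ W, ∃ c, B *ᵥ c = u := by
    intro u hu
    refine ⟨fun j => b.repr ⟨u, hu⟩ j, ?_⟩
    rw [hBv, b.sum_repr]
  have hBinj : ∀ c, B *ᵥ c = 0 → c = 0 := by
    intro c hc
    rw [hBv] at hc
    have h0 : (∑ j, c j • b j : W) = 0 := Subtype.ext hc
    funext j
    exact Fintype.linearIndependent_iff.mp b.linearIndependent c h0 j
  have hcol : ∀ j, ∃ c : Fin (Module.finrank K W) → K, B *ᵥ c = x *ᵥ (b j : Fin n → K) :=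
    fun j => hBsurj _ (hW _ (b j).2)
  choose cc hcc using hcol
  refine ⟨_, B, Matrix.of fun k j => cc j k, rfl, ?_, ?_, hBW, hBsurj, hBinj⟩
  · ext i j
    have h1 := congrFun (hcc j) i
    rw [Matrix.mul_apply, Matrix.mul_apply]
    simp only [Matrix.mulVec, dotProduct, Matrix.of_apply] at h1 ⊢
    rw [h1, hBdef]
    simp
  · rw [isUnit_iff_ne_zero]
    intro hdet
    obtain ⟨v, hv, hGv⟩ := Matrix.exists_mulVec_eq_zero_iff.mpr hdet
    have hu : B *ᵥ v ∈ W ⊓ orth σ W := by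
      refine ⟨hBW v, ?_⟩
      intro w' hw'
      obtain ⟨a, rfl⟩ := hBsurj w' hw'
      rw [hm_mulVec_left, Matrix.mulVec_mulVec, hGv, dotProduct_zero]
    rw [hnd, Submodule.mem_bot] at hu
    exact hv (hBinj v hu)

theorem aeval_intertwine (x : Matrix (Fin n) (Fin n) K) (B : Matrix (Fin n) (Fin d) K)
    (X' : Matrix (Fin d) (Fin d) K) (hB : x * B = B * X') (p : K[X]) :
    aeval x p * B = B * aeval X' p := by
  induction p using Polynomial.induction_on with
  | C a =>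
    rw [aeval_C, aeval_C, Algebra.algebraMap_eq_smul_one, Algebra.algebraMap_eq_smul_one,
      Matrix.smul_mul, Matrix.mul_smul, Matrix.one_mul, Matrix.mul_one]
  | add p q hp hq => rw [map_add, map_add, Matrix.add_mul, Matrix.mul_add, hp, hq]
  | monomial k a ih =>
    have e : (C a * X ^ (k + 1) : K[X]) = C a * X ^ k * X := by rw [pow_succ, mul_assoc]
    have hx1 : aeval x (C a * X ^ k * X) = aeval x (C a * X ^ k) * x := by rw [map_mul, aeval_X]
    have hx2 : aeval X' (C a * X ^ k * X) = aeval X' (C a * X ^ k) * X' := by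
      rw [map_mul, aeval_X]
    rw [e, hx1, hx2, Matrix.mul_assoc, hB, ← Matrix.mul_assoc, ih, Matrix.mul_assoc]

theorem comm_aeval (X' a : Matrix (Fin d) (Fin d) K) (ha : a * X' = X' * a) (p : K[X]) :
    a * aeval X' p = aeval X' p * a := by
  induction p using Polynomial.induction_on with
  | C c =>
    rw [aeval_C, Algebra.algebraMap_eq_smul_one, Matrix.smul_mul, Matrix.mul_smul, Matrix.one_mul,
      Matrix.mul_one]
  | add p q hp hq => rw [map_add, Matrix.add_mul, Matrix.mul_add, hp, hq]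
  | monomial k c ih =>
    have e : (C c * X ^ (k + 1) : K[X]) = C c * X ^ k * X := by rw [pow_succ, mul_assoc]
    have hx2 : aeval X' (C c * X ^ k * X) = aeval X' (C c * X ^ k) * X' := by
      rw [map_mul, aeval_X]
    rw [e, hx2, ← Matrix.mul_assoc, ih, Matrix.mul_assoc, ha, Matrix.mul_assoc]

/-- the centralizer of a cyclic matrix is commutative -/
theorem cyc_comm (x : Matrix (Fin n) (Fin n) K) (B : Matrix (Fin n) (Fin d) K)
    (X' : Matrix (Fin d) (Fin d) K) (hB : x * B = B * X') (hinj : ∀ c, B *ᵥ c = 0 → c = 0)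
    (w : Fin n → K) (v₀ : Fin d → K) (hv₀ : B *ᵥ v₀ = w) (hcyc : ∀ c, B *ᵥ c ∈ cyc x w)
    (a b : Matrix (Fin d) (Fin d) K) (ha : a * X' = X' * a) (hb : b * X' = X' * b) :
    a * b = b * a := by
  have h2 : ∀ c : Fin d → K, ∃ p : K[X], c = aeval X' p *ᵥ v₀ := by
    intro c
    obtain ⟨p, hp⟩ := (mem_cyc x w _).mp (hcyc c)
    refine ⟨p, ?_⟩
    have h3 : B *ᵥ (c - aeval X' p *ᵥ v₀) = 0 := by
      rw [Matrix.mulVec_sub, Matrix.mulVec_mulVec, ← aeval_intertwine x B X' hB,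
        ← Matrix.mulVec_mulVec, hv₀, hp, sub_self]
    exact sub_eq_zero.mp (hinj _ h3)
  have h4 : ∀ (z : Matrix (Fin d) (Fin d) K), z * X' = X' * z → ∀ pz : K[X],
      z *ᵥ v₀ = aeval X' pz *ᵥ v₀ → ∀ p : K[X],
      z *ᵥ (aeval X' p *ᵥ v₀) = aeval X' (p * pz) *ᵥ v₀ := by
    intro z hz pz hpz p
    rw [Matrix.mulVec_mulVec, comm_aeval X' z hz, ← Matrix.mulVec_mulVec, hpz,
      Matrix.mulVec_mulVec, map_mul]
  obtain ⟨pa, hpa⟩ := h2 (a *ᵥ v₀)
  obtain ⟨pb, hpb⟩ := h2 (b *ᵥ v₀)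
  apply Matrix.toLin'.injective
  apply LinearMap.ext
  intro c
  obtain ⟨p, rfl⟩ := h2 c
  rw [Matrix.toLin'_apply, Matrix.toLin'_apply, ← Matrix.mulVec_mulVec, ← Matrix.mulVec_mulVec,
    h4 b hb pb hpb, h4 a ha pa hpa, h4 a ha pa hpa, h4 b hb pb hpb]
  congr 2
  ring

theorem frame_unitary (σ : K →+* K) (x : Matrix (Fin n) (Fin n) K) (hx : dag σ x * x = 1)
    (B : Matrix (Fin n) (Fin d) K) (X' : Matrix (Fin d) (Fin d) K) (hB : x * B = B * X') :
    dag σ X' * (rdag σ B * B) * X' = rdag σ B * B := by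
  have ha : rdag σ B * dag σ x = dag σ X' * rdag σ B := by
    have := congrArg (rdag σ) hB
    rw [rdag_mul, rdag_mul] at this
    exact this
  calc dag σ X' * (rdag σ B * B) * X' = (dag σ X' * rdag σ B) * (B * X') := by
        simp only [Matrix.mul_assoc]
    _ = (rdag σ B * dag σ x) * (x * B) := by rw [ha, hB]
    _ = rdag σ B * (dag σ x * x) * B := by simp only [Matrix.mul_assoc]
    _ = rdag σ B * B := by rw [hx, Matrix.mul_one]

/-- **Unitary centralizer elements of prescribed determinant.** -/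
theorem exists_centralizer_det [Fintype K] (σ : K →+* K) (hσ : ∀ a, σ (σ a) = a) (ω₀ : K)
    (hω₀ : σ ω₀ ≠ ω₀) (x : Matrix (Fin n) (Fin n) K) (hx : dag σ x * x = 1) (m : ℕ)
    (hm0 : (m : K) ≠ 0) (hxm : x ^ m = 1) (hn : 0 < n) (δ : K) (hδ : δ * σ δ = 1) :
    ∃ c : Matrix (Fin n) (Fin n) K, dag σ c * c = 1 ∧ c * x = x * c ∧ c.det = δ := by
  classical
  obtain ⟨w, hw, hnd⟩ := exists_nondeg_cyc σ hσ x hx m hm0 hxm hn
  obtain ⟨d, B, X', hd, hB, hG, hBW, hBsurj, hBinj⟩ :=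
    exists_frame σ x (cyc x w) (cyc_invt x w) hnd
  have hdpos : 0 < d := by
    rw [hd, Module.finrank_pos_iff_exists_ne_zero]
    refine ⟨⟨w, self_mem_cyc x w⟩, ?_⟩
    intro h0
    have h1 : w = 0 := congrArg Subtype.val h0
    apply hw; rw [h1]; unfold hm; rw [dotProduct_zero]
  obtain ⟨v₀, hv₀⟩ := hBsurj w (self_mem_cyc x w)
  have hcomm := cyc_comm x B X' hB hBinj w v₀ hv₀ hBW
  have hXG := frame_unitary σ x hx B X' hB
  obtain ⟨G, hGdef⟩ : ∃ G, G = rdag σ B * B := ⟨_, rfl⟩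
  rw [← hGdef] at hG hXG
  have hGiG : G⁻¹ * G = 1 := Matrix.nonsing_inv_mul G hG
  have hGGi : G * G⁻¹ = 1 := Matrix.mul_nonsing_inv G hG
  have hGd : dag σ G = G := by
    show rdag σ G = G
    rw [hGdef, rdag_mul, rdag_rdag σ hσ]
  have hXm : X' ^ m = 1 := by
    have h1 := aeval_intertwine x B X' hB (X ^ m)
    rw [map_pow, map_pow, aeval_X, aeval_X, hxm, Matrix.one_mul] at h1
    calc X' ^ m = (G⁻¹ * G) * X' ^ m := by rw [hGiG, one_mul]
      _ = G⁻¹ * (rdag σ B * (B * X' ^ m)) := by rw [hGdef]; simp only [Matrix.mul_assoc]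
      _ = 1 := by rw [← h1, ← hGdef, hGiG]
  obtain ⟨ε, hεu, hε⟩ := hilbert90 σ hσ ω₀
    (isUnit_iff_ne_zero.mpr (sub_ne_zero.mpr (Ne.symm hω₀))) δ hδ
  have hT : (Matrix.toLin' X') ^ m = 1 := by
    rw [← Matrix.toLin'_pow, hXm, Matrix.toLin'_one]; rfl
  obtain ⟨Zl, hZ1, hZ2⟩ := Cfsg.Agent.Lib.helper18.RCF.exists_comm_det (Matrix.toLin' X') m hm0 hT
    (by rw [Module.finrank_fin_fun]; exact hdpos) ε
  have hZdet : (LinearMap.toMatrix' Zl).det = ε := by
    rw [LinearMap.det_toMatrix']; exact hZ2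
  have hZX : LinearMap.toMatrix' Zl * X' = X' * LinearMap.toMatrix' Zl := by
    have := congrArg LinearMap.toMatrix' hZ1
    rwa [LinearMap.toMatrix'_comp, LinearMap.toMatrix'_comp, LinearMap.toMatrix'_toLin'] at this
  obtain ⟨U, hUX, hUs, hUdet⟩ := exists_star_unitary σ hσ G G⁻¹ hGGi hGiG hGd X' hXG hcomm _ hZX
    (by rw [hZdet]; exact hεu.ne_zero)
  rw [hGdef] at hGiG hUs
  obtain ⟨c, hc1, hc2, hc3⟩ := core_matrix σ hσ x hx B X' hB _ hGiG U hUX hUs
  refine ⟨c, hc1, hc2, ?_⟩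
  rw [hc3]
  rw [hZdet] at hUdet
  have hσε : σ ε ≠ 0 := by
    intro h0
    apply hεu.ne_zero
    rw [← hσ ε, h0, map_zero]
  apply mul_right_cancel₀ hσε
  rw [hUdet]; exact hε

end Cfsg.Agent.Lib.helper10.GUDet
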