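import Mathlib
import Cfsg.Prelude.Def_LieClassical
import Cfsg.Agent.Lib.helper10.GUDet
import Cfsg.Agent.S2588

/-!
# Counting twisted-self-dual polynomials; characteristic polynomials of special unitary matrices
-/

set_option autoImplicit false

namespace Cfsg.Agent.Lib.helper10.SUCount

open Matrix Polynomial Cfsg.Agent.Lib.helper10.GUConj Cfsg.Agent.Lib.helper10.GUUnip
  Cfsg.Agent.Lib.helper10.GUDet Cfsg.Agent.Lib.helper18.RCF

universe u

variable {K : Type u} [Field K]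

theorem charpoly_of_inv {n : ℕ} (M N : Matrix (Fin n) (Fin n) K) (h : N * M = 1) :
    N.charpoly = C ((-1) ^ n * N.det) * M.charpoly.reverse := by
  rw [Matrix.reverse_charpoly]
  unfold Matrix.charpoly Matrix.charpolyRev Matrix.charmatrix
  have h1 : Matrix.scalar (Fin n) (X : K[X]) - C.mapMatrix N =
      C.mapMatrix N * (-(1 - (X : K[X]) • M.map C)) := by
    rw [neg_sub, mul_sub, mul_one, Matrix.mul_smul, ← RingHom.mapMatrix_apply, ← map_mul, h, map_one]
    congr 1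
    refine Matrix.ext fun i j => ?_
    rw [Matrix.scalar_apply, Matrix.diagonal_apply, Matrix.smul_apply, Matrix.one_apply]
    by_cases hij : i = j
    · rw [if_pos hij, if_pos hij, smul_eq_mul, mul_one]
    · rw [if_neg hij, if_neg hij, smul_zero]
  rw [h1, Matrix.det_mul, Matrix.det_neg, ← RingHom.map_det, Fintype.card_fin]
  rw [map_mul, map_pow, map_neg, map_one]; ring

theorem charpoly_inv_coeff {n : ℕ} (M N : Matrix (Fin n) (Fin n) K) (h : N * M = 1) (k : ℕ)
    (hk : k ≤ n) : N.charpoly.coeff k = (-1) ^ n * N.det * M.charpoly.coeff (n - k) := by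
  rw [charpoly_of_inv M N h, coeff_C_mul, coeff_reverse, Matrix.charpoly_natDegree_eq_dim,
    Fintype.card_fin, revAt_le hk]

/-- fixed points of a semilinear involution: `|Fix|² = |V|` -/
theorem card_fix_sq {V : Type*} [AddCommGroup V] [Module K V] [Finite V] (σ : K →+* K)
    (hσ : ∀ a, σ (σ a) = a) (ω₀ : K) (hω₀ : σ ω₀ ≠ ω₀)
    (τ : V →+ V) (hτ : ∀ (c : K) (v : V), τ (c • v) = σ c • τ v) (hττ : ∀ v, τ (τ v) = v) :
    Nat.card {v : V // τ v = v} ^ 2 = Nat.card V := by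
  obtain ⟨θ, hθdef⟩ : ∃ θ : K, θ = ω₀ - σ ω₀ := ⟨_, rfl⟩
  have hθ : θ ≠ 0 := by rw [hθdef]; exact sub_ne_zero.mpr (Ne.symm hω₀)
  have hσθ : σ θ = -θ := by rw [hθdef, map_sub, hσ]; ring
  have hσθi : σ θ⁻¹ = -θ⁻¹ := by rw [map_inv₀, hσθ, inv_neg]
  obtain ⟨lam, hlamdef⟩ : ∃ lam : K, lam = ω₀ * θ⁻¹ := ⟨_, rfl⟩
  have hlam : lam + σ lam = 1 := by
    rw [hlamdef, map_mul, hσθi]
    have : ω₀ * θ⁻¹ + σ ω₀ * -θ⁻¹ = (ω₀ - σ ω₀) * θ⁻¹ := by ring
    rw [this, ← hθdef, mul_inv_cancel₀ hθ]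
  let φ : V →+ V := AddMonoidHom.id V + τ
  have hφ : ∀ v, φ v = v + τ v := fun v => rfl
  have h1 : Nat.card φ.ker * Nat.card φ.range = Nat.card V := by
    rw [← AddSubgroup.index_ker, AddSubgroup.card_mul_index]
  have h2 : Nat.card φ.range = Nat.card {v : V // τ v = v} := by
    apply Nat.card_congr
    apply Equiv.subtypeEquivRight
    intro v
    constructor
    · rintro ⟨u, rfl⟩
      rw [hφ, map_add, hττ, add_comm]
    · intro hv
      refine ⟨lam • v, ?_⟩
      rw [hφ, hτ, hv, ← add_smul, hlam, one_smul]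
  have h3 : Nat.card φ.ker = Nat.card {v : V // τ v = v} := by
    apply Nat.card_congr
    refine ⟨fun v => ⟨θ⁻¹ • v.1, ?_⟩, fun s => ⟨θ • s.1, ?_⟩, ?_, ?_⟩
    · have hv : v.1 + τ v.1 = 0 := AddMonoidHom.mem_ker.mp v.2
      have hv' : τ v.1 = -v.1 := by rw [eq_neg_iff_add_eq_zero, add_comm]; exact hv
      rw [hτ, hσθi, hv', neg_smul_neg]
    · rw [AddMonoidHom.mem_ker, hφ, hτ, hσθ, s.2, neg_smul, add_neg_cancel]
    · intro v; apply Subtype.ext
      show θ • θ⁻¹ • v.1 = v.1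
      rw [smul_smul, mul_inv_cancel₀ hθ, one_smul]
    · intro s; apply Subtype.ext
      show θ⁻¹ • θ • s.1 = s.1
      rw [smul_smul, inv_mul_cancel₀ hθ, one_smul]
  rw [← h1, h2, h3, sq]

/-- the number of vectors fixed by the twisted reversal `a ↦ (e σ(a (rev i)))_i` -/
theorem card_fixN [Fintype K] {q : ℕ} (hK : Fintype.card K = q ^ 2) (σ : K →+* K)
    (hσ : ∀ a, σ (σ a) = a) (ω₀ : K) (hω₀ : σ ω₀ ≠ ω₀) (e : K) (he : e * e = 1)
    (hσe : σ e = e) (N : ℕ) :
    Nat.card {a : Fin N → K // ∀ i, a i = e * σ (a i.rev)} = q ^ N := by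
  let τ : (Fin N → K) →+ (Fin N → K) :=
    { toFun := fun a i => e * σ (a i.rev)
      map_zero' := by funext i; simp
      map_add' := by intro a b; funext i; simp [mul_add] }
  have hτa : ∀ a i, τ a i = e * σ (a i.rev) := fun a i => rfl
  have hτ : ∀ (c : K) (v : Fin N → K), τ (c • v) = σ c • τ v := by
    intro c v; funext i
    rw [hτa, Pi.smul_apply, Pi.smul_apply, hτa, smul_eq_mul, smul_eq_mul, map_mul]; ring
  have hττ : ∀ v, τ (τ v) = v := by
    intro v; funext i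
    rw [hτa, hτa, Fin.rev_rev, map_mul, hσ, hσe, ← mul_assoc, he, one_mul]
  have h1 := card_fix_sq σ hσ ω₀ hω₀ τ hτ hττ
  have h2 : Nat.card {a : Fin N → K // ∀ i, a i = e * σ (a i.rev)} =
      Nat.card {v : Fin N → K // τ v = v} := by
    apply Nat.card_congr
    apply Equiv.subtypeEquivRight
    intro a
    constructor
    · intro h; funext i; rw [hτa]; exact (h i).symm
    · intro h i; have := congrFun h i; rw [hτa] at this; exact this.symm
  rw [h2]
  have h3 : Nat.card (Fin N → K) = (q ^ N) ^ 2 := by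
    rw [Nat.card_eq_fintype_card, Fintype.card_fun, Fintype.card_fin, hK, ← pow_mul, ← pow_mul,
      mul_comm]
  rw [h3] at h1
  exact Nat.pow_left_injective (n := 2) (by norm_num) h1

/-- twisted-self-dual monic polynomials of degree `n` -/
def SD (σ : K →+* K) (n : ℕ) (f : K[X]) : Prop :=
  f.Monic ∧ f.natDegree = n ∧ ∀ k ≤ n, σ (f.coeff k) = (-1) ^ n * f.coeff (n - k)

theorem SD_coeff_zero (σ : K →+* K) (n : ℕ) (f : K[X]) (hf : SD σ n f) :
    (-1) ^ n * f.coeff 0 = 1 := by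
  have h1 := hf.2.2 n le_rfl
  have h2 : f.coeff n = 1 := by
    have := hf.1.coeff_natDegree
    rwa [hf.2.1] at this
  rw [h2, map_one, Nat.sub_self] at h1
  exact h1.symm

theorem card_SD [Fintype K] {q : ℕ} (hK : Fintype.card K = q ^ 2) (σ : K →+* K)
    (hσ : ∀ a, σ (σ a) = a) (ω₀ : K) (hω₀ : σ ω₀ ≠ ω₀) (N : ℕ) :
    Nat.card {f : K[X] // SD σ (N + 1) f} = q ^ N := by
  obtain ⟨e, hedef⟩ : ∃ e : K, e = (-1) ^ (N + 1) := ⟨_, rfl⟩
  have he : e * e = 1 := by rw [hedef, ← mul_pow, neg_mul_neg, one_mul, one_pow]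
  have hσe : σ e = e := by rw [hedef, map_pow, map_neg, map_one]
  rw [← card_fixN hK σ hσ ω₀ hω₀ e he hσe N]
  symm
  have hc0 : ∀ a : Fin N → K, (mkpoly (N + 1) (Fin.cons e a : Fin (N + 1) → K)).coeff 0 = e := by
    intro a
    have := mkpoly_coeff (N + 1) (Fin.cons e a : Fin (N + 1) → K) 0
    rwa [Fin.cons_zero] at this
  have hcs : ∀ (a : Fin N → K) (i : Fin N),
      (mkpoly (N + 1) (Fin.cons e a : Fin (N + 1) → K)).coeff (i + 1) = a i := by
    intro a i
    have := mkpoly_coeff (N + 1) (Fin.cons e a : Fin (N + 1) → K) i.succ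
    rwa [Fin.cons_succ, Fin.val_succ] at this
  have hcn : ∀ a : Fin N → K, (mkpoly (N + 1) (Fin.cons e a : Fin (N + 1) → K)).coeff (N + 1) = 1 := by
    intro a
    have := (mkpoly_monic (N + 1) (Fin.cons e a : Fin (N + 1) → K)).coeff_natDegree
    rwa [mkpoly_natDegree] at this
  have hwd : ∀ a : {a : Fin N → K // ∀ i, a i = e * σ (a i.rev)},
      SD σ (N + 1) (mkpoly (N + 1) (Fin.cons e a.1 : Fin (N + 1) → K)) := by
    intro a
    refine ⟨mkpoly_monic _ _, mkpoly_natDegree _ _, ?_⟩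
    intro k hk
    rw [← hedef]
    rcases Nat.eq_zero_or_pos k with hk0 | hk0
    · subst hk0
      rw [hc0, Nat.sub_zero, hcn, hσe, mul_one]
    · rcases Nat.lt_or_ge k (N + 1) with hk1 | hk1
      · obtain ⟨i, hi⟩ : ∃ i : Fin N, (i : ℕ) + 1 = k := ⟨⟨k - 1, by omega⟩, by simp; omega⟩
        have h1 : N + 1 - k = ((i.rev : Fin N) : ℕ) + 1 := by rw [Fin.val_rev]; omega
        rw [h1, ← hi, hcs, hcs, a.2 i, map_mul, hσ, hσe]
      · have hkN : k = N + 1 := le_antisymm hk hk1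
        subst hkN
        rw [hcn, Nat.sub_self, hc0, map_one, he]
  apply Nat.card_congr
  refine Equiv.ofBijective (fun a => ⟨mkpoly (N + 1) (Fin.cons e a.1 : Fin (N + 1) → K), hwd a⟩)
    ⟨?_, ?_⟩
  · intro a b hab
    have h1 : mkpoly (N + 1) (Fin.cons e a.1 : Fin (N + 1) → K) =
        mkpoly (N + 1) (Fin.cons e b.1 : Fin (N + 1) → K) := congrArg Subtype.val hab
    apply Subtype.ext
    funext i
    rw [← hcs a.1 i, ← hcs b.1 i, h1]
  · rintro ⟨f, hf⟩
    have hf0 : f.coeff 0 = e := by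
      have h1 := SD_coeff_zero σ _ f hf
      rw [← hedef] at h1
      calc f.coeff 0 = (e * e) * f.coeff 0 := by rw [he, one_mul]
        _ = e * (e * f.coeff 0) := by rw [mul_assoc]
        _ = e := by rw [h1, mul_one]
    have hfix : ∀ i : Fin N, f.coeff (i + 1) = e * σ (f.coeff ((i.rev : Fin N) + 1)) := by
      intro i
      have h1 := hf.2.2 ((i.rev : Fin N) + 1) (by have := (i.rev).2; omega)
      have h2 : N + 1 - (((i.rev : Fin N) : ℕ) + 1) = (i : ℕ) + 1 := by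
        rw [Fin.val_rev]; have := i.2; omega
      rw [h2, ← hedef] at h1
      rw [h1, ← mul_assoc, he, one_mul]
    refine ⟨⟨fun i => f.coeff (i + 1), hfix⟩, ?_⟩
    apply Subtype.ext
    show mkpoly (N + 1) (Fin.cons e (fun i : Fin N => f.coeff (i + 1)) : Fin (N + 1) → K) = f
    apply monic_ext_of_coeff (mkpoly_monic _ _) hf.1 (N + 1) (mkpoly_natDegree _ _) hf.2.1
    intro j hj
    rcases Nat.eq_zero_or_pos j with hj0 | hj0
    · subst hj0; rw [hc0, hf0]
    · obtain ⟨i, hi⟩ : ∃ i : Fin N, (i : ℕ) + 1 = j := ⟨⟨j - 1, by omega⟩, by simp; omega⟩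
      rw [← hi, hcs]

end Cfsg.Agent.Lib.helper10.SUCount
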