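import Mathlib
import Cfsg.Prelude.Def_LieClassical
import Cfsg.Agent.Lib.helper10.SUCount
import Cfsg.Agent.S2568

/-!
# The twisted dual of a polynomial and classes of prime order in `GU_n(q)`
-/

set_option autoImplicit false

namespace Cfsg.Agent.Lib.helper10.GUPrime

open Matrix Polynomial Cfsg.Agent.Lib.helper10.GUConj Cfsg.Agent.Lib.helper10.GUUnip
  Cfsg.Agent.Lib.helper10.GUDet Cfsg.Agent.Lib.helper10.SUCount Cfsg.Agent.Lib.helper18.RCF

universe u

variable {K : Type u} [Field K]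

/-- the twisted dual of a polynomial -/
noncomputable def pst (σ : K →+* K) (f : K[X]) : K[X] :=
  C (σ (f.coeff 0))⁻¹ * (f.map σ).reverse

theorem pst_coeff (σ : K →+* K) (f : K[X]) (d : ℕ) (hd : f.natDegree = d) (k : ℕ) (hk : k ≤ d) :
    (pst σ f).coeff k = (σ (f.coeff 0))⁻¹ * σ (f.coeff (d - k)) := by
  unfold pst
  rw [coeff_C_mul, coeff_reverse, natDegree_map, hd, revAt_le hk, coeff_map]

theorem pst_natDegree_le (σ : K →+* K) (f : K[X]) : (pst σ f).natDegree ≤ f.natDegree := by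
  unfold pst
  refine (natDegree_C_mul_le _ _).trans ((reverse_natDegree_le _).trans ?_)
  rw [natDegree_map]

theorem pst_coeff_zero (σ : K →+* K) (f : K[X]) (hf : f.Monic) :
    (pst σ f).coeff 0 = (σ (f.coeff 0))⁻¹ := by
  rw [pst_coeff σ f f.natDegree rfl 0 (Nat.zero_le _), Nat.sub_zero, hf.coeff_natDegree, map_one,
    mul_one]

theorem pst_coeff_zero_ne (σ : K →+* K) (f : K[X]) (hf : f.Monic) (h0 : f.coeff 0 ≠ 0) :
    (pst σ f).coeff 0 ≠ 0 := by
  rw [pst_coeff_zero σ f hf]
  exact inv_ne_zero ((map_ne_zero σ).mpr h0)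

theorem pst_natDegree (σ : K →+* K) (f : K[X]) (h0 : f.coeff 0 ≠ 0) :
    (pst σ f).natDegree = f.natDegree := by
  apply le_antisymm (pst_natDegree_le σ f)
  apply le_natDegree_of_ne_zero
  rw [pst_coeff σ f f.natDegree rfl _ le_rfl, Nat.sub_self]
  have h1 : σ (f.coeff 0) ≠ 0 := (map_ne_zero σ).mpr h0
  exact mul_ne_zero (inv_ne_zero h1) h1

theorem pst_monic (σ : K →+* K) (f : K[X]) (h0 : f.coeff 0 ≠ 0) : (pst σ f).Monic := by
  unfold Polynomial.Monic Polynomial.leadingCoeff
  rw [pst_natDegree σ f h0, pst_coeff σ f f.natDegree rfl _ le_rfl, Nat.sub_self]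
  exact inv_mul_cancel₀ ((map_ne_zero σ).mpr h0)

theorem pst_pst (σ : K →+* K) (hσ : ∀ a, σ (σ a) = a) (f : K[X]) (hf : f.Monic)
    (h0 : f.coeff 0 ≠ 0) : pst σ (pst σ f) = f := by
  have hd := pst_natDegree σ f h0
  ext k
  rcases Nat.lt_or_ge f.natDegree k with hk | hk
  · rw [coeff_eq_zero_of_natDegree_lt, coeff_eq_zero_of_natDegree_lt hk]
    exact lt_of_le_of_lt ((pst_natDegree_le σ _).trans (pst_natDegree_le σ f)) hk
  · rw [pst_coeff σ (pst σ f) f.natDegree hd k hk, pst_coeff_zero σ f hf,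
      pst_coeff σ f f.natDegree rfl _ (Nat.sub_le _ _), Nat.sub_sub_self hk, map_inv₀, hσ,
      map_mul, map_inv₀, hσ, hσ, inv_inv, ← mul_assoc, mul_inv_cancel₀ h0, one_mul]

theorem pst_mul (σ : K →+* K) (f g : K[X]) : pst σ (f * g) = pst σ f * pst σ g := by
  unfold pst
  rw [mul_coeff_zero, Polynomial.map_mul, reverse_mul_of_domain, map_mul, mul_inv, C_mul]
  ring

theorem pst_one (σ : K →+* K) : pst σ (1 : K[X]) = 1 := by
  unfold pst
  rw [Polynomial.map_one, coeff_one_zero, map_one, inv_one, C_1, one_mul]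
  have h1 : (1 : K[X]).reverse = 1 := by rw [← C_1, reverse_C]
  exact h1

theorem pst_multiset_prod (σ : K →+* K) (M : Multiset K[X]) :
    pst σ M.prod = (M.map (pst σ)).prod := by
  induction M using Multiset.induction_on with
  | empty => rw [Multiset.prod_zero, Multiset.map_zero, Multiset.prod_zero, pst_one]
  | cons a s ih => rw [Multiset.prod_cons, Multiset.map_cons, Multiset.prod_cons, pst_mul, ih]

theorem pst_dvd (σ : K →+* K) (f g : K[X]) (h : f ∣ g) : pst σ f ∣ pst σ g := by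
  obtain ⟨c, rfl⟩ := h
  rw [pst_mul]; exact dvd_mul_right _ _

theorem pst_irreducible (σ : K →+* K) (hσ : ∀ a, σ (σ a) = a) (h : K[X]) (hm : h.Monic)
    (h0 : h.coeff 0 ≠ 0) (hirr : Irreducible h) : Irreducible (pst σ h) := by
  rw [irreducible_iff]
  constructor
  · intro hu
    have h1 := natDegree_eq_zero_of_isUnit hu
    rw [pst_natDegree σ h h0] at h1
    exact hirr.natDegree_pos.ne' h1
  · intro a b hab
    have hab0 : a.coeff 0 * b.coeff 0 ≠ 0 := by
      rw [← mul_coeff_zero, ← hab]; exact pst_coeff_zero_ne σ h hm h0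
    have ha0 : a.coeff 0 ≠ 0 := left_ne_zero_of_mul hab0
    have hb0 : b.coeff 0 ≠ 0 := right_ne_zero_of_mul hab0
    have h2 : h = pst σ a * pst σ b := by rw [← pst_mul, ← hab, pst_pst σ hσ h hm h0]
    rcases hirr.isUnit_or_isUnit h2 with hu | hu
    · left
      have h3 := natDegree_eq_zero_of_isUnit hu
      rw [pst_natDegree σ a ha0] at h3
      rw [eq_C_of_natDegree_eq_zero h3]
      exact isUnit_C.mpr (isUnit_iff_ne_zero.mpr ha0)
    · right
      have h3 := natDegree_eq_zero_of_isUnit hu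
      rw [pst_natDegree σ b hb0] at h3
      rw [eq_C_of_natDegree_eq_zero h3]
      exact isUnit_C.mpr (isUnit_iff_ne_zero.mpr hb0)

theorem pst_X_pow_sub_one (σ : K →+* K) (r : ℕ) (hr : 0 < r) :
    pst σ (X ^ r - 1 : K[X]) = X ^ r - 1 := by
  have hd : (X ^ r - 1 : K[X]).natDegree = r := natDegree_X_pow_sub_C (n := r) (r := (1 : K))
  have hc : ∀ k, (X ^ r - 1 : K[X]).coeff k = (if k = r then 1 else 0) - (if k = 0 then 1 else 0) := by
    intro k
    rw [coeff_sub, coeff_X_pow, coeff_one]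
  ext k
  rcases Nat.lt_or_ge r k with hk | hk
  · rw [coeff_eq_zero_of_natDegree_lt, coeff_eq_zero_of_natDegree_lt (by rw [hd]; exact hk)]
    exact lt_of_le_of_lt (pst_natDegree_le σ _) (by rw [hd]; exact hk)
  · rw [pst_coeff σ _ r hd k hk, hc, hc, hc]
    have hr0 : r ≠ 0 := hr.ne'
    by_cases h1 : k = 0
    · subst h1
      simp [hr0, hr0.symm]
    · by_cases h2 : k = r
      · subst h2
        simp [hr0, hr0.symm]
      · have h3 : r - k ≠ r := by omega
        have h4 : r - k ≠ 0 := by omega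
        simp [h1, h2, h3, h4, hr0.symm]

theorem pst_X_sub_one (σ : K →+* K) : pst σ (X - 1 : K[X]) = X - 1 := by
  have := pst_X_pow_sub_one σ 1 Nat.one_pos
  rwa [pow_one] at this

/-- characteristic polynomial of the twisted inverse transpose -/
theorem charpoly_inv_dag {n : ℕ} (σ : K →+* K) (A Ai : Matrix (Fin n) (Fin n) K) (h : A * Ai = 1) :
    (dag σ Ai).charpoly = pst σ A.charpoly := by
  have hNM : dag σ Ai * dag σ A = 1 := by rw [← dag_mul, h, dag_one]
  rw [charpoly_of_inv (dag σ A) (dag σ Ai) hNM]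
  have h1 : (dag σ A).charpoly = A.charpoly.map σ := by
    unfold dag; rw [Matrix.charpoly_transpose, Matrix.charpoly_map]
  have h2 : A.det * Ai.det = 1 := by rw [← Matrix.det_mul, h, Matrix.det_one]
  have h3 : A.charpoly.coeff 0 = (-1) ^ n * A.det := by
    have h4 := Matrix.det_eq_sign_charpoly_coeff A
    rw [Fintype.card_fin] at h4
    rw [h4, ← mul_assoc, ← mul_pow, neg_mul_neg, one_mul, one_pow, one_mul]
  have h5 : A.det ≠ 0 := left_ne_zero_of_mul_eq_one h2
  have h6 : Ai.det = A.det⁻¹ := eq_inv_of_mul_eq_one_right h2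
  unfold pst
  rw [h1, det_dag, h3, h6]
  congr 2
  rw [map_mul, map_pow, map_neg, map_one, map_inv₀, mul_inv, ← inv_pow, inv_neg, inv_one]

/-! ### When is an irreducible factor of `X^r - 1` fixed by the twisted dual? -/

theorem zmod_aux (r : ℕ) [Fact r.Prime] (hr2 : r ≠ 2) (u : ZMod r) (i : ℕ) (hi : i = orderOf u)
    (hipos : 0 < i) : (∃ k : ℕ, -u ^ (i - 1) = u ^ (2 * k)) ↔ i % 4 = 2 := by
  have hui : u ^ i = 1 := by rw [hi]; exact pow_orderOf_eq_one u
  have hneg : (-1 : ZMod r) ≠ 1 := by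
    intro h
    have h2 : ((2 : ℕ) : ZMod r) = 0 := by
      have : (1 : ZMod r) + 1 = 0 := by nth_rewrite 1 [← h]; ring
      rw [Nat.cast_ofNat, ← one_add_one_eq_two]; exact this
    rw [ZMod.natCast_eq_zero_iff] at h2
    have := (Nat.prime_dvd_prime_iff_eq (Fact.out : r.Prime) Nat.prime_two).mp h2
    exact hr2 this
  constructor
  · rintro ⟨k, hk⟩
    have h1 : u ^ (2 * k + 1) = -1 := by
      rw [pow_succ, ← hk, neg_mul, ← pow_succ, Nat.sub_add_cancel hipos, hui]
    have h2 : i ∣ 2 * (2 * k + 1) := by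
      rw [hi]; apply orderOf_dvd_of_pow_eq_one
      rw [mul_comm, pow_mul, h1]; ring
    have h3 : ¬ i ∣ 2 * k + 1 := by
      intro hd
      rw [hi] at hd
      have := orderOf_dvd_iff_pow_eq_one.mp hd
      rw [h1] at this
      exact hneg this
    rcases Nat.even_or_odd i with he | ho
    · obtain ⟨m, hm⟩ := he
      have h4 : m ∣ 2 * k + 1 := by
        have h5 : 2 * m ∣ 2 * (2 * k + 1) := by rw [← two_mul] at hm; rw [← hm]; exact h2
        exact (Nat.mul_dvd_mul_iff_left (by norm_num)).mp h5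
      have h6 : Odd m := by
        obtain ⟨c, hc⟩ := h4
        rcases Nat.even_or_odd m with he' | ho'
        · exfalso
          obtain ⟨m', hm'⟩ := he'
          rw [hm'] at hc
          have hc' : 2 * k + 1 = 2 * (m' * c) := by rw [hc]; ring
          omega
        · exact ho'
      obtain ⟨m', hm'⟩ := h6
      omega
    · exfalso
      have hc : Nat.Coprime i 2 := by
        rw [Nat.coprime_comm, Nat.prime_two.coprime_iff_not_dvd]
        intro h2'
        obtain ⟨c, hc⟩ := ho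
        omega
      exact h3 (hc.dvd_of_dvd_mul_left h2)
  · intro h4
    have hm : i = 2 * (i / 2) := by omega
    have hmodd : (i / 2) % 2 = 1 := by omega
    have h1 : u ^ (i / 2) * u ^ (i / 2) = 1 := by rw [← pow_add, ← two_mul, ← hm, hui]
    have h2 : u ^ (i / 2) ≠ 1 := by
      apply pow_ne_one_of_lt_orderOf (by omega)
      rw [← hi]; omega
    have h3 : u ^ (i / 2) = -1 := (mul_self_eq_one_iff.mp h1).resolve_left h2
    refine ⟨(3 * (i / 2) - 1) / 2, ?_⟩
    have h5 : 2 * ((3 * (i / 2) - 1) / 2) = i / 2 + (i - 1) := by omega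
    rw [h5, pow_add, h3, neg_one_mul]

theorem frob_aeval {L : Type*} [Field L] [Algebra K L] (p : ℕ) [Fact p.Prime] [CharP K p]
    [CharP L p] (k : ℕ) (f : K[X]) (y : L) :
    haveI : ExpChar K p := ExpChar.prime Fact.out
    (aeval y f) ^ (p ^ k) = aeval (y ^ (p ^ k)) (f.map (iterateFrobenius K p k)) := by
  have : ExpChar K p := ExpChar.prime Fact.out
  have : ExpChar L p := ExpChar.prime Fact.out
  have h1 : (iterateFrobenius L p k).comp (algebraMap K L) =
      (algebraMap K L).comp (iterateFrobenius K p k) := by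
    ext a
    simp [iterateFrobenius_def]
  rw [← iterateFrobenius_def (R := L) p k, ← iterateFrobenius_def (R := L) p k, aeval_def,
    aeval_def, hom_eval₂, eval₂_map, h1]

theorem pst_fixed_iff [Fintype K] {p q : ℕ} [Fact p.Prime] [CharP K p]
    (hK : Fintype.card K = q ^ 2) (σ : K →+* K) (hq : ∀ a, σ a = a ^ q) (r : ℕ) (hr : r.Prime)
    (hr2 : r ≠ 2) (hrp : r ≠ p) (i : ℕ) (hi : i = orderOf (q : ZMod r)) (h : K[X]) (hm : h.Monic)
    (hirr : Irreducible h) (hdvd : h ∣ X ^ r - 1) (hne : h ≠ X - 1)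
    (hdeg : h.natDegree = orderOf ((q ^ 2 : ℕ) : ZMod r)) :
    pst σ h = h ↔ i % 4 = 2 := by
  classical
  have : Fact (Irreducible h) := ⟨hirr⟩
  have : Fact r.Prime := ⟨hr⟩
  have hp : p.Prime := Fact.out
  have : ExpChar K p := ExpChar.prime hp
  obtain ⟨j, hj⟩ : ∃ j, q = p ^ j := by
    obtain ⟨k, hpp, hcard⟩ := FiniteField.card K p
    have hqd : q ∣ p ^ (k : ℕ) := by rw [← hcard, hK]; exact dvd_pow_self q (by norm_num)
    obtain ⟨j, _, hj⟩ := (Nat.dvd_prime_pow hpp).mp hqd
    exact ⟨j, hj⟩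
  have hqpos : 0 < q := by rw [hj]; exact pow_pos hp.pos j
  have hcop : Nat.Coprime q r := by
    rw [hj]; exact Nat.Coprime.pow_left j ((Nat.coprime_primes hp hr).mpr (Ne.symm hrp))
  have hipos : 0 < i := by
    have h1 : orderOf (ZMod.unitOfCoprime q hcop) = i := by
      rw [hi, ← orderOf_units, ZMod.coe_unitOfCoprime]
    rw [← h1]; exact orderOf_pos _
  have hui : (q : ZMod r) ^ i = 1 := by rw [hi]; exact pow_orderOf_eq_one _
  obtain ⟨x, hxdef⟩ : ∃ x : AdjoinRoot h, x = AdjoinRoot.root h := ⟨_, rfl⟩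
  have : CharP (AdjoinRoot h) p :=
    charP_of_injective_algebraMap (algebraMap K (AdjoinRoot h)).injective p
  have hroot : ∀ f : K[X], aeval x f = 0 ↔ h ∣ f := by
    intro f; rw [hxdef, AdjoinRoot.aeval_eq, AdjoinRoot.mk_eq_zero]
  have hx0 : aeval x h = 0 := (hroot h).mpr dvd_rfl
  have hxr : x ^ r = 1 := by
    have h1 := (hroot _).mpr hdvd
    rw [map_sub, map_pow, aeval_X, map_one, sub_eq_zero] at h1
    exact h1
  have hx1 : x ≠ 1 := by
    intro h1
    have h2 : h ∣ X - 1 := (hroot _).mp (by rw [map_sub, aeval_X, map_one, h1, sub_self])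
    have h3 : Irreducible (X - 1 : K[X]) := by simpa using irreducible_X_sub_C (1 : K)
    have h4 : (X - 1 : K[X]).Monic := by simpa using monic_X_sub_C (1 : K)
    exact hne (eq_of_monic_of_associated hm h4 (hirr.associated_of_dvd h3 h2))
  have hord : orderOf x = r := orderOf_eq_prime hxr hx1
  have hfin : IsOfFinOrder x := isOfFinOrder_iff_pow_eq_one.mpr ⟨r, hr.pos, hxr⟩
  have hxne : x ≠ 0 := by
    intro h0; rw [h0, zero_pow hr.ne_zero] at hxr; exact zero_ne_one hxr
  have h00 : h.coeff 0 ≠ 0 := by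
    intro h0
    obtain ⟨c, hc⟩ := hdvd
    have h1 := congrArg (fun f : K[X] => f.coeff 0) hc
    simp only [mul_coeff_zero, h0, zero_mul, coeff_sub, coeff_X_pow, coeff_one_zero] at h1
    rw [if_neg (Ne.symm hr.ne_zero)] at h1
    simp at h1
  have hσ_eq : σ = iterateFrobenius K p j := by
    ext a; rw [hq, iterateFrobenius_def, hj]
  have hid : iterateFrobenius K p (2 * j) = RingHom.id K := by
    ext a
    rw [iterateFrobenius_def, RingHom.id_apply, mul_comm, pow_mul, ← hj, ← hK, FiniteField.pow_card]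
  have hQ : ∀ y : AdjoinRoot h, aeval y h = 0 → aeval (y ^ (q ^ 2)) h = 0 := by
    intro y hy
    have h1 := frob_aeval (K := K) p (2 * j) h y
    rw [hid, Polynomial.map_id, hy, zero_pow (pow_ne_zero _ hp.ne_zero)] at h1
    have h2 : p ^ (2 * j) = q ^ 2 := by rw [hj, ← pow_mul, mul_comm]
    rw [h2] at h1
    exact h1.symm
  have hQk : ∀ k : ℕ, aeval (x ^ ((q ^ 2) ^ k)) h = 0 := by
    intro k
    induction k with
    | zero => rw [pow_zero, pow_one]; exact hx0
    | succ k ih => rw [pow_succ, pow_mul]; exact hQ _ ih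
  have hσy : ∀ y : AdjoinRoot h, (aeval y h) ^ q = aeval (y ^ q) (h.map σ) := by
    intro y
    have h1 := frob_aeval (K := K) p j h y
    rw [← hσ_eq, ← hj] at h1
    exact h1
  -- root enumeration
  have hinj : Set.InjOn (fun k : ℕ => x ^ ((q ^ 2) ^ k)) (Finset.range h.natDegree : Set ℕ) := by
    intro k hk l hl hkl
    have hkl' : x ^ ((q ^ 2) ^ k) = x ^ ((q ^ 2) ^ l) := hkl
    have h1 : (q ^ 2) ^ k ≡ (q ^ 2) ^ l [MOD r] := by
      rw [← hord]; exact hfin.pow_eq_pow_iff_modEq.mp hkl'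
    have h2 : ((q ^ 2 : ℕ) : ZMod r) ^ k = ((q ^ 2 : ℕ) : ZMod r) ^ l := by
      rw [← Nat.cast_pow, ← Nat.cast_pow]; exact (ZMod.natCast_eq_natCast_iff _ _ _).mpr h1
    rw [Finset.coe_range, Set.mem_Iio, hdeg] at hk hl
    exact pow_injOn_Iio_orderOf hk hl h2
  have hmap0 : h.map (algebraMap K (AdjoinRoot h)) ≠ 0 :=
    (Polynomial.map_ne_zero_iff (algebraMap K (AdjoinRoot h)).injective).mpr hm.ne_zero
  have hmemroots : ∀ y : AdjoinRoot h,
      y ∈ (h.map (algebraMap K (AdjoinRoot h))).roots.toFinset ↔ aeval y h = 0 := by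
    intro y
    rw [Multiset.mem_toFinset, mem_roots hmap0, IsRoot, eval_map, ← aeval_def]
  have hIR : (Finset.range h.natDegree).image (fun k : ℕ => x ^ ((q ^ 2) ^ k)) ⊆
      (h.map (algebraMap K (AdjoinRoot h))).roots.toFinset := by
    intro y hy
    obtain ⟨k, _, rfl⟩ := Finset.mem_image.mp hy
    exact (hmemroots _).mpr (hQk k)
  have hRcard : (h.map (algebraMap K (AdjoinRoot h))).roots.toFinset.card ≤ h.natDegree :=
    (Multiset.toFinset_card_le _).trans ((card_roots' _).trans (natDegree_map_le))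
  have hIeq := Finset.eq_of_subset_of_card_le hIR
    (by rw [Finset.card_image_of_injOn hinj, Finset.card_range]; exact hRcard)
  have hroots : ∀ y : AdjoinRoot h, aeval y h = 0 → ∃ k : ℕ, y = x ^ ((q ^ 2) ^ k) := by
    intro y hy
    have h1 := (hmemroots y).mpr hy
    rw [← hIeq] at h1
    obtain ⟨k, _, rfl⟩ := Finset.mem_image.mp h1
    exact ⟨k, rfl⟩
  -- the element y with y^q = x⁻¹
  have hxqi : x ^ (q ^ i) = x := by
    have h1 : q ^ i ≡ 1 [MOD r] := by
      rw [← ZMod.natCast_eq_natCast_iff, Nat.cast_pow, hui, Nat.cast_one]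
    have h2 : x ^ (q ^ i) = x ^ 1 := hfin.pow_eq_pow_iff_modEq.mpr (by rw [hord]; exact h1)
    rw [pow_one] at h2
    exact h2
  have hxinv : x ^ (r - 1) = x⁻¹ := by
    apply eq_inv_of_mul_eq_one_left
    rw [← pow_succ, Nat.sub_add_cancel hr.pos, hxr]
  have hyq : (x ^ ((r - 1) * q ^ (i - 1))) ^ q = x⁻¹ := by
    rw [← pow_mul, mul_assoc, ← pow_succ, Nat.sub_add_cancel hipos, mul_comm, pow_mul, hxqi, hxinv]
  -- pst h = h iff h (y) = 0
  let _ : Invertible (x⁻¹) := invertibleOfNonzero (inv_ne_zero hxne)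
  have hrev : aeval x (h.map σ).reverse = 0 ↔ aeval x⁻¹ (h.map σ) = 0 := by
    have h1 := eval₂_reverse_eq_zero_iff (algebraMap K (AdjoinRoot h)) (x⁻¹) (h.map σ)
    rw [invOf_eq_inv, inv_inv] at h1
    rw [aeval_def, aeval_def]
    exact h1
  have hA : aeval x (pst σ h) = 0 ↔ aeval (x ^ ((r - 1) * q ^ (i - 1))) h = 0 := by
    have hc : (algebraMap K (AdjoinRoot h)) (σ (h.coeff 0))⁻¹ ≠ 0 := by
      rw [Ne, map_eq_zero]; exact inv_ne_zero ((map_ne_zero σ).mpr h00)
    unfold pst
    rw [map_mul, aeval_C, mul_eq_zero, or_iff_right hc, hrev, ← hyq, ← hσy, pow_eq_zero_iff hqpos.ne']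
  have hB : pst σ h = h ↔ aeval x (pst σ h) = 0 := by
    constructor
    · intro hfix; rw [hfix]; exact hx0
    · intro h0
      have h1 : h ∣ pst σ h := (hroot _).mp h0
      exact eq_of_monic_of_dvd_of_natDegree_le hm (pst_monic σ h h00) h1
        (by rw [pst_natDegree σ h h00])
  have hC : aeval (x ^ ((r - 1) * q ^ (i - 1))) h = 0 ↔
      ∃ k : ℕ, -(q : ZMod r) ^ (i - 1) = (q : ZMod r) ^ (2 * k) := by
    have hcast : ∀ k : ℕ, (x ^ ((r - 1) * q ^ (i - 1)) = x ^ ((q ^ 2) ^ k) ↔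
        -(q : ZMod r) ^ (i - 1) = (q : ZMod r) ^ (2 * k)) := by
      intro k
      rw [hfin.pow_eq_pow_iff_modEq, hord, ← ZMod.natCast_eq_natCast_iff, Nat.cast_mul,
        Nat.cast_pow, Nat.cast_pow, Nat.cast_pow, ← pow_mul,
        Nat.cast_sub hr.pos, ZMod.natCast_self, Nat.cast_one, zero_sub, neg_one_mul]
    constructor
    · intro h0
      obtain ⟨k, hk⟩ := hroots _ h0
      exact ⟨k, (hcast k).mp hk⟩
    · rintro ⟨k, hk⟩
      rw [(hcast k).mpr hk]
      exact hQk k
  rw [hB, hA, hC]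
  exact zmod_aux r hr2 (q : ZMod r) i hi hipos

/-! ### Counting invariant multisets -/

section comb

variable {α : Type*} [DecidableEq α]

theorem degsum (x₀ : α) (S : Finset α) (deg : α → ℕ) (b : ℕ) (hd0 : deg x₀ = 1)
    (hdS : ∀ h ∈ S, deg h = b) (M : Multiset α) (hM : ∀ h ∈ M, h = x₀ ∨ h ∈ S) :
    (M.map deg).sum = M.count x₀ + b * Multiset.card (M.filter (fun h => h ≠ x₀)) := by
  have hfi : ∀ h ∈ M.filter (fun h => h ≠ x₀), deg h = b := by
    intro h hh
    rw [Multiset.mem_filter] at hh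
    exact hdS h ((hM h hh.1).resolve_left hh.2)
  conv_lhs => rw [ms_decomp x₀ M]
  rw [Multiset.map_add, Multiset.sum_add, Multiset.map_replicate, Multiset.sum_replicate, hd0,
    smul_eq_mul, mul_one, add_comm, Multiset.map_congr rfl hfi, Multiset.map_const',
    Multiset.sum_replicate, smul_eq_mul, mul_comm]

theorem card_T_fixed (x₀ : α) (S : Finset α) (hx : x₀ ∉ S) (τ : α → α) (hτ0 : τ x₀ = x₀)
    (hτS : ∀ h ∈ S, τ h = h) (deg : α → ℕ) (b : ℕ) (hb : 0 < b) (hd0 : deg x₀ = 1)
    (hdS : ∀ h ∈ S, deg h = b) (n : ℕ) :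
    Nat.card {M : Multiset α // (∀ h ∈ M, h = x₀ ∨ h ∈ S) ∧ M.map τ = M ∧
      (M.map deg).sum = n ∧ ¬ ∀ h ∈ M, h = x₀} = (n / b + S.card).choose S.card - 1 := by
  rw [← card_multiset_le_ne x₀ S hx (n / b),
    ← card_slack x₀ S hx (fun c => c ≠ 0 ∧ c ≤ n / b) (fun c => n - b * c)]
  apply Nat.card_congr
  apply Equiv.subtypeEquivRight
  intro M
  constructor
  · rintro ⟨h1, _, h3, h4⟩
    have h5 := degsum x₀ S deg b hd0 hdS M h1
    rw [h3] at h5
    refine ⟨h1, ⟨?_, ?_⟩, ?_⟩
    · intro h0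
      rw [Multiset.card_eq_zero, Multiset.filter_eq_nil] at h0
      exact h4 (fun h hh => not_not.1 (h0 h hh))
    · rw [Nat.le_div_iff_mul_le hb, mul_comm]
      omega
    · omega
  · rintro ⟨h1, ⟨hc0, hcle⟩, hcount⟩
    have h5 := degsum x₀ S deg b hd0 hdS M h1
    have h6 : b * Multiset.card (M.filter (fun h => h ≠ x₀)) ≤ n := by
      rw [mul_comm]; exact (Nat.le_div_iff_mul_le hb).1 hcle
    refine ⟨h1, ?_, ?_, ?_⟩
    · refine (Multiset.map_congr rfl ?_).trans (Multiset.map_id M)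
      intro h hh
      rcases h1 h hh with rfl | hS
      · exact hτ0
      · exact hτS h hS
    · rw [h5, hcount]; omega
    · intro hall
      apply hc0
      rw [Multiset.card_eq_zero, Multiset.filter_eq_nil]
      intro h hh
      exact not_not.2 (hall h hh)

theorem exists_orbit_reps (S : Finset α) (τ : α → α) (hτ : Function.Involutive τ)
    (hτS : ∀ h ∈ S, τ h ∈ S) (hfree : ∀ h ∈ S, τ h ≠ h) :
    ∃ S₀ : Finset α, S₀ ⊆ S ∧ (∀ h ∈ S₀, τ h ∉ S₀) ∧ (∀ h ∈ S, h ∈ S₀ ∨ τ h ∈ S₀) ∧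
      S₀.card = S.card / 2 := by
  classical
  have hS₀ : ∀ h, h ∈ S.filter (fun h => WellOrderingRel h (τ h)) ↔
      h ∈ S ∧ WellOrderingRel h (τ h) := fun h => Finset.mem_filter
  have hd : ∀ h ∈ S.filter (fun h => WellOrderingRel h (τ h)),
      τ h ∉ S.filter (fun h => WellOrderingRel h (τ h)) := by
    intro h hh hh'
    rw [hS₀] at hh hh'
    have h1 := hh'.2
    rw [hτ h] at h1
    exact asymm hh.2 h1
  have hc : ∀ h ∈ S, h ∈ S.filter (fun h => WellOrderingRel h (τ h)) ∨
      τ h ∈ S.filter (fun h => WellOrderingRel h (τ h)) := by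
    intro h hh
    rcases trichotomous_of WellOrderingRel h (τ h) with h1 | h1 | h1
    · left; exact (hS₀ h).mpr ⟨hh, h1⟩
    · exact absurd h1.symm (hfree h hh)
    · right; rw [hS₀, hτ h]; exact ⟨hτS h hh, h1⟩
  refine ⟨S.filter (fun h => WellOrderingRel h (τ h)), Finset.filter_subset _ _, hd, hc, ?_⟩
  have hun : S.filter (fun h => WellOrderingRel h (τ h)) ∪
      (S.filter (fun h => WellOrderingRel h (τ h))).image τ = S := by
    ext h
    rw [Finset.mem_union, Finset.mem_image]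
    constructor
    · rintro (h1 | ⟨h', h1, rfl⟩)
      · exact ((hS₀ h).mp h1).1
      · exact hτS h' ((hS₀ h').mp h1).1
    · intro hh
      rcases hc h hh with h1 | h1
      · left; exact h1
      · right; exact ⟨τ h, h1, hτ h⟩
  have hdisj : Disjoint (S.filter (fun h => WellOrderingRel h (τ h)))
      ((S.filter (fun h => WellOrderingRel h (τ h))).image τ) := by
    rw [Finset.disjoint_left]
    intro h h1 h2
    obtain ⟨h', h3, rfl⟩ := Finset.mem_image.mp h2
    exact hd h' h3 h1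
  have hcard := Finset.card_union_of_disjoint hdisj
  rw [hun, Finset.card_image_of_injective _ hτ.injective] at hcard
  omega

theorem card_T_free (x₀ : α) (S : Finset α) (hx : x₀ ∉ S) (τ : α → α)
    (hτ : Function.Involutive τ) (hτ0 : τ x₀ = x₀) (hτS : ∀ h ∈ S, τ h ∈ S)
    (hfree : ∀ h ∈ S, τ h ≠ h) (deg : α → ℕ) (b : ℕ) (hb : 0 < b) (hd0 : deg x₀ = 1)
    (hdS : ∀ h ∈ S, deg h = b) (n : ℕ) :
    Nat.card {M : Multiset α // (∀ h ∈ M, h = x₀ ∨ h ∈ S) ∧ M.map τ = M ∧
      (M.map deg).sum = n ∧ ¬ ∀ h ∈ M, h = x₀} =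
      (n / (2 * b) + S.card / 2).choose (S.card / 2) - 1 := by
  obtain ⟨S₀, hS₀S, hS₀d, hS₀c, hS₀card⟩ := exists_orbit_reps S τ hτ hτS hfree
  have hx₀ : x₀ ∉ S₀ := fun h => hx (hS₀S h)
  have h2b : 0 < 2 * b := by omega
  rw [← hS₀card, ← card_multiset_le_ne x₀ S₀ hx₀ (n / (2 * b))]
  -- facts about invariant multisets
  have hc1 : ∀ M : Multiset α, M.map τ = M → ∀ a, M.count (τ a) = M.count a := by
    intro M hM a
    have h1 := Multiset.count_map_eq_count' τ M hτ.injective a
    rw [hM] at h1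
    exact h1
  have hc2 : ∀ M : Multiset α, (∀ h ∈ M, h = x₀ ∨ h ∈ S) → M.map τ = M →
      M.filter (fun h => h ≠ x₀) =
        M.filter (fun h => h ∈ S₀) + (M.filter (fun h => h ∈ S₀)).map τ := by
    intro M h1 h2
    ext a
    have h3 : ((M.filter (fun h => h ∈ S₀)).map τ).count a =
        (M.filter (fun h => h ∈ S₀)).count (τ a) := by
      have h4 := Multiset.count_map_eq_count' τ (M.filter (fun h => h ∈ S₀)) hτ.injective (τ a)
      rw [hτ a] at h4
      exact h4
    rw [Multiset.count_add, h3, Multiset.count_filter, Multiset.count_filter,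
      Multiset.count_filter, hc1 M h2 a]
    by_cases ha : a = x₀
    · subst ha
      rw [if_neg (not_not.2 rfl), if_neg hx₀, hτ0, if_neg hx₀]
    · rw [if_pos ha]
      by_cases haM : a ∈ M
      · have haS : a ∈ S := (h1 a haM).resolve_left ha
        by_cases ha0 : a ∈ S₀
        · rw [if_pos ha0, if_neg (hS₀d a ha0), add_zero]
        · rw [if_neg ha0, if_pos ((hS₀c a haS).resolve_left ha0), zero_add]
      · rw [Multiset.count_eq_zero_of_notMem haM]
        simp
  have hc3 : ∀ M : Multiset α, (∀ h ∈ M, h = x₀ ∨ h ∈ S) → M.map τ = M →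
      (M.map deg).sum = M.count x₀ + b * (2 * Multiset.card (M.filter (fun h => h ∈ S₀))) := by
    intro M h1 h2
    rw [degsum x₀ S deg b hd0 hdS M h1, hc2 M h1 h2, Multiset.card_add, Multiset.card_map,
      two_mul]
  apply Nat.card_congr
  refine Equiv.ofBijective (fun M => ⟨M.1.filter (fun h => h ∈ S₀), ?_, ?_, ?_⟩) ⟨?_, ?_⟩
  · intro h hh
    exact (Multiset.mem_filter.mp hh).2
  · intro h0
    rw [Multiset.card_eq_zero] at h0
    apply M.2.2.2.2
    intro h hh
    by_contra hne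
    have h5 : h ∈ M.1.filter (fun h => h ≠ x₀) := Multiset.mem_filter.mpr ⟨hh, hne⟩
    rw [hc2 M.1 M.2.1 M.2.2.1, h0, Multiset.map_zero, add_zero] at h5
    exact Multiset.notMem_zero h h5
  · have h5 := hc3 M.1 M.2.1 M.2.2.1
    rw [M.2.2.2.1] at h5
    rw [Nat.le_div_iff_mul_le h2b]
    have h6 : b * (2 * Multiset.card (M.1.filter (fun h => h ∈ S₀))) =
        Multiset.card (M.1.filter (fun h => h ∈ S₀)) * (2 * b) := by ring
    omega
  · rintro ⟨M₁, h1, h2, h3, h4⟩ ⟨M₂, h1', h2', h3', h4'⟩ heq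
    have heq' : M₁.filter (fun h => h ∈ S₀) = M₂.filter (fun h => h ∈ S₀) :=
      congrArg Subtype.val heq
    apply Subtype.ext
    show M₁ = M₂
    have h5 := hc3 M₁ h1 h2
    have h5' := hc3 M₂ h1' h2'
    rw [h3] at h5
    rw [h3', ← heq'] at h5'
    have h6 : M₁.count x₀ = M₂.count x₀ := by omega
    rw [ms_decomp x₀ M₁, ms_decomp x₀ M₂, hc2 M₁ h1 h2, hc2 M₂ h1' h2', heq', h6]
  · rintro ⟨M', hM', hc0, hcle⟩
    have hcle' : Multiset.card M' * (2 * b) ≤ n := (Nat.le_div_iff_mul_le h2b).1 hcle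
    have hdeg1 : (M'.map deg).sum = b * Multiset.card M' := by
      rw [Multiset.map_congr rfl (fun h hh => hdS h (hS₀S (hM' h hh))), Multiset.map_const',
        Multiset.sum_replicate, smul_eq_mul, mul_comm]
    have hdeg2 : ((M'.map τ).map deg).sum = b * Multiset.card M' := by
      rw [Multiset.map_map,
        Multiset.map_congr (f := deg ∘ τ) (g := fun _ => b) rfl
          (fun h hh => hdS (τ h) (hτS h (hS₀S (hM' h hh)))),
        Multiset.map_const', Multiset.sum_replicate, smul_eq_mul, mul_comm]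
    have hfilt : (M' + M'.map τ + Multiset.replicate (n - 2 * b * Multiset.card M') x₀).filter
        (fun h => h ∈ S₀) = M' := by
      rw [Multiset.filter_add, Multiset.filter_add, Multiset.filter_eq_self.2 hM',
        Multiset.filter_eq_nil.2, Multiset.filter_eq_nil.2, add_zero, add_zero]
      · intro a ha
        rw [Multiset.eq_of_mem_replicate ha]
        exact hx₀
      · intro a ha
        obtain ⟨h, hh, rfl⟩ := Multiset.mem_map.mp ha
        exact hS₀d h (hM' h hh)
    refine ⟨⟨M' + M'.map τ + Multiset.replicate (n - 2 * b * Multiset.card M') x₀,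
      ?_, ?_, ?_, ?_⟩, ?_⟩
    · intro h hh
      rw [Multiset.mem_add, Multiset.mem_add] at hh
      rcases hh with (hh | hh) | hh
      · exact Or.inr (hS₀S (hM' h hh))
      · obtain ⟨h', hh', rfl⟩ := Multiset.mem_map.mp hh
        exact Or.inr (hτS h' (hS₀S (hM' h' hh')))
      · exact Or.inl (Multiset.eq_of_mem_replicate hh)
    · rw [Multiset.map_add, Multiset.map_add, Multiset.map_map, Multiset.map_replicate, hτ0,
        hτ.comp_self, Multiset.map_id, add_comm (M'.map τ) M']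
    · rw [Multiset.map_add, Multiset.map_add, Multiset.sum_add, Multiset.sum_add, hdeg1, hdeg2,
        Multiset.map_replicate, Multiset.sum_replicate, hd0, smul_eq_mul, mul_one]
      have h7 : 2 * b * Multiset.card M' = Multiset.card M' * (2 * b) := by ring
      have h8 : b * Multiset.card M' + b * Multiset.card M' = Multiset.card M' * (2 * b) := by
        ring
      omega
    · intro hall
      obtain ⟨h, hh⟩ := Multiset.card_pos_iff_exists_mem.mp (Nat.pos_of_ne_zero hc0)
      have h9 : h = x₀ := hall h (by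
        rw [Multiset.mem_add, Multiset.mem_add]; exact Or.inl (Or.inl hh))
      exact hx₀ (h9 ▸ hM' h hh)
    · apply Subtype.ext
      exact hfilt

end comb

/-! ### Classes of elements of prime order `r` in `GU` and invariant factor multisets -/

open UniqueFactorizationMonoid in
theorem card_classes_eq [Fintype K] {p q : ℕ} [Fact p.Prime] [CharP K p]
    (hK : Fintype.card K = q ^ 2) (n r : ℕ) (hr : r.Prime) (hrp : r ≠ p)
    (σ : K →+* K) (hq : ∀ a, σ a = a ^ q) (hσ : ∀ a, σ (σ a) = a) (ω₀ : K) (hω₀ : σ ω₀ ≠ ω₀)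
    (S : Finset K[X]) (hxS : (X - 1 : K[X]) ∉ S)
    (hS1 : ∀ P ∈ S, P.Monic ∧ Irreducible P ∧ P ∣ (X ^ r - 1 : K[X]))
    (hS2 : ∀ h : K[X], h.Monic → Irreducible h → h ∣ (X ^ r - 1 : K[X]) → h = X - 1 ∨ h ∈ S)
    (hpstS : ∀ P ∈ S, pst σ P ∈ S)
    (τ : K[X] → K[X]) (hτ : ∀ h, h = X - 1 ∨ h ∈ S → τ h = pst σ h) :
    Nat.card {C : ConjClasses ↥(Cfsg.GU n K q) //
      ∃ g : ↥(Cfsg.GU n K q), ConjClasses.mk g = C ∧ orderOf g = r} =
    Nat.card {M : Multiset K[X] // (∀ h ∈ M, h = X - 1 ∨ h ∈ S) ∧ M.map τ = M ∧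
      (M.map natDegree).sum = n ∧ ¬ ∀ h ∈ M, h = X - 1} := by
  classical
  have hrF : (r : K) ≠ 0 := cast_ne_zero_of_coprime p r ((Nat.coprime_primes hr Fact.out).2 hrp)
  have hx0m : (X - 1 : K[X]).Monic := by simpa using monic_X_sub_C (1 : K)
  have hx0i : Irreducible (X - 1 : K[X]) := by simpa using irreducible_X_sub_C (1 : K)
  have hx0d : (X - 1 : K[X]).natDegree = 1 := by simpa using natDegree_X_sub_C (1 : K)
  have hx0r : (X - 1 : K[X]) ∣ X ^ r - 1 := by simpa using sub_dvd_pow_sub_pow (X : K[X]) 1 r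
  obtain ⟨mat, hmat⟩ : ∃ mat : ↥(Cfsg.GU n K q) → Matrix (Fin n) (Fin n) K,
      ∀ g, mat g = ((g : GL (Fin n) K) : Matrix (Fin n) (Fin n) K) := ⟨_, fun _ => rfl⟩
  have hcp : ∀ a b : ↥(Cfsg.GU n K q), IsConj a b → (mat a).charpoly = (mat b).charpoly := by
    intro a b hab
    obtain ⟨c, rfl⟩ := isConj_iff.1 hab
    rw [hmat, hmat, Subgroup.coe_mul, Subgroup.coe_mul, Units.val_mul, Units.val_mul,
      Subgroup.coe_inv, Matrix.coe_units_inv]
    exact (Matrix.charpoly_units_conj (c : GL (Fin n) K) _).symm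
  have hNFmon : ∀ (f h : K[X]), h ∈ normalizedFactors f → h.Monic := by
    intro f h hh
    rw [← normalize_normalized_factor h hh]
    exact monic_normalize (irreducible_of_normalized_factor h hh).ne_zero
  have hfac : ∀ A : Matrix (Fin n) (Fin n) K, A ^ r = 1 →
      ∀ h ∈ normalizedFactors A.charpoly, h = X - 1 ∨ h ∈ S := by
    intro A hA h hh
    have hirr := irreducible_of_normalized_factor h hh
    exact hS2 h (hNFmon _ h hh) hirr
      (factor_dvd_of_pow_eq_one A r hA h hirr (dvd_of_mem_normalizedFactors hh))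
  have hprodM : ∀ A : Matrix (Fin n) (Fin n) K, (normalizedFactors A.charpoly).prod = A.charpoly := by
    intro A
    apply eq_of_monic_of_associated _ (Matrix.charpoly_monic A)
      (prod_normalizedFactors (Matrix.charpoly_monic A).ne_zero)
    have := monic_multiset_prod_of_monic (normalizedFactors A.charpoly) id
      (fun h hh => hNFmon _ h hh)
    simpa using this
  have hdegM : ∀ A : Matrix (Fin n) (Fin n) K,
      ((normalizedFactors A.charpoly).map natDegree).sum = n := by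
    intro A
    rw [← natDegree_multiset_prod_of_monic _ (fun h hh => hNFmon _ h hh), hprodM,
      Matrix.charpoly_natDegree_eq_dim, Fintype.card_fin]
  have hone : ∀ A : Matrix (Fin n) (Fin n) K, A ^ r = 1 →
      (∀ h ∈ normalizedFactors A.charpoly, h = X - 1) → A = 1 := by
    intro A hA hall
    have hM : normalizedFactors A.charpoly =
        Multiset.replicate (Multiset.card (normalizedFactors A.charpoly)) (X - 1) :=
      Multiset.eq_replicate_card.2 hall
    have hcnt : Multiset.card (normalizedFactors A.charpoly) = n := by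
      have h1 := hdegM A
      rw [hM, Multiset.map_replicate, Multiset.sum_replicate, hx0d, smul_eq_mul, mul_one] at h1
      exact h1
    have hc : A.charpoly = (1 : Matrix (Fin n) (Fin n) K).charpoly := by
      rw [Matrix.charpoly_one, Fintype.card_fin, ← hprodM A, hM, Multiset.prod_replicate, hcnt]
    obtain ⟨C, D, h1, h2, h3⟩ := ss_conj_mat A 1 r 1 hrF
      (by rw [Nat.cast_one]; exact one_ne_zero) hA (pow_one 1) hc
    calc A = (D * C) * A := by rw [h2, Matrix.one_mul]
      _ = D * (C * A) := Matrix.mul_assoc _ _ _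
      _ = D * (1 * C) := by rw [h3]
      _ = 1 := by rw [Matrix.one_mul, h2]
  have hone' : ∀ h ∈ normalizedFactors (1 : Matrix (Fin n) (Fin n) K).charpoly, h = X - 1 := by
    intro h hh
    have hmon := hNFmon _ h hh
    have hirr := irreducible_of_normalized_factor h hh
    have hd := dvd_of_mem_normalizedFactors hh
    rw [Matrix.charpoly_one] at hd
    have hd' : h ∣ X - 1 := hirr.prime.dvd_of_dvd_pow hd
    exact eq_of_monic_of_associated hmon hx0m (hirr.associated_of_dvd hx0i hd')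
  have hun : ∀ g : ↥(Cfsg.GU n K q), pst σ (mat g).charpoly = (mat g).charpoly := by
    intro g
    have hu : dag σ (mat g) * mat g = 1 := by rw [hmat]; exact (mem_GU_iff σ q hq _).mp g.2
    have h1 := charpoly_inv_dag σ (mat g) (dag σ (mat g)) (mul_eq_one_comm.mp hu)
    rw [dag_dag σ hσ] at h1
    exact h1.symm
  have hpstM : ∀ M : Multiset K[X], (∀ h ∈ M, h = X - 1 ∨ h ∈ S) →
      M.map τ = M.map (pst σ) := fun M hM => Multiset.map_congr rfl (fun h hh => hτ h (hM h hh))
  have hirrM : ∀ M : Multiset K[X], (∀ h ∈ M, h = X - 1 ∨ h ∈ S) →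
      ∀ h ∈ M, Irreducible h ∧ h.Monic := by
    intro M hM h hh
    rcases hM h hh with rfl | hS
    · exact ⟨hx0i, hx0m⟩
    · exact ⟨(hS1 h hS).2.1, (hS1 h hS).1⟩
  have hNFprod : ∀ M : Multiset K[X], (∀ h ∈ M, Irreducible h ∧ h.Monic) →
      normalizedFactors M.prod = M := by
    intro M hM
    rw [normalizedFactors_prod_eq M (fun h hh => (hM h hh).1)]
    exact (Multiset.map_congr rfl (fun h hh => (hM h hh).2.normalize_eq_self)).trans
      (Multiset.map_id _)
  have hpstS' : ∀ h : K[X], h = X - 1 ∨ h ∈ S → (pst σ h = X - 1 ∨ pst σ h ∈ S) := by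
    intro h hh
    rcases hh with rfl | hS
    · left; exact pst_X_sub_one σ
    · right; exact hpstS h hS
  have hinvM : ∀ g : ↥(Cfsg.GU n K q), (mat g) ^ r = 1 →
      (normalizedFactors (mat g).charpoly).map τ = normalizedFactors (mat g).charpoly := by
    intro g hg
    have hM1 := hfac _ hg
    rw [hpstM _ hM1]
    have h1 : ((normalizedFactors (mat g).charpoly).map (pst σ)).prod = (mat g).charpoly := by
      rw [← pst_multiset_prod, hprodM, hun]
    have h2 : normalizedFactors ((normalizedFactors (mat g).charpoly).map (pst σ)).prod =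
        (normalizedFactors (mat g).charpoly).map (pst σ) := by
      apply hNFprod
      apply hirrM
      intro h hh
      obtain ⟨h', hh', rfl⟩ := Multiset.mem_map.mp hh
      exact hpstS' h' (hM1 h' hh')
    rw [← h2, h1]
  have hpow : ∀ g : ↥(Cfsg.GU n K q), g ^ r = 1 → (mat g) ^ r = 1 := by
    intro g hg
    rw [hmat, ← Units.val_pow_eq_pow_val, ← Subgroup.coe_pow, hg]
    rfl
  apply Nat.card_congr
  refine Equiv.ofBijective (fun c => ⟨normalizedFactors
    (Quotient.lift (fun g : ↥(Cfsg.GU n K q) => (mat g).charpoly) hcp c.1), ?_⟩) ⟨?_, ?_⟩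
  · rcases c with ⟨c, g, rfl, hg⟩
    have hA : (mat g) ^ r = 1 := hpow g (by rw [← hg]; exact pow_orderOf_eq_one g)
    show (∀ h ∈ normalizedFactors (mat g).charpoly, h = X - 1 ∨ h ∈ S) ∧
      (normalizedFactors (mat g).charpoly).map τ = normalizedFactors (mat g).charpoly ∧
      ((normalizedFactors (mat g).charpoly).map natDegree).sum = n ∧
      ¬ ∀ h ∈ normalizedFactors (mat g).charpoly, h = X - 1
    refine ⟨hfac _ hA, hinvM g hA, hdegM _, ?_⟩
    intro hall
    have h3 : mat g = 1 := hone _ hA hall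
    rw [hmat] at h3
    have hg1 : g = 1 := Subtype.ext (Units.ext h3)
    rw [hg1, orderOf_one] at hg
    exact hr.one_lt.ne hg
  · rintro ⟨c, g, rfl, hg⟩ ⟨c', g', rfl, hg'⟩ heq
    have heq' : normalizedFactors (mat g).charpoly = normalizedFactors (mat g').charpoly :=
      congrArg Subtype.val heq
    apply Subtype.ext
    show ConjClasses.mk g = ConjClasses.mk g'
    rw [ConjClasses.mk_eq_mk_iff_isConj]
    have hc : (mat g).charpoly = (mat g').charpoly := by
      rw [← hprodM, ← hprodM (mat g'), heq']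
    have hA : (mat g) ^ r = 1 := hpow g (by rw [← hg]; exact pow_orderOf_eq_one g)
    have hB : (mat g') ^ r = 1 := hpow g' (by rw [← hg']; exact pow_orderOf_eq_one g')
    obtain ⟨C, D, h1, h2, h3⟩ := ss_conj_mat _ _ r r hrF hrF hA hB hc
    obtain ⟨x, hxC⟩ : ∃ x : GL (Fin n) K, (x : Matrix (Fin n) (Fin n) K) = C :=
      ⟨⟨C, D, h1, h2⟩, rfl⟩
    have h5 : x * (g : GL (Fin n) K) * x⁻¹ = (g' : GL (Fin n) K) := by
      rw [mul_inv_eq_iff_eq_mul]
      apply Units.ext
      rw [Units.val_mul, Units.val_mul, hxC, ← hmat, ← hmat]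
      exact h3
    obtain ⟨g₀, hg₀U, hg₀⟩ := gu_conj σ q hq hσ ω₀ hω₀ (g : GL (Fin n) K) (g' : GL (Fin n) K)
      g.2 g'.2 x h5
    rw [isConj_iff]
    exact ⟨⟨g₀, hg₀U⟩, Subtype.ext hg₀⟩
  · rintro ⟨M, hM1, hM2, hM3, hM4⟩
    obtain ⟨A, hA, hAc⟩ := exists_mat_of_multiset M r (fun h hh => by
      rcases hM1 h hh with rfl | hS
      · exact ⟨hx0m, hx0r⟩
      · exact ⟨(hS1 h hS).1, (hS1 h hS).2.2⟩) hM3
    have hNF : normalizedFactors A.charpoly = M := by
      rw [hAc]; exact hNFprod M (hirrM M hM1)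
    have hr0 : 0 < r := hr.pos
    have hAAi : A * A ^ (r - 1) = 1 := by rw [← pow_succ', Nat.sub_add_cancel hr0, hA]
    have hAiA : A ^ (r - 1) * A = 1 := by rw [← pow_succ, Nat.sub_add_cancel hr0, hA]
    have hNc : (dag σ (A ^ (r - 1))).charpoly = A.charpoly := by
      rw [charpoly_inv_dag σ A _ hAAi, hAc, pst_multiset_prod, ← hpstM M hM1, hM2]
    have hNr : (dag σ (A ^ (r - 1))) ^ r = 1 := by
      rw [← dag_pow, ← pow_mul, mul_comm, pow_mul, hA, one_pow, dag_one]
    have hMN : dag σ A * dag σ (A ^ (r - 1)) = 1 := by rw [← dag_mul, hAiA, dag_one]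
    obtain ⟨C, D, h1, h2, h3⟩ := ss_conj_mat A _ r r hrF hrF hA hNr hNc.symm
    obtain ⟨A', hA'⟩ : ∃ A' : GL (Fin n) K, (A' : Matrix (Fin n) (Fin n) K) = A :=
      ⟨⟨A, A ^ (r - 1), hAAi, hAiA⟩, rfl⟩
    have hconj : IsConj (A' : Matrix (Fin n) (Fin n) K)
        (((A' : Matrix (Fin n) (Fin n) K).map (fun x : K => x ^ q)).transpose)⁻¹ := by
      have e1 : ((A' : Matrix (Fin n) (Fin n) K).map (fun x : K => x ^ q)).transpose = dag σ A := by
        unfold dag
        rw [hA']
        congr 1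
        ext i j
        simp [hq]
      rw [e1, Matrix.inv_eq_right_inv hMN, hA']
      exact ⟨⟨C, D, h1, h2⟩, h3⟩
    obtain ⟨B, hB⟩ := (Cfsg.Agent.S2588.result hK A').mpr hconj
    obtain ⟨c, hc⟩ := isConj_iff.mp hB
    have hbA : mat B = (c : Matrix (Fin n) (Fin n) K) * A *
        ((c⁻¹ : GL (Fin n) K) : Matrix (Fin n) (Fin n) K) := by
      rw [hmat, ← hc, ← hA']; rfl
    have hbc : (mat B).charpoly = A.charpoly := by
      rw [hbA, Matrix.coe_units_inv, Matrix.charpoly_units_conj]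
    have hBr : B ^ r = 1 := by
      have hA'r : A' ^ r = 1 := Units.ext (by rw [Units.val_pow_eq_pow_val, hA']; exact hA)
      apply Subtype.ext
      rw [Subgroup.coe_pow, ← hc, conj_pow, hA'r, mul_one, mul_inv_cancel]
      rfl
    have hB1 : B ≠ 1 := by
      intro h1
      apply hM4
      intro h hh
      rw [← hNF, ← hbc, h1, hmat] at hh
      exact hone' h hh
    haveI : Fact r.Prime := ⟨hr⟩
    refine ⟨⟨ConjClasses.mk B, B, rfl, orderOf_eq_prime hBr hB1⟩, ?_⟩
    apply Subtype.ext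
    show normalizedFactors (mat B).charpoly = M
    rw [hbc, hNF]

end Cfsg.Agent.Lib.helper10.GUPrime
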