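import Cfsg.Agent.Lib.helper10.KStab7
import Cfsg.Agent.Lib.helper12.SL2SylP
import Cfsg.Agent.Lib.helper15.QdNS

set_option autoImplicit false

namespace Cfsg.Agent.Lib.helper10

open Cfsg
open Cfsg.Agent.Lib.helper15 Cfsg.Agent.Lib.helper15.Qd Cfsg.Agent.Lib.helper12
open scoped commutatorElement

universe u

/-- A group of class at most two is its own lower K-infinity subgroup. -/
theorem kInfLower_eq_top_of_classTwo {T : Type u} [Group T]
    (h : ∀ a b c : T, ⁅a, b⁆ * c = c * ⁅a, b⁆) : kInfLower T = ⊤ := by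
  have hc : ∀ A : Subgroup T, ⁅(⊤ : Subgroup T), A⁆ ≤
      ⊤ ⊓ Subgroup.centralizer (((⊤ : Subgroup T) : Subgroup T) : Set T) := by
    intro A
    rw [Subgroup.commutator_le]
    intro a _ b _
    refine ⟨Subgroup.mem_top _, Subgroup.mem_centralizer_iff.mpr ?_⟩
    intro c _
    exact (h a b c).symm
  have h1 : (⊤ : Subgroup T) ∈ kLowerStarFamily (kSeqOdd T 0) := by
    refine ⟨(hc ⊤).trans inf_le_right, ?_, fun A _ _ _ _ _ => hc A⟩
    intro x _
    rw [Subgroup.normalizer_eq_top_iff.mpr inferInstance]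
    exact Subgroup.mem_top _
  have h2 : (⊤ : Subgroup T) ≤ kSeqEven T 0 := le_sSup h1
  exact top_le_iff.mp (h2.trans (le_iSup (fun n => kSeqEven T n) 0))

section mats
variable {F : Type*} [Field F]

theorem aff_uS_mul (z z' : F) (t t' : Fin 2 → F) :
    aff (uS z) t * aff (uS z') t' = aff (uS (z + z')) ![t' 0 + z * t' 1 + t 0, t' 1 + t 1] := by
  rw [aff_mul, ← uS_add]
  congr 1
  funext i
  fin_cases i <;> simp [uS_val, dotProduct, Fin.sum_univ_two]

theorem aff_uS_class2 (z z' z'' : F) (t t' t'' : Fin 2 → F)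
    (D : Matrix.SpecialLinearGroup (Fin 3) F)
    (hD : D * (aff (uS z') t' * aff (uS z) t) = aff (uS z) t * aff (uS z') t') :
    D * aff (uS z'') t'' = aff (uS z'') t'' * D := by
  have h1 : D = aff (uS 0) ![z * t' 1 - z' * t 1, 0] := by
    apply mul_right_cancel (b := aff (uS z') t' * aff (uS z) t)
    rw [hD, aff_uS_mul, aff_uS_mul, aff_uS_mul]
    congr 1
    · rw [zero_add, add_comm]
    · funext i
      fin_cases i <;> simp <;> ring
  rw [h1, aff_uS_mul, aff_uS_mul]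
  congr 1
  · rw [zero_add, add_zero]
  · funext i
    fin_cases i <;> simp <;> ring

end mats

/-- In a group isomorphic to `Qd(p)`, some Sylow `p`-subgroup `T` is such that the lower
K-infinity subgroup of `T` does not control strong fusion. -/
theorem not_kinf_control_of_emb {p : ℕ} [Fact p.Prime] {Y : Type u} [Group Y] [Finite Y]
    (E : Y →* Matrix.SpecialLinearGroup (Fin 3) (ZMod p)) (hE : Function.Injective E)
    (hsurj : ∀ (A : Dk.SL2 (ZMod p)) (t : Fin 2 → ZMod p), ∃ y, E y = aff A t)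
    (hrange : ∀ y, ∃ (A : Dk.SL2 (ZMod p)) (t : Fin 2 → ZMod p), E y = aff A t) :
    ∃ T : Sylow p Y, ¬ ControlsStrongFusion p (inducedFunctor kInfLower (T : Subgroup Y)) := by
  classical
  -- the projection to `SL₂`
  obtain ⟨f, hf⟩ : ∃ f : Y → Dk.SL2 (ZMod p), ∀ y, ∃ t, E y = aff (f y) t :=
    ⟨fun y => (hrange y).choose, fun y => (hrange y).choose_spec⟩
  obtain ⟨φ, hφ⟩ : ∃ φ : Y →* Dk.SL2 (ZMod p), ∀ y, φ y = f y := by
    refine ⟨{ toFun := f
              map_one' := ?_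
              map_mul' := ?_ }, fun y => rfl⟩
    · obtain ⟨t, ht⟩ := hf 1
      rw [map_one, ← aff_one] at ht
      exact (aff_inj ht).1.symm
    · intro a b
      obtain ⟨t, ht⟩ := hf a
      obtain ⟨t', ht'⟩ := hf b
      obtain ⟨t'', ht''⟩ := hf (a * b)
      rw [map_mul, ht, ht', aff_mul] at ht''
      exact (aff_inj ht'').1.symm
  have hφE : ∀ y, ∃ t, E y = aff (φ y) t := fun y => by rw [hφ]; exact hf y
  have hφA : ∀ (y : Y) (A : Dk.SL2 (ZMod p)) (t : Fin 2 → ZMod p), E y = aff A t → φ y = A := by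
    intro y A t h
    obtain ⟨t', ht'⟩ := hφE y
    rw [h] at ht'
    exact (aff_inj ht').1.symm
  have hφsurj : Function.Surjective φ := by
    intro A
    obtain ⟨y, hy⟩ := hsurj A 0
    exact ⟨y, hφA y A 0 hy⟩
  have hker : IsPGroup p φ.ker := by
    rintro ⟨y, hy⟩
    refine ⟨1, Subtype.ext (hE ?_)⟩
    obtain ⟨t, ht⟩ := hφE y
    rw [MonoidHom.mem_ker.mp hy] at ht
    rw [Subgroup.coe_pow, Subgroup.coe_one, pow_one, map_pow, map_one, ht, aff_pow_one]
    have h0 : (p • t : Fin 2 → ZMod p) = 0 := by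
      ext i; simp
    rw [h0, aff_one]
  obtain ⟨T, hT⟩ : ∃ T : Sylow p Y, ∀ y, y ∈ (T : Subgroup Y) ↔ ∃ z, φ y = uS z := by
    refine ⟨(sylUnipSL (F := ZMod p) p).comapOfKerIsPGroup φ hker
      (by rw [MonoidHom.range_eq_top.mpr hφsurj]; exact le_top), ?_⟩
    intro y
    rw [Sylow.coe_comapOfKerIsPGroup, Subgroup.mem_comap]
    exact mem_unipSL_iff _
  have hTE : ∀ y, y ∈ (T : Subgroup Y) → ∃ z t, E y = aff (uS z) t := by
    intro y hy
    obtain ⟨z, hz⟩ := (hT y).mp hy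
    obtain ⟨t, ht⟩ := hφE y
    exact ⟨z, t, by rw [ht, hz]⟩
  have hET : ∀ y z t, E y = aff (uS z) t → y ∈ (T : Subgroup Y) :=
    fun y z t h => (hT y).mpr ⟨z, hφA y _ t h⟩
  -- `T` has class two
  have hcl : ∀ a ∈ (T : Subgroup Y), ∀ b ∈ (T : Subgroup Y), ∀ c ∈ (T : Subgroup Y),
      ⁅a, b⁆ * c = c * ⁅a, b⁆ := by
    intro a ha b hb c hc
    obtain ⟨z, t, hza⟩ := hTE a ha
    obtain ⟨z', t', hzb⟩ := hTE b hb
    obtain ⟨z'', t'', hzc⟩ := hTE c hc
    apply hE
    rw [map_mul, map_mul, hzc]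
    apply aff_uS_class2 z z' z'' t t' t''
    rw [← hza, ← hzb, ← map_mul, ← map_mul, ← map_mul]
    congr 1
    rw [commutatorElement_def]
    group
  have hind : inducedFunctor kInfLower (T : Subgroup Y) = (T : Subgroup Y) := by
    unfold inducedFunctor
    rw [kInfLower_eq_top_of_classTwo (T := ↥(T : Subgroup Y)) (by
      intro a b c
      apply Subtype.ext
      exact hcl a a.2 b b.2 c c.2), ← MonoidHom.range_eq_map, Subgroup.range_subtype]
  refine ⟨T, ?_⟩
  rw [hind]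
  rintro ⟨T', hTT', hctl⟩
  have hTeq : (T' : Subgroup Y) = (T : Subgroup Y) := T.3 T'.2 hTT'
  rw [hTeq] at hctl
  obtain ⟨v, hv⟩ := hsurj 1 ![1, 0]
  obtain ⟨g, hg⟩ := hsurj (mkSL 0 (-1) 1 0 (by ring)) 0
  obtain ⟨u, hu⟩ := hsurj (uS 1) 0
  have hv' : E v = aff (uS 0) ![1, 0] := by rw [hv, uS_zero]
  have hvT : v ∈ (T : Subgroup Y) := hET v 0 _ hv'
  have huT : u ∈ (T : Subgroup Y) := hET u 1 0 hu
  have hgv : E (g * v * g⁻¹) = aff (uS 0) ![0, 1] := by
    rw [map_mul, map_mul, map_inv, hg, hv, aff_conj, uS_zero]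
    congr 1
    funext i
    fin_cases i <;> simp [mkSL_val, Matrix.mulVec, dotProduct, Fin.sum_univ_two]
  have hgvT : g * v * g⁻¹ ∈ (T : Subgroup Y) := hET _ 0 _ hgv
  obtain ⟨-, h2⟩ := hctl ({v} : Set Y) (by
    intro a ha
    rw [Set.mem_singleton_iff] at ha
    rw [ha]; exact hvT)
  obtain ⟨x, hx, hxa⟩ := h2 g (by
    rintro _ ⟨a, ha, rfl⟩
    rw [Set.mem_singleton_iff] at ha
    rw [ha]; exact hgvT)
  have h3 : g * v * g⁻¹ = x * v * x⁻¹ := hxa v rfl
  have hu' : x⁻¹ * u * x ∈ (T : Subgroup Y) := by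
    rw [Subgroup.mem_normalizer_iff.mp hx (x⁻¹ * u * x)]
    have e : x * (x⁻¹ * u * x) * x⁻¹ = u := by group
    rw [e]; exact huT
  -- `v` is central in `T`
  have hvc : ∀ y ∈ (T : Subgroup Y), v * y = y * v := by
    intro y hy
    obtain ⟨z, t, hzy⟩ := hTE y hy
    apply hE
    rw [map_mul, map_mul, hv', hzy, aff_uS_mul, aff_uS_mul]
    congr 1
    · rw [zero_add, add_zero]
    · funext i
      fin_cases i <;> simp <;> ring
  have h4 := hvc _ hu'
  have h5 : (x * v * x⁻¹) * u = u * (x * v * x⁻¹) := by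
    calc (x * v * x⁻¹) * u = x * (v * (x⁻¹ * u * x)) * x⁻¹ := by group
      _ = x * ((x⁻¹ * u * x) * v) * x⁻¹ := by rw [h4]
      _ = u * (x * v * x⁻¹) := by group
  rw [← h3] at h5
  have h6 : E (g * v * g⁻¹) * E u = E u * E (g * v * g⁻¹) := by
    rw [← map_mul, ← map_mul, h5]
  rw [hgv, hu, aff_uS_mul, aff_uS_mul] at h6
  have h7 := congrFun (aff_inj h6).2 0
  simp at h7

end Cfsg.Agent.Lib.helper10
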