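import Mathlib

set_option autoImplicit false

namespace Cfsg.Agent.Lib.helper10.LinDL

open Module

universe u v

section basic
variable {F : Type*} [Field F] {P : Type*} [Group P] {V : Type*} [AddCommGroup V] [Module F V]
  (ρ : Representation F P V)

theorem rho_mul_inv (g : P) : ρ g * ρ g⁻¹ = 1 := by rw [← map_mul, mul_inv_cancel, map_one]

theorem rho_inv_mul (g : P) : ρ g⁻¹ * ρ g = 1 := by rw [← map_mul, inv_mul_cancel, map_one]

theorem rho_inv_apply (g : P) (v : V) : ρ g⁻¹ (ρ g v) = v := by
  simp

theorem rho_injective (g : P) : Function.Injective (ρ g) :=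
  Function.LeftInverse.injective (rho_inv_apply ρ g)

theorem rho_mul_apply (g h : P) (v : V) : ρ (g * h) v = ρ g (ρ h v) := by
  rw [map_mul]; rfl

theorem derivedSeries_succ_le_map {G : Type*} [Group G] (H : Subgroup G)
    (hH : commutator G ≤ H) (k : ℕ) :
    derivedSeries G (k + 1) ≤ (derivedSeries H k).map H.subtype := by
  induction k with
  | zero =>
    rw [derivedSeries_succ, derivedSeries_zero, derivedSeries_zero, ← MonoidHom.range_eq_map,
      Subgroup.range_subtype]
    rw [commutator_def] at hH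
    exact hH
  | succ k ih =>
    rw [derivedSeries_succ, derivedSeries_succ (G := H), Subgroup.map_commutator]
    exact Subgroup.commutator_mono ih ih

theorem derivedSeries_succ_le_ker (k : ℕ)
    (h : ∀ g ∈ derivedSeries P k, ∀ h ∈ derivedSeries P k, ρ g * ρ h = ρ h * ρ g) :
    derivedSeries P (k + 1) ≤ MonoidHom.ker ρ := by
  rw [derivedSeries_succ, Subgroup.commutator_le]
  intro g hg h' hh
  rw [MonoidHom.mem_ker, commutatorElement_def, map_mul, map_mul, map_mul, h g hg h' hh,
    mul_assoc (ρ h'), rho_mul_inv, mul_one, rho_mul_inv]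

variable (W : Submodule F V) (hW : ∀ g, W ≤ W.comap (ρ g))

theorem mem_ker_sub (g : P) :
    g ∈ MonoidHom.ker (ρ.subrepresentation W hW) ↔ ∀ w ∈ W, ρ g w = w := by
  rw [MonoidHom.mem_ker]
  constructor
  · intro h w hw
    have h2 := congrArg (fun f : Module.End F W => (f ⟨w, hw⟩ : V)) h
    simpa using h2
  · intro h
    ext ⟨w, hw⟩
    simpa using h w hw

theorem mem_ker_quot (g : P) :
    g ∈ MonoidHom.ker (ρ.quotient W hW) ↔ ∀ v, ρ g v - v ∈ W := by
  rw [MonoidHom.mem_ker]
  constructor
  · intro h v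
    have h2 := congrArg (fun f : Module.End F (V ⧸ W) => f (Submodule.Quotient.mk v)) h
    simp only [Representation.quotient_apply, Submodule.mapQ_apply, Module.End.one_apply] at h2
    exact (Submodule.Quotient.eq W).mp h2
  · intro h
    apply LinearMap.ext
    intro x
    obtain ⟨v, rfl⟩ := Submodule.Quotient.mk_surjective W x
    simp only [Representation.quotient_apply, Submodule.mapQ_apply, Module.End.one_apply]
    exact (Submodule.Quotient.eq W).mpr (h v)

theorem commute_of_mem_kers {g h : P} (hgW : ∀ w ∈ W, ρ g w = w) (hgQ : ∀ v, ρ g v - v ∈ W)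
    (hhW : ∀ w ∈ W, ρ h w = w) (hhQ : ∀ v, ρ h v - v ∈ W) : ρ g * ρ h = ρ h * ρ g := by
  apply LinearMap.ext
  intro v
  have e1 : ρ g (ρ h v - v) = ρ h v - v := hgW _ (hhQ v)
  have e2 : ρ h (ρ g v - v) = ρ g v - v := hhW _ (hgQ v)
  rw [map_sub] at e1 e2
  have e3 : ρ g (ρ h v) = ρ h v - v + ρ g v := by rw [← e1]; abel
  have e4 : ρ h (ρ g v) = ρ g v - v + ρ h v := by rw [← e2]; abel
  show ρ g (ρ h v) = ρ h (ρ g v)
  rw [e3, e4]; abel

theorem eq_one_of_mem_kers {g : P} (hgW : ∀ w ∈ W, ρ g w = w) (hgQ : ∀ v, ρ g v - v ∈ W)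
    {N : ℕ} (hN : g ^ N = 1) (hNF : (N : F) ≠ 0) : ρ g = 1 := by
  apply LinearMap.ext
  intro v
  have key : ∀ k : ℕ, ρ (g ^ k) v = v + k • (ρ g v - v) := by
    intro k
    induction k with
    | zero => simp
    | succ k ih =>
      rw [pow_succ', rho_mul_apply, ih, map_add, map_nsmul, hgW _ (hgQ v), succ_nsmul]
      abel
  have h1 := key N
  rw [hN, map_one, Module.End.one_apply] at h1
  have h2 : N • (ρ g v - v) = 0 := by
    have : v + N • (ρ g v - v) = v + 0 := by rw [add_zero]; exact h1.symm
    exact add_left_cancel this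
  rw [← Nat.cast_smul_eq_nsmul F] at h2
  have h3 := (smul_eq_zero.mp h2).resolve_left hNF
  rw [Module.End.one_apply]
  exact sub_eq_zero.mp h3

end basic

section unipotent
variable {F : Type*} [Field F] {P : Type*} [Group P] [Finite P]

theorem exists_fixed_vector {V : Type*} [AddCommGroup V] [Module F V]
    (ρ : Representation F P V) {p : ℕ} [Fact p.Prime] (hP : IsPGroup p P)
    (hpF : (p : F) = 0) [Nontrivial V] : ∃ u : V, u ≠ 0 ∧ ∀ g, ρ g u = u := by
  obtain ⟨u₀, hu₀⟩ := exists_ne (0 : V)
  set S : Set V := Set.range (fun g : P => ρ g u₀) with hS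
  set X : AddSubgroup V := AddSubgroup.closure S with hX
  have hSfin : S.Finite := Set.finite_range _
  have hXinv : ∀ g : P, ∀ x ∈ X, ρ g x ∈ X := by
    intro g x hx
    induction hx using AddSubgroup.closure_induction with
    | mem x hx =>
      obtain ⟨h, rfl⟩ := hx
      apply AddSubgroup.subset_closure
      exact ⟨g * h, rho_mul_apply ρ g h u₀⟩
    | zero => rw [map_zero]; exact X.zero_mem
    | add x y _ _ hx hy => rw [map_add]; exact X.add_mem hx hy
    | neg x _ hx => rw [map_neg]; exact X.neg_mem hx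
  have hpV : ∀ x : V, p • x = 0 := by
    intro x
    rw [← Nat.cast_smul_eq_nsmul F, hpF, zero_smul]
  have hfin : Finite X := by
    have : AddGroup.FG X := (AddGroup.fg_iff_addSubgroup_fg X).mpr
      ((AddSubgroup.fg_iff X).mpr ⟨S, rfl, hSfin⟩)
    apply AddCommGroup.finite_of_fg_isAddTorsion
    intro x
    rw [isOfFinAddOrder_iff_nsmul_eq_zero]
    refine ⟨p, (Fact.out : p.Prime).pos, ?_⟩
    apply Subtype.ext
    rw [AddSubgroup.coe_nsmul]
    exact hpV _
  let _ : MulAction P X :=
    { smul := fun g x => ⟨ρ g x, hXinv g x x.2⟩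
      one_smul := fun x => by
        apply Subtype.ext
        show ρ 1 (x : V) = x
        rw [map_one]; rfl
      mul_smul := fun g h x => by
        apply Subtype.ext
        show ρ (g * h) (x : V) = ρ g (ρ h x)
        rw [map_mul]; rfl }
  have hu₀X : u₀ ∈ X := AddSubgroup.subset_closure ⟨1, by simp⟩
  have hdvd : p ∣ Nat.card X := by
    have h1 : addOrderOf (⟨u₀, hu₀X⟩ : X) = p := by
      apply addOrderOf_eq_prime
      · apply Subtype.ext
        rw [AddSubgroup.coe_nsmul]
        exact hpV _
      · intro h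
        exact hu₀ (congrArg Subtype.val h)
    rw [← h1]
    exact addOrderOf_dvd_natCard _
  have h0 : (0 : X) ∈ MulAction.fixedPoints P X := by
    intro g
    apply Subtype.ext
    show ρ g ((0 : X) : V) = ((0 : X) : V)
    rw [AddSubgroup.coe_zero, map_zero]
  obtain ⟨b, hb, hb0⟩ := hP.exists_fixed_point_of_prime_dvd_card_of_fixed_point X hdvd h0
  refine ⟨(b : V), ?_, ?_⟩
  · intro h
    apply hb0
    apply Subtype.ext
    rw [h]; rfl
  · intro g
    exact congrArg Subtype.val (hb g)

theorem exists_invariant_of_finrank {V : Type*} [AddCommGroup V] [Module F V]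
    [FiniteDimensional F V]
    (ρ : Representation F P V) {p : ℕ} [Fact p.Prime] (hP : IsPGroup p P)
    (hpF : (p : F) = 0) (d : ℕ) (hd : d ≤ finrank F V) :
    ∃ W : Submodule F V, (∀ g, W ≤ W.comap (ρ g)) ∧ finrank F W = d := by
  induction d with
  | zero => exact ⟨⊥, fun g => bot_le, finrank_bot F V⟩
  | succ d ih =>
    obtain ⟨W, hW, hWd⟩ := ih (by omega)
    have hWtop : W ≠ ⊤ := by
      intro h
      rw [h, finrank_top] at hWd
      omega
    have : Nontrivial (V ⧸ W) := Submodule.Quotient.nontrivial_iff.mpr hWtop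
    obtain ⟨ū, hū, hfix⟩ := exists_fixed_vector (ρ.quotient W hW) hP hpF
    obtain ⟨x, rfl⟩ := Submodule.Quotient.mk_surjective W ū
    have hxW : x ∉ W := by
      intro h
      exact hū ((Submodule.Quotient.mk_eq_zero W).mpr h)
    have hx : ∀ g, ρ g x - x ∈ W := by
      intro g
      have := hfix g
      simp only [Representation.quotient_apply, Submodule.mapQ_apply] at this
      exact (Submodule.Quotient.eq W).mp this
    refine ⟨W ⊔ Submodule.span F {x}, ?_, ?_⟩
    · intro g v hv
      rw [Submodule.mem_comap]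
      obtain ⟨w, hw, y, hy, rfl⟩ := Submodule.mem_sup.mp hv
      obtain ⟨c, rfl⟩ := Submodule.mem_span_singleton.mp hy
      have e : ρ g (w + c • x) = (ρ g w + c • (ρ g x - x)) + c • x := by
        rw [map_add, map_smul, smul_sub]; abel
      rw [e]
      exact Submodule.add_mem _
        (Submodule.mem_sup_left (W.add_mem (hW g hw) (W.smul_mem c (hx g))))
        (Submodule.mem_sup_right (Submodule.smul_mem _ c (Submodule.mem_span_singleton_self x)))
    · have hinf : W ⊓ Submodule.span F {x} = ⊥ := by
        rw [eq_bot_iff]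
        intro y hy
        obtain ⟨hyW, hys⟩ := Submodule.mem_inf.mp hy
        obtain ⟨c, rfl⟩ := Submodule.mem_span_singleton.mp hys
        by_cases hc : c = 0
        · rw [hc, zero_smul]; exact Submodule.zero_mem _
        · exfalso
          apply hxW
          have := W.smul_mem c⁻¹ hyW
          rwa [smul_smul, inv_mul_cancel₀ hc, one_smul] at this
      have hx0 : x ≠ 0 := fun h => hxW (h ▸ W.zero_mem)
      have h1 := Submodule.finrank_sup_add_finrank_inf_eq W (Submodule.span F {x})
      rw [hinf, finrank_bot, finrank_span_singleton hx0, hWd, add_zero] at h1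
      exact h1

theorem claimU {p : ℕ} [Fact p.Prime] (hP : IsPGroup p P) (hpF : (p : F) = 0) (n : ℕ) :
    ∀ (V : Type v) [AddCommGroup V] [Module F V] [FiniteDimensional F V]
      (ρ : Representation F P V), finrank F V = n →
      derivedSeries P (Nat.clog 2 n) ≤ MonoidHom.ker ρ := by
  induction n using Nat.strong_induction_on with
  | _ n ih =>
    intro V _ _ _ ρ hn
    by_cases h2 : n < 2
    · have hall : ∀ g, ρ g = 1 := by
        intro g
        by_cases h0 : n = 0
        · have hsub : Subsingleton V := by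
            rw [← Module.finrank_zero_iff (R := F)]
            omega
          apply LinearMap.ext
          intro v
          exact Subsingleton.elim _ _
        · have h1 : finrank F V = 1 := by omega
          have hnt : Nontrivial V := Module.nontrivial_of_finrank_pos (R := F) (by omega)
          obtain ⟨u, hu, hfix⟩ := exists_fixed_vector ρ hP hpF
          apply LinearMap.ext
          intro w
          obtain ⟨c, rfl⟩ := (finrank_eq_one_iff_of_nonzero' u hu).mp h1 w
          rw [map_smul, hfix g]
          rfl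
      intro g _
      exact (MonoidHom.mem_ker).mpr (hall g)
    · have hn2 : 2 ≤ n := by omega
      obtain ⟨W, hW, hWd⟩ := exists_invariant_of_finrank ρ hP hpF ((n + 1) / 2) (by omega)
      have hQ : finrank F (V ⧸ W) = n - (n + 1) / 2 := by
        rw [Submodule.finrank_quotient, hn, hWd]
      have ih1 := ih ((n + 1) / 2) (by omega) W (ρ.subrepresentation W hW) hWd
      have ih2 := ih (n - (n + 1) / 2) (by omega) (V ⧸ W) (ρ.quotient W hW) hQ
      have hle : Nat.clog 2 (n - (n + 1) / 2) ≤ Nat.clog 2 ((n + 1) / 2) :=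
        Nat.clog_mono_right 2 (by omega)
      have ih2' : derivedSeries P (Nat.clog 2 ((n + 1) / 2)) ≤
          MonoidHom.ker (ρ.quotient W hW) :=
        le_trans (derivedSeries_antitone P hle) ih2
      have hc : Nat.clog 2 n = Nat.clog 2 ((n + 1) / 2) + 1 := by
        rw [Nat.clog_of_two_le (by norm_num) hn2]
        rfl
      rw [hc]
      apply derivedSeries_succ_le_ker
      intro g hg h hh
      exact commute_of_mem_kers ρ W ((mem_ker_sub ρ W hW g).mp (ih1 hg))
        ((mem_ker_quot ρ W hW g).mp (ih2' hg)) ((mem_ker_sub ρ W hW h).mp (ih1 hh))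
        ((mem_ker_quot ρ W hW h).mp (ih2' hh))

end unipotent

section irreducible
open scoped commutatorElement
variable {F : Type*} [Field F] [IsAlgClosed F] {P : Type*} [Group P] [Finite P]
  {V : Type*} [AddCommGroup V] [Module F V] [FiniteDimensional F V]

theorem irred_step {p : ℕ} [Fact p.Prime] (hP : IsPGroup p P) [Nontrivial V]
    (ρ : Representation F P V)
    (hirr : ∀ W : Submodule F V, (∀ g, W ≤ W.comap (ρ g)) → W = ⊥ ∨ W = ⊤)
    (hna : ¬ ∀ g h, ρ g * ρ h = ρ h * ρ g) :
    ∃ (M : Subgroup P) (a : P), commutator P ≤ M ∧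
      (∀ g ∈ M, ∀ ν : F, ∀ v ∈ Module.End.eigenspace (ρ a) ν,
        ρ g v ∈ Module.End.eigenspace (ρ a) ν) ∧
      (⨆ ν : F, Module.End.eigenspace (ρ a) ν) = ⊤ ∧
      (∀ ν : F, 2 * finrank F (Module.End.eigenspace (ρ a) ν) ≤ finrank F V) := by
  classical
  let Z₁ : Subgroup P :=
    { carrier := {z | ∀ g, ρ z * ρ g = ρ g * ρ z}
      mul_mem' := by
        intro x y hx hy g
        show ρ (x * y) * ρ g = ρ g * ρ (x * y)
        rw [map_mul, mul_assoc, hy g, ← mul_assoc, hx g, mul_assoc]
      one_mem' := by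
        intro g
        show ρ 1 * ρ g = ρ g * ρ 1
        rw [map_one, one_mul, mul_one]
      inv_mem' := by
        intro x hx g
        show ρ x⁻¹ * ρ g = ρ g * ρ x⁻¹
        have h := hx g
        calc ρ x⁻¹ * ρ g = ρ x⁻¹ * (ρ g * ρ x) * ρ x⁻¹ := by
              rw [mul_assoc, mul_assoc, rho_mul_inv, mul_one]
          _ = ρ x⁻¹ * (ρ x * ρ g) * ρ x⁻¹ := by rw [h]
          _ = ρ g * ρ x⁻¹ := by rw [← mul_assoc, rho_inv_mul, one_mul] }
  have hZ₁mem : ∀ z, z ∈ Z₁ ↔ ∀ g, ρ z * ρ g = ρ g * ρ z := fun z => Iff.rfl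
  have hZ₁n : Z₁.Normal := by
    constructor
    intro z hz h
    rw [hZ₁mem] at hz ⊢
    intro g
    have e : ρ (h * z * h⁻¹) = ρ z := by
      rw [map_mul, map_mul, ← hz h, mul_assoc, rho_mul_inv, mul_one]
    rw [e]
    exact hz g
  have hZ₁top : Z₁ ≠ ⊤ := by
    intro h
    apply hna
    intro g h'
    have hg : g ∈ Z₁ := h ▸ Subgroup.mem_top g
    exact hg h'
  have hnt : Nontrivial (P ⧸ Z₁) := QuotientGroup.nontrivial_iff.mpr hZ₁top
  have hPQ : IsPGroup p (P ⧸ Z₁) := hP.to_quotient Z₁
  have hcn := hPQ.center_nontrivial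
  obtain ⟨⟨x, hxc⟩, hx1⟩ := exists_ne (1 : Subgroup.center (P ⧸ Z₁))
  obtain ⟨a, rfl⟩ := QuotientGroup.mk_surjective x
  have haZ : a ∉ Z₁ := by
    intro h
    apply hx1
    apply Subtype.ext
    exact (QuotientGroup.eq_one_iff a).mpr h
  have hcomm : ∀ g : P, ⁅g, a⁆ ∈ Z₁ := by
    intro g
    rw [← QuotientGroup.eq_one_iff, commutatorElement_def]
    have h1 := Subgroup.mem_center_iff.mp hxc (g : P ⧸ Z₁)
    rw [QuotientGroup.mk_mul, QuotientGroup.mk_mul, QuotientGroup.mk_mul, QuotientGroup.mk_inv,
      QuotientGroup.mk_inv, h1, mul_inv_cancel_right, mul_inv_cancel]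
  -- elements of Z₁ act as scalars
  have hscal : ∀ z ∈ Z₁, ∃ c : F, ρ z = c • (1 : Module.End F V) := by
    intro z hz
    obtain ⟨μ, hμ⟩ := Module.End.exists_eigenvalue (ρ z)
    obtain ⟨w, hw⟩ := hμ.exists_hasEigenvector
    have hE : Module.End.eigenspace (ρ z) μ = ⊤ := by
      have hinv : ∀ g, Module.End.eigenspace (ρ z) μ ≤
          (Module.End.eigenspace (ρ z) μ).comap (ρ g) := by
        intro g v hv
        rw [Submodule.mem_comap, Module.End.mem_eigenspace_iff]
        rw [Module.End.mem_eigenspace_iff] at hv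
        have h2 := congrArg (fun f : Module.End F V => f v) (hz g)
        simp only [Module.End.mul_apply] at h2
        rw [h2, hv, map_smul]
      rcases hirr _ hinv with h | h
      · exfalso
        have h3 : w ∈ Module.End.eigenspace (ρ z) μ := hw.1
        rw [h] at h3
        exact hw.2 ((Submodule.mem_bot F).mp h3)
      · exact h
    refine ⟨μ, ?_⟩
    apply LinearMap.ext
    intro v
    have h4 : v ∈ Module.End.eigenspace (ρ z) μ := hE ▸ Submodule.mem_top
    rw [Module.End.mem_eigenspace_iff] at h4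
    rw [h4]
    rfl
  have hd : ∀ g : P, ∃ d : F, ρ a * ρ g = d • (ρ g * ρ a) := by
    intro g
    have h1 : ⁅a, g⁆ ∈ Z₁ := by
      rw [← commutatorElement_inv]
      exact Z₁.inv_mem (hcomm g)
    obtain ⟨d, hd⟩ := hscal _ h1
    refine ⟨d, ?_⟩
    have e : a * g = ⁅a, g⁆ * (g * a) := by
      rw [commutatorElement_def]; group
    rw [← map_mul, e, map_mul, hd, map_mul, smul_mul_assoc, one_mul]
  have hmove : ∀ (g : P) (d : F), ρ a * ρ g = d • (ρ g * ρ a) → ∀ (ν : F) (v : V),
      v ∈ Module.End.eigenspace (ρ a) ν → ρ g v ∈ Module.End.eigenspace (ρ a) (d * ν) := by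
    intro g d hgd ν v hv
    rw [Module.End.mem_eigenspace_iff] at hv ⊢
    have h2 := congrArg (fun f : Module.End F V => f v) hgd
    simp only [Module.End.mul_apply, LinearMap.smul_apply] at h2
    rw [h2, hv, map_smul, smul_smul]
  have hT : (⨆ ν : F, Module.End.eigenspace (ρ a) ν) = ⊤ := by
    obtain ⟨μ, hμ⟩ := Module.End.exists_eigenvalue (ρ a)
    obtain ⟨w, hw⟩ := hμ.exists_hasEigenvector
    have hinv : ∀ g, (⨆ ν : F, Module.End.eigenspace (ρ a) ν) ≤
        (⨆ ν : F, Module.End.eigenspace (ρ a) ν).comap (ρ g) := by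
      intro g
      apply iSup_le
      intro ν v hv
      rw [Submodule.mem_comap]
      obtain ⟨d, hdg⟩ := hd g
      exact (le_iSup (fun ν => Module.End.eigenspace (ρ a) ν) (d * ν)) (hmove g d hdg ν v hv)
    rcases hirr _ hinv with h | h
    · exfalso
      have h3 : w ∈ (⨆ ν : F, Module.End.eigenspace (ρ a) ν) :=
        (le_iSup (fun ν => Module.End.eigenspace (ρ a) ν) μ) hw.1
      rw [h] at h3
      exact hw.2 ((Submodule.mem_bot F).mp h3)
    · exact h
  have ha0 : ρ a ≠ 0 := by
    intro h
    have h1 := rho_mul_inv ρ a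
    rw [h, zero_mul] at h1
    exact zero_ne_one h1
  -- conjugation scaling
  have hC1 : ∀ g : P, ∃ c : F, ρ (g * a * g⁻¹) = c • ρ a := by
    intro g
    obtain ⟨c, hc⟩ := hscal _ (hcomm g)
    refine ⟨c, ?_⟩
    have e : g * a * g⁻¹ = ⁅g, a⁆ * a := by
      rw [commutatorElement_def]; group
    rw [e, map_mul, hc, smul_mul_assoc, one_mul]
  have hCmul : ∀ (g h : P) (c c' : F), ρ (g * a * g⁻¹) = c • ρ a → ρ (h * a * h⁻¹) = c' • ρ a →
      ρ (g * h * a * (g * h)⁻¹) = (c * c') • ρ a := by
    intro g h c c' hg hh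
    have e : g * h * a * (g * h)⁻¹ = g * (h * a * h⁻¹) * g⁻¹ := by group
    rw [e, map_mul, map_mul, hh, mul_smul_comm, smul_mul_assoc, ← map_mul, ← map_mul, hg,
      smul_smul, mul_comm]
  have hCuniq : ∀ (c c' : F), c • ρ a = c' • ρ a → c = c' := by
    intro c c' h
    exact smul_left_injective F ha0 h
  have hCinv : ∀ (g : P) (c c' : F), ρ (g * a * g⁻¹) = c • ρ a →
      ρ (g⁻¹ * a * g⁻¹⁻¹) = c' • ρ a → c * c' = 1 := by
    intro g c c' hg hg'
    have h1 := hCmul g g⁻¹ c c' hg hg'
    rw [mul_inv_cancel, one_mul, inv_one, mul_one] at h1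
    apply hCuniq
    rw [one_smul]
    exact h1.symm
  let M : Subgroup P :=
    { carrier := {g | ρ g * ρ a = ρ a * ρ g}
      mul_mem' := by
        intro x y hx hy
        show ρ (x * y) * ρ a = ρ a * ρ (x * y)
        rw [map_mul, mul_assoc, hy, ← mul_assoc, hx, mul_assoc]
      one_mem' := by
        show ρ 1 * ρ a = ρ a * ρ 1
        rw [map_one, one_mul, mul_one]
      inv_mem' := by
        intro x hx
        show ρ x⁻¹ * ρ a = ρ a * ρ x⁻¹
        calc ρ x⁻¹ * ρ a = ρ x⁻¹ * (ρ a * ρ x) * ρ x⁻¹ := by
              rw [mul_assoc, mul_assoc, rho_mul_inv, mul_one]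
          _ = ρ x⁻¹ * (ρ x * ρ a) * ρ x⁻¹ := by rw [hx]
          _ = ρ a * ρ x⁻¹ := by rw [← mul_assoc, rho_inv_mul, one_mul] }
  have hMmem : ∀ g, g ∈ M ↔ ρ g * ρ a = ρ a * ρ g := fun g => Iff.rfl
  refine ⟨M, a, ?_, ?_, hT, ?_⟩
  · rw [commutator_def, Subgroup.commutator_le]
    intro g _ h _
    rw [hMmem]
    obtain ⟨c, hc⟩ := hC1 g
    obtain ⟨c', hc'⟩ := hC1 h
    obtain ⟨e, he⟩ := hC1 g⁻¹
    obtain ⟨e', he'⟩ := hC1 h⁻¹
    have h1 := hCmul g h c c' hc hc'
    have h2 := hCmul g⁻¹ h⁻¹ e e' he he'
    have h3 := hCmul (g * h) (g⁻¹ * h⁻¹) _ _ h1 h2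
    have h4 : c * c' * (e * e') = 1 := by
      have ha := hCinv g c e hc he
      have hb := hCinv h c' e' hc' he'
      calc c * c' * (e * e') = (c * e) * (c' * e') := by ring
        _ = 1 := by rw [ha, hb, one_mul]
    rw [h4, one_smul] at h3
    have e5 : g * h * (g⁻¹ * h⁻¹) = ⁅g, h⁆ := by
      rw [commutatorElement_def]; group
    rw [e5] at h3
    have h6 : ρ (⁅g, h⁆ * a * ⁅g, h⁆⁻¹) * ρ ⁅g, h⁆ = ρ (⁅g, h⁆ * a) := by
      rw [← map_mul, inv_mul_cancel_right]
    rw [h3, map_mul] at h6
    exact h6.symm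
  · intro g hg ν v hv
    rw [hMmem] at hg
    have h1 : ρ a * ρ g = (1 : F) • (ρ g * ρ a) := by rw [one_smul, hg]
    have h2 := hmove g 1 h1 ν v hv
    rwa [one_mul] at h2
  · intro ν
    obtain ⟨g₀, hg₀⟩ : ∃ g₀, ρ a * ρ g₀ ≠ ρ g₀ * ρ a := by
      by_contra h
      push Not at h
      exact haZ ((hZ₁mem a).mpr h)
    obtain ⟨d, hdg⟩ := hd g₀
    have hd1 : d ≠ 1 := by
      intro h
      rw [h, one_smul] at hdg
      exact hg₀ hdg
    by_cases hν : ν = 0
    · have hbot : Module.End.eigenspace (ρ a) ν = ⊥ := by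
        rw [eq_bot_iff]
        intro v hv
        rw [Module.End.mem_eigenspace_iff, hν, zero_smul] at hv
        have h1 := rho_injective ρ a (hv.trans (map_zero (ρ a)).symm)
        exact (Submodule.mem_bot F).mpr h1
      rw [hbot, finrank_bot]
      omega
    · have hdisj : Module.End.eigenspace (ρ a) ν ⊓ Module.End.eigenspace (ρ a) (d * ν) = ⊥ := by
        rw [eq_bot_iff]
        intro v hv
        obtain ⟨h1, h2⟩ := Submodule.mem_inf.mp hv
        rw [Module.End.mem_eigenspace_iff] at h1 h2
        have h3 : (ν - d * ν) • v = 0 := by rw [sub_smul, ← h1, ← h2, sub_self]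
        have hne : ν - d * ν ≠ 0 := by
          intro h
          apply hd1
          have h5 : (1 - d) * ν = 0 := by rw [sub_mul, one_mul]; exact h
          rcases mul_eq_zero.mp h5 with h | h
          · exact (sub_eq_zero.mp h).symm
          · exact absurd h hν
        exact (Submodule.mem_bot F).mpr ((smul_eq_zero.mp h3).resolve_left hne)
      have hle : finrank F (Module.End.eigenspace (ρ a) ν) ≤
          finrank F (Module.End.eigenspace (ρ a) (d * ν)) := by
        have hmap : (Module.End.eigenspace (ρ a) ν).map (ρ g₀) ≤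
            Module.End.eigenspace (ρ a) (d * ν) := by
          rintro _ ⟨v, hv, rfl⟩
          exact hmove g₀ d hdg ν v hv
        calc finrank F (Module.End.eigenspace (ρ a) ν)
            = finrank F ((Module.End.eigenspace (ρ a) ν).map (ρ g₀)) :=
              LinearEquiv.finrank_eq (Submodule.equivMapOfInjective (ρ g₀)
                (rho_injective ρ g₀) (Module.End.eigenspace (ρ a) ν))
          _ ≤ finrank F (Module.End.eigenspace (ρ a) (d * ν)) := Submodule.finrank_mono hmap
      have h1 := Submodule.finrank_sup_add_finrank_inf_eq (Module.End.eigenspace (ρ a) ν)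
        (Module.End.eigenspace (ρ a) (d * ν))
      rw [hdisj, finrank_bot, add_zero] at h1
      have h2 : finrank F (Module.End.eigenspace (ρ a) ν ⊔ Module.End.eigenspace (ρ a) (d * ν) :
          Submodule F V) ≤ finrank F V := Submodule.finrank_le _
      omega

end irreducible

section main

theorem claimA {F : Type*} [Field F] [IsAlgClosed F] {p : ℕ} [Fact p.Prime]
    (hpF : (p : F) ≠ 0) (n : ℕ) :
    ∀ (P : Type u) [Group P] [Finite P] (_ : IsPGroup p P) (V : Type v) [AddCommGroup V]
      [Module F V] [FiniteDimensional F V] (ρ : Representation F P V), finrank F V = n →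
      derivedSeries P (Nat.log 2 n + 1) ≤ MonoidHom.ker ρ := by
  induction n using Nat.strong_induction_on with
  | _ n ih =>
    intro P _ _ hP V _ _ _ ρ hn
    by_cases h0 : n = 0
    · have hsub : Subsingleton V := by
        rw [← Module.finrank_zero_iff (R := F)]
        omega
      intro g _
      rw [MonoidHom.mem_ker]
      apply LinearMap.ext
      intro v
      exact Subsingleton.elim _ _
    by_cases hred : ∃ W : Submodule F V, (∀ g, W ≤ W.comap (ρ g)) ∧ W ≠ ⊥ ∧ W ≠ ⊤
    · obtain ⟨W, hW, hWb, hWt⟩ := hred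
      have hd1 : finrank F W < n := by
        rw [← hn]
        exact Submodule.finrank_lt hWt
      have hd0 : 0 < finrank F W := by
        have : Nontrivial W := (Submodule.nontrivial_iff_ne_bot).mpr hWb
        exact Module.finrank_pos
      have hQ : finrank F (V ⧸ W) = n - finrank F W := by
        rw [Submodule.finrank_quotient, hn]
      have ih1 := ih _ hd1 P hP W (ρ.subrepresentation W hW) rfl
      have ih2 := ih _ (by omega) P hP (V ⧸ W) (ρ.quotient W hW) hQ
      intro g hg
      have hg1 : g ∈ MonoidHom.ker (ρ.subrepresentation W hW) :=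
        ih1 (derivedSeries_antitone P
          (by have := Nat.log_mono_right (b := 2) hd1.le; omega) hg)
      have hg2 : g ∈ MonoidHom.ker (ρ.quotient W hW) :=
        ih2 (derivedSeries_antitone P
          (by have := Nat.log_mono_right (b := 2) (Nat.sub_le n (finrank F W)); omega) hg)
      obtain ⟨k, hk⟩ := hP g
      rw [MonoidHom.mem_ker]
      exact eq_one_of_mem_kers ρ W ((mem_ker_sub ρ W hW g).mp hg1)
        ((mem_ker_quot ρ W hW g).mp hg2) hk (by rw [Nat.cast_pow]; exact pow_ne_zero _ hpF)
    · have hirr : ∀ W : Submodule F V, (∀ g, W ≤ W.comap (ρ g)) → W = ⊥ ∨ W = ⊤ := by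
        intro W hW
        by_contra h
        push Not at h
        exact hred ⟨W, hW, h.1, h.2⟩
      have hnt : Nontrivial V := Module.nontrivial_of_finrank_pos (R := F) (by omega)
      by_cases hab : ∀ g h, ρ g * ρ h = ρ h * ρ g
      · have h1 := derivedSeries_succ_le_ker ρ 0 (fun g _ h _ => hab g h)
        exact le_trans (derivedSeries_antitone P (by omega)) h1
      · obtain ⟨M, a, hPM, hMinv, hT, hdim⟩ := irred_step hP ρ hirr hab
        have hMinv' : ∀ (ν : F) (g : M), Module.End.eigenspace (ρ a) ν ≤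
            (Module.End.eigenspace (ρ a) ν).comap ((ρ.comp M.subtype) g) :=
          fun ν g v hv => hMinv g g.2 ν v hv
        have hn2 : 2 ≤ n := by
          obtain ⟨μ, hμ⟩ := Module.End.exists_eigenvalue (ρ a)
          obtain ⟨w, hw⟩ := hμ.exists_hasEigenvector
          have hpos : 0 < finrank F (Module.End.eigenspace (ρ a) μ) := by
            have : Nontrivial (Module.End.eigenspace (ρ a) μ) :=
              (Submodule.nontrivial_iff_ne_bot).mpr (fun h => hw.2 (by
                have h3 : w ∈ Module.End.eigenspace (ρ a) μ := hw.1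
                rw [h] at h3
                exact (Submodule.mem_bot F).mp h3))
            exact Module.finrank_pos
          have := hdim μ
          omega
        have hkey : ∀ h ∈ derivedSeries M (Nat.log 2 (n / 2) + 1), ρ (h : P) = 1 := by
          intro h hh
          have hν : ∀ ν : F, Module.End.eigenspace (ρ a) ν ≤ LinearMap.ker (ρ (h : P) - 1) := by
            intro ν
            have hdν : finrank F (Module.End.eigenspace (ρ a) ν) ≤ n / 2 := by
              have := hdim ν
              omega
            have hlt : finrank F (Module.End.eigenspace (ρ a) ν) < n := by omega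
            have ihν := ih _ hlt M (hP.to_subgroup M) (Module.End.eigenspace (ρ a) ν)
              (Representation.subrepresentation (ρ.comp M.subtype : Representation F M V) _ (hMinv' ν)) rfl
            have hmem : h ∈ MonoidHom.ker (Representation.subrepresentation
                (ρ.comp M.subtype : Representation F M V) _ (hMinv' ν)) :=
              ihν (derivedSeries_antitone M
                (by have := Nat.log_mono_right (b := 2) hdν; omega) hh)
            have h5 := (mem_ker_sub (ρ.comp M.subtype : Representation F M V) _ (hMinv' ν) h).mp hmem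
            intro v hv
            rw [LinearMap.mem_ker, LinearMap.sub_apply, Module.End.one_apply, sub_eq_zero]
            exact h5 v hv
          have h6 : (⊤ : Submodule F V) ≤ LinearMap.ker (ρ (h : P) - 1) := by
            rw [← hT]
            exact iSup_le hν
          apply LinearMap.ext
          intro v
          have h7 := h6 (Submodule.mem_top : v ∈ ⊤)
          rw [LinearMap.mem_ker, LinearMap.sub_apply, sub_eq_zero] at h7
          exact h7
        have hlog : Nat.log 2 n + 1 = (Nat.log 2 (n / 2) + 1) + 1 := by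
          rw [Nat.log_of_one_lt_of_le (by norm_num) hn2]
        rw [hlog]
        refine le_trans (derivedSeries_succ_le_map M hPM _) ?_
        rintro _ ⟨h, hh, rfl⟩
        exact MonoidHom.mem_ker.mpr (hkey h hh)

theorem linear_pgroup_dl {P : Type*} [Group P] [Finite P] (p : ℕ) [Fact p.Prime]
    (hP : IsPGroup p P) (F : Type*) [Field F] (n : ℕ)
    (ρ : P →* Matrix.GeneralLinearGroup (Fin n) F) (hρ : Function.Injective ρ) :
    derivedSeries P (Nat.log 2 n + 1) = ⊥ := by
  rw [eq_bot_iff]
  by_cases hpF : (p : F) = 0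
  · let ρ' : Representation F P (Fin n → F) :=
      ((Matrix.toLinAlgEquiv' : Matrix (Fin n) (Fin n) F ≃ₐ[F] Module.End F (Fin n → F)) :
        Matrix (Fin n) (Fin n) F →* Module.End F (Fin n → F)).comp
        ((Units.coeHom _).comp ρ)
    have hker : MonoidHom.ker ρ' = ⊥ := by
      rw [eq_bot_iff]
      intro g hg
      rw [MonoidHom.mem_ker] at hg
      rw [Subgroup.mem_bot]
      apply hρ
      apply Units.ext
      apply (Matrix.toLinAlgEquiv' :
        Matrix (Fin n) (Fin n) F ≃ₐ[F] Module.End F (Fin n → F)).injective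
      rw [map_one, Units.val_one, map_one]
      exact hg
    have h1 := claimU hP hpF n (Fin n → F) ρ' (Module.finrank_fin_fun F)
    rw [hker] at h1
    refine le_trans (derivedSeries_antitone P ?_) h1
    exact Nat.clog_le_of_le_pow (Nat.lt_pow_succ_log_self (by norm_num) n).le
  · let K := AlgebraicClosure F
    have hinjK : Function.Injective (algebraMap F K) := (algebraMap F K).injective
    have hpK : (p : K) ≠ 0 := by
      intro h
      apply hpF
      apply hinjK
      rw [map_natCast, map_zero]
      exact h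
    let ρ' : Representation K P (Fin n → K) :=
      ((Matrix.toLinAlgEquiv' : Matrix (Fin n) (Fin n) K ≃ₐ[K] Module.End K (Fin n → K)) :
        Matrix (Fin n) (Fin n) K →* Module.End K (Fin n → K)).comp
        ((((algebraMap F K).mapMatrix : Matrix (Fin n) (Fin n) F →+* Matrix (Fin n) (Fin n) K) :
          Matrix (Fin n) (Fin n) F →* Matrix (Fin n) (Fin n) K).comp
          ((Units.coeHom _).comp ρ))
    have hker : MonoidHom.ker ρ' = ⊥ := by
      rw [eq_bot_iff]
      intro g hg
      rw [MonoidHom.mem_ker] at hg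
      rw [Subgroup.mem_bot]
      apply hρ
      apply Units.ext
      apply Matrix.map_injective hinjK
      apply (Matrix.toLinAlgEquiv' :
        Matrix (Fin n) (Fin n) K ≃ₐ[K] Module.End K (Fin n → K)).injective
      rw [map_one, Units.val_one]
      have e : (1 : Matrix (Fin n) (Fin n) F).map (algebraMap F K) = 1 :=
        map_one (algebraMap F K).mapMatrix
      show Matrix.toLinAlgEquiv' ((ρ g : Matrix (Fin n) (Fin n) F).map (algebraMap F K)) =
        Matrix.toLinAlgEquiv' ((1 : Matrix (Fin n) (Fin n) F).map (algebraMap F K))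
      rw [e, map_one]
      exact hg
    have h1 := claimA hpK n P hP (Fin n → K) ρ' (Module.finrank_fin_fun K)
    rw [hker] at h1
    exact h1

end main

end Cfsg.Agent.Lib.helper10.LinDL
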