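import Cfsg.Agent.Lib.helper10.LinDL

set_option autoImplicit false

namespace Cfsg.Agent.Lib.helper10.LinDL

open Module

universe u v

section frob

theorem sum_finrank_eigenspace {K V : Type*} [Field K] [AddCommGroup V] [Module K V]
    [FiniteDimensional K V] (f : Module.End K V) (s : Finset K) :
    ∑ μ ∈ s, finrank K (Module.End.eigenspace f μ) =
      finrank K (⨆ μ ∈ s, Module.End.eigenspace f μ : Submodule K V) := by
  classical
  induction s using Finset.induction_on with
  | empty =>
    have h0 : (⨆ μ ∈ (∅ : Finset K), Module.End.eigenspace f μ : Submodule K V) = ⊥ := by simp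
    rw [h0, finrank_bot, Finset.sum_empty]
  | insert μ₀ s hμ₀ ih =>
    rw [Finset.sum_insert hμ₀, Finset.iSup_insert, ih]
    have hdisj : Module.End.eigenspace f μ₀ ⊓ (⨆ μ ∈ s, Module.End.eigenspace f μ) = ⊥ := by
      have h := (Module.End.eigenspaces_iSupIndep f) μ₀
      have hle : (⨆ μ ∈ s, Module.End.eigenspace f μ) ≤
          ⨆ j, ⨆ (_ : j ≠ μ₀), Module.End.eigenspace f j := by
        apply iSup₂_le
        intro μ hμ
        exact le_iSup₂_of_le μ (fun h => hμ₀ (h ▸ hμ)) le_rfl
      exact (h.mono_right hle).eq_bot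
    have h1 := Submodule.finrank_sup_add_finrank_inf_eq (Module.End.eigenspace f μ₀)
      (⨆ μ ∈ s, Module.End.eigenspace f μ)
    rw [hdisj, finrank_bot, add_zero] at h1
    exact h1.symm

variable {F : Type*} [Field F] [Fintype F] {K : Type*} [Field K] [Algebra F K]
  [Algebra.IsAlgebraic F K] {n : ℕ}

theorem finrank_eigenspace_frob (N : Matrix (Fin n) (Fin n) F) (f : Module.End K (Fin n → K))
    (hf : ∀ v, f v = (N.map (algebraMap F K)).mulVec v) (ζ : K) :
    finrank K (Module.End.eigenspace f ζ) ≤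
      finrank K (Module.End.eigenspace f (ζ ^ Fintype.card F)) := by
  classical
  set ψ := FiniteField.frobeniusAlgEquivOfAlgebraic F K with hψ
  have hψc : ∀ x : K, ψ x = x ^ Fintype.card F := fun x => rfl
  let j : (Fin n → K) →+ (Fin n → K) :=
    { toFun := fun v i => ψ (v i)
      map_zero' := by funext i; simp
      map_add' := by intro v w; funext i; simp }
  have hj : ∀ v i, j v i = ψ (v i) := fun v i => rfl
  have hjsm : ∀ (r : K) (m : Fin n → K), j (r • m) = ψ r • j m := by
    intro r m
    funext i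
    rw [hj, Pi.smul_apply, Pi.smul_apply, hj, smul_eq_mul, smul_eq_mul, map_mul]
  have hjf : ∀ v, f (j v) = j (f v) := by
    intro v
    funext i
    rw [hf, hj, hf]
    simp only [Matrix.mulVec, dotProduct, Matrix.map_apply, hj]
    rw [map_sum]
    apply Finset.sum_congr rfl
    intro k _
    rw [map_mul, AlgEquiv.commutes]
  have hjinj : ∀ m, j m = 0 → m = 0 := by
    intro m hm
    funext i
    have h1 := congrFun hm i
    rw [hj] at h1
    exact (map_eq_zero_iff ψ ψ.injective).mp h1
  let b := Module.finBasis K (Module.End.eigenspace f ζ)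
  have hli : LinearIndependent K (fun i => (b i : Fin n → K)) :=
    b.linearIndependent.map' (Submodule.subtype _) (Submodule.ker_subtype _)
  have hli2 : LinearIndependent K (j ∘ fun i => (b i : Fin n → K)) :=
    hli.map_of_surjective_injective (ψ : K → K) j ψ.surjective hjinj hjsm
  have hspan : Submodule.span K (Set.range (j ∘ fun i => (b i : Fin n → K))) ≤
      Module.End.eigenspace f (ζ ^ Fintype.card F) := by
    rw [Submodule.span_le]
    rintro _ ⟨i, rfl⟩
    rw [SetLike.mem_coe, Module.End.mem_eigenspace_iff]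
    have hb : f (b i : Fin n → K) = ζ • (b i : Fin n → K) :=
      Module.End.mem_eigenspace_iff.mp (b i).2
    show f (j (b i)) = _
    rw [hjf, hb, hjsm, hψc]
    rfl
  calc finrank K (Module.End.eigenspace f ζ)
      = Fintype.card (Fin (finrank K (Module.End.eigenspace f ζ))) := (Fintype.card_fin _).symm
    _ = finrank K (Submodule.span K (Set.range (j ∘ fun i => (b i : Fin n → K)))) :=
        (finrank_span_eq_card hli2).symm
    _ ≤ _ := Submodule.finrank_mono hspan

end frob

section finite
variable {F : Type*} [Field F] [Fintype F] {p : ℕ} [Fact p.Prime]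

omit [Fact p.Prime] in
theorem natCast_ne_zero_of_not_dvd_card [Fact p.Prime] (hpq : ¬ p ∣ Fintype.card F) :
    (p : F) ≠ 0 := by
  intro h
  obtain ⟨l, hl⟩ := CharP.exists F
  have h1 : l ∣ p := (CharP.cast_eq_zero_iff F l p).mp h
  have h2 : l ∣ Fintype.card F :=
    (CharP.cast_eq_zero_iff F l _).mp (FiniteField.cast_card_eq_zero F)
  have hl1 : l ≠ 1 := CharP.char_ne_one F l
  have h3 : l = p := ((Fact.out : p.Prime).eq_one_or_self_of_dvd l h1).resolve_left hl1
  exact hpq (h3 ▸ h2)

omit [Field F] [Fact p.Prime] in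
theorem orderOf_card_pos [Fact p.Prime] (hpq : ¬ p ∣ Fintype.card F) :
    0 < orderOf (Fintype.card F : ZMod p) := by
  rw [orderOf_pos_iff, isOfFinOrder_iff_pow_eq_one]
  refine ⟨p - 1, ?_, ?_⟩
  · have := (Fact.out : p.Prime).two_le
    omega
  · apply ZMod.pow_card_sub_one_eq_one
    intro h
    exact hpq ((ZMod.natCast_eq_zero_iff _ _).mp h)

theorem irred_fin_step (hpq : ¬ p ∣ Fintype.card F)
    {P : Type u} [Group P] [Finite P] (hP : IsPGroup p P) {V : Type v} [AddCommGroup V]
    [Module F V] [FiniteDimensional F V] (ρ : Representation F P V)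
    (hirr : ∀ W : Submodule F V, (∀ g, W ≤ W.comap (ρ g)) → W = ⊥ ∨ W = ⊤) :
    derivedSeries P (Nat.log 2 (finrank F V / orderOf (Fintype.card F : ZMod p)) + 1) ≤
      MonoidHom.ker ρ := by
  classical
  have hpF : (p : F) ≠ 0 := natCast_ne_zero_of_not_dvd_card hpq
  have he0 := orderOf_card_pos (F := F) hpq
  by_cases htriv : ∀ g, ρ g = 1
  · intro g _
    exact MonoidHom.mem_ker.mpr (htriv g)
  have hK0 : MonoidHom.ker ρ ≠ ⊤ := by
    intro h
    apply htriv
    intro g
    exact MonoidHom.mem_ker.mp (h ▸ Subgroup.mem_top g)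
  have hnt : Nontrivial (P ⧸ MonoidHom.ker ρ) := QuotientGroup.nontrivial_iff.mpr hK0
  have hPQ : IsPGroup p (P ⧸ MonoidHom.ker ρ) := hP.to_quotient _
  have hcn := hPQ.center_nontrivial
  obtain ⟨⟨x, hxc⟩, hx1⟩ := exists_ne (1 : Subgroup.center (P ⧸ MonoidHom.ker ρ))
  obtain ⟨z₀, rfl⟩ := QuotientGroup.mk_surjective x
  have hz₀1 : ρ z₀ ≠ 1 := by
    intro h
    apply hx1
    apply Subtype.ext
    exact (QuotientGroup.eq_one_iff z₀).mpr (MonoidHom.mem_ker.mpr h)
  have hz₀c : ∀ g, ρ z₀ * ρ g = ρ g * ρ z₀ := by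
    intro g
    have h1 := Subgroup.mem_center_iff.mp hxc (g : P ⧸ MonoidHom.ker ρ)
    rw [← QuotientGroup.mk_mul, ← QuotientGroup.mk_mul, QuotientGroup.eq] at h1
    rw [MonoidHom.mem_ker] at h1
    have h2 : ρ (z₀ * g) = ρ (g * z₀) := by
      have e : z₀ * g = (g * z₀) * ((g * z₀)⁻¹ * (z₀ * g)) := by group
      rw [e, map_mul, h1, mul_one]
    rw [← map_mul, ← map_mul, h2]
  obtain ⟨k₀, hk₀⟩ := hP z₀
  have hex : ∃ m, ρ (z₀ ^ p ^ m) = 1 := ⟨k₀, by rw [hk₀, map_one]⟩
  have hm1 : ρ (z₀ ^ p ^ Nat.find hex) = 1 := Nat.find_spec hex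
  have hm0 : Nat.find hex ≠ 0 := by
    intro h
    rw [h, pow_zero, pow_one] at hm1
    exact hz₀1 hm1
  obtain ⟨m', hm'⟩ := Nat.exists_eq_succ_of_ne_zero hm0
  have hz1 : ρ (z₀ ^ p ^ m') ≠ 1 := by
    intro h
    exact Nat.find_min hex (m := m') (by omega) h
  have hzp : ρ (z₀ ^ p ^ m') ^ p = 1 := by
    rw [← map_pow, ← pow_mul, ← pow_succ, ← Nat.succ_eq_add_one, ← hm']
    exact hm1
  have hzc : ∀ g, ρ (z₀ ^ p ^ m') * ρ g = ρ g * ρ (z₀ ^ p ^ m') := by
    intro g
    rw [map_pow]
    exact (Commute.pow_left (hz₀c g) _ : Commute _ _).eq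
  generalize z₀ ^ p ^ m' = z at hz1 hzp hzc
  have hker : LinearMap.ker (ρ z - 1) = ⊥ := by
    have hinv : ∀ g, LinearMap.ker (ρ z - 1) ≤ (LinearMap.ker (ρ z - 1)).comap (ρ g) := by
      intro g v hv
      rw [Submodule.mem_comap, LinearMap.mem_ker, LinearMap.sub_apply, Module.End.one_apply,
        sub_eq_zero]
      rw [LinearMap.mem_ker, LinearMap.sub_apply, Module.End.one_apply, sub_eq_zero] at hv
      have h2 := congrArg (fun f : Module.End F V => f v) (hzc g)
      simp only [Module.End.mul_apply] at h2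
      rw [h2, hv]
    rcases hirr _ hinv with h | h
    · exact h
    · exfalso
      apply hz1
      apply LinearMap.ext
      intro v
      have h3 : v ∈ LinearMap.ker (ρ z - 1) := h ▸ Submodule.mem_top
      rw [LinearMap.mem_ker, LinearMap.sub_apply, sub_eq_zero] at h3
      exact h3
  -- base change
  set n := finrank F V with hn
  let b : Basis (Fin n) F V := Module.finBasis F V
  let K := AlgebraicClosure F
  have hinjK : Function.Injective (algebraMap F K) := (algebraMap F K).injective
  have hpK : (p : K) ≠ 0 := by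
    intro h
    apply hpF
    apply hinjK
    rw [map_natCast, map_zero]
    exact h
  let Φ : Module.End F V →+* Module.End K (Fin n → K) :=
    ((Matrix.toLinAlgEquiv' : Matrix (Fin n) (Fin n) K ≃ₐ[K] Module.End K (Fin n → K)) :
      Matrix (Fin n) (Fin n) K →+* Module.End K (Fin n → K)).comp
      (((algebraMap F K).mapMatrix).comp
        ((LinearMap.toMatrixAlgEquiv b : Module.End F V ≃ₐ[F] Matrix (Fin n) (Fin n) F) :
          Module.End F V →+* Matrix (Fin n) (Fin n) F))
  have hΦinj : Function.Injective Φ := by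
    intro B B' h
    apply (LinearMap.toMatrixAlgEquiv b).injective
    apply Matrix.map_injective hinjK
    exact (Matrix.toLinAlgEquiv' :
      Matrix (Fin n) (Fin n) K ≃ₐ[K] Module.End K (Fin n → K)).injective h
  have hΦapp : ∀ (B : Module.End F V) (v : Fin n → K),
      Φ B v = ((LinearMap.toMatrixAlgEquiv b B).map (algebraMap F K)).mulVec v := by
    intro B v
    rfl
  let ρK : Representation K P (Fin n → K) := (Φ : Module.End F V →* _).comp ρ
  have hρK : ∀ g, ρK g = Φ (ρ g) := fun g => rfl
  have hAp : Φ (ρ z) ^ p = 1 := by rw [← map_pow, hzp, map_one]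
  have hAc : ∀ g, Φ (ρ z) * ρK g = ρK g * Φ (ρ z) := by
    intro g
    rw [hρK, ← map_mul Φ, ← map_mul Φ, hzc g]
  have hA1 : Module.End.eigenspace (Φ (ρ z)) 1 = ⊥ := by
    have hu : IsUnit (ρ z - 1) := (LinearMap.isUnit_iff_ker_eq_bot _).mpr hker
    have hu2 : IsUnit (Φ (ρ z - 1)) := hu.map Φ
    rw [map_sub, map_one] at hu2
    rw [Module.End.eigenspace_def, one_smul]
    exact (LinearMap.isUnit_iff_ker_eq_bot _).mp hu2
  have hss : (Φ (ρ z)).IsSemisimple := by
    apply Module.End.isSemisimple_of_squarefree_aeval_eq_zero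
      (p := (Polynomial.X ^ p - Polynomial.C (1 : K)))
    · exact (Polynomial.separable_X_pow_sub_C (1 : K) hpK one_ne_zero).squarefree
    · simp [hAp]
  have hT := hss.iSup_eigenspace_eq_top
  -- dimension bound
  have hfrob : ∀ μ : K, finrank K (Module.End.eigenspace (Φ (ρ z)) μ) ≤
      finrank K (Module.End.eigenspace (Φ (ρ z)) (μ ^ Fintype.card F)) :=
    fun μ => finrank_eigenspace_frob (LinearMap.toMatrixAlgEquiv b (ρ z)) (Φ (ρ z))
      (hΦapp (ρ z)) μ
  have hfrobi : ∀ (μ : K) (i : ℕ), finrank K (Module.End.eigenspace (Φ (ρ z)) μ) ≤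
      finrank K (Module.End.eigenspace (Φ (ρ z)) (μ ^ (Fintype.card F ^ i))) := by
    intro μ i
    induction i with
    | zero => rw [pow_zero, pow_one]
    | succ i ih =>
      rw [pow_succ, pow_mul]
      exact le_trans ih (hfrob _)
  have hdim : ∀ μ : K, finrank K (Module.End.eigenspace (Φ (ρ z)) μ) ≤
      n / orderOf (Fintype.card F : ZMod p) := by
    intro μ
    by_cases hbot : Module.End.eigenspace (Φ (ρ z)) μ = ⊥
    · rw [hbot, finrank_bot]
      exact Nat.zero_le _
    obtain ⟨w, hw, hw0⟩ := (Submodule.ne_bot_iff _).mp hbot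
    rw [Module.End.mem_eigenspace_iff] at hw
    have hpow : ∀ k : ℕ, (Φ (ρ z) ^ k) w = μ ^ k • w := by
      intro k
      induction k with
      | zero => simp
      | succ k ih =>
        rw [pow_succ, Module.End.mul_apply, hw, map_smul, ih, smul_smul, pow_succ, mul_comm]
    have hμp : μ ^ p = 1 := by
      have h1 := hpow p
      rw [hAp, Module.End.one_apply] at h1
      have h2 : (μ ^ p - 1) • w = 0 := by rw [sub_smul, one_smul, ← h1, sub_self]
      exact sub_eq_zero.mp ((smul_eq_zero.mp h2).resolve_right hw0)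
    have hμ1 : μ ≠ 1 := by
      intro h
      rw [h] at hbot
      exact hbot hA1
    have hord : orderOf μ = p := orderOf_eq_prime hμp hμ1
    have hinj : Set.InjOn (fun i : ℕ => μ ^ (Fintype.card F ^ i))
        (Finset.range (orderOf (Fintype.card F : ZMod p)) : Set ℕ) := by
      intro i hi i' hi' hii
      simp only [Finset.coe_range, Set.mem_Iio] at hi hi'
      have hii' : μ ^ (Fintype.card F ^ i) = μ ^ (Fintype.card F ^ i') := hii
      have h1 : Fintype.card F ^ i ≡ Fintype.card F ^ i' [MOD p] := by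
        rw [← hord]
        exact (IsOfFinOrder.pow_eq_pow_iff_modEq (isOfFinOrder_iff_pow_eq_one.mpr
          ⟨p, (Fact.out : p.Prime).pos, hμp⟩)).mp hii'
      have h2 : (Fintype.card F : ZMod p) ^ i = (Fintype.card F : ZMod p) ^ i' := by
        rw [← Nat.cast_pow, ← Nat.cast_pow]
        exact (ZMod.natCast_eq_natCast_iff _ _ _).mpr h1
      exact pow_injOn_Iio_orderOf hi hi' h2
    have hsum := sum_finrank_eigenspace (Φ (ρ z))
      ((Finset.range (orderOf (Fintype.card F : ZMod p))).image
        (fun i : ℕ => μ ^ (Fintype.card F ^ i)))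
    rw [Finset.sum_image hinj] at hsum
    have hle : finrank K (⨆ ν ∈ (Finset.range (orderOf (Fintype.card F : ZMod p))).image
        (fun i : ℕ => μ ^ (Fintype.card F ^ i)), Module.End.eigenspace (Φ (ρ z)) ν :
        Submodule K (Fin n → K)) ≤ n := by
      have h5 := Submodule.finrank_le (⨆ ν ∈ (Finset.range
        (orderOf (Fintype.card F : ZMod p))).image
        (fun i : ℕ => μ ^ (Fintype.card F ^ i)), Module.End.eigenspace (Φ (ρ z)) ν :
        Submodule K (Fin n → K))
      rw [Module.finrank_fin_fun] at h5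
      exact h5
    have hge : orderOf (Fintype.card F : ZMod p) *
        finrank K (Module.End.eigenspace (Φ (ρ z)) μ) ≤
        ∑ i ∈ Finset.range (orderOf (Fintype.card F : ZMod p)),
          finrank K (Module.End.eigenspace (Φ (ρ z)) (μ ^ (Fintype.card F ^ i))) := by
      have h6 := Finset.card_nsmul_le_sum (Finset.range (orderOf (Fintype.card F : ZMod p)))
        (fun i => finrank K (Module.End.eigenspace (Φ (ρ z)) (μ ^ (Fintype.card F ^ i))))
        (finrank K (Module.End.eigenspace (Φ (ρ z)) μ)) (fun i _ => hfrobi μ i)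
      rw [Finset.card_range, smul_eq_mul] at h6
      exact h6
    rw [Nat.le_div_iff_mul_le he0, mul_comm]
    exact le_trans hge (le_of_eq_of_le hsum hle)
  -- conclusion
  have hUinv : ∀ (μ : K) (g : P), Module.End.eigenspace (Φ (ρ z)) μ ≤
      (Module.End.eigenspace (Φ (ρ z)) μ).comap (ρK g) := by
    intro μ g v hv
    rw [Submodule.mem_comap, Module.End.mem_eigenspace_iff]
    rw [Module.End.mem_eigenspace_iff] at hv
    have h2 := congrArg (fun f : Module.End K (Fin n → K) => f v) (hAc g)
    simp only [Module.End.mul_apply] at h2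
    rw [h2, hv, map_smul]
  intro g hg
  rw [MonoidHom.mem_ker]
  apply hΦinj
  rw [map_one, ← hρK]
  have hν : ∀ μ : K, Module.End.eigenspace (Φ (ρ z)) μ ≤ LinearMap.ker (ρK g - 1) := by
    intro μ
    have h1 := claimA hpK _ P hP (Module.End.eigenspace (Φ (ρ z)) μ)
      (ρK.subrepresentation _ (hUinv μ)) rfl
    have hmem : g ∈ MonoidHom.ker (ρK.subrepresentation _ (hUinv μ)) :=
      h1 (derivedSeries_antitone P
        (by have := Nat.log_mono_right (b := 2) (hdim μ); omega) hg)
    have h5 := (mem_ker_sub ρK _ (hUinv μ) g).mp hmem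
    intro v hv
    rw [LinearMap.mem_ker, LinearMap.sub_apply, Module.End.one_apply, sub_eq_zero]
    exact h5 v hv
  have h6 : (⊤ : Submodule K (Fin n → K)) ≤ LinearMap.ker (ρK g - 1) := by
    rw [← hT]
    exact iSup_le hν
  apply LinearMap.ext
  intro v
  have h7 := h6 (Submodule.mem_top : v ∈ ⊤)
  rw [LinearMap.mem_ker, LinearMap.sub_apply, sub_eq_zero] at h7
  exact h7

theorem claimB (hpq : ¬ p ∣ Fintype.card F) {P : Type u} [Group P] [Finite P]
    (hP : IsPGroup p P) (n : ℕ) :
    ∀ (V : Type v) [AddCommGroup V] [Module F V] [FiniteDimensional F V]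
      (ρ : Representation F P V), finrank F V = n →
      derivedSeries P (Nat.log 2 (n / orderOf (Fintype.card F : ZMod p)) + 1) ≤
        MonoidHom.ker ρ := by
  induction n using Nat.strong_induction_on with
  | _ n ih =>
    intro V _ _ _ ρ hn
    by_cases hred : ∃ W : Submodule F V, (∀ g, W ≤ W.comap (ρ g)) ∧ W ≠ ⊥ ∧ W ≠ ⊤
    · obtain ⟨W, hW, hWb, hWt⟩ := hred
      have hd1 : finrank F W < n := by
        rw [← hn]
        exact Submodule.finrank_lt hWt
      have hd0 : 0 < finrank F W := by
        have : Nontrivial W := (Submodule.nontrivial_iff_ne_bot).mpr hWb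
        exact Module.finrank_pos
      have hQ : finrank F (V ⧸ W) = n - finrank F W := by
        rw [Submodule.finrank_quotient, hn]
      have ih1 := ih _ hd1 W (ρ.subrepresentation W hW) rfl
      have ih2 := ih _ (by omega) (V ⧸ W) (ρ.quotient W hW) hQ
      intro g hg
      have hg1 : g ∈ MonoidHom.ker (ρ.subrepresentation W hW) :=
        ih1 (derivedSeries_antitone P
          (by have := Nat.log_mono_right (b := 2) (Nat.div_le_div_right
                (c := orderOf (Fintype.card F : ZMod p)) hd1.le); omega) hg)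
      have hg2 : g ∈ MonoidHom.ker (ρ.quotient W hW) :=
        ih2 (derivedSeries_antitone P
          (by have := Nat.log_mono_right (b := 2) (Nat.div_le_div_right
                (c := orderOf (Fintype.card F : ZMod p)) (Nat.sub_le n (finrank F W))); omega)
          hg)
      obtain ⟨k, hk⟩ := hP g
      rw [MonoidHom.mem_ker]
      exact eq_one_of_mem_kers ρ W ((mem_ker_sub ρ W hW g).mp hg1)
        ((mem_ker_quot ρ W hW g).mp hg2) hk
        (by rw [Nat.cast_pow]; exact pow_ne_zero _ (natCast_ne_zero_of_not_dvd_card hpq))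
    · have hirr : ∀ W : Submodule F V, (∀ g, W ≤ W.comap (ρ g)) → W = ⊥ ∨ W = ⊤ := by
        intro W hW
        by_contra h
        push Not at h
        exact hred ⟨W, hW, h.1, h.2⟩
      rw [← hn]
      exact irred_fin_step hpq hP ρ hirr

theorem gl_finite_pgroup_dl (hpq : ¬ p ∣ Fintype.card F) (n : ℕ)
    (P : Subgroup (Matrix.GeneralLinearGroup (Fin n) F)) (hP : IsPGroup p P) :
    derivedSeries ↥P (Nat.log 2 (n / orderOf (Fintype.card F : ZMod p)) + 1) = ⊥ := by
  classical
  rw [eq_bot_iff]
  let ρ' : Representation F P (Fin n → F) :=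
    ((Matrix.toLinAlgEquiv' : Matrix (Fin n) (Fin n) F ≃ₐ[F] Module.End F (Fin n → F)) :
      Matrix (Fin n) (Fin n) F →* Module.End F (Fin n → F)).comp
      ((Units.coeHom _).comp P.subtype)
  have hker : MonoidHom.ker ρ' = ⊥ := by
    rw [eq_bot_iff]
    intro g hg
    rw [MonoidHom.mem_ker] at hg
    rw [Subgroup.mem_bot]
    apply Subtype.ext
    apply Units.ext
    apply (Matrix.toLinAlgEquiv' :
      Matrix (Fin n) (Fin n) F ≃ₐ[F] Module.End F (Fin n → F)).injective
    rw [Subgroup.coe_one, Units.val_one, map_one]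
    exact hg
  have h1 := claimB hpq hP n (Fin n → F) ρ' (Module.finrank_fin_fun F)
  rw [hker] at h1
  exact h1

end finite

end Cfsg.Agent.Lib.helper10.LinDL
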