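import Mathlib
import Cfsg.Prelude.Def_LieClassical
import Cfsg.Agent.Lib.helper10.GUPrime
import Cfsg.Agent.Lib.helper18.PGL4
import Cfsg.Agent.Lib.helper4.USU

/-!
# Classes of prime order in `PGU_n(q)`
-/

set_option autoImplicit false

namespace Cfsg.Agent.Lib.helper10.PGU

open Matrix Polynomial Cfsg.Agent.Lib.helper10.GUConj Cfsg.Agent.Lib.helper10.GUUnip
  Cfsg.Agent.Lib.helper10.GUDet Cfsg.Agent.Lib.helper10.SUCount Cfsg.Agent.Lib.helper10.GUPrime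
  Cfsg.Agent.Lib.helper18.RCF Cfsg.Agent.Lib.helper18.PGL
open scoped MatrixGroups

variable {K : Type*} [Field K] {n : ℕ} {q : ℕ}

/-- the matrix of an element of `GU` -/
def gmat (g : ↥(Cfsg.GU n K q)) : Matrix (Fin n) (Fin n) K :=
  ((g : GL (Fin n) K) : Matrix (Fin n) (Fin n) K)

theorem gmat_mul (g h : ↥(Cfsg.GU n K q)) : gmat (g * h) = gmat g * gmat h := rfl

theorem gmat_one : gmat (1 : ↥(Cfsg.GU n K q)) = 1 := rfl

theorem gmat_pow (g : ↥(Cfsg.GU n K q)) (k : ℕ) : gmat (g ^ k) = gmat g ^ k := by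
  unfold gmat
  rw [Subgroup.coe_pow, Units.val_pow_eq_pow_val]

theorem gmat_inj (g h : ↥(Cfsg.GU n K q)) (e : gmat g = gmat h) : g = h :=
  Subtype.ext (Units.ext e)

theorem gmat_mul_inv (g : ↥(Cfsg.GU n K q)) : gmat g * gmat g⁻¹ = 1 := by
  rw [← gmat_mul, mul_inv_cancel, gmat_one]

theorem gmat_inv_mul (g : ↥(Cfsg.GU n K q)) : gmat g⁻¹ * gmat g = 1 := by
  rw [← gmat_mul, inv_mul_cancel, gmat_one]

theorem gmat_unitary (σ : K →+* K) (hq : ∀ a, σ a = a ^ q) (g : ↥(Cfsg.GU n K q)) :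
    dag σ (gmat g) * gmat g = 1 := (mem_GU_iff σ q hq _).mp g.2

theorem mk_gu (σ : K →+* K) (hq : ∀ a, σ a = a ^ q) (M : Matrix (Fin n) (Fin n) K)
    (hM : dag σ M * M = 1) : ∃ g : ↥(Cfsg.GU n K q), gmat g = M := by
  have h1 : (⟨M, dag σ M, mul_eq_one_comm.mp hM, hM⟩ : GL (Fin n) K) ∈ Cfsg.GU n K q :=
    (mem_GU_iff σ q hq _).mpr hM
  exact ⟨⟨_, h1⟩, rfl⟩

theorem dag_smul (σ : K →+* K) (c : K) (M : Matrix (Fin n) (Fin n) K) :
    dag σ (c • M) = σ c • dag σ M := by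
  ext i j; simp [dag]

/-- the centre of `GU` consists of scalar matrices -/
theorem gu_center_scalar [Fintype K] (hK : Fintype.card K = q ^ 2) (z : ↥(Cfsg.GU n K q))
    (hz : z ∈ Subgroup.center ↥(Cfsg.GU n K q)) : ∃ c : K, gmat z = c • 1 := by
  classical
  rw [Subgroup.mem_center_iff] at hz
  have hcomm : ∀ A : GL (Fin n) K, A ∈ Cfsg.GU n K q →
      (A : Matrix (Fin n) (Fin n) K) * gmat z = gmat z * (A : Matrix (Fin n) (Fin n) K) := by
    intro A hA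
    have h1 := hz ⟨A, hA⟩
    exact congrArg gmat h1
  obtain ⟨y, hy, hy1⟩ := Cfsg.Agent.S0783.exists_y0 hK
  have hoff : ∀ a i : Fin n, a ≠ i → gmat z a i = 0 := by
    intro a i hai
    obtain ⟨g₁, hg₁, hg₁v, _⟩ := Cfsg.Agent.Lib.helper4.gu_diag_one (q := q) a y hy
    have h1 := congrFun (congrFun (hcomm g₁ hg₁) a) i
    rw [hg₁v, Matrix.diagonal_mul, Matrix.mul_diagonal, if_pos rfl, if_neg hai.symm, mul_one] at h1
    have h2 : (y - 1) * gmat z a i = 0 := by rw [sub_mul, one_mul, h1, sub_self]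
    rcases mul_eq_zero.mp h2 with h | h
    · exact absurd (sub_eq_zero.mp h) hy1
    · exact h
  have hdiag : ∀ i j : Fin n, gmat z i i = gmat z j j := by
    intro i j
    have h1 := hcomm _ (Cfsg.Agent.S0783.swap_mem (F := K) (q := q) n i j)
    have h2 := congrFun (congrFun h1 i) j
    have h3 : ((Matrix.GeneralLinearGroup.swap K i j : GL (Fin n) K) : Matrix (Fin n) (Fin n) K) =
        Matrix.swap K i j := rfl
    rw [h3, Matrix.swap_mul_apply_left, Matrix.mul_swap_apply_right] at h2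
    exact h2.symm
  rcases Nat.eq_zero_or_pos n with hn | hn
  · subst hn
    exact ⟨0, Subsingleton.elim _ _⟩
  · refine ⟨gmat z ⟨0, hn⟩ ⟨0, hn⟩, ?_⟩
    ext a b
    rw [Matrix.smul_apply, Matrix.one_apply]
    by_cases hab : a = b
    · rw [if_pos hab, smul_eq_mul, mul_one, ← hab]; exact hdiag _ _
    · rw [if_neg hab, smul_zero]; exact hoff a b hab

theorem scalar_mem_center (g : ↥(Cfsg.GU n K q)) (c : K) (hg : gmat g = c • 1) :
    g ∈ Subgroup.center ↥(Cfsg.GU n K q) := by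
  rw [Subgroup.mem_center_iff]
  intro h
  apply gmat_inj
  rw [gmat_mul, gmat_mul, hg, Matrix.mul_smul, Matrix.smul_mul, Matrix.mul_one, Matrix.one_mul]

theorem scalar_norm (σ : K →+* K) (hq : ∀ a, σ a = a ^ q) (hn : 0 < n) (g : ↥(Cfsg.GU n K q))
    (c : K) (hg : gmat g = c • 1) : c * σ c = 1 := by
  have h1 := gmat_unitary σ hq g
  rw [hg, dag_smul, dag_one, Matrix.smul_mul, Matrix.mul_smul, Matrix.one_mul, smul_smul] at h1
  have h2 := congrFun (congrFun h1 ⟨0, hn⟩) ⟨0, hn⟩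
  rw [Matrix.smul_apply, Matrix.one_apply_eq, smul_eq_mul, mul_one] at h2
  rw [mul_comm]; exact h2

theorem exists_scalar (σ : K →+* K) (hq : ∀ a, σ a = a ^ q) (c : K) (hc : c * σ c = 1) :
    ∃ z : ↥(Cfsg.GU n K q), gmat z = c • 1 := by
  apply mk_gu σ hq
  rw [dag_smul, dag_one, Matrix.smul_mul, Matrix.mul_smul, Matrix.one_mul, smul_smul, mul_comm, hc,
    one_smul]

theorem mk_eq_one_iff [Fintype K] (hK : Fintype.card K = q ^ 2) (g : ↥(Cfsg.GU n K q)) :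
    (QuotientGroup.mk g : ↥(Cfsg.GU n K q) ⧸ Subgroup.center ↥(Cfsg.GU n K q)) = 1 ↔
      ∃ a : K, gmat g = a • 1 := by
  rw [QuotientGroup.eq_one_iff]
  constructor
  · exact gu_center_scalar hK g
  · rintro ⟨a, ha⟩
    exact scalar_mem_center g a ha

theorem orderOf_mk_eq_prime_iff [Fintype K] (hK : Fintype.card K = q ^ 2)
    (g : ↥(Cfsg.GU n K q)) (r : ℕ) (hr : r.Prime) :
    orderOf (QuotientGroup.mk g : ↥(Cfsg.GU n K q) ⧸ Subgroup.center ↥(Cfsg.GU n K q)) = r ↔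
      (∃ a : K, gmat g ^ r = a • 1) ∧ ¬ ∃ a : K, gmat g = a • 1 := by
  have : Fact r.Prime := ⟨hr⟩
  rw [orderOf_eq_prime_iff, ← QuotientGroup.mk_pow, mk_eq_one_iff hK, Ne, mk_eq_one_iff hK,
    gmat_pow]

/-- projective conjugacy by a scalar of norm one -/
def PConjU (σ : K →+* K) (A B : Matrix (Fin n) (Fin n) K) : Prop :=
  ∃ (C D : Matrix (Fin n) (Fin n) K) (c : K), C * D = 1 ∧ D * C = 1 ∧ c * σ c = 1 ∧
    C * A = (c • B) * C

theorem PConjU.toPConj {σ : K →+* K} {A B : Matrix (Fin n) (Fin n) K} (h : PConjU σ A B) :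
    PConj A B := by
  obtain ⟨C, D, c, h1, h2, hc, h3⟩ := h
  exact ⟨C, D, c, h1, h2, left_ne_zero_of_mul_eq_one hc, h3⟩

theorem isConj_mk_iff [Fintype K] (hK : Fintype.card K = q ^ 2) (σ : K →+* K)
    (hq : ∀ a, σ a = a ^ q) (hσ : ∀ a, σ (σ a) = a) (ω₀ : K) (hω₀ : σ ω₀ ≠ ω₀) (hn : 0 < n)
    (g g' : ↥(Cfsg.GU n K q)) :
    IsConj (QuotientGroup.mk g : ↥(Cfsg.GU n K q) ⧸ Subgroup.center ↥(Cfsg.GU n K q))
      (QuotientGroup.mk g') ↔ PConjU σ (gmat g) (gmat g') := by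
  rw [isConj_iff]
  constructor
  · rintro ⟨y, hy⟩
    obtain ⟨x, rfl⟩ := QuotientGroup.mk_surjective y
    rw [← QuotientGroup.mk_inv, ← QuotientGroup.mk_mul, ← QuotientGroup.mk_mul,
      QuotientGroup.eq] at hy
    obtain ⟨a, ha⟩ := gu_center_scalar hK _ hy
    have hnorm := scalar_norm σ hq hn _ a ha
    have ha0 : a ≠ 0 := left_ne_zero_of_mul_eq_one hnorm
    have h1 : gmat g' = gmat (x * g * x⁻¹) * (a • 1) := by
      rw [← ha, ← gmat_mul, mul_inv_cancel_left]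
    have hnorm' : a⁻¹ * σ a⁻¹ = 1 := by rw [map_inv₀, ← mul_inv, hnorm, inv_one]
    refine ⟨gmat x, gmat x⁻¹, a⁻¹, gmat_mul_inv x, gmat_inv_mul x, hnorm', ?_⟩
    rw [h1, gmat_mul, gmat_mul, Matrix.mul_smul, Matrix.mul_one, smul_smul, inv_mul_cancel₀ ha0,
      one_smul, Matrix.mul_assoc, gmat_inv_mul, Matrix.mul_one]
  · rintro ⟨C, D, c, h1, h2, hc, h3⟩
    obtain ⟨z, hz⟩ := exists_scalar (n := n) σ hq c hc
    have hzc := scalar_mem_center z c hz
    obtain ⟨x₀, hx₀⟩ : ∃ x₀ : GL (Fin n) K, (x₀ : Matrix (Fin n) (Fin n) K) = C :=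
      ⟨⟨C, D, h1, h2⟩, rfl⟩
    have h5 : x₀ * (g : GL (Fin n) K) * x₀⁻¹ = ((z * g' : ↥(Cfsg.GU n K q)) : GL (Fin n) K) := by
      rw [mul_inv_eq_iff_eq_mul]
      apply Units.ext
      rw [Units.val_mul, Units.val_mul, hx₀]
      show C * gmat g = gmat (z * g') * C
      rw [gmat_mul, hz, Matrix.smul_mul, Matrix.one_mul]
      exact h3
    obtain ⟨x, hxU, hx⟩ := gu_conj σ q hq hσ ω₀ hω₀ (g : GL (Fin n) K) _ g.2 (z * g').2 x₀ h5
    refine ⟨QuotientGroup.mk ⟨x, hxU⟩, ?_⟩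
    rw [← QuotientGroup.mk_inv, ← QuotientGroup.mk_mul, ← QuotientGroup.mk_mul]
    have h6 : (⟨x, hxU⟩ : ↥(Cfsg.GU n K q)) * g * (⟨x, hxU⟩ : ↥(Cfsg.GU n K q))⁻¹ = z * g' :=
      Subtype.ext hx
    rw [h6, QuotientGroup.mk_mul, (QuotientGroup.eq_one_iff z).mpr hzc, one_mul]

/-! ### Realizations in `GU` -/

theorem pst_X_pow_sub_C (σ : K →+* K) (r : ℕ) (hr : 0 < r) (c : K) (hc : c ≠ 0) :
    pst σ (X ^ r - C c : K[X]) = X ^ r - C (σ c)⁻¹ := by
  have hd : (X ^ r - C c : K[X]).natDegree = r := natDegree_X_pow_sub_C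
  have hcf : ∀ (e : K) (k : ℕ), (X ^ r - C e : K[X]).coeff k =
      (if k = r then 1 else 0) - (if k = 0 then e else 0) := by
    intro e k
    rw [coeff_sub, coeff_X_pow, coeff_C]
  have hσc : σ c ≠ 0 := (map_ne_zero σ).mpr hc
  ext k
  rcases Nat.lt_or_ge r k with hk | hk
  · rw [coeff_eq_zero_of_natDegree_lt, coeff_eq_zero_of_natDegree_lt]
    · rw [natDegree_X_pow_sub_C]; exact hk
    · exact lt_of_le_of_lt (pst_natDegree_le σ _) (by rw [hd]; exact hk)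
  · rw [pst_coeff σ _ r hd k hk, hcf, hcf, hcf]
    have hr0 : r ≠ 0 := hr.ne'
    by_cases h1 : k = 0
    · subst h1
      simp [hr0, hr0.symm]
    · by_cases h2 : k = r
      · subst h2
        simp [hr0, hr0.symm]
        field_simp
      · have h3 : r - k ≠ r := by omega
        have h4 : r - k ≠ 0 := by omega
        simp [h1, h2, h3, h4, hr0.symm]

theorem pst_pow (σ : K →+* K) (f : K[X]) (k : ℕ) : pst σ (f ^ k) = pst σ f ^ k := by
  induction k with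
  | zero => rw [pow_zero, pow_zero, pst_one]
  | succ k ih => rw [pow_succ, pow_succ, pst_mul, ih]

theorem pst_finset_prod {ι : Type*} (σ : K →+* K) (s : Finset ι) (f : ι → K[X]) :
    pst σ (∏ i ∈ s, f i) = ∏ i ∈ s, pst σ (f i) := by
  classical
  induction s using Finset.induction_on with
  | empty => rw [Finset.prod_empty, Finset.prod_empty, pst_one]
  | insert a s ha ih => rw [Finset.prod_insert ha, Finset.prod_insert ha, pst_mul, ih]

theorem pst_fpoly (σ : K →+* K) (hq : ∀ a, σ a = a ^ q) (r : ℕ) (hrq : r ∣ q + 1)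
    [Fintype (rootsOfUnity r K)] (a : rootsOfUnity r K → ℕ) : pst σ (fpoly r a) = fpoly r a := by
  unfold fpoly
  rw [pst_finset_prod]
  apply Finset.prod_congr rfl
  intro ζ _
  have hζ0 : ((ζ : Kˣ) : K) ≠ 0 := Units.ne_zero _
  have hζr : ((ζ : Kˣ) : K) ^ r = 1 := by
    rw [← Units.val_pow_eq_pow_val, (mem_rootsOfUnity r _).1 ζ.2, Units.val_one]
  have hζq : ((ζ : Kˣ) : K) ^ (q + 1) = 1 := by
    obtain ⟨k, hk⟩ := hrq
    rw [hk, pow_mul, hζr, one_pow]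
  have h1 : (σ ((ζ : Kˣ) : K))⁻¹ = ((ζ : Kˣ) : K) := by
    rw [hq, inv_eq_iff_eq_inv]
    apply eq_inv_of_mul_eq_one_left
    rw [← pow_succ]
    exact hζq
  have h2 := pst_X_pow_sub_C σ 1 Nat.one_pos ((ζ : Kˣ) : K) hζ0
  rw [pow_one, h1] at h2
  rw [pst_pow, h2]

theorem conj_pow_eq {A B C D : Matrix (Fin n) (Fin n) K} (h1 : C * D = 1) (h3 : C * A = B * C)
    (k : ℕ) : B ^ k = C * A ^ k * D := by
  have h4 : ∀ k : ℕ, C * A ^ k = B ^ k * C := by
    intro k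
    induction k with
    | zero => rw [pow_zero, pow_zero, Matrix.mul_one, Matrix.one_mul]
    | succ k ih => rw [pow_succ, ← Matrix.mul_assoc, ih, Matrix.mul_assoc, h3, ← Matrix.mul_assoc,
        ← pow_succ]
  rw [h4, Matrix.mul_assoc, h1, Matrix.mul_one]

theorem exists_gu_conj [Fintype K] (hK : Fintype.card K = q ^ 2) (σ : K →+* K)
    (hq : ∀ a, σ a = a ^ q) (A Ai : Matrix (Fin n) (Fin n) K) (hAAi : A * Ai = 1)
    (hAiA : Ai * A = 1) (C D : Matrix (Fin n) (Fin n) K) (h1 : C * D = 1) (h2 : D * C = 1)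
    (h3 : C * A = dag σ Ai * C) :
    ∃ (B : ↥(Cfsg.GU n K q)) (C' D' : Matrix (Fin n) (Fin n) K), C' * D' = 1 ∧ D' * C' = 1 ∧
      C' * A = gmat B * C' := by
  obtain ⟨A', hA'⟩ : ∃ A' : GL (Fin n) K, (A' : Matrix (Fin n) (Fin n) K) = A :=
    ⟨⟨A, Ai, hAAi, hAiA⟩, rfl⟩
  have hMN : dag σ A * dag σ Ai = 1 := by rw [← dag_mul, hAiA, dag_one]
  have hconj : IsConj (A' : Matrix (Fin n) (Fin n) K)
      (((A' : Matrix (Fin n) (Fin n) K).map (fun x : K => x ^ q)).transpose)⁻¹ := by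
    have e1 : ((A' : Matrix (Fin n) (Fin n) K).map (fun x : K => x ^ q)).transpose = dag σ A := by
      unfold dag
      rw [hA']
      congr 1
      ext i j
      simp [hq]
    rw [e1, Matrix.inv_eq_right_inv hMN, hA']
    exact ⟨⟨C, D, h1, h2⟩, h3⟩
  obtain ⟨B, hB⟩ := (Cfsg.Agent.S2588.result hK A').mpr hconj
  obtain ⟨c, hc⟩ := isConj_iff.mp hB
  refine ⟨B, (c : Matrix (Fin n) (Fin n) K), ((c⁻¹ : GL (Fin n) K) : Matrix (Fin n) (Fin n) K),
    ?_, ?_, ?_⟩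
  · rw [← Units.val_mul, mul_inv_cancel, Units.val_one]
  · rw [← Units.val_mul, inv_mul_cancel, Units.val_one]
  · have h5 : c * A' = (B : GL (Fin n) K) * c := by rw [← hc, inv_mul_cancel_right]
    have h6 := congrArg (fun u : GL (Fin n) K => (u : Matrix (Fin n) (Fin n) K)) h5
    simp only [Units.val_mul] at h6
    rw [hA'] at h6
    exact h6

theorem exists_typeI [Fintype K] (hK : Fintype.card K = q ^ 2) (σ : K →+* K)
    (hq : ∀ a, σ a = a ^ q) (r : ℕ) (hr : r.Prime) (hrq : r ∣ q + 1) (hrF : (r : K) ≠ 0)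
    [Fintype (rootsOfUnity r K)] (a : rootsOfUnity r K → ℕ) (hsum : ∑ ζ, a ζ = n) :
    ∃ g : ↥(Cfsg.GU n K q), gmat g ^ r = 1 ∧ (gmat g).charpoly = fpoly r a := by
  obtain ⟨A, hA, hc⟩ := exists_mat_fpoly r a n hsum
  have hAAi : A * A ^ (r - 1) = 1 := by rw [← pow_succ', Nat.sub_add_cancel hr.pos, hA]
  have hAiA : A ^ (r - 1) * A = 1 := by rw [← pow_succ, Nat.sub_add_cancel hr.pos, hA]
  have hNc : (dag σ (A ^ (r - 1))).charpoly = A.charpoly := by
    rw [charpoly_inv_dag σ A _ hAAi, hc, pst_fpoly σ hq r hrq]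
  have hNr : (dag σ (A ^ (r - 1))) ^ r = 1 := by
    rw [← dag_pow, ← pow_mul, mul_comm, pow_mul, hA, one_pow, dag_one]
  obtain ⟨C, D, h1, h2, h3⟩ := ss_conj_mat A _ r r hrF hrF hA hNr hNc.symm
  obtain ⟨B, C', D', h1', h2', h3'⟩ := exists_gu_conj hK σ hq A _ hAAi hAiA C D h1 h2 h3
  refine ⟨B, ?_, ?_⟩
  · rw [conj_pow_eq h1' h3', hA, Matrix.mul_one, h1']
  · rw [← charpoly_eq_of_conj h1' h2' h3', hc]

theorem exists_typeII [Fintype K] (hK : Fintype.card K = q ^ 2) (σ : K →+* K)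
    (hq : ∀ a, σ a = a ^ q) (r : ℕ) (hr : r.Prime) (hrq : r ∣ q ^ 2 - 1) (hdvd : r ∣ n) (l : K)
    (hl : l * σ l = 1) (hnp : ∀ b : K, b ^ r ≠ l) :
    ∃ g : ↥(Cfsg.GU n K q), gmat g ^ r = l • 1 := by
  obtain ⟨B₀, hB₀⟩ := typeII_exists (n := n) hr hdvd l
  have hl0 : l ≠ 0 := left_ne_zero_of_mul_eq_one hl
  have hσl : σ l⁻¹ = l := by
    rw [map_inv₀, inv_eq_iff_eq_inv]
    exact eq_inv_of_mul_eq_one_right hl
  have hAAi : B₀ * (l⁻¹ • B₀ ^ (r - 1)) = 1 := by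
    rw [Matrix.mul_smul, ← pow_succ', Nat.sub_add_cancel hr.pos, hB₀, smul_smul,
      inv_mul_cancel₀ hl0, one_smul]
  have hAiA : (l⁻¹ • B₀ ^ (r - 1)) * B₀ = 1 := by
    rw [Matrix.smul_mul, ← pow_succ, Nat.sub_add_cancel hr.pos, hB₀, smul_smul,
      inv_mul_cancel₀ hl0, one_smul]
  have hpow : (l⁻¹ • B₀ ^ (r - 1)) ^ r = l⁻¹ • 1 := by
    rw [_root_.smul_pow, ← pow_mul, mul_comm, pow_mul, hB₀, _root_.smul_pow, one_pow, smul_smul]
    congr 1
    have h1 : l⁻¹ ^ r * l ^ (r - 1) * l = l⁻¹ * l := by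
      rw [mul_assoc, ← pow_succ, Nat.sub_add_cancel hr.pos, ← mul_pow, inv_mul_cancel₀ hl0,
        one_pow]
    exact mul_right_cancel₀ hl0 h1
  have hNr : (dag σ (l⁻¹ • B₀ ^ (r - 1))) ^ r = l • 1 := by
    rw [← dag_pow, hpow, dag_smul, dag_one, hσl]
  obtain ⟨C, D, h1, h2, h3⟩ := typeII_conj hK hr hrq B₀ _ l hl0 hnp hB₀ hNr
  obtain ⟨B, C', D', h1', h2', h3'⟩ := exists_gu_conj hK σ hq B₀ _ hAAi hAiA C D h1 h2 h3
  refine ⟨B, ?_⟩
  rw [conj_pow_eq h1' h3', hB₀, Matrix.mul_smul, Matrix.mul_one, Matrix.smul_mul, h1']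


/-! ### The count -/

theorem typeI_pconjU_iff {r : ℕ} [NeZero r] [Fintype (rootsOfUnity r K)] (σ : K →+* K)
    (hq : ∀ a, σ a = a ^ q) (hrq : r ∣ q + 1) (hn : 0 < n)
    (hrF : (r : K) ≠ 0) (A A' : Matrix (Fin n) (Fin n) K) (a a' : rootsOfUnity r K → ℕ)
    (hA : A ^ r = 1) (hA' : A' ^ r = 1) (hχ : A.charpoly = fpoly r a)
    (hχ' : A'.charpoly = fpoly r a') (hsum' : ∑ ζ, a' ζ = n) :
    PConjU σ A A' ↔ ∃ c : rootsOfUnity r K, a = fun ζ => a' (c⁻¹ * ζ) := by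
  constructor
  · intro h
    exact (typeI_pconj_iff hn hrF A A' a a' hA hA' hχ hχ' hsum').mp h.toPConj
  · rintro ⟨c, rfl⟩
    have hc : (((c : Kˣ) : K)) ≠ 0 := Units.ne_zero _
    have hcr : ((c : Kˣ) : K) ^ r = 1 := by
      rw [← Units.val_pow_eq_pow_val, (mem_rootsOfUnity r _).1 c.2, Units.val_one]
    have hcn : ((c : Kˣ) : K) * σ ((c : Kˣ) : K) = 1 := by
      rw [hq, ← pow_succ']
      obtain ⟨k, hk⟩ := hrq
      rw [hk, pow_mul, hcr, one_pow]
    have h1 : A.charpoly = ((((c : Kˣ) : K)) • A').charpoly := by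
      rw [hχ, charpoly_smul _ hc, hχ', fpoly_scale r a' n hsum' c]
    obtain ⟨C', D, h2, h3, h4⟩ := ss_conj_mat A _ r r hrF hrF hA
      (by rw [_root_.smul_pow, hA', hcr, one_smul]) h1
    exact ⟨C', D, _, h2, h3, hcn, h4⟩

set_option maxHeartbeats 1000000 in
theorem pgu_prime_order_class_count {K : Type*} [Field K] [Fintype K] {q n r : ℕ}
    (hK : Fintype.card K = q ^ 2) (hn : 3 ≤ n) (hr : r.Prime) (hrne : r ≠ 2) (hrq : r ∣ q + 1) :
    Nat.card {C : ConjClasses (↥(Cfsg.GU n K q) ⧸ Subgroup.center ↥(Cfsg.GU n K q)) //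
      ∃ g : ↥(Cfsg.GU n K q) ⧸ Subgroup.center ↥(Cfsg.GU n K q),
        ConjClasses.mk g = C ∧ orderOf g = r} =
      (Nat.choose (n + r - 1) (r - 1) - r - (if r ∣ n then 1 else 0)) / r +
        r * (if r ∣ n then 1 else 0) := by
  classical
  obtain ⟨σ, hq, hσ, ω₀, hω₀⟩ := exists_sigma hK
  have : NeZero r := ⟨hr.ne_zero⟩
  let _ : Fintype (rootsOfUnity r K) := Fintype.ofFinite _
  have hn0 : 0 < n := by omega
  have hr2 : 2 ≤ r := hr.two_le
  have hq2 : 2 ≤ q := Cfsg.Agent.S0783.q_ge_two hK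
  have hmul : (q - 1) * (q + 1) = q ^ 2 - 1 := by
    obtain ⟨t, rfl⟩ : ∃ t, q = t + 1 := ⟨q - 1, by omega⟩
    have h1 : (t + 1) ^ 2 = t * (t + 1 + 1) + 1 := by ring
    rw [h1]
    simp only [Nat.add_sub_cancel]
  have hrq' : r ∣ q ^ 2 - 1 := by rw [← hmul]; exact Dvd.dvd.mul_left hrq _
  have hrqm : ¬ r ∣ q - 1 := by
    intro h
    have h1 : r ∣ (q + 1) - (q - 1) := Nat.dvd_sub hrq h
    have h2 : (q + 1) - (q - 1) = 2 := by omega
    rw [h2] at h1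
    exact hrne ((Nat.prime_dvd_prime_iff_eq hr Nat.prime_two).mp h1)
  have hrF : (r : K) ≠ 0 := ff_cast_ne_zero hK hrq'
  have hμ : Fintype.card (rootsOfUnity r K) = r := card_roots hK hrq'
  obtain ⟨γ, hγ, hgen⟩ := exists_gen hK
  have hγ0 : ((γ : K)) ≠ 0 := Units.ne_zero γ
  obtain ⟨δ, hδ⟩ : ∃ δ : K, δ = (γ : K) ^ (q - 1) := ⟨_, rfl⟩
  have hδ0 : δ ≠ 0 := by rw [hδ]; exact pow_ne_zero _ hγ0
  have hγord : (γ : K) ^ (q ^ 2 - 1) = 1 := by
    rw [← Units.val_pow_eq_pow_val, ← hγ, pow_orderOf_eq_one, Units.val_one]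
  have hδn : δ * σ δ = 1 := by
    rw [hq, ← pow_succ', hδ, ← pow_mul, hmul, hγord]
  have hδk : ∀ k : ℕ, δ ^ k * σ (δ ^ k) = 1 := by
    intro k
    rw [map_pow, ← mul_pow, hδn, one_pow]
  have hnorm_pow : ∀ l : K, l * σ l = 1 → ∃ m : ℕ, l = δ ^ m := by
    intro l hl
    have hl0 : l ≠ 0 := left_ne_zero_of_mul_eq_one hl
    obtain ⟨k, hk⟩ := hgen (Units.mk0 l hl0)
    have hlk : l = (γ : K) ^ k := by
      rw [← Units.val_pow_eq_pow_val, ← hk, Units.val_mk0]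
    have h1 : γ ^ (k * (q + 1)) = 1 := by
      apply Units.ext
      rw [Units.val_pow_eq_pow_val, Units.val_one, pow_mul, ← hlk, pow_succ', ← hq]
      exact hl
    have h2 : (q - 1) * (q + 1) ∣ k * (q + 1) := by
      rw [hmul, ← hγ]
      exact orderOf_dvd_of_pow_eq_one h1
    have h3 : q - 1 ∣ k := (Nat.mul_dvd_mul_iff_right (by omega)).mp h2
    obtain ⟨m, rfl⟩ := h3
    exact ⟨m, by rw [hlk, hδ, ← pow_mul]⟩
  -- type I representatives
  have hI : ∀ a : Om (rootsOfUnity r K) n, ∃ g : ↥(Cfsg.GU n K q),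
      gmat g ^ r = 1 ∧ (gmat g).charpoly = fpoly r a.1 := by
    intro a
    exact exists_typeI hK σ hq r hr hrq hrF a.1 a.2.1
  choose gI hgI1 hgI2 using hI
  have hIord : ∀ a, orderOf (QuotientGroup.mk (gI a) :
      ↥(Cfsg.GU n K q) ⧸ Subgroup.center ↥(Cfsg.GU n K q)) = r := by
    intro a
    rw [orderOf_mk_eq_prime_iff hK _ r hr]
    refine ⟨⟨1, by rw [hgI1, one_smul]⟩, ?_⟩
    rw [typeI_scalar_iff hn0 hrF _ (hgI1 a) a.1 a.2.1 (hgI2 a)]
    rintro ⟨ζ, hζ⟩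
    exact a.2.2 ζ hζ
  have hker : Setoid.ker (fun a : Om (rootsOfUnity r K) n =>
      ConjClasses.mk (QuotientGroup.mk (gI a) :
      ↥(Cfsg.GU n K q) ⧸ Subgroup.center ↥(Cfsg.GU n K q))) =
      MulAction.orbitRel (rootsOfUnity r K) (Om (rootsOfUnity r K) n) := by
    ext a a'
    rw [Setoid.ker_def, MulAction.orbitRel_apply, MulAction.mem_orbit_iff,
      ConjClasses.mk_eq_mk_iff_isConj, isConj_mk_iff hK σ hq hσ ω₀ hω₀ hn0,
      typeI_pconjU_iff σ hq hrq hn0 hrF _ _ a.1 a'.1 (hgI1 a) (hgI1 a') (hgI2 a) (hgI2 a') a'.2.1]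
    constructor
    · rintro ⟨c, hc⟩
      exact ⟨c, Subtype.ext hc.symm⟩
    · rintro ⟨c, hc⟩
      exact ⟨c, (congrArg Subtype.val hc).symm⟩
  have hcardI : Set.ncard (Set.range (fun a : Om (rootsOfUnity r K) n =>
      ConjClasses.mk (QuotientGroup.mk (gI a) :
      ↥(Cfsg.GU n K q) ⧸ Subgroup.center ↥(Cfsg.GU n K q)))) =
      Nat.card (Quotient (MulAction.orbitRel (rootsOfUnity r K) (Om (rootsOfUnity r K) n))) := by
    rw [← hker, ← Nat.card_coe_set_eq]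
    exact (Nat.card_congr (Setoid.quotientKerEquivRange _)).symm
  have horb := orbit_count (rootsOfUnity r K) n r hr hμ hn0
  have hKc : (r + n - 1).choose n = (n + r - 1).choose (r - 1) := by
    have h1 : r + n - 1 = n + (r - 1) := by omega
    have h2 : n + r - 1 = n + (r - 1) := by omega
    rw [h1, h2, Nat.choose_symm_add]
  rw [hKc, ← hcardI] at horb
  -- r-th powers
  have hnp : ∀ m : ℕ, ¬ r ∣ m → ∀ b : K, b ^ r ≠ (γ : K) ^ m := by
    intro m hm b hb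
    have hb0 : b ≠ 0 := by
      rintro rfl
      rw [zero_pow hr.ne_zero] at hb
      exact pow_ne_zero _ hγ0 hb.symm
    have h1 := gen_pow_congr hrq' γ hγ hgen m 0 b hb0 (by rw [pow_zero, mul_one, hb])
    exact hm ((Nat.modEq_zero_iff_dvd).1 h1)
  have hnpδ : ∀ m : ℕ, ¬ r ∣ m → ∀ b : K, b ^ r ≠ δ ^ m := by
    intro m hm b
    rw [hδ, ← pow_mul]
    apply hnp
    intro h
    rcases (Nat.Prime.dvd_mul hr).mp h with h | h
    · exact hrqm h
    · exact hm h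
  -- lifting
  have hlift : ∀ g : ↥(Cfsg.GU n K q), orderOf (QuotientGroup.mk g :
      ↥(Cfsg.GU n K q) ⧸ Subgroup.center ↥(Cfsg.GU n K q)) = r →
      ∃ m : ℕ, gmat g ^ r = δ ^ m • 1 := by
    intro g hg
    rw [orderOf_mk_eq_prime_iff hK _ r hr] at hg
    obtain ⟨⟨l, hl⟩, _⟩ := hg
    have hl' : gmat (g ^ r) = l • 1 := by rw [gmat_pow, hl]
    obtain ⟨m, hm⟩ := hnorm_pow l (scalar_norm σ hq hn0 (g ^ r) l hl')
    exact ⟨m, by rw [hl, hm]⟩
  -- type I coverage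
  have hcovI : ∀ (g : ↥(Cfsg.GU n K q)) (k : ℕ), orderOf (QuotientGroup.mk g :
      ↥(Cfsg.GU n K q) ⧸ Subgroup.center ↥(Cfsg.GU n K q)) = r →
      gmat g ^ r = (δ ^ k) ^ r • 1 →
      ConjClasses.mk (QuotientGroup.mk g :
        ↥(Cfsg.GU n K q) ⧸ Subgroup.center ↥(Cfsg.GU n K q)) ∈
        Set.range (fun a : Om (rootsOfUnity r K) n => ConjClasses.mk (QuotientGroup.mk (gI a) :
          ↥(Cfsg.GU n K q) ⧸ Subgroup.center ↥(Cfsg.GU n K q))) := by
    intro g k hg hpow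
    have hμ0 : δ ^ k ≠ 0 := pow_ne_zero _ hδ0
    have hE : ((δ ^ k)⁻¹ • gmat g) ^ r = 1 := by
      rw [_root_.smul_pow, hpow, smul_smul, inv_pow, inv_mul_cancel₀ (pow_ne_zero _ hμ0), one_smul]
    obtain ⟨a, hsum, hχ⟩ := exists_fpoly hK hrq' _ hE
    have hns : ∀ ζ, a ζ ≠ n := by
      intro ζ hζ
      obtain ⟨b, hb⟩ := (typeI_scalar_iff hn0 hrF _ hE a hsum hχ).2 ⟨ζ, hζ⟩
      rw [orderOf_mk_eq_prime_iff hK _ r hr] at hg
      apply hg.2
      refine ⟨δ ^ k * b, ?_⟩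
      rw [← smul_smul, ← hb, smul_smul, mul_inv_cancel₀ hμ0, one_smul]
    obtain ⟨a₀, ha₀⟩ : ∃ a₀ : Om (rootsOfUnity r K) n, a₀.1 = a := ⟨⟨a, hsum, hns⟩, rfl⟩
    refine ⟨a₀, ?_⟩
    show ConjClasses.mk (QuotientGroup.mk (gI a₀)) = ConjClasses.mk (QuotientGroup.mk g)
    rw [eq_comm, ConjClasses.mk_eq_mk_iff_isConj, isConj_mk_iff hK σ hq hσ ω₀ hω₀ hn0]
    obtain ⟨C', D, h1, h2, h3⟩ := ss_conj_mat _ _ r r hrF hrF hE (hgI1 a₀)
      (by rw [hχ, hgI2 a₀, ha₀])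
    refine ⟨C', D, δ ^ k, h1, h2, hδk k, ?_⟩
    rw [Matrix.mul_smul] at h3
    rw [Matrix.smul_mul, ← h3, smul_smul, mul_inv_cancel₀ hμ0, one_smul]
  have hS : Nat.card {C : ConjClasses (↥(Cfsg.GU n K q) ⧸ Subgroup.center ↥(Cfsg.GU n K q)) //
      ∃ g : ↥(Cfsg.GU n K q) ⧸ Subgroup.center ↥(Cfsg.GU n K q),
        ConjClasses.mk g = C ∧ orderOf g = r} =
      Set.ncard {C : ConjClasses (↥(Cfsg.GU n K q) ⧸ Subgroup.center ↥(Cfsg.GU n K q)) |
      ∃ g : ↥(Cfsg.GU n K q) ⧸ Subgroup.center ↥(Cfsg.GU n K q),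
        ConjClasses.mk g = C ∧ orderOf g = r} :=
    Nat.card_coe_set_eq _
  rw [hS]
  by_cases hdvd : r ∣ n
  · -- type II representatives
    have hjr : ∀ j : Fin (r - 1), ¬ r ∣ (j : ℕ) + 1 := by
      intro j hj
      have := Nat.le_of_dvd (Nat.succ_pos _) hj
      have := j.2
      omega
    have hII : ∀ j : Fin (r - 1), ∃ g : ↥(Cfsg.GU n K q),
        gmat g ^ r = δ ^ ((j : ℕ) + 1) • 1 := by
      intro j
      exact exists_typeII hK σ hq r hr hrq' hdvd _ (hδk _) (hnpδ _ (hjr j))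
    choose gII hgII using hII
    have hIIord : ∀ j, orderOf (QuotientGroup.mk (gII j) :
        ↥(Cfsg.GU n K q) ⧸ Subgroup.center ↥(Cfsg.GU n K q)) = r := by
      intro j
      rw [orderOf_mk_eq_prime_iff hK _ r hr]
      refine ⟨⟨_, hgII j⟩, ?_⟩
      rintro ⟨b, hb⟩
      have h1 := hgII j
      rw [hb, _root_.smul_pow, one_pow] at h1
      have h2 := congrFun (congrFun h1 ⟨0, hn0⟩) ⟨0, hn0⟩
      simp only [Matrix.smul_apply, Matrix.one_apply_eq, smul_eq_mul, mul_one] at h2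
      exact hnpδ _ (hjr j) b h2
    have hset : {C : ConjClasses (↥(Cfsg.GU n K q) ⧸ Subgroup.center ↥(Cfsg.GU n K q)) |
        ∃ g : ↥(Cfsg.GU n K q) ⧸ Subgroup.center ↥(Cfsg.GU n K q),
          ConjClasses.mk g = C ∧ orderOf g = r} =
        Set.range (fun a : Om (rootsOfUnity r K) n => ConjClasses.mk (QuotientGroup.mk (gI a) :
          ↥(Cfsg.GU n K q) ⧸ Subgroup.center ↥(Cfsg.GU n K q))) ∪
        Set.range (fun j : Fin (r - 1) => ConjClasses.mk (QuotientGroup.mk (gII j) :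
          ↥(Cfsg.GU n K q) ⧸ Subgroup.center ↥(Cfsg.GU n K q))) := by
      ext C
      constructor
      · rintro ⟨x, rfl, hx⟩
        obtain ⟨g, rfl⟩ := QuotientGroup.mk_surjective x
        obtain ⟨m, hm⟩ := hlift g hx
        by_cases hrm : r ∣ m
        · left
          obtain ⟨k, rfl⟩ := hrm
          exact hcovI g k hx (by rw [hm, ← pow_mul, mul_comm])
        · right
          have hmod1 : 1 ≤ m % r := by
            rcases Nat.eq_zero_or_pos (m % r) with h0 | h0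
            · exact absurd (Nat.dvd_of_mod_eq_zero h0) hrm
            · exact h0
          have hmod2 : m % r < r := Nat.mod_lt _ hr.pos
          refine ⟨⟨m % r - 1, by omega⟩, ?_⟩
          show ConjClasses.mk (QuotientGroup.mk (gII ⟨m % r - 1, by omega⟩)) =
            ConjClasses.mk (QuotientGroup.mk g)
          rw [eq_comm, ConjClasses.mk_eq_mk_iff_isConj, isConj_mk_iff hK σ hq hσ ω₀ hω₀ hn0]
          have hB := hgII ⟨m % r - 1, by omega⟩
          have hB' : gmat (gII ⟨m % r - 1, by omega⟩) ^ r = δ ^ (m % r) • 1 := by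
            rw [hB]
            congr 2
            show m % r - 1 + 1 = m % r
            omega
          have hpow : (δ ^ (m / r) • gmat (gII ⟨m % r - 1, by omega⟩)) ^ r = δ ^ m • 1 := by
            rw [_root_.smul_pow, hB', smul_smul, ← pow_mul, ← pow_add]
            congr 2
            rw [mul_comm]
            exact Nat.div_add_mod m r
          obtain ⟨C', D, h1, h2, h3⟩ := typeII_conj hK hr hrq' (gmat g) _
            (δ ^ m) (pow_ne_zero _ hδ0) (hnpδ m hrm) hm hpow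
          exact ⟨C', D, _, h1, h2, hδk _, h3⟩
      · rintro (⟨a, rfl⟩ | ⟨j, rfl⟩)
        · exact ⟨_, rfl, hIord a⟩
        · exact ⟨_, rfl, hIIord j⟩
    have hdisj : Disjoint
        (Set.range (fun a : Om (rootsOfUnity r K) n => ConjClasses.mk (QuotientGroup.mk (gI a) :
          ↥(Cfsg.GU n K q) ⧸ Subgroup.center ↥(Cfsg.GU n K q))))
        (Set.range (fun j : Fin (r - 1) => ConjClasses.mk (QuotientGroup.mk (gII j) :
          ↥(Cfsg.GU n K q) ⧸ Subgroup.center ↥(Cfsg.GU n K q)))) := by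
      rw [Set.disjoint_left]
      rintro _ ⟨a, rfl⟩ ⟨j, hj⟩
      have hj' : ConjClasses.mk (QuotientGroup.mk (gII j) :
          ↥(Cfsg.GU n K q) ⧸ Subgroup.center ↥(Cfsg.GU n K q)) =
          ConjClasses.mk (QuotientGroup.mk (gI a)) := hj
      rw [ConjClasses.mk_eq_mk_iff_isConj, isConj_mk_iff hK σ hq hσ ω₀ hω₀ hn0] at hj'
      obtain ⟨c, hc, h1⟩ := hj'.toPConj.pow_eq r _ 1 hn0 (hgII j) (by rw [hgI1, one_smul])
      exact hnpδ _ (hjr j) c (by rw [h1, mul_one])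
    have hinjII : Function.Injective (fun j : Fin (r - 1) =>
        ConjClasses.mk (QuotientGroup.mk (gII j) :
          ↥(Cfsg.GU n K q) ⧸ Subgroup.center ↥(Cfsg.GU n K q))) := by
      intro j j' hjj
      have hjj' : ConjClasses.mk (QuotientGroup.mk (gII j) :
          ↥(Cfsg.GU n K q) ⧸ Subgroup.center ↥(Cfsg.GU n K q)) =
          ConjClasses.mk (QuotientGroup.mk (gII j')) := hjj
      rw [ConjClasses.mk_eq_mk_iff_isConj, isConj_mk_iff hK σ hq hσ ω₀ hω₀ hn0] at hjj'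
      obtain ⟨c, hc, h1⟩ := hjj'.toPConj.pow_eq r _ _ hn0 (hgII j) (hgII j')
      have h1' : (γ : K) ^ ((q - 1) * ((j : ℕ) + 1)) =
          c ^ r * (γ : K) ^ ((q - 1) * ((j' : ℕ) + 1)) := by
        rw [pow_mul, pow_mul, ← hδ]
        exact h1
      have h2 := gen_pow_congr hrq' γ hγ hgen _ _ c hc h1'
      have hcop : Nat.Coprime r (q - 1) := (Nat.Prime.coprime_iff_not_dvd hr).mpr hrqm
      have h2' : (j : ℕ) + 1 ≡ (j' : ℕ) + 1 [MOD r] :=
        Nat.ModEq.cancel_left_of_coprime hcop h2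
      have h3 := Nat.ModEq.eq_of_lt_of_lt h2' (by have := j.2; omega) (by have := j'.2; omega)
      exact Fin.ext (by omega)
    rw [hset, Set.ncard_union_eq hdisj (Set.finite_range _) (Set.finite_range _),
      ← Nat.card_coe_set_eq (Set.range (fun j : Fin (r - 1) => _)),
      Nat.card_range_of_injective hinjII, Nat.card_eq_fintype_card, Fintype.card_fin]
    rw [if_pos hdvd] at horb ⊢
    have := arith _ r _ 1 hr2 (Or.inr rfl) horb
    simp only [mul_one] at this ⊢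
    exact this.symm
  · have hset : {C : ConjClasses (↥(Cfsg.GU n K q) ⧸ Subgroup.center ↥(Cfsg.GU n K q)) |
        ∃ g : ↥(Cfsg.GU n K q) ⧸ Subgroup.center ↥(Cfsg.GU n K q),
          ConjClasses.mk g = C ∧ orderOf g = r} =
        Set.range (fun a : Om (rootsOfUnity r K) n => ConjClasses.mk (QuotientGroup.mk (gI a) :
          ↥(Cfsg.GU n K q) ⧸ Subgroup.center ↥(Cfsg.GU n K q))) := by
      ext C
      constructor
      · rintro ⟨x, rfl, hx⟩
        obtain ⟨g, rfl⟩ := QuotientGroup.mk_surjective x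
        obtain ⟨m, hm⟩ := hlift g hx
        by_cases hrm : r ∣ m
        · obtain ⟨k, rfl⟩ := hrm
          exact hcovI g k hx (by rw [hm, ← pow_mul, mul_comm])
        · exact absurd (typeII_struct hr _ _ (hnpδ m hrm) hm).1 hdvd
      · rintro ⟨a, rfl⟩
        exact ⟨_, rfl, hIord a⟩
    rw [hset]
    rw [if_neg hdvd] at horb ⊢
    have := arith _ r _ 0 hr2 (Or.inl rfl) horb
    simp only [mul_zero, add_zero] at this ⊢
    exact this.symm

end Cfsg.Agent.Lib.helper10.PGU
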