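import Mathlib

/-!
# Element orders in `GL_n(q)`: prime powers divide some `q^d - 1`, and Singer-type elements
-/

set_option autoImplicit false

namespace Cfsg.Agent.Lib.helper10.PowSpec

open Matrix

/-- an invertible matrix of prime power order `ℓ^e` (`ℓ` prime to `q`) over the field with `q`
elements, in dimension `n`, forces `ℓ^e ∣ q^d - 1` for some `1 ≤ d ≤ n` -/
theorem pp_dvd {F : Type*} [Field F] [Fintype F] {n : ℕ} (M Mi : Matrix (Fin n) (Fin n) F)
    (hMi : M * Mi = 1) (ℓ e : ℕ) (hℓ : ℓ.Prime) (hcop : ℓ.Coprime (Fintype.card F)) (he : 0 < e)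
    (hM : M ^ (ℓ ^ e) = 1) (hz : M ^ (ℓ ^ (e - 1)) ≠ 1) :
    ∃ d, 1 ≤ d ∧ d ≤ n ∧ ℓ ^ e ∣ Fintype.card F ^ d - 1 := by
  classical
  have : Fact ℓ.Prime := ⟨hℓ⟩
  have hMi' : Mi * M = 1 := mul_eq_one_comm.mp hMi
  let σ : Equiv.Perm (Fin n → F) :=
    { toFun := fun v => M *ᵥ v
      invFun := fun v => Mi *ᵥ v
      left_inv := fun v => by
        show Mi *ᵥ (M *ᵥ v) = v
        rw [Matrix.mulVec_mulVec, hMi', Matrix.one_mulVec]
      right_inv := fun v => by
        show M *ᵥ (Mi *ᵥ v) = v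
        rw [Matrix.mulVec_mulVec, hMi, Matrix.one_mulVec] }
  have hσ : ∀ (j : ℕ) (v : Fin n → F), (σ ^ j) v = (M ^ j) *ᵥ v := by
    intro j
    induction j with
    | zero => intro v; simp
    | succ j ih =>
      intro v
      rw [pow_succ, Equiv.Perm.mul_apply, ih, pow_succ, ← Matrix.mulVec_mulVec]
      rfl
  have hσ1 : σ ^ (ℓ ^ e) = 1 := by
    ext v
    rw [hσ, hM, Matrix.one_mulVec]
    rfl
  have hσ2 : σ ^ (ℓ ^ (e - 1)) ≠ 1 := by
    intro h
    apply hz
    apply Matrix.toLin'.injective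
    apply LinearMap.ext
    intro v
    rw [Matrix.toLin'_apply, ← hσ, h, Matrix.toLin'_one]
    rfl
  have hord : orderOf σ = ℓ ^ e := by
    have := orderOf_eq_prime_pow (p := ℓ) (n := e - 1) hσ2
      (by rw [Nat.sub_add_cancel he]; exact hσ1)
    rwa [Nat.sub_add_cancel he] at this
  have hHcard : Nat.card (Subgroup.zpowers σ) = ℓ ^ e := by rw [Nat.card_zpowers, hord]
  obtain ⟨z, hzdef⟩ : ∃ z : Equiv.Perm (Fin n → F), z = σ ^ (ℓ ^ (e - 1)) := ⟨_, rfl⟩
  have hHz : ∀ h : Subgroup.zpowers σ,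
      (h : Equiv.Perm (Fin n → F)) * z = z * (h : Equiv.Perm (Fin n → F)) := by
    rintro ⟨h, hh⟩
    obtain ⟨i, rfl⟩ := Subgroup.mem_zpowers_iff.1 hh
    show σ ^ i * z = z * σ ^ i
    rw [hzdef]
    exact (((Commute.refl σ).zpow_left i).pow_right _).eq
  let S : SubMulAction (Subgroup.zpowers σ) (Fin n → F) :=
    { carrier := {v | z v ≠ v}
      smul_mem' := by
        intro h v hv
        show z (h • v) ≠ h • v
        intro hcon
        apply hv
        have e1 : h • v = (h : Equiv.Perm (Fin n → F)) v := rfl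
        rw [e1, ← Equiv.Perm.mul_apply, ← hHz h, Equiv.Perm.mul_apply] at hcon
        exact (h : Equiv.Perm (Fin n → F)).injective hcon }
  have hfree : ∀ s : S, MulAction.stabilizer (Subgroup.zpowers σ) s = ⊥ := by
    intro s
    rw [eq_bot_iff]
    rintro ⟨h, hh⟩ hstab
    rw [MulAction.mem_stabilizer_iff] at hstab
    have hv : h s.1 = s.1 := congrArg Subtype.val hstab
    rw [Subgroup.mem_bot]
    apply Subtype.ext
    show h = 1
    obtain ⟨j, rfl⟩ : ∃ j : ℕ, σ ^ j = h := by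
      have := (isOfFinOrder_of_finite σ).mem_powers_iff_mem_zpowers.2 hh
      exact (Submonoid.mem_powers_iff _ _).1 this
    by_contra hne
    have hnd : ¬ ℓ ^ e ∣ j := by
      intro hd
      apply hne
      rw [← hord] at hd
      exact orderOf_dvd_iff_pow_eq_one.1 hd
    obtain ⟨c, hc, hgc⟩ := (Nat.dvd_prime_pow hℓ).1 (Nat.gcd_dvd_right j (ℓ ^ e))
    have hclt : c < e := by
      by_contra hge
      have hce : c = e := by omega
      rw [hce] at hgc
      exact hnd (hgc ▸ Nat.gcd_dvd_left j (ℓ ^ e))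
    have hglt : Nat.gcd j (ℓ ^ e) < ℓ ^ e := by
      rw [hgc]; exact Nat.pow_lt_pow_right hℓ.one_lt hclt
    obtain ⟨a, -, ha⟩ := Nat.exists_mul_mod_eq_gcd hglt
    have h1 : (σ ^ j) ^ a = σ ^ (ℓ ^ c) := by
      rw [← pow_mul, ← pow_mod_orderOf, hord, ha, hgc]
    have h2 : (σ ^ (ℓ ^ c)) s.1 = s.1 := by
      rw [← h1]; exact Equiv.Perm.pow_apply_eq_self_of_apply_eq_self hv a
    have h3 : z s.1 = s.1 := by
      rw [hzdef, show ℓ ^ (e - 1) = ℓ ^ c * ℓ ^ (e - 1 - c) by
        rw [← pow_add]; congr 1; omega, pow_mul]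
      exact Equiv.Perm.pow_apply_eq_self_of_apply_eq_self h2 _
    exact s.2 h3
  have hdvd : ℓ ^ e ∣ Nat.card S := by
    have hequiv := MulAction.selfEquivOrbitsQuotientProd hfree
    rw [Nat.card_congr hequiv, Nat.card_prod, hHcard]
    exact dvd_mul_left _ _
  obtain ⟨U, hU⟩ : ∃ U : Submodule F (Fin n → F),
      ∀ v, v ∈ U ↔ (M ^ (ℓ ^ (e - 1))) *ᵥ v = v :=
    ⟨LinearMap.ker (Matrix.toLin' (M ^ (ℓ ^ (e - 1)) - 1)), fun v => by
      rw [LinearMap.mem_ker, Matrix.toLin'_apply, Matrix.sub_mulVec, Matrix.one_mulVec,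
        sub_eq_zero]⟩
  have hzv : ∀ v, z v = v ↔ v ∈ U := fun v => by rw [hU, hzdef, hσ]
  have hcardS : Nat.card S + Nat.card U = Fintype.card F ^ n := by
    have e1 : Nat.card S = Nat.card {v : Fin n → F // v ∉ U} :=
      Nat.card_congr (Equiv.subtypeEquivRight (fun v => by
        show z v ≠ v ↔ _
        rw [Ne, hzv]))
    have e2 := Nat.card_congr (Equiv.sumCompl (fun v : Fin n → F => v ∈ U))
    rw [Nat.card_sum] at e2
    have e3 : Nat.card (Fin n → F) = Fintype.card F ^ n := by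
      rw [Nat.card_eq_fintype_card, Fintype.card_fun, Fintype.card_fin]
    rw [e1, add_comm, ← e3, ← e2]
  have hUcard : Nat.card U = Fintype.card F ^ Module.finrank F U :=
    Nat.card_eq_fintype_card.trans Module.card_eq_pow_finrank
  have hflt : Module.finrank F U < n := by
    have hne : U ≠ ⊤ := by
      intro htop
      apply hz
      apply Matrix.toLin'.injective
      apply LinearMap.ext
      intro v
      rw [Matrix.toLin'_apply, (hU v).1 (by rw [htop]; trivial), Matrix.toLin'_one]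
      rfl
    have := Submodule.finrank_lt hne
    rwa [Module.finrank_fin_fun] at this
  obtain ⟨f, hf⟩ : ∃ f, f = Module.finrank F U := ⟨_, rfl⟩
  rw [← hf] at hUcard hflt
  refine ⟨n - f, by omega, by omega, ?_⟩
  have h6 : Fintype.card F ^ n = Fintype.card F ^ f * Fintype.card F ^ (n - f) := by
    rw [← pow_add]; congr 1; omega
  have h5 : Nat.card S = Fintype.card F ^ f * (Fintype.card F ^ (n - f) - 1) := by
    rw [Nat.mul_sub, mul_one, ← h6]
    omega
  rw [h5] at hdvd
  exact (Nat.Coprime.pow e f hcop).dvd_of_dvd_mul_left hdvd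

/-- Singer-type elements: matrices of any order dividing `q^d - 1` in dimension `d` -/
theorem exists_elt {F : Type*} [Field F] [Fintype F] (p : ℕ) [Fact p.Prime] [CharP F p] (d : ℕ)
    (hd : 0 < d) (C : ℕ) (hC : C ∣ Fintype.card F ^ d - 1) :
    ∃ A : Matrix (Fin d) (Fin d) F, ∀ j : ℕ, A ^ j = 1 ↔ C ∣ j := by
  classical
  have : NeZero d := ⟨hd.ne'⟩
  have hcardK : Nat.card (FiniteField.Extension F p d) = Fintype.card F ^ d := by
    rw [FiniteField.natCard_extension, Nat.card_eq_fintype_card]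
  have hrank : Module.finrank F (FiniteField.Extension F p d) = d :=
    FiniteField.finrank_extension F p d
  obtain ⟨ζ, hζ⟩ := IsCyclic.exists_generator (α := (FiniteField.Extension F p d)ˣ)
  have hoζ : orderOf ζ = Fintype.card F ^ d - 1 := by
    rw [orderOf_eq_card_of_forall_mem_zpowers hζ, Nat.card_units, hcardK]
  have hq : 2 ≤ Fintype.card F := Fintype.one_lt_card
  have hpos : 0 < Fintype.card F ^ d - 1 := by
    have : 2 ^ 1 ≤ Fintype.card F ^ d :=
      le_trans (Nat.pow_le_pow_left hq 1) (Nat.pow_le_pow_right (by omega) hd)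
    omega
  obtain ⟨x, hx⟩ : ∃ x : (FiniteField.Extension F p d)ˣ, orderOf x = C := by
    refine ⟨ζ ^ (orderOf ζ / C), ?_⟩
    apply orderOf_pow_orderOf_div
    · rw [hoζ]; omega
    · rw [hoζ]; exact hC
  let b : Module.Basis (Fin d) F (FiniteField.Extension F p d) :=
    Module.finBasisOfFinrankEq F (FiniteField.Extension F p d) hrank
  refine ⟨Algebra.leftMulMatrix b (x : FiniteField.Extension F p d), fun j => ?_⟩
  rw [← map_pow, ← hx, orderOf_dvd_iff_pow_eq_one]
  constructor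
  · intro h
    have h1 : ((x : FiniteField.Extension F p d)) ^ j = 1 := by
      apply Algebra.leftMulMatrix_injective b
      rw [h, map_one]
    apply Units.ext
    rw [Units.val_pow_eq_pow_val, h1]
    rfl
  · intro h
    have h1 : ((x : FiniteField.Extension F p d)) ^ j = 1 := by
      rw [← Units.val_pow_eq_pow_val, h]
      rfl
    rw [h1, map_one]

theorem f2_eq_one {F : Type*} [Field F] [Fintype F] (hF : Fintype.card F = 2) (x : F)
    (hx : x ≠ 0) : x = 1 := by
  have h := FiniteField.pow_card_sub_one_eq_one x hx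
  rw [hF] at h
  simpa using h

/-- elements of `SL_n(F_2)` of any order dividing `2^d - 1`, `1 ≤ d ≤ n` -/
theorem exists_sl {F : Type*} [Field F] [Fintype F] (hF : Fintype.card F = 2) (n d : ℕ)
    (hd : 0 < d) (hdn : d ≤ n) (C : ℕ) (hC : C ∣ 2 ^ d - 1) :
    ∃ g : Matrix.SpecialLinearGroup (Fin n) F, ∀ j : ℕ, g ^ j = 1 ↔ C ∣ j := by
  classical
  obtain ⟨p, hp⟩ := CharP.exists F
  have hpp : p.Prime := CharP.char_is_prime F p
  have : Fact p.Prime := ⟨hpp⟩
  obtain ⟨A, hA⟩ := exists_elt p d hd C (by rw [hF]; exact hC)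
  have hC0 : C ≠ 0 := by
    rintro rfl
    have h1 := Nat.eq_zero_of_zero_dvd hC
    have h2 : 2 ^ 1 ≤ 2 ^ d := Nat.pow_le_pow_right (by omega) hd
    omega
  let e : Fin d ⊕ Fin (n - d) ≃ Fin n := finSumFinEquiv.trans (finCongr (by omega))
  obtain ⟨M, hMdef⟩ : ∃ M : Matrix (Fin n) (Fin n) F,
      M = Matrix.reindexAlgEquiv F F e (Matrix.fromBlocks A 0 0 1) := ⟨_, rfl⟩
  have hMpow : ∀ j : ℕ, M ^ j = 1 ↔ C ∣ j := by
    intro j
    rw [hMdef, ← map_pow, ← hA j, Matrix.fromBlocks_diagonal_pow, one_pow]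
    constructor
    · intro h
      have h1 : Matrix.fromBlocks (A ^ j) 0 0 (1 : Matrix (Fin (n - d)) (Fin (n - d)) F) = 1 := by
        apply (Matrix.reindexAlgEquiv F F e).injective
        rw [h, map_one]
      rw [← Matrix.fromBlocks_one (l := Fin d) (m := Fin (n - d)) (α := F),
        Matrix.fromBlocks_inj] at h1
      exact h1.1
    · intro h
      rw [h, Matrix.fromBlocks_one, map_one]
  have hdet : M.det = 1 := by
    apply f2_eq_one hF
    intro h0
    have h1 : M ^ C = 1 := (hMpow C).2 dvd_rfl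
    have h2 := congrArg Matrix.det h1
    rw [Matrix.det_pow, h0, zero_pow hC0, Matrix.det_one] at h2
    exact zero_ne_one h2
  obtain ⟨g, hg⟩ : ∃ g : Matrix.SpecialLinearGroup (Fin n) F, g.1 = M := ⟨⟨M, hdet⟩, rfl⟩
  refine ⟨g, fun j => ?_⟩
  rw [← hMpow j, ← hg]
  constructor
  · intro h
    have h1 := congrArg Subtype.val h
    rw [Matrix.SpecialLinearGroup.coe_pow] at h1
    exact h1
  · intro h
    apply Subtype.ext
    rw [Matrix.SpecialLinearGroup.coe_pow]
    exact h

/-- over the field with two elements the projection `SL_n → PSL_n` is injective -/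
theorem mk_inj {F : Type*} [Field F] [Fintype F] (hF : Fintype.card F = 2) (n : ℕ) (hn : 0 < n) :
    Function.Injective (QuotientGroup.mk : Matrix.SpecialLinearGroup (Fin n) F →
      Matrix.ProjectiveSpecialLinearGroup (Fin n) F) := by
  intro a b h
  rw [QuotientGroup.eq, Matrix.SpecialLinearGroup.mem_center_iff] at h
  obtain ⟨r, hr1, hr2⟩ := h
  have hr0 : r ≠ 0 := by
    rintro rfl
    rw [Fintype.card_fin, zero_pow hn.ne'] at hr1
    exact zero_ne_one hr1
  have hr : r = 1 := f2_eq_one hF r hr0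
  rw [hr, map_one] at hr2
  have h1 : a⁻¹ * b = 1 := Subtype.ext hr2.symm
  exact inv_mul_eq_one.1 h1

theorem pi_pow_eq_one {ι G : Type*} [Group G] (x : ι → G) (m : ℕ) :
    x ^ m = 1 ↔ ∀ i, orderOf (x i) ∣ m := by
  rw [funext_iff]
  simp [orderOf_dvd_iff_pow_eq_one]

theorem dvd_div_prime (m N ℓ e : ℕ) (hℓ : ℓ.Prime) (hm : m ∣ N) (hN : ℓ ^ e ∣ N)
    (hnd : ¬ ℓ ^ e ∣ m) : m ∣ N / ℓ := by
  obtain ⟨c, hc⟩ := hm
  by_cases hlc : ℓ ∣ c
  · obtain ⟨c', rfl⟩ := hlc
    rw [hc, show m * (ℓ * c') = ℓ * (m * c') by ring, Nat.mul_div_cancel_left _ hℓ.pos]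
    exact dvd_mul_right _ _
  · exfalso
    apply hnd
    rw [hc] at hN
    exact (Nat.Coprime.pow_left e ((Nat.Prime.coprime_iff_not_dvd hℓ).2 hlc)).dvd_of_dvd_mul_right hN

end Cfsg.Agent.Lib.helper10.PowSpec
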