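import Mathlib

/-!
# Element orders of `PSL_n(q)`: commuting `r`-elements, Singer-type orders
-/

set_option autoImplicit false

namespace Cfsg.Agent.Lib.helper10.PslAbs

open Matrix Polynomial

variable {F : Type*} [Field F] {n : ℕ}

/-- the `k`-th power of the image of `g` in `PSL_n` is trivial iff `g ^ k` is a scalar matrix -/
theorem mk_pow_eq_one (g : Matrix.SpecialLinearGroup (Fin n) F) (k : ℕ) :
    (QuotientGroup.mk g : Matrix.ProjectiveSpecialLinearGroup (Fin n) F) ^ k = 1 ↔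
      ∃ s : F, (g : Matrix (Fin n) (Fin n) F) ^ k = s • (1 : Matrix (Fin n) (Fin n) F) := by
  rw [← QuotientGroup.mk_pow, QuotientGroup.eq_one_iff, Matrix.SpecialLinearGroup.mem_center_iff]
  have hs : ∀ r : F, Matrix.scalar (Fin n) r = r • (1 : Matrix (Fin n) (Fin n) F) := by
    intro r
    ext i j
    simp [Matrix.scalar_apply, Matrix.diagonal_apply, Matrix.one_apply]
  constructor
  · rintro ⟨r, -, h⟩
    exact ⟨r, by rw [← hs, h, Matrix.SpecialLinearGroup.coe_pow]⟩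
  · rintro ⟨s, h⟩
    refine ⟨s, ?_, by rw [hs, Matrix.SpecialLinearGroup.coe_pow, h]⟩
    have hd : ((g ^ k : Matrix.SpecialLinearGroup (Fin n) F) : Matrix (Fin n) (Fin n) F).det = 1 :=
      (g ^ k).2
    rw [Matrix.SpecialLinearGroup.coe_pow, h, Matrix.det_smul, Matrix.det_one, mul_one] at hd
    exact hd

/-- a non-scalar matrix of order `r` commuting with `g` gives an element of order `r * |g|` -/
theorem good_of_comm (r : ℕ) (hr : r.Prime) (hrn : ¬ r ∣ n)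
    (g : Matrix.SpecialLinearGroup (Fin n) F) (Y : Matrix (Fin n) (Fin n) F)
    (hY : Y ^ r = 1) (hc : Y * (g : Matrix (Fin n) (Fin n) F) = (g : Matrix (Fin n) (Fin n) F) * Y)
    (hns : ¬ ∃ s : F, Y = s • (1 : Matrix (Fin n) (Fin n) F))
    (hra : ¬ r ∣ orderOf (QuotientGroup.mk g : Matrix.ProjectiveSpecialLinearGroup (Fin n) F)) :
    ∃ y : Matrix.ProjectiveSpecialLinearGroup (Fin n) F,
      orderOf y = r * orderOf (QuotientGroup.mk g : Matrix.ProjectiveSpecialLinearGroup (Fin n) F) := by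
  have : Fact r.Prime := ⟨hr⟩
  have hδ : Y.det ^ r = 1 := by rw [← Matrix.det_pow, hY, Matrix.det_one]
  have hcop : Nat.Coprime n r := ((Nat.Prime.coprime_iff_not_dvd hr).2 hrn).symm
  obtain ⟨k, -, hk⟩ := Nat.exists_mul_mod_eq_one_of_coprime hcop hr.one_lt
  obtain ⟨c, hcdef⟩ : ∃ c : F, c = (Y.det⁻¹) ^ k := ⟨_, rfl⟩
  have hδi : (Y.det⁻¹) ^ r = 1 := by rw [inv_pow, hδ, inv_one]
  have hcr : c ^ r = 1 := by rw [hcdef, ← pow_mul, mul_comm, pow_mul, hδi, one_pow]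
  have hne : Y.det ≠ 0 := by
    intro h0
    rw [h0, zero_pow hr.ne_zero] at hδ
    exact zero_ne_one hδ
  have hcn : c ^ n * Y.det = 1 := by
    have h1 : c ^ n = Y.det⁻¹ := by
      rw [hcdef, ← pow_mul, mul_comm k n]
      conv_lhs => rw [← Nat.div_add_mod (n * k) r, hk, pow_add, pow_mul, hδi, one_pow, one_mul,
        pow_one]
    rw [h1]
    exact inv_mul_cancel₀ hne
  have hc0 : c ≠ 0 := by
    intro h0
    rw [h0, zero_pow hr.ne_zero] at hcr
    exact zero_ne_one hcr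
  have hdet : (c • Y).det = 1 := by
    rw [Matrix.det_smul, Fintype.card_fin]
    exact hcn
  obtain ⟨y', hy'⟩ : ∃ y' : Matrix.SpecialLinearGroup (Fin n) F,
      (y' : Matrix (Fin n) (Fin n) F) = c • Y := ⟨⟨c • Y, hdet⟩, rfl⟩
  have hyr : (QuotientGroup.mk y' : Matrix.ProjectiveSpecialLinearGroup (Fin n) F) ^ r = 1 := by
    rw [mk_pow_eq_one]
    refine ⟨1, ?_⟩
    rw [hy', _root_.smul_pow, hcr, hY]
  have hy1 : (QuotientGroup.mk y' : Matrix.ProjectiveSpecialLinearGroup (Fin n) F) ≠ 1 := by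
    intro h1
    have h2 : (QuotientGroup.mk y' : Matrix.ProjectiveSpecialLinearGroup (Fin n) F) ^ 1 = 1 := by
      rw [pow_one, h1]
    rw [mk_pow_eq_one] at h2
    obtain ⟨s, hs⟩ := h2
    rw [pow_one, hy'] at hs
    apply hns
    refine ⟨c⁻¹ * s, ?_⟩
    rw [mul_smul, ← hs, smul_smul, inv_mul_cancel₀ hc0, one_smul]
  have hord : orderOf (QuotientGroup.mk y' : Matrix.ProjectiveSpecialLinearGroup (Fin n) F) = r :=
    orderOf_eq_prime hyr hy1
  have hcomm : Commute (QuotientGroup.mk g : Matrix.ProjectiveSpecialLinearGroup (Fin n) F)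
      (QuotientGroup.mk y') := by
    have h1 : g * y' = y' * g := by
      apply Subtype.ext
      rw [Matrix.SpecialLinearGroup.coe_mul, Matrix.SpecialLinearGroup.coe_mul, hy',
        Matrix.mul_smul, Matrix.smul_mul, hc]
    show (QuotientGroup.mk g : Matrix.ProjectiveSpecialLinearGroup (Fin n) F) * QuotientGroup.mk y' =
      QuotientGroup.mk y' * QuotientGroup.mk g
    rw [← QuotientGroup.mk_mul, ← QuotientGroup.mk_mul, h1]
  refine ⟨QuotientGroup.mk g * QuotientGroup.mk y', ?_⟩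
  rw [hcomm.orderOf_mul_eq_mul_orderOf_of_coprime, hord, mul_comm]
  rw [hord]
  exact ((Nat.Prime.coprime_iff_not_dvd hr).2 hra).symm

/-- if every `r`-torsion polynomial in `T` is scalar (and `T` is semisimple), the minimal
polynomial of `T` is irreducible -/
theorem minpoly_irred (hn : 0 < n) (r : ℕ) (ζ : F) (hζ : ζ ^ r = 1) (hζ1 : ζ ≠ 1)
    (T : Matrix (Fin n) (Fin n) F) (c : ℕ) (hc : (c : F) ≠ 0) (lam : F) (hlam : lam ≠ 0)
    (hT : T ^ c = lam • (1 : Matrix (Fin n) (Fin n) F))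
    (hB : ∀ h : F[X], (aeval T h) ^ r = 1 →
      ∃ s : F, aeval T h = s • (1 : Matrix (Fin n) (Fin n) F)) :
    Irreducible (minpoly F T) := by
  have : NeZero n := ⟨hn.ne'⟩
  have hsep : (minpoly F T).Separable := by
    refine (Polynomial.separable_X_pow_sub_C lam hc hlam).of_dvd ?_
    apply minpoly.dvd
    rw [map_sub, map_pow, aeval_X, aeval_C, hT, Algebra.algebraMap_eq_smul_one, sub_self]
  by_contra hirr
  rw [irreducible_iff] at hirr
  push Not at hirr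
  obtain ⟨g₁, g₂, hμ, h1, h2⟩ := hirr (minpoly.not_isUnit F T)
  have hcop : IsCoprime g₁ g₂ := by
    rw [hμ] at hsep
    exact hsep.isCoprime
  obtain ⟨u, v, huv⟩ := hcop
  obtain ⟨h, hdef⟩ : ∃ h : F[X], h = C ζ * (v * g₂) + u * g₁ := ⟨_, rfl⟩
  have hd1 : g₁ ∣ h - C ζ := by
    refine ⟨(1 - C ζ) * u, ?_⟩
    rw [hdef]
    linear_combination (C ζ) * huv
  have hd2 : g₂ ∣ h - 1 := by
    refine ⟨(C ζ - 1) * v, ?_⟩
    rw [hdef]
    linear_combination huv
  have hp1 : g₁ ∣ h ^ r - 1 := by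
    have h3 : h - C ζ ∣ h ^ r - (C ζ) ^ r := sub_dvd_pow_sub_pow h (C ζ) r
    rw [← C_pow, hζ, C_1] at h3
    exact hd1.trans h3
  have hp2 : g₂ ∣ h ^ r - 1 := by
    have h3 : h - 1 ∣ h ^ r - 1 ^ r := sub_dvd_pow_sub_pow h 1 r
    rw [one_pow] at h3
    exact hd2.trans h3
  have hμd : minpoly F T ∣ h ^ r - 1 := by
    rw [hμ]
    exact IsCoprime.mul_dvd ⟨u, v, huv⟩ hp1 hp2
  have hYr : (aeval T h) ^ r = 1 := by
    obtain ⟨w, hw⟩ := hμd
    have h4 : aeval T (h ^ r - 1) = 0 := by rw [hw, map_mul, minpoly.aeval, zero_mul]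
    rw [map_sub, map_pow, map_one, sub_eq_zero] at h4
    exact h4
  obtain ⟨s, hs⟩ := hB h hYr
  have hμs : minpoly F T ∣ h - C s := by
    apply minpoly.dvd
    rw [map_sub, aeval_C, hs, Algebra.algebraMap_eq_smul_one, sub_self]
  have hs1 : s = ζ := by
    by_contra hne
    have h5 : g₁ ∣ C (s - ζ) := by
      have h6 : g₁ ∣ (h - C ζ) - (h - C s) := dvd_sub hd1 ((Dvd.intro g₂ hμ.symm).trans hμs)
      have h7 : (h - C ζ) - (h - C s) = C (s - ζ) := by rw [C_sub]; ring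
      rwa [h7] at h6
    exact h1 (isUnit_of_dvd_unit h5 (Polynomial.isUnit_C.2 (IsUnit.mk0 _ (sub_ne_zero.2 hne))))
  have hs2 : s = 1 := by
    by_contra hne
    have h5 : g₂ ∣ C (s - 1) := by
      have h6 : g₂ ∣ (h - 1) - (h - C s) :=
        dvd_sub hd2 ((Dvd.intro_left g₁ hμ.symm).trans hμs)
      have h7 : (h - 1) - (h - C s) = C (s - 1) := by rw [C_sub, C_1]; ring
      rwa [h7] at h6
    exact h2 (isUnit_of_dvd_unit h5 (Polynomial.isUnit_C.2 (IsUnit.mk0 _ (sub_ne_zero.2 hne))))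
  exact hζ1 (hs1.symm.trans hs2)


/-- a determinant-one matrix with irreducible minimal polynomial has Singer-type order modulo
scalars -/
theorem pow_NS_scalar [Fintype F] (hn : 0 < n) (T : Matrix (Fin n) (Fin n) F)
    (hirr : Irreducible (minpoly F T)) (hdet : T.det = 1) :
    ∃ s : F, T ^ (((Fintype.card F ^ n - 1) / (Fintype.card F - 1)) /
      Nat.gcd ((Fintype.card F ^ n - 1) / (Fintype.card F - 1)) (Fintype.card F - 1)) =
        s • (1 : Matrix (Fin n) (Fin n) F) := by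
  classical
  have : NeZero n := ⟨hn.ne'⟩
  obtain ⟨q, hq⟩ : ∃ q : ℕ, q = Fintype.card F := ⟨_, rfl⟩
  have hq2 : 2 ≤ q := hq ▸ Fintype.one_lt_card
  rw [← hq]
  obtain ⟨μ, hμdef⟩ : ∃ μ : F[X], μ = minpoly F T := ⟨_, rfl⟩
  have hμirr : Irreducible μ := hμdef ▸ hirr
  have : Fact (Irreducible μ) := ⟨hμirr⟩
  have hμ0 : μ ≠ 0 := hμirr.ne_zero
  have hfin : Module.Finite F (AdjoinRoot μ) := (AdjoinRoot.powerBasis hμ0).finite
  have : Finite (AdjoinRoot μ) := Module.finite_of_finite F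
  have : Fintype (AdjoinRoot μ) := Fintype.ofFinite _
  obtain ⟨φ, hφ⟩ : ∃ φ : AdjoinRoot μ →ₐ[F] Matrix (Fin n) (Fin n) F,
      ∀ h : F[X], φ (AdjoinRoot.mk μ h) = aeval T h := by
    refine ⟨Ideal.Quotient.liftₐ (Ideal.span {μ}) (aeval T) ?_, fun h => rfl⟩
    intro a ha
    rw [Ideal.mem_span_singleton] at ha
    obtain ⟨w, rfl⟩ := ha
    rw [map_mul, hμdef, minpoly.aeval, zero_mul]
  have hφroot : φ (AdjoinRoot.root μ) = T := by
    show φ (AdjoinRoot.mk μ X) = T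
    rw [hφ, aeval_X]
  letI : Module (AdjoinRoot μ) (Fin n → F) := Module.compHom (Fin n → F)
    (((Matrix.toLinAlgEquiv' : Matrix (Fin n) (Fin n) F ≃ₐ[F] Module.End F (Fin n → F)) :
      Matrix (Fin n) (Fin n) F →+* Module.End F (Fin n → F)).comp
        (φ : AdjoinRoot μ →+* Matrix (Fin n) (Fin n) F))
  have hsm : ∀ (k : AdjoinRoot μ) (v : Fin n → F), k • v = (φ k) *ᵥ v := fun k v => rfl
  haveI : IsScalarTower F (AdjoinRoot μ) (Fin n → F) := ⟨fun c k v => by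
    rw [hsm, hsm, map_smul, Matrix.smul_mulVec]⟩
  obtain ⟨e, he⟩ : ∃ e : ℕ, e = Module.finrank (AdjoinRoot μ) (Fin n → F) := ⟨_, rfl⟩
  obtain ⟨d, hd⟩ : ∃ d : ℕ, d = Module.finrank F (AdjoinRoot μ) := ⟨_, rfl⟩
  obtain ⟨ρ₀, hρ₀⟩ : ∃ ρ₀ : AdjoinRoot μ, ρ₀ = AdjoinRoot.root μ := ⟨_, rfl⟩
  have hnorm : Algebra.norm F (ρ₀ ^ e) = 1 := by
    have hfres : ((ρ₀ • (LinearMap.id : (Fin n → F) →ₗ[AdjoinRoot μ] (Fin n → F))).restrictScalars F)
        = Matrix.toLin' T := by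
      apply LinearMap.ext
      intro v
      show ρ₀ • v = _
      rw [hsm, hρ₀, hφroot, Matrix.toLin'_apply]
    have hdetK : LinearMap.det (ρ₀ • (LinearMap.id : (Fin n → F) →ₗ[AdjoinRoot μ] (Fin n → F)))
        = ρ₀ ^ e := by
      rw [LinearMap.det_smul, LinearMap.det_id, mul_one, he]
    rw [← hdetK, ← LinearMap.det_restrictScalars, hfres, LinearMap.det_toLin', hdet]
  have hde : d * e = n := by
    rw [hd, he, Module.finrank_mul_finrank F (AdjoinRoot μ) (Fin n → F), Module.finrank_fin_fun]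
  have hQ : Nat.card (AdjoinRoot μ) = q ^ d := by
    rw [Module.natCard_eq_pow_finrank (K := F) (V := AdjoinRoot μ), Nat.card_eq_fintype_card,
      ← hq, hd]
  obtain ⟨Q, hQdef⟩ : ∃ Q : ℕ, Q = q ^ d := ⟨_, rfl⟩
  have hd0 : 0 < d := by
    rcases Nat.eq_zero_or_pos d with h | h
    · rw [h, zero_mul] at hde; omega
    · exact h
  have hQ2 : 2 ≤ Q := by
    rw [hQdef]
    calc 2 ≤ q := hq2
      _ = q ^ 1 := (pow_one q).symm
      _ ≤ q ^ d := Nat.pow_le_pow_right (by omega) hd0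
  have hrQ : ρ₀ ^ Q = ρ₀ := by
    have h1 := FiniteField.pow_card ρ₀
    rwa [← Nat.card_eq_fintype_card, hQ, ← hQdef] at h1
  obtain ⟨N', hN'⟩ : ∃ N' : ℕ, N' = (Q - 1) / (q - 1) := ⟨_, rfl⟩
  have hnorm2 : ρ₀ ^ (N' * e) = 1 := by
    have h1 := FiniteField.algebraMap_norm_eq_pow (K := F) (K' := AdjoinRoot μ) (x := ρ₀)
    rw [hQ, Nat.card_eq_fintype_card, ← hq, ← hQdef, ← hN'] at h1
    rw [pow_mul, ← h1, ← map_pow, ← map_pow, hnorm, map_one]
  have hν : ∀ l : ℕ, (ρ₀ ^ N') ^ (Q ^ l) = ρ₀ ^ N' := by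
    intro l
    induction l with
    | zero => rw [pow_zero, pow_one]
    | succ l ih => rw [pow_succ, pow_mul, ih, ← pow_mul, mul_comm, pow_mul, hrQ]
  obtain ⟨N, hN⟩ : ∃ N : ℕ, N = (q ^ n - 1) / (q - 1) := ⟨_, rfl⟩
  have hqn : q ^ n = Q ^ e := by rw [← hde, pow_mul, hQdef]
  have hNfac : N = N' * ∑ l ∈ Finset.range e, Q ^ l := by
    rw [Nat.geomSum_eq hQ2, hN, hN', hqn]
    have h1 : q - 1 ∣ Q - 1 := by
      have h := Nat.sub_dvd_pow_sub_pow q 1 d
      rwa [one_pow, ← hQdef] at h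
    have h2 : Q - 1 ∣ Q ^ e - 1 := by
      have h := Nat.sub_dvd_pow_sub_pow Q 1 e
      rwa [one_pow] at h
    rw [Nat.div_mul_div_comm h1 h2, mul_comm (Q - 1) (Q ^ e - 1),
      Nat.mul_div_mul_right _ _ (by omega)]
  have hrN : ρ₀ ^ N = 1 := by
    rw [hNfac, pow_mul, ← Finset.prod_pow_eq_pow_sum, Finset.prod_congr rfl (fun l _ => hν l),
      Finset.prod_const, Finset.card_range, ← pow_mul, hnorm2]
  obtain ⟨g, hg⟩ : ∃ g : ℕ, g = Nat.gcd N (q - 1) := ⟨_, rfl⟩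
  have hgN : g ∣ N := hg ▸ Nat.gcd_dvd_left _ _
  have hgq : g ∣ q - 1 := hg ▸ Nat.gcd_dvd_right _ _
  obtain ⟨w, hw⟩ : ∃ w : AdjoinRoot μ, w = ρ₀ ^ (N / g) := ⟨_, rfl⟩
  have hwq : w ^ q = w := by
    have h1 : w ^ g = 1 := by rw [hw, ← pow_mul, Nat.div_mul_cancel hgN, hrN]
    obtain ⟨t, ht⟩ := hgq
    have h2 : w ^ (q - 1) = 1 := by rw [ht, pow_mul, h1, one_pow]
    calc w ^ q = w ^ (q - 1 + 1) := by congr 1; omega
      _ = w := by rw [pow_succ, h2, one_mul]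
  have hwF : ∃ lam : F, algebraMap F (AdjoinRoot μ) lam = w := by
    have hP0 : (X ^ q - X : (AdjoinRoot μ)[X]) ≠ 0 :=
      FiniteField.X_pow_card_sub_X_ne_zero (AdjoinRoot μ) (by omega)
    have hsub : Finset.image (algebraMap F (AdjoinRoot μ)) Finset.univ ⊆
        (X ^ q - X : (AdjoinRoot μ)[X]).roots.toFinset := by
      intro x hx
      obtain ⟨lam, -, rfl⟩ := Finset.mem_image.1 hx
      rw [Multiset.mem_toFinset, Polynomial.mem_roots hP0, Polynomial.IsRoot.def, eval_sub,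
        eval_pow, eval_X, ← map_pow, hq, FiniteField.pow_card, sub_self]
    have hcard : (X ^ q - X : (AdjoinRoot μ)[X]).roots.toFinset.card ≤
        (Finset.image (algebraMap F (AdjoinRoot μ)) Finset.univ).card := by
      rw [Finset.card_image_of_injective _ (algebraMap F (AdjoinRoot μ)).injective,
        Finset.card_univ, ← hq]
      calc (X ^ q - X : (AdjoinRoot μ)[X]).roots.toFinset.card
          ≤ Multiset.card (X ^ q - X : (AdjoinRoot μ)[X]).roots := Multiset.toFinset_card_le _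
        _ ≤ (X ^ q - X : (AdjoinRoot μ)[X]).natDegree := Polynomial.card_roots' _
        _ = q := FiniteField.X_pow_card_sub_X_natDegree_eq (AdjoinRoot μ) (by omega)
    have heq := Finset.eq_of_subset_of_card_le hsub hcard
    have hwmem : w ∈ (X ^ q - X : (AdjoinRoot μ)[X]).roots.toFinset := by
      rw [Multiset.mem_toFinset, Polynomial.mem_roots hP0, Polynomial.IsRoot.def, eval_sub,
        eval_pow, eval_X, hwq, sub_self]
    rw [← heq] at hwmem
    obtain ⟨lam, -, hl⟩ := Finset.mem_image.1 hwmem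
    exact ⟨lam, hl⟩
  obtain ⟨lam, hlam⟩ := hwF
  refine ⟨lam, ?_⟩
  rw [← hN, ← hg, ← hφroot, ← map_pow, ← hρ₀, ← hw, ← hlam, AlgHom.commutes,
    Algebra.algebraMap_eq_smul_one]


/-- a Singer-type element of `PSL_n(q)` -/
theorem exists_singer [Fintype F] (hn : 0 < n) :
    ∃ y : Matrix.ProjectiveSpecialLinearGroup (Fin n) F,
      (((Fintype.card F ^ n - 1) / (Fintype.card F - 1)) /
      Nat.gcd ((Fintype.card F ^ n - 1) / (Fintype.card F - 1)) (Fintype.card F - 1)) ∣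
        orderOf y := by
  classical
  have : NeZero n := ⟨hn.ne'⟩
  obtain ⟨p, hp⟩ := CharP.exists F
  have hpp : p.Prime := CharP.char_is_prime F p
  have : Fact p.Prime := ⟨hpp⟩
  obtain ⟨q, hq⟩ : ∃ q : ℕ, q = Fintype.card F := ⟨_, rfl⟩
  have hq2 : 2 ≤ q := hq ▸ Fintype.one_lt_card
  rw [← hq]
  have hcardE : Nat.card (FiniteField.Extension F p n) = q ^ n := by
    rw [FiniteField.natCard_extension, Nat.card_eq_fintype_card, hq]
  have hrank : Module.finrank F (FiniteField.Extension F p n) = n :=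
    FiniteField.finrank_extension F p n
  obtain ⟨γ, hγ⟩ := IsCyclic.exists_generator (α := (FiniteField.Extension F p n)ˣ)
  have hoγ : orderOf γ = q ^ n - 1 := by
    rw [orderOf_eq_card_of_forall_mem_zpowers hγ, Nat.card_units, hcardE]
  let b : Module.Basis (Fin n) F (FiniteField.Extension F p n) :=
    Module.finBasisOfFinrankEq F (FiniteField.Extension F p n) hrank
  obtain ⟨N, hN⟩ : ∃ N : ℕ, N = (q ^ n - 1) / (q - 1) := ⟨_, rfl⟩
  have hdvd : q - 1 ∣ q ^ n - 1 := by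
    have h := Nat.sub_dvd_pow_sub_pow q 1 n
    rwa [one_pow] at h
  have hNq : N * (q - 1) = q ^ n - 1 := by rw [hN, Nat.div_mul_cancel hdvd]
  obtain ⟨x, hx⟩ : ∃ x : FiniteField.Extension F p n,
      x = ((γ ^ (q - 1) : (FiniteField.Extension F p n)ˣ) : FiniteField.Extension F p n) :=
    ⟨_, rfl⟩
  have hdet : (Algebra.leftMulMatrix b x).det = 1 := by
    rw [← Algebra.norm_eq_matrix_det b, hx, Units.val_pow_eq_pow_val, map_pow, hq]
    apply FiniteField.pow_card_sub_one_eq_one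
    rw [Ne, Algebra.norm_eq_zero_iff]
    exact γ.ne_zero
  obtain ⟨σ, hσ⟩ : ∃ σ : Matrix.SpecialLinearGroup (Fin n) F,
      (σ : Matrix (Fin n) (Fin n) F) = Algebra.leftMulMatrix b x := ⟨⟨_, hdet⟩, rfl⟩
  refine ⟨QuotientGroup.mk σ, ?_⟩
  have h1 := pow_orderOf_eq_one
    (QuotientGroup.mk σ : Matrix.ProjectiveSpecialLinearGroup (Fin n) F)
  obtain ⟨k, hk⟩ : ∃ k : ℕ,
      k = orderOf (QuotientGroup.mk σ : Matrix.ProjectiveSpecialLinearGroup (Fin n) F) :=
    ⟨_, rfl⟩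
  rw [← hk] at h1 ⊢
  rw [mk_pow_eq_one] at h1
  obtain ⟨s, hs⟩ := h1
  rw [hσ, ← map_pow] at hs
  have h2 : x ^ k = algebraMap F (FiniteField.Extension F p n) s := by
    apply Algebra.leftMulMatrix_injective b
    rw [hs, AlgHom.commutes, Algebra.algebraMap_eq_smul_one]
  have hx0 : x ≠ 0 := by rw [hx]; exact Units.ne_zero _
  have hs0 : s ≠ 0 := by
    intro h0
    rw [h0, map_zero] at h2
    exact (pow_ne_zero k hx0) h2
  have h3 : (γ ^ ((q - 1) * k * (q - 1)) : (FiniteField.Extension F p n)ˣ) = 1 := by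
    apply Units.ext
    rw [Units.val_pow_eq_pow_val, Units.val_one, pow_mul, pow_mul, ← Units.val_pow_eq_pow_val,
      ← hx, h2, ← map_pow, hq, FiniteField.pow_card_sub_one_eq_one s hs0, map_one]
  have h4 : q ^ n - 1 ∣ (q - 1) * k * (q - 1) := by
    rw [← hoγ]; exact orderOf_dvd_of_pow_eq_one h3
  have hq1 : 0 < q - 1 := by omega
  have h5 : N ∣ k * (q - 1) := by
    rw [← hNq] at h4
    have h6 : N * (q - 1) ∣ (k * (q - 1)) * (q - 1) := by
      rw [show (k * (q - 1)) * (q - 1) = (q - 1) * k * (q - 1) by ring]; exact h4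
    exact Nat.dvd_of_mul_dvd_mul_right hq1 h6
  obtain ⟨g, hg⟩ : ∃ g : ℕ, g = Nat.gcd N (q - 1) := ⟨_, rfl⟩
  rw [← hN, ← hg]
  have hg0 : 0 < g := by rw [hg]; exact Nat.gcd_pos_of_pos_right _ hq1
  have hcop : Nat.Coprime (N / g) ((q - 1) / g) := by
    rw [hg]; exact Nat.coprime_div_gcd_div_gcd (hg ▸ hg0)
  have hgN : g ∣ N := hg ▸ Nat.gcd_dvd_left _ _
  have hgq : g ∣ q - 1 := hg ▸ Nat.gcd_dvd_right _ _
  have h7 : N / g ∣ k * ((q - 1) / g) := by
    obtain ⟨t, ht⟩ := h5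
    refine ⟨t, ?_⟩
    have e1 : g * (N / g) = N := Nat.mul_div_cancel' hgN
    have e2 : g * ((q - 1) / g) = q - 1 := Nat.mul_div_cancel' hgq
    apply Nat.eq_of_mul_eq_mul_left hg0
    calc g * (k * ((q - 1) / g)) = k * (g * ((q - 1) / g)) := by ring
      _ = k * (q - 1) := by rw [e2]
      _ = N * t := ht
      _ = g * (N / g) * t := by rw [e1]
      _ = g * (N / g * t) := by ring
  exact hcop.dvd_of_dvd_mul_right h7

/-- elements of `p`-power order of `PSL_n` over a field of characteristic `p` have order at most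
the least power of `p` that is `≥ n` -/
theorem ppart_le [Fintype F] (p : ℕ) [Fact p.Prime] [CharP F p] (hn : 0 < n)
    (x : Matrix.ProjectiveSpecialLinearGroup (Fin n) F) (j J : ℕ) (hJ : n ≤ p ^ J)
    (h : orderOf x = p ^ j) : j ≤ J := by
  classical
  have : NeZero n := ⟨hn.ne'⟩
  have hp : p.Prime := Fact.out
  obtain ⟨g, rfl⟩ := QuotientGroup.mk_surjective x
  have h1 := pow_orderOf_eq_one
    (QuotientGroup.mk g : Matrix.ProjectiveSpecialLinearGroup (Fin n) F)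
  rw [h, mk_pow_eq_one] at h1
  obtain ⟨lam, hlam⟩ := h1
  obtain ⟨μ₀, hμ₀⟩ : ∃ μ₀ : F, μ₀ ^ p ^ j = lam := by
    obtain ⟨μ₀, h2⟩ := (iterateFrobeniusEquiv F p j).surjective lam
    exact ⟨μ₀, by rw [← h2, coe_iterateFrobeniusEquiv, iterateFrobenius_def]⟩
  obtain ⟨M, hM⟩ : ∃ M : Matrix (Fin n) (Fin n) F,
      M = (g : Matrix (Fin n) (Fin n) F) - μ₀ • (1 : Matrix (Fin n) (Fin n) F) := ⟨_, rfl⟩
  have hcomm : Commute (g : Matrix (Fin n) (Fin n) F) (μ₀ • (1 : Matrix (Fin n) (Fin n) F)) := by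
    show _ * _ = _ * _
    rw [Matrix.mul_smul, Matrix.smul_mul, mul_one, one_mul]
  have hMnil : M ^ p ^ j = 0 := by
    rw [hM, sub_pow_char_pow_of_commute p j hcomm, hlam, _root_.smul_pow, one_pow, hμ₀, sub_self]
  have hMn : M ^ n = 0 := by
    have hnil : IsNilpotent M := ⟨p ^ j, hMnil⟩
    have h7 := Matrix.isNilpotent_charpoly_sub_pow_of_isNilpotent hnil
    have h8 : M.charpoly = X ^ Fintype.card (Fin n) := sub_eq_zero.1 h7.eq_zero
    have h9 := Matrix.aeval_self_charpoly M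
    rw [h8, map_pow, aeval_X, Fintype.card_fin] at h9
    exact h9
  have hMJ : M ^ p ^ J = 0 := by
    obtain ⟨t, ht⟩ := Nat.exists_eq_add_of_le hJ
    rw [ht, pow_add, hMn, zero_mul]
  have h3 : (g : Matrix (Fin n) (Fin n) F) ^ p ^ J =
      (μ₀ ^ p ^ J) • (1 : Matrix (Fin n) (Fin n) F) := by
    have h4 : (g : Matrix (Fin n) (Fin n) F) = M + μ₀ • (1 : Matrix (Fin n) (Fin n) F) := by
      rw [hM, sub_add_cancel]
    have hcomm2 : Commute M (μ₀ • (1 : Matrix (Fin n) (Fin n) F)) := by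
      show _ * _ = _ * _
      rw [Matrix.mul_smul, Matrix.smul_mul, mul_one, one_mul]
    rw [h4, add_pow_char_pow_of_commute p J hcomm2, hMJ, zero_add, _root_.smul_pow, one_pow]
  have h5 : (QuotientGroup.mk g : Matrix.ProjectiveSpecialLinearGroup (Fin n) F) ^ p ^ J = 1 := by
    rw [mk_pow_eq_one]; exact ⟨_, h3⟩
  have h6 := orderOf_dvd_of_pow_eq_one h5
  rw [h] at h6
  exact (Nat.pow_dvd_pow_iff_le_right hp.one_lt).1 h6


/-- elements of order `r * p ^ jm` in `PSL_n(q)`, `r ∣ q - 1`, `r ∤ n`, as long as a unipotent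
block of size `n - 1` has order at least `p ^ jm` -/
theorem exists_r_pp [Fintype F] (p : ℕ) [Fact p.Prime] [CharP F p] (hn : 2 ≤ n) (r : ℕ)
    (hr : r.Prime) (hrp : r ≠ p) (hrn : ¬ r ∣ n) (ζ : F) (hζ : ζ ^ r = 1) (hζ1 : ζ ≠ 1)
    (jm : ℕ) (hjm : jm = 0 ∨ p ^ (jm - 1) + 1 < n) :
    ∃ y : Matrix.ProjectiveSpecialLinearGroup (Fin n) F, orderOf y = r * p ^ jm := by
  classical
  have : NeZero n := ⟨by omega⟩
  have hp : p.Prime := Fact.out
  obtain ⟨S, hS⟩ : ∃ S : Matrix (Fin n) (Fin n) F, ∀ i j, S i j =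
      if (i : ℕ) + 1 = (j : ℕ) ∧ (j : ℕ) + 1 < n then 1 else 0 :=
    ⟨Matrix.of fun i j => if (i : ℕ) + 1 = (j : ℕ) ∧ (j : ℕ) + 1 < n then 1 else 0,
      fun i j => rfl⟩
  obtain ⟨D, hD⟩ : ∃ D : Matrix (Fin n) (Fin n) F,
      D = Matrix.diagonal (fun i : Fin n => if (i : ℕ) + 1 = n then ζ else 1) := ⟨_, rfl⟩
  have hSpow : ∀ m : ℕ, 1 ≤ m → ∀ i j : Fin n, (S ^ m) i j =
      if (i : ℕ) + m = (j : ℕ) ∧ (j : ℕ) + 1 < n then 1 else 0 := by
    intro m hm
    induction m, hm using Nat.le_induction with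
    | base => intro i j; rw [pow_one, hS]
    | succ m hm ih =>
      intro i j
      rw [pow_succ, Matrix.mul_apply]
      by_cases hc : (i : ℕ) + (m + 1) = (j : ℕ) ∧ (j : ℕ) + 1 < n
      · rw [if_pos hc]
        have hk : (i : ℕ) + m < n := by omega
        have e1 : (S ^ m) i ⟨(i : ℕ) + m, hk⟩ = 1 := by
          rw [ih, if_pos]
          exact ⟨rfl, by show (i : ℕ) + m + 1 < n; omega⟩
        have e2 : S ⟨(i : ℕ) + m, hk⟩ j = 1 := by
          rw [hS, if_pos]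
          exact ⟨by show (i : ℕ) + m + 1 = (j : ℕ); omega, hc.2⟩
        rw [Finset.sum_eq_single (⟨(i : ℕ) + m, hk⟩ : Fin n), e1, e2, mul_one]
        · intro k _ hkne
          rw [ih, if_neg, zero_mul]
          rintro ⟨h1, -⟩
          exact hkne (Fin.ext h1.symm)
        · intro h; exact absurd (Finset.mem_univ _) h
      · rw [if_neg hc]
        apply Finset.sum_eq_zero
        intro k _
        rw [ih, hS]
        by_cases h1 : (i : ℕ) + m = (k : ℕ) ∧ (k : ℕ) + 1 < n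
        · have h2 : ¬ ((k : ℕ) + 1 = (j : ℕ) ∧ (j : ℕ) + 1 < n) := by
            rintro ⟨h2, h3⟩
            exact hc ⟨by omega, h3⟩
          rw [if_pos h1, if_neg h2, mul_zero]
        · rw [if_neg h1, zero_mul]
  have hSn : ∀ m : ℕ, n ≤ m → S ^ m = 0 := by
    intro m hm
    ext i j
    have h2 : ¬ ((i : ℕ) + m = (j : ℕ) ∧ (j : ℕ) + 1 < n) := by
      rintro ⟨h1, -⟩
      have := j.2
      omega
    rw [hSpow m (by omega), if_neg h2, Matrix.zero_apply]
  have hSD : S * D = S := by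
    ext i j
    rw [hD, Matrix.mul_diagonal, hS]
    by_cases hc : (i : ℕ) + 1 = (j : ℕ) ∧ (j : ℕ) + 1 < n
    · have hj : ¬ ((j : ℕ) + 1 = n) := by omega
      rw [if_pos hc, if_neg hj, mul_one]
    · rw [if_neg hc, zero_mul]
  have hDS : D * S = S := by
    ext i j
    rw [hD, Matrix.diagonal_mul, hS]
    by_cases hc : (i : ℕ) + 1 = (j : ℕ) ∧ (j : ℕ) + 1 < n
    · have hi : ¬ ((i : ℕ) + 1 = n) := by omega
      rw [if_pos hc, if_neg hi, one_mul]
    · rw [if_neg hc, mul_zero]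
  obtain ⟨J, hJ⟩ : ∃ J : ℕ, n ≤ p ^ J := ⟨n, (Nat.lt_pow_self hp.one_lt).le⟩
  have hUpow : ∀ m : ℕ, (1 + S) ^ p ^ m = 1 + S ^ p ^ m := by
    intro m
    rw [add_pow_char_pow_of_commute p m (Commute.one_left S), one_pow]
  have hUJ : (1 + S) ^ p ^ J = 1 := by rw [hUpow, hSn _ hJ, add_zero]
  have hdet : (1 + S).det = 1 := by
    have h1 : (1 + S).det ^ p ^ J = 1 := by rw [← Matrix.det_pow, hUJ, Matrix.det_one]
    have h2 : ((1 + S).det - 1) ^ p ^ J = 0 := by rw [sub_pow_char_pow, h1, one_pow, sub_self]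
    exact sub_eq_zero.1 ((pow_eq_zero_iff (pow_ne_zero _ hp.ne_zero)).1 h2)
  obtain ⟨g₀, hg₀⟩ : ∃ g₀ : Matrix.SpecialLinearGroup (Fin n) F,
      (g₀ : Matrix (Fin n) (Fin n) F) = 1 + S := ⟨⟨_, hdet⟩, rfl⟩
  have hpJ : (QuotientGroup.mk g₀ : Matrix.ProjectiveSpecialLinearGroup (Fin n) F) ^ p ^ J = 1 := by
    rw [mk_pow_eq_one]; exact ⟨1, by rw [hg₀, hUJ, one_smul]⟩
  obtain ⟨i, -, hi⟩ := (Nat.dvd_prime_pow hp).1 (orderOf_dvd_of_pow_eq_one hpJ)
  have hij : jm ≤ i := by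
    rcases hjm with h0 | h1
    · omega
    · by_contra hlt
      push Not at hlt
      have h2 : (QuotientGroup.mk g₀ : Matrix.ProjectiveSpecialLinearGroup (Fin n) F) ^
          p ^ (jm - 1) = 1 := by
        apply orderOf_dvd_iff_pow_eq_one.1
        rw [hi]
        exact pow_dvd_pow p (by omega)
      rw [mk_pow_eq_one] at h2
      obtain ⟨s, hs⟩ := h2
      rw [hg₀, hUpow] at hs
      have hm1 : 1 ≤ p ^ (jm - 1) := Nat.one_le_pow _ _ hp.pos
      have hne : (⟨0, by omega⟩ : Fin n) ≠ ⟨p ^ (jm - 1), by omega⟩ := by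
        intro h
        have h' : (0 : ℕ) = p ^ (jm - 1) := congrArg Fin.val h
        omega
      have h3 := congrFun (congrFun hs ⟨0, by omega⟩) ⟨p ^ (jm - 1), by omega⟩
      have h4 : ((0 : ℕ) + p ^ (jm - 1) = p ^ (jm - 1) ∧ p ^ (jm - 1) + 1 < n) :=
        ⟨by omega, h1⟩
      rw [Matrix.add_apply, Matrix.one_apply_ne hne, zero_add, hSpow _ hm1, if_pos h4,
        Matrix.smul_apply, Matrix.one_apply_ne hne, smul_zero] at h3
      exact one_ne_zero h3
  have hDr : D ^ r = 1 := by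
    rw [hD, Matrix.diagonal_pow, ← Matrix.diagonal_one]
    congr 1
    funext k
    by_cases hk : (k : ℕ) + 1 = n
    · simp [hk, hζ]
    · simp [hk]
  have hDcomm : D * (g₀ : Matrix (Fin n) (Fin n) F) = (g₀ : Matrix (Fin n) (Fin n) F) * D := by
    rw [hg₀, mul_add, add_mul, mul_one, one_mul, hDS, hSD]
  have hDns : ¬ ∃ s : F, D = s • (1 : Matrix (Fin n) (Fin n) F) := by
    rintro ⟨s, hs⟩
    have h0 := congrFun (congrFun hs ⟨0, by omega⟩) ⟨0, by omega⟩
    have h1 := congrFun (congrFun hs ⟨n - 1, by omega⟩) ⟨n - 1, by omega⟩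
    rw [hD, Matrix.diagonal_apply_eq, Matrix.smul_apply, Matrix.one_apply_eq, smul_eq_mul,
      mul_one] at h0 h1
    have e0 : ¬ ((0 : ℕ) + 1 = n) := by omega
    have e1 : (n - 1 + 1 = n) := by omega
    rw [if_neg e0] at h0
    rw [if_pos e1] at h1
    exact hζ1 (h1.trans h0.symm)
  have hra : ¬ r ∣ orderOf
      (QuotientGroup.mk g₀ : Matrix.ProjectiveSpecialLinearGroup (Fin n) F) := by
    rw [hi]
    intro h
    exact hrp ((Nat.prime_dvd_prime_iff_eq hr hp).1 (hr.dvd_of_dvd_pow h))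
  obtain ⟨y, hy⟩ := good_of_comm r hr hrn g₀ D hDr hDcomm hDns hra
  rw [hi] at hy
  refine ⟨y ^ p ^ (i - jm), ?_⟩
  rw [orderOf_pow_of_dvd (pow_ne_zero _ hp.ne_zero), hy]
  · have h4 : p ^ i = p ^ jm * p ^ (i - jm) := by rw [← pow_add]; congr 1; omega
    rw [h4, ← mul_assoc, Nat.mul_div_cancel _ (pow_pos hp.pos _)]
  · rw [hy]
    exact Dvd.dvd.mul_left (pow_dvd_pow p (Nat.sub_le _ _)) r

/-- the dichotomy: either `r * |x|` is an element order, or the `p'`-part of `|x|` is a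
Singer-type order -/
theorem dichotomy [Fintype F] (p : ℕ) [Fact p.Prime] [CharP F p] (hn : 2 ≤ n) (r : ℕ)
    (hr : r.Prime) (hrn : ¬ r ∣ n) (ζ : F) (hζ : ζ ^ r = 1) (hζ1 : ζ ≠ 1)
    (x : Matrix.ProjectiveSpecialLinearGroup (Fin n) F) (hrx : ¬ r ∣ orderOf x) :
    (∃ y : Matrix.ProjectiveSpecialLinearGroup (Fin n) F, orderOf y = r * orderOf x) ∨
    (∃ c j : ℕ, orderOf x = c * p ^ j ∧ ¬ p ∣ c ∧
      c ∣ (((Fintype.card F ^ n - 1) / (Fintype.card F - 1)) /
      Nat.gcd ((Fintype.card F ^ n - 1) / (Fintype.card F - 1)) (Fintype.card F - 1))) := by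
  classical
  have hp : p.Prime := Fact.out
  have hn0 : 0 < n := by omega
  obtain ⟨g, rfl⟩ := QuotientGroup.mk_surjective x
  by_cases hB : ∀ h : F[X], (aeval (g : Matrix (Fin n) (Fin n) F) h) ^ r = 1 →
      ∃ s : F, aeval (g : Matrix (Fin n) (Fin n) F) h = s • (1 : Matrix (Fin n) (Fin n) F)
  · right
    have hpos : 0 < orderOf
        (QuotientGroup.mk g : Matrix.ProjectiveSpecialLinearGroup (Fin n) F) := orderOf_pos _
    obtain ⟨j, c, hpc, hac⟩ := Nat.exists_eq_pow_mul_and_not_dvd hpos.ne' p hp.ne_one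
    refine ⟨c, j, by rw [hac, mul_comm], hpc, ?_⟩
    obtain ⟨T, hT⟩ : ∃ T : Matrix (Fin n) (Fin n) F,
        T = (g : Matrix (Fin n) (Fin n) F) ^ p ^ j := ⟨_, rfl⟩
    have h1 := pow_orderOf_eq_one
      (QuotientGroup.mk g : Matrix.ProjectiveSpecialLinearGroup (Fin n) F)
    rw [mk_pow_eq_one] at h1
    obtain ⟨lam, hlam⟩ := h1
    have hTc : T ^ c = lam • (1 : Matrix (Fin n) (Fin n) F) := by
      rw [hT, ← pow_mul, ← hac, hlam]
    have hdetT : T.det = 1 := by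
      rw [hT, Matrix.det_pow, g.det_coe, one_pow]
    have hlam0 : lam ≠ 0 := by
      intro h0
      have h2 : (T ^ c).det = 1 := by rw [Matrix.det_pow, hdetT, one_pow]
      haveI : Nonempty (Fin n) := ⟨⟨0, hn0⟩⟩
      rw [hTc, h0, zero_smul, Matrix.det_zero] at h2
      exact zero_ne_one h2
    have hcF : (c : F) ≠ 0 := by
      rw [Ne, CharP.cast_eq_zero_iff F p]
      exact hpc
    have hBT : ∀ h : F[X], (aeval T h) ^ r = 1 →
        ∃ s : F, aeval T h = s • (1 : Matrix (Fin n) (Fin n) F) := by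
      intro h hh
      have h3 : aeval T h = aeval (g : Matrix (Fin n) (Fin n) F) (h.comp (X ^ p ^ j)) := by
        rw [aeval_comp, map_pow, aeval_X, hT]
      rw [h3] at hh ⊢
      exact hB _ hh
    have hirr := minpoly_irred hn0 r ζ hζ hζ1 T c hcF lam hlam0 hTc hBT
    obtain ⟨s, hs⟩ := pow_NS_scalar hn0 T hirr hdetT
    have h6 : orderOf ((QuotientGroup.mk g : Matrix.ProjectiveSpecialLinearGroup (Fin n) F) ^
        p ^ j) = c := by
      rw [orderOf_pow_of_dvd (pow_ne_zero _ hp.ne_zero) (Dvd.intro c hac.symm), hac,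
        Nat.mul_div_cancel_left _ (pow_pos hp.pos _)]
    rw [← h6]
    apply orderOf_dvd_of_pow_eq_one
    rw [← pow_mul, mk_pow_eq_one]
    exact ⟨s, by rw [pow_mul, ← hT, hs]⟩
  · left
    push Not at hB
    obtain ⟨h, hh, hns⟩ := hB
    have hc : aeval (g : Matrix (Fin n) (Fin n) F) h * (g : Matrix (Fin n) (Fin n) F) =
        (g : Matrix (Fin n) (Fin n) F) * aeval (g : Matrix (Fin n) (Fin n) F) h := by
      have e1 : aeval (g : Matrix (Fin n) (Fin n) F) (h * X) =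
          aeval (g : Matrix (Fin n) (Fin n) F) h * (g : Matrix (Fin n) (Fin n) F) := by
        rw [map_mul, aeval_X]
      have e2 : aeval (g : Matrix (Fin n) (Fin n) F) (X * h) =
          (g : Matrix (Fin n) (Fin n) F) * aeval (g : Matrix (Fin n) (Fin n) F) h := by
        rw [map_mul, aeval_X]
      rw [← e1, ← e2, mul_comm]
    exact good_of_comm r hr hrn g _ hh hc (fun ⟨s, hs⟩ => hns s hs) hrx

end Cfsg.Agent.Lib.helper10.PslAbs
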