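import Mathlib
import Cfsg.Agent.S2390
import Cfsg.Agent.Lib.helper10.PGU
import Cfsg.Agent.Lib.helper13.PSUBasic
import Cfsg.Agent.Lib.helper10.PslAbs

/-!
# Element orders in `PSU_n(q)`: basic tools and the dichotomy on minimal polynomials
-/

set_option autoImplicit false

namespace Cfsg.Agent.Lib.helper10.PsuAbs

open Matrix Polynomial Cfsg.Agent.Lib.helper10.GUConj Cfsg.Agent.Lib.helper10.GUUnip
  Cfsg.Agent.Lib.helper10.GUPrime Cfsg.Agent.Lib.helper10.PGU Cfsg.Agent.Lib.helper4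

universe u

variable {K : Type u} [Field K] {n q : ℕ}

theorem suM_pow' [Fintype K] (g : ↥(Cfsg.SU n K q)) (k : ℕ) : suM (g ^ k) = suM g ^ k := by
  show (((g ^ k : ↥(Cfsg.SU n K q)) : Matrix.SpecialLinearGroup (Fin n) K) :
    Matrix (Fin n) (Fin n) K) = _
  rw [Subgroup.coe_pow, Matrix.SpecialLinearGroup.coe_pow]

theorem mk_pow_eq_one_U [Fintype K] (hK : Fintype.card K = q ^ 2) (hn : 2 ≤ n)
    (g : ↥(Cfsg.SU n K q)) (k : ℕ) :
    (QuotientGroup.mk g : Cfsg.PSU n K q) ^ k = 1 ↔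
      ∃ s : K, suM g ^ k = s • (1 : Matrix (Fin n) (Fin n) K) := by
  rw [← QuotientGroup.mk_pow, QuotientGroup.eq_one_iff]
  constructor
  · intro h
    obtain ⟨c, hc⟩ := su_center_scalar hK hn _ h
    refine ⟨c, ?_⟩
    rw [← suM_pow', Matrix.smul_one_eq_diagonal]
    exact hc
  · rintro ⟨s, hs⟩
    apply Cfsg.Agent.Lib.helper13.PU.central_of_scalar _ s
    intro x
    rw [suM_pow', hs, Matrix.smul_mulVec, Matrix.one_mulVec]

theorem good_of_comm_U [Fintype K] (hK : Fintype.card K = q ^ 2) (hn : 2 ≤ n)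
    (σ : K →+* K) (hq : ∀ a, σ a = a ^ q) (r : ℕ) (hr : r.Prime) (hrn : ¬ r ∣ n)
    (hrq : r ∣ q + 1)
    (g : ↥(Cfsg.SU n K q)) (Y : Matrix (Fin n) (Fin n) K)
    (hY : Y ^ r = 1) (hYu : dag σ Y * Y = 1) (hc : Y * suM g = suM g * Y)
    (hns : ¬ ∃ s : K, Y = s • (1 : Matrix (Fin n) (Fin n) K))
    (hra : ¬ r ∣ orderOf (QuotientGroup.mk g : Cfsg.PSU n K q)) :
    ∃ y : Cfsg.PSU n K q, orderOf y = r * orderOf (QuotientGroup.mk g : Cfsg.PSU n K q) := by
  have : Fact r.Prime := ⟨hr⟩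
  have hδ : Y.det ^ r = 1 := by rw [← Matrix.det_pow, hY, Matrix.det_one]
  have hcop : Nat.Coprime n r := ((Nat.Prime.coprime_iff_not_dvd hr).2 hrn).symm
  obtain ⟨k, -, hk⟩ := Nat.exists_mul_mod_eq_one_of_coprime hcop hr.one_lt
  obtain ⟨c, hcdef⟩ : ∃ c : K, c = (Y.det⁻¹) ^ k := ⟨_, rfl⟩
  have hδi : (Y.det⁻¹) ^ r = 1 := by rw [inv_pow, hδ, inv_one]
  have hcr : c ^ r = 1 := by rw [hcdef, ← pow_mul, mul_comm, pow_mul, hδi, one_pow]
  have hne : Y.det ≠ 0 := by
    intro h0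
    rw [h0, zero_pow hr.ne_zero] at hδ
    exact zero_ne_one hδ
  have hcn : c ^ n * Y.det = 1 := by
    have h1 : c ^ n = Y.det⁻¹ := by
      rw [hcdef, ← pow_mul, mul_comm k n]
      conv_lhs => rw [← Nat.div_add_mod (n * k) r, hk, pow_add, pow_mul, hδi, one_pow, one_mul,
        pow_one]
    rw [h1]
    exact inv_mul_cancel₀ hne
  have hc0 : c ≠ 0 := by
    intro h0
    rw [h0, zero_pow hr.ne_zero] at hcr
    exact zero_ne_one hcr
  have hdet : (c • Y).det = 1 := by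
    rw [Matrix.det_smul, Fintype.card_fin]
    exact hcn
  have hcu : σ c * c = 1 := by
    obtain ⟨t, ht⟩ := hrq
    rw [hq, ← pow_succ, ht, pow_mul, hcr, one_pow]
  have hYu' : dag σ (c • Y) * (c • Y) = 1 := by
    rw [dag_smul, Matrix.smul_mul, Matrix.mul_smul, smul_smul, hYu, hcu, one_smul]
  obtain ⟨y', hy'⟩ := Cfsg.Agent.S2390.mk_su σ hq (c • Y) hdet hYu'
  have hy'' : suM y' = c • Y := hy'
  have hyr : (QuotientGroup.mk y' : Cfsg.PSU n K q) ^ r = 1 := by
    rw [mk_pow_eq_one_U hK hn]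
    refine ⟨1, ?_⟩
    rw [hy'', _root_.smul_pow, hcr, hY]
  have hy1 : (QuotientGroup.mk y' : Cfsg.PSU n K q) ≠ 1 := by
    intro h1
    have h2 : (QuotientGroup.mk y' : Cfsg.PSU n K q) ^ 1 = 1 := by
      rw [pow_one, h1]
    rw [mk_pow_eq_one_U hK hn] at h2
    obtain ⟨s, hs⟩ := h2
    rw [pow_one, hy''] at hs
    apply hns
    refine ⟨c⁻¹ * s, ?_⟩
    rw [mul_smul, ← hs, smul_smul, inv_mul_cancel₀ hc0, one_smul]
  have hord : orderOf (QuotientGroup.mk y' : Cfsg.PSU n K q) = r :=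
    orderOf_eq_prime hyr hy1
  have hcomm : Commute (QuotientGroup.mk g : Cfsg.PSU n K q) (QuotientGroup.mk y') := by
    have h1 : g * y' = y' * g := by
      apply suM_injective
      rw [suM_mul, suM_mul, hy'', Matrix.mul_smul, Matrix.smul_mul, hc]
    show (QuotientGroup.mk g : Cfsg.PSU n K q) * QuotientGroup.mk y' =
      QuotientGroup.mk y' * QuotientGroup.mk g
    rw [← QuotientGroup.mk_mul, ← QuotientGroup.mk_mul, h1]
  refine ⟨QuotientGroup.mk g * QuotientGroup.mk y', ?_⟩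
  rw [hcomm.orderOf_mul_eq_mul_orderOf_of_coprime, hord, mul_comm]
  rw [hord]
  exact ((Nat.Prime.coprime_iff_not_dvd hr).2 hra).symm

theorem dag_aeval (σ : K →+* K) (T : Matrix (Fin n) (Fin n) K) (h : K[X]) :
    dag σ (aeval T h) = aeval (dag σ T) (h.map σ) := by
  induction h using Polynomial.induction_on' with
  | add p q hp hq => rw [map_add, dag_add, hp, hq, Polynomial.map_add, map_add]
  | monomial k a =>
    rw [Polynomial.map_monomial, aeval_monomial, aeval_monomial, Algebra.algebraMap_eq_smul_one,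
      Algebra.algebraMap_eq_smul_one, smul_mul_assoc, one_mul, smul_mul_assoc, one_mul, dag_smul,
      dag_pow]

theorem aeval_reverse (T Ti : Matrix (Fin n) (Fin n) K) (h1 : Ti * T = 1) (h2 : T * Ti = 1)
    (P : K[X]) : aeval T P.reverse = aeval Ti P * T ^ P.natDegree := by
  obtain ⟨d, hd⟩ : ∃ d, d = P.natDegree := ⟨_, rfl⟩
  have hcomm : Commute Ti T := by show Ti * T = T * Ti; rw [h1, h2]
  have hpow : ∀ j : ℕ, Ti ^ j * T ^ j = 1 := fun j => by rw [← hcomm.mul_pow, h1, one_pow]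
  rw [aeval_eq_sum_range' (lt_of_le_of_lt (reverse_natDegree_le P) (Nat.lt_succ_self _)),
    aeval_eq_sum_range, Finset.sum_mul, ← hd]
  rw [← Finset.sum_range_reflect]
  apply Finset.sum_congr rfl
  intro j hj
  rw [Finset.mem_range] at hj
  have hj' : d + 1 - 1 - j ≤ d := by omega
  rw [coeff_reverse, ← hd, revAt_le hj']
  have e1 : d - (d + 1 - 1 - j) = j := by omega
  rw [e1, smul_mul_assoc]
  congr 1
  have e2 : T ^ d = T ^ j * T ^ (d + 1 - 1 - j) := by rw [← pow_add]; congr 1; omega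
  rw [e2, ← Matrix.mul_assoc, hpow, Matrix.one_mul]

theorem aeval_pst (σ : K →+* K) (T Ti : Matrix (Fin n) (Fin n) K) (h1 : Ti * T = 1)
    (h2 : T * Ti = 1) (f : K[X]) :
    aeval T (pst σ f) = (σ (f.coeff 0))⁻¹ • (aeval Ti (f.map σ) * T ^ f.natDegree) := by
  unfold pst
  rw [map_mul, aeval_C, Algebra.algebraMap_eq_smul_one, smul_mul_assoc, one_mul,
    aeval_reverse T Ti h1 h2, natDegree_map]

/-- the constant coefficient of the minimal polynomial of an invertible matrix is non-zero -/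
theorem minpoly_coeff_zero_ne (T Ti : Matrix (Fin n) (Fin n) K) (h1 : Ti * T = 1) :
    (minpoly K T).coeff 0 ≠ 0 := by
  intro h0
  have hX : (X : K[X]) ∣ minpoly K T := Polynomial.X_dvd_iff.2 h0
  obtain ⟨w, hw⟩ := hX
  have hint : IsIntegral K T := Matrix.isIntegral T
  have hne : minpoly K T ≠ 0 := minpoly.ne_zero hint
  have hw0 : w ≠ 0 := by
    intro h
    rw [h, mul_zero] at hw
    exact hne hw
  have h3 : aeval T w = 0 := by
    have h4 : aeval T (minpoly K T) = 0 := minpoly.aeval K T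
    rw [hw, map_mul, aeval_X] at h4
    have h5 : Ti * (T * aeval T w) = 0 := by rw [h4, Matrix.mul_zero]
    rwa [← Matrix.mul_assoc, h1, Matrix.one_mul] at h5
  have h6 : minpoly K T ∣ w := minpoly.dvd K T h3
  have h7 := Polynomial.natDegree_le_of_dvd h6 hw0
  have h8 : (minpoly K T).natDegree = w.natDegree + 1 := by
    rw [hw, Polynomial.natDegree_X_mul hw0]
  omega

theorem minpoly_pst (σ : K →+* K) (T : Matrix (Fin n) (Fin n) K) (hTu : dag σ T * T = 1) :
    pst σ (minpoly K T) = minpoly K T := by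
  have hTu' : T * dag σ T = 1 := mul_eq_one_comm.mp hTu
  have h0 := minpoly_coeff_zero_ne T (dag σ T) hTu
  have hint : IsIntegral K T := Matrix.isIntegral T
  have hmon : (minpoly K T).Monic := minpoly.monic hint
  have h1 : aeval T (pst σ (minpoly K T)) = 0 := by
    rw [aeval_pst σ T (dag σ T) hTu hTu', ← dag_aeval, minpoly.aeval, dag_zero, Matrix.zero_mul,
      smul_zero]
  have h2 : minpoly K T ∣ pst σ (minpoly K T) := minpoly.dvd K T h1
  exact Polynomial.eq_of_monic_of_dvd_of_natDegree_le hmon (pst_monic σ _ h0) h2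
    (le_of_eq (pst_natDegree σ _ h0))

/-- the core of the dichotomy: a `†`-stable proper coprime factor of the minimal polynomial gives a
non-scalar unitary `r`-torsion polynomial in `T` -/
theorem dich_core (σ : K →+* K) (r : ℕ) (ζ : K)
    (hζ : ζ ^ r = 1) (hζ1 : ζ ≠ 1) (hζu : σ ζ * ζ = 1)
    (T : Matrix (Fin n) (Fin n) K) (hTu : dag σ T * T = 1)
    (hsep : (minpoly K T).Separable) (g₁ g₂ : K[X]) (hμ : minpoly K T = g₁ * g₂)
    (hg₁ : pst σ g₁ = g₁) (h1 : ¬ IsUnit g₁) (h2 : ¬ IsUnit g₂)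
    (hB : ∀ h : K[X], (aeval T h) ^ r = 1 → dag σ (aeval T h) * aeval T h = 1 →
      ∃ s : K, aeval T h = s • (1 : Matrix (Fin n) (Fin n) K)) : False := by
  have hTu' : T * dag σ T = 1 := mul_eq_one_comm.mp hTu
  have hμpst := minpoly_pst σ T hTu
  have hint : IsIntegral K T := Matrix.isIntegral T
  have hμne : minpoly K T ≠ 0 := minpoly.ne_zero hint
  have hg₁0 : g₁ ≠ 0 := by
    intro h
    rw [h, zero_mul] at hμ
    exact hμne hμ
  have hg₂ : pst σ g₂ = g₂ := by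
    have h3 : g₁ * pst σ g₂ = g₁ * g₂ := by
      have h4 : pst σ (g₁ * g₂) = g₁ * g₂ := by rw [← hμ]; exact hμpst
      rw [pst_mul, hg₁] at h4
      exact h4
    exact mul_left_cancel₀ hg₁0 h3
  have hcop : IsCoprime g₁ g₂ := by
    rw [hμ] at hsep
    exact hsep.isCoprime
  obtain ⟨u, v, huv⟩ := hcop
  obtain ⟨h, hdef⟩ : ∃ h : K[X], h = C ζ * (v * g₂) + u * g₁ := ⟨_, rfl⟩
  have hd1 : g₁ ∣ h - C ζ := by
    refine ⟨(1 - C ζ) * u, ?_⟩
    rw [hdef]
    linear_combination (C ζ) * huv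
  have hd2 : g₂ ∣ h - 1 := by
    refine ⟨(C ζ - 1) * v, ?_⟩
    rw [hdef]
    linear_combination huv
  have hp1 : g₁ ∣ h ^ r - 1 := by
    have h3 : h - C ζ ∣ h ^ r - (C ζ) ^ r := sub_dvd_pow_sub_pow h (C ζ) r
    rw [← C_pow, hζ, C_1] at h3
    exact hd1.trans h3
  have hp2 : g₂ ∣ h ^ r - 1 := by
    have h3 : h - 1 ∣ h ^ r - 1 ^ r := sub_dvd_pow_sub_pow h 1 r
    rw [one_pow] at h3
    exact hd2.trans h3
  have hμd : minpoly K T ∣ h ^ r - 1 := by
    rw [hμ]
    exact IsCoprime.mul_dvd ⟨u, v, huv⟩ hp1 hp2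
  have hYr : (aeval T h) ^ r = 1 := by
    obtain ⟨w, hw⟩ := hμd
    have h4 : aeval T (h ^ r - 1) = 0 := by rw [hw, map_mul, minpoly.aeval, zero_mul]
    rw [map_sub, map_pow, map_one, sub_eq_zero] at h4
    exact h4
  -- the idempotent
  obtain ⟨E, hE⟩ : ∃ E : Matrix (Fin n) (Fin n) K, E = aeval T (v * g₂) := ⟨_, rfl⟩
  obtain ⟨E', hE'⟩ : ∃ E' : Matrix (Fin n) (Fin n) K, E' = aeval T (u * g₁) := ⟨_, rfl⟩
  have hEE' : E' + E = 1 := by
    rw [hE, hE', ← map_add, huv, map_one]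
  have hμ0 : aeval T (g₁ * g₂) = 0 := by rw [← hμ, minpoly.aeval]
  have hE2 : E * E = E := by
    have h3 : aeval T ((v * g₂) * (v * g₂) - v * g₂) = 0 := by
      have h4 : (v * g₂) * (v * g₂) - v * g₂ = -(u * v) * (g₁ * g₂) := by
        linear_combination (v * g₂) * huv
      rw [h4, map_mul, hμ0, mul_zero]
    rw [map_sub, map_mul, sub_eq_zero] at h3
    rw [hE]
    exact h3
  have hYE : aeval T h = ζ • E + E' := by
    rw [hdef, map_add, map_mul, aeval_C, Algebra.algebraMap_eq_smul_one, smul_mul_assoc, one_mul,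
      hE, hE']
  -- G₁ and G₂
  have hG : ∀ g : K[X], pst σ g = g → ∀ X₀ : Matrix (Fin n) (Fin n) K,
      X₀ * dag σ (aeval T g) = 0 → X₀ * aeval T g = 0 := by
    intro g hg X₀ hX
    have h3 : aeval T g = (σ (g.coeff 0))⁻¹ • (dag σ (aeval T g) * T ^ g.natDegree) := by
      conv_lhs => rw [← hg]
      rw [aeval_pst σ T (dag σ T) hTu hTu', dag_aeval]
    rw [h3, Matrix.mul_smul, ← Matrix.mul_assoc, hX, Matrix.zero_mul, smul_zero]
  have hX1 : dag σ E * aeval T g₁ = 0 := by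
    apply hG g₁ hg₁
    rw [← dag_mul, hE, ← map_mul]
    have h4 : g₁ * (v * g₂) = v * (g₁ * g₂) := by ring
    rw [h4, map_mul, hμ0, mul_zero, dag_zero]
  have hX2 : dag σ E' * aeval T g₂ = 0 := by
    apply hG g₂ hg₂
    rw [← dag_mul, hE', ← map_mul]
    have h4 : g₂ * (u * g₁) = u * (g₁ * g₂) := by ring
    rw [h4, map_mul, hμ0, mul_zero, dag_zero]
  have hdd : dag σ E' + dag σ E = 1 := by rw [← dag_add, hEE', dag_one]
  have hEd : dag σ E = E := by
    have h5 : dag σ E * aeval T g₂ = aeval T g₂ := by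
      have h6 : dag σ E = 1 - dag σ E' := by rw [← hdd]; abel
      rw [h6, Matrix.sub_mul, hX2, Matrix.one_mul, sub_zero]
    have h7 : (1 : Matrix (Fin n) (Fin n) K) = aeval T g₁ * aeval T u + aeval T g₂ * aeval T v := by
      rw [← map_mul, ← map_mul, ← map_add]
      have h8 : g₁ * u + g₂ * v = 1 := by linear_combination huv
      rw [h8, map_one]
    calc dag σ E = dag σ E * 1 := (Matrix.mul_one _).symm
      _ = dag σ E * aeval T g₁ * aeval T u + dag σ E * aeval T g₂ * aeval T v := by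
          conv_lhs => rw [h7]
          rw [Matrix.mul_add, ← Matrix.mul_assoc, ← Matrix.mul_assoc]
      _ = aeval T g₂ * aeval T v := by rw [hX1, h5, Matrix.zero_mul, zero_add]
      _ = E := by rw [hE, ← map_mul, mul_comm]
  have hEd' : dag σ E' = E' := by
    have h6 : dag σ E' = 1 - dag σ E := by rw [← hdd]; abel
    have h7 : E' = 1 - E := by rw [← hEE']; abel
    rw [h6, hEd, h7]
  have hEE0 : E * E' = 0 := by
    have h7 : E' = 1 - E := by rw [← hEE']; abel
    rw [h7, Matrix.mul_sub, Matrix.mul_one, hE2, sub_self]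
  have hE'E0 : E' * E = 0 := by
    have h7 : E' = 1 - E := by rw [← hEE']; abel
    rw [h7, Matrix.sub_mul, Matrix.one_mul, hE2, sub_self]
  have hE'2 : E' * E' = E' := by
    have h7 : E' = 1 - E := by rw [← hEE']; abel
    calc E' * E' = E' * (1 - E) := by rw [← h7]
      _ = E' := by rw [Matrix.mul_sub, Matrix.mul_one, hE'E0, sub_zero]
  have hYu : dag σ (aeval T h) * aeval T h = 1 := by
    rw [hYE, dag_add, dag_smul, hEd, hEd', Matrix.add_mul, Matrix.mul_add, Matrix.mul_add,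
      Matrix.smul_mul, Matrix.mul_smul, smul_smul, hE2, Matrix.smul_mul, hEE0, smul_zero,
      Matrix.mul_smul, hE'E0, smul_zero, hE'2, hζu, one_smul, add_zero, zero_add, add_comm, hEE']
  obtain ⟨s, hs⟩ := hB h hYr hYu
  have hμs : minpoly K T ∣ h - C s := by
    apply minpoly.dvd
    rw [map_sub, aeval_C, hs, Algebra.algebraMap_eq_smul_one, sub_self]
  have hs1 : s = ζ := by
    by_contra hne
    have h5 : g₁ ∣ C (s - ζ) := by
      have h6 : g₁ ∣ (h - C ζ) - (h - C s) := dvd_sub hd1 ((Dvd.intro g₂ hμ.symm).trans hμs)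
      have h7 : (h - C ζ) - (h - C s) = C (s - ζ) := by rw [C_sub]; ring
      rwa [h7] at h6
    exact h1 (isUnit_of_dvd_unit h5 (Polynomial.isUnit_C.2 (IsUnit.mk0 _ (sub_ne_zero.2 hne))))
  have hs2 : s = 1 := by
    by_contra hne
    have h5 : g₂ ∣ C (s - 1) := by
      have h6 : g₂ ∣ (h - 1) - (h - C s) :=
        dvd_sub hd2 ((Dvd.intro_left g₁ hμ.symm).trans hμs)
      have h7 : (h - 1) - (h - C s) = C (s - 1) := by rw [C_sub, C_1]; ring
      rwa [h7] at h6
    exact h2 (isUnit_of_dvd_unit h5 (Polynomial.isUnit_C.2 (IsUnit.mk0 _ (sub_ne_zero.2 hne))))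
  exact hζ1 (hs1.symm.trans hs2)

end Cfsg.Agent.Lib.helper10.PsuAbs
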