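import Mathlib
import Cfsg.Agent.Lib.helper10.PsuA

/-!
# Element orders in `PSU_n(q)`: the semisimple elements without non-scalar unitary `r`-torsion
-/

set_option autoImplicit false

namespace Cfsg.Agent.Lib.helper10.PsuAbs

open Matrix Polynomial Cfsg.Agent.Lib.helper10.GUConj Cfsg.Agent.Lib.helper10.GUUnip
  Cfsg.Agent.Lib.helper10.GUPrime Cfsg.Agent.Lib.helper10.PGU Cfsg.Agent.Lib.helper4

universe u

variable {K : Type u} [Field K] {n q : ℕ}

/-- the order of the cyclic torus of `SU_n(q)` -/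
def MU (q n : ℕ) : ℕ := if Even n then (q ^ n - 1) / (q + 1) else (q ^ n + 1) / (q + 1)

/-- the order of its image in `PSU_n(q)` -/
def NU (q n : ℕ) : ℕ := MU q n / Nat.gcd (MU q n) (q + 1)

theorem coprime_pst (σ : K →+* K) (f : K[X]) (hfm : f.Monic) (hfirr : Irreducible f)
    (hf'm : (pst σ f).Monic) (hf'irr : Irreducible (pst σ f)) (hff : pst σ f ≠ f) :
    IsCoprime f (pst σ f) := by
  rw [hfirr.coprime_iff_not_dvd]
  intro hd
  have hass : Associated f (pst σ f) := hfirr.associated_of_dvd hf'irr hd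
  exact hff (Polynomial.eq_of_monic_of_associated hfm hf'm hass).symm

theorem minpoly_dich (σ : K →+* K) (hσ : ∀ a, σ (σ a) = a) (r : ℕ) (ζ : K)
    (hζ : ζ ^ r = 1) (hζ1 : ζ ≠ 1) (hζu : σ ζ * ζ = 1) (hn : 0 < n)
    (T : Matrix (Fin n) (Fin n) K) (hTu : dag σ T * T = 1) (c : ℕ) (hc : (c : K) ≠ 0) (lam : K)
    (hlam : lam ≠ 0) (hT : T ^ c = lam • (1 : Matrix (Fin n) (Fin n) K))
    (hB : ∀ h : K[X], (aeval T h) ^ r = 1 → dag σ (aeval T h) * aeval T h = 1 →
      ∃ s : K, aeval T h = s • (1 : Matrix (Fin n) (Fin n) K)) :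
    ∃ f : K[X], f.Monic ∧ Irreducible f ∧ f.coeff 0 ≠ 0 ∧
      ((minpoly K T = f ∧ pst σ f = f) ∨ (minpoly K T = f * pst σ f ∧ pst σ f ≠ f)) := by
  have : NeZero n := ⟨hn.ne'⟩
  have hint : IsIntegral K T := Matrix.isIntegral T
  have hmon : (minpoly K T).Monic := minpoly.monic hint
  have hsep : (minpoly K T).Separable := by
    refine (Polynomial.separable_X_pow_sub_C lam hc hlam).of_dvd ?_
    apply minpoly.dvd
    rw [map_sub, map_pow, aeval_X, aeval_C, hT, Algebra.algebraMap_eq_smul_one, sub_self]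
  have hμ0 := minpoly_coeff_zero_ne T (dag σ T) hTu
  have hμpst := minpoly_pst σ T hTu
  obtain ⟨f, hfm, hfirr, hfdvd⟩ :=
    Polynomial.exists_monic_irreducible_factor (minpoly K T) (minpoly.not_isUnit K T)
  have hf0 : f.coeff 0 ≠ 0 := by
    intro h0
    have hX : (X : K[X]) ∣ f := Polynomial.X_dvd_iff.2 h0
    exact hμ0 (Polynomial.X_dvd_iff.1 (hX.trans hfdvd))
  have hf'm : (pst σ f).Monic := pst_monic σ f hf0
  have hf'irr : Irreducible (pst σ f) := pst_irreducible σ hσ f hfm hf0 hfirr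
  have hf'dvd : pst σ f ∣ minpoly K T := by
    rw [← hμpst]; exact pst_dvd σ f _ hfdvd
  refine ⟨f, hfm, hfirr, hf0, ?_⟩
  by_cases hff : pst σ f = f
  · left
    obtain ⟨g₂, hg₂⟩ := hfdvd
    by_cases hu : IsUnit g₂
    · have hg₂m : g₂.Monic := Polynomial.Monic.of_mul_monic_left hfm (hg₂ ▸ hmon)
      refine ⟨?_, hff⟩
      rw [hg₂, (Polynomial.Monic.isUnit_iff hg₂m).1 hu, mul_one]
    · exact (dich_core σ r ζ hζ hζ1 hζu T hTu hsep f g₂ hg₂ hff hfirr.not_isUnit hu hB).elim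
  · right
    have hcop := coprime_pst σ f hfm hfirr hf'm hf'irr hff
    obtain ⟨g₂, hg₂⟩ := IsCoprime.mul_dvd hcop hfdvd hf'dvd
    by_cases hu : IsUnit g₂
    · have hg₂m : g₂.Monic := Polynomial.Monic.of_mul_monic_left (hfm.mul hf'm) (hg₂ ▸ hmon)
      refine ⟨?_, hff⟩
      rw [hg₂, (Polynomial.Monic.isUnit_iff hg₂m).1 hu, mul_one]
    · have hg₁ : pst σ (f * pst σ f) = f * pst σ f := by
        rw [pst_mul, pst_pst σ hσ f hfm hf0, mul_comm]
      have h1 : ¬ IsUnit (f * pst σ f) := fun h => hfirr.not_isUnit (isUnit_of_mul_isUnit_left h)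
      exact (dich_core σ r ζ hζ hζ1 hζu T hTu hsep _ g₂ hg₂ hg₁ h1 hu hB).elim

/-- base change of `aeval` -/
theorem mapMatrix_aeval {L : Type*} [Field L] (φ : K →+* L) (T : Matrix (Fin n) (Fin n) K)
    (P : K[X]) : aeval (φ.mapMatrix T) (P.map φ) = φ.mapMatrix (aeval T P) := by
  induction P using Polynomial.induction_on' with
  | add p q hp hq => rw [Polynomial.map_add, map_add, map_add, map_add, hp, hq]
  | monomial k a =>
    rw [Polynomial.map_monomial, aeval_monomial, aeval_monomial, map_mul, map_pow]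
    congr 1
    ext i j
    by_cases h : i = j <;> simp [Matrix.algebraMap_matrix_apply, h]

/-- every irreducible factor of the characteristic polynomial divides the minimal polynomial -/
theorem chi_factors (T : Matrix (Fin n) (Fin n) K) (g : K[X]) (hg : Irreducible g)
    (hgd : g ∣ T.charpoly) : g ∣ minpoly K T := by
  haveI : Fact (Irreducible g) := ⟨hg⟩
  obtain ⟨φ, hφ⟩ : ∃ φ : K →+* AdjoinRoot g, φ = algebraMap K (AdjoinRoot g) := ⟨_, rfl⟩
  obtain ⟨θ, hθ⟩ : ∃ θ : AdjoinRoot g, θ = AdjoinRoot.root g := ⟨_, rfl⟩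
  have hroot : ∀ P : K[X], Polynomial.eval θ (P.map φ) = AdjoinRoot.mk g P := by
    intro P
    rw [Polynomial.eval_map, hφ, ← Polynomial.aeval_def, hθ, AdjoinRoot.aeval_eq]
  obtain ⟨f, hf⟩ : ∃ f : Module.End (AdjoinRoot g) (Fin n → AdjoinRoot g),
      f = Matrix.toLin' (φ.mapMatrix T) := ⟨_, rfl⟩
  have hchar : f.charpoly = T.charpoly.map φ := by
    rw [hf, Matrix.charpoly_toLin', RingHom.mapMatrix_apply, Matrix.charpoly_map]
  have hev : f.HasEigenvalue θ := by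
    rw [Module.End.hasEigenvalue_iff_isRoot_charpoly, hchar, Polynomial.IsRoot.def, hroot,
      AdjoinRoot.mk_eq_zero]
    exact hgd
  obtain ⟨v, hv⟩ := hev.exists_hasEigenvector
  have hmin : aeval f ((minpoly K T).map φ) = 0 := by
    have h1 : aeval (φ.mapMatrix T) ((minpoly K T).map φ) = 0 := by
      rw [mapMatrix_aeval, minpoly.aeval, map_zero]
    have h2 : aeval f ((minpoly K T).map φ) =
        (Matrix.toLinAlgEquiv' : Matrix (Fin n) (Fin n) (AdjoinRoot g) ≃ₐ[AdjoinRoot g] _)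
          (aeval (φ.mapMatrix T) ((minpoly K T).map φ)) := by
      rw [hf]
      exact Polynomial.aeval_algHom_apply
        (Matrix.toLinAlgEquiv' : Matrix (Fin n) (Fin n) (AdjoinRoot g) ≃ₐ[AdjoinRoot g] _)
        (φ.mapMatrix T) ((minpoly K T).map φ)
    rw [h2, h1, map_zero]
  have h3 := Module.End.aeval_apply_of_hasEigenvector (p := (minpoly K T).map φ) hv
  rw [hmin, LinearMap.zero_apply, hroot] at h3
  have h4 : AdjoinRoot.mk g (minpoly K T) = 0 := by
    by_contra hne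
    exact hv.2 ((smul_eq_zero.1 h3.symm).resolve_left hne)
  exact AdjoinRoot.mk_eq_zero.1 h4

theorem factor_two (f f' : K[X]) : ∀ (m : ℕ) (P : K[X]), P.natDegree = m → P.Monic →
    (∀ g : K[X], g.Monic → Irreducible g → g ∣ P → g = f ∨ g = f') →
    ∃ a b : ℕ, P = f ^ a * f' ^ b := by
  intro m
  induction m using Nat.strong_induction_on with
  | _ m ih =>
    intro P hdeg hP hfac
    by_cases hu : IsUnit P
    · refine ⟨0, 0, ?_⟩
      rw [pow_zero, pow_zero, mul_one]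
      exact (Polynomial.Monic.isUnit_iff hP).1 hu
    · obtain ⟨g, hgm, hgirr, hgdvd⟩ := Polynomial.exists_monic_irreducible_factor P hu
      obtain ⟨P', hP'⟩ := hgdvd
      have hP'm : P'.Monic := Polynomial.Monic.of_mul_monic_left hgm (hP' ▸ hP)
      have hgdeg : 0 < g.natDegree := hgirr.natDegree_pos
      have hdeg' : P'.natDegree < m := by
        rw [← hdeg, hP', hgm.natDegree_mul hP'm]; omega
      obtain ⟨a, b, hab⟩ := ih _ hdeg' P' rfl hP'm
        (fun g' hg'm hg'irr hg'dvd => hfac g' hg'm hg'irr (hP' ▸ Dvd.dvd.mul_left hg'dvd g))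
      rcases hfac g hgm hgirr ⟨P', hP'⟩ with h | h
      · exact ⟨a + 1, b, by rw [hP', hab, h]; ring⟩
      · exact ⟨a, b + 1, by rw [hP', hab, h]; ring⟩

theorem charpoly_two (σ : K →+* K) (T : Matrix (Fin n) (Fin n) K) (f : K[X]) (hfm : f.Monic)
    (hfirr : Irreducible f) (hf'm : (pst σ f).Monic) (hf'irr : Irreducible (pst σ f))
    (hμ : minpoly K T ∣ f * pst σ f) :
    ∃ a b : ℕ, T.charpoly = f ^ a * (pst σ f) ^ b := by
  apply factor_two f (pst σ f) _ T.charpoly rfl (Matrix.charpoly_monic T)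
  intro g hgm hgirr hgd
  have h1 : g ∣ f * pst σ f := (chi_factors T g hgirr hgd).trans hμ
  rcases (hgirr.prime).dvd_or_dvd h1 with h | h
  · left; exact Polynomial.eq_of_monic_of_associated hgm hfm (hgirr.associated_of_dvd hfirr h)
  · right; exact Polynomial.eq_of_monic_of_associated hgm hf'm (hgirr.associated_of_dvd hf'irr h)

theorem pow_geom {L : Type*} [Field L] (t : L) (Q d : ℕ) (hQ : 2 ≤ Q) (hd : 0 < d)
    (ht : t ^ (Q ^ d) = t) (a : ℕ) :
    t ^ ((Q ^ (d * a) - 1) / (Q - 1)) = (t ^ ((Q ^ d - 1) / (Q - 1))) ^ a := by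
  obtain ⟨Q₁, hQ₁⟩ : ∃ Q₁ : ℕ, Q₁ = Q ^ d := ⟨_, rfl⟩
  obtain ⟨N', hN'⟩ : ∃ N' : ℕ, N' = (Q₁ - 1) / (Q - 1) := ⟨_, rfl⟩
  have hQ₁2 : 2 ≤ Q₁ := by
    rw [hQ₁]
    calc 2 ≤ Q := hQ
      _ = Q ^ 1 := (pow_one Q).symm
      _ ≤ Q ^ d := Nat.pow_le_pow_right (by omega) hd
  have hrQ : t ^ Q₁ = t := by rw [hQ₁]; exact ht
  have hν : ∀ l : ℕ, (t ^ N') ^ (Q₁ ^ l) = t ^ N' := by
    intro l
    induction l with
    | zero => rw [pow_zero, pow_one]
    | succ l ih => rw [pow_succ, pow_mul, ih, ← pow_mul, mul_comm, pow_mul, hrQ]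
  have hNfac : (Q ^ (d * a) - 1) / (Q - 1) = N' * ∑ l ∈ Finset.range a, Q₁ ^ l := by
    rw [Nat.geomSum_eq hQ₁2, hN', pow_mul, ← hQ₁]
    have h1 : Q - 1 ∣ Q₁ - 1 := by
      have h := Nat.sub_dvd_pow_sub_pow Q 1 d
      rwa [one_pow, ← hQ₁] at h
    have h2 : Q₁ - 1 ∣ Q₁ ^ a - 1 := by
      have h := Nat.sub_dvd_pow_sub_pow Q₁ 1 a
      rwa [one_pow] at h
    rw [Nat.div_mul_div_comm h1 h2, mul_comm (Q₁ - 1) (Q₁ ^ a - 1),
      Nat.mul_div_mul_right _ _ (by omega)]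
  rw [hNfac, ← hQ₁, ← hN', pow_mul, ← Finset.prod_pow_eq_pow_sum,
    Finset.prod_congr rfl (fun l _ => hν l), Finset.prod_const, Finset.card_range]

theorem root_facts [Fintype K] (hK : Fintype.card K = q ^ 2) (f : K[X]) (hfm : f.Monic)
    [hfi : Fact (Irreducible f)] :
    (AdjoinRoot.root f) ^ ((q ^ 2) ^ f.natDegree) = AdjoinRoot.root f ∧
    algebraMap K (AdjoinRoot f) ((-1) ^ f.natDegree * f.coeff 0) =
      (AdjoinRoot.root f) ^ (((q ^ 2) ^ f.natDegree - 1) / (q ^ 2 - 1)) ∧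
    (∀ w : AdjoinRoot f, w ^ (q ^ 2) = w → ∃ lam : K, algebraMap K (AdjoinRoot f) lam = w) := by
  classical
  have hf0 : f ≠ 0 := hfi.out.ne_zero
  have hfin : Module.Finite K (AdjoinRoot f) := (AdjoinRoot.powerBasis hf0).finite
  haveI : Finite (AdjoinRoot f) := Module.finite_of_finite K
  haveI : Fintype (AdjoinRoot f) := Fintype.ofFinite _
  have hrank : Module.finrank K (AdjoinRoot f) = f.natDegree := by
    rw [(AdjoinRoot.powerBasis hf0).finrank, AdjoinRoot.powerBasis_dim]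
  have hQ : Nat.card (AdjoinRoot f) = (q ^ 2) ^ f.natDegree := by
    rw [Module.natCard_eq_pow_finrank (K := K) (V := AdjoinRoot f), Nat.card_eq_fintype_card, hK,
      hrank]
  have h2le : 2 ≤ q ^ 2 := by rw [← hK]; exact Fintype.one_lt_card
  refine ⟨?_, ?_, ?_⟩
  · have h1 := FiniteField.pow_card (AdjoinRoot.root f)
    rwa [← Nat.card_eq_fintype_card, hQ] at h1
  · have h1 := FiniteField.algebraMap_norm_eq_pow (K := K) (K' := AdjoinRoot f)
      (x := AdjoinRoot.root f)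
    rw [hQ, Nat.card_eq_fintype_card, hK] at h1
    rw [← h1]
    congr 1
    have h2 := Algebra.PowerBasis.norm_gen_eq_coeff_zero_minpoly (AdjoinRoot.powerBasis hf0)
    rw [AdjoinRoot.powerBasis_gen, AdjoinRoot.powerBasis_dim, AdjoinRoot.minpoly_root hf0,
      hfm.leadingCoeff, inv_one, C_1, mul_one] at h2
    exact h2.symm
  · intro w hwq
    have hP0 : (X ^ (q ^ 2) - X : (AdjoinRoot f)[X]) ≠ 0 :=
      FiniteField.X_pow_card_sub_X_ne_zero (AdjoinRoot f) (by omega)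
    have hsub : Finset.image (algebraMap K (AdjoinRoot f)) Finset.univ ⊆
        (X ^ (q ^ 2) - X : (AdjoinRoot f)[X]).roots.toFinset := by
      intro x hx
      obtain ⟨lam, -, rfl⟩ := Finset.mem_image.1 hx
      rw [Multiset.mem_toFinset, Polynomial.mem_roots hP0, Polynomial.IsRoot.def, eval_sub,
        eval_pow, eval_X, ← map_pow, ← hK, FiniteField.pow_card, sub_self]
    have hcard : (X ^ (q ^ 2) - X : (AdjoinRoot f)[X]).roots.toFinset.card ≤
        (Finset.image (algebraMap K (AdjoinRoot f)) Finset.univ).card := by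
      rw [Finset.card_image_of_injective _ (algebraMap K (AdjoinRoot f)).injective,
        Finset.card_univ, hK]
      calc (X ^ (q ^ 2) - X : (AdjoinRoot f)[X]).roots.toFinset.card
          ≤ Multiset.card (X ^ (q ^ 2) - X : (AdjoinRoot f)[X]).roots :=
            Multiset.toFinset_card_le _
        _ ≤ (X ^ (q ^ 2) - X : (AdjoinRoot f)[X]).natDegree := Polynomial.card_roots' _
        _ = q ^ 2 := FiniteField.X_pow_card_sub_X_natDegree_eq (AdjoinRoot f) (by omega)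
    have heq := Finset.eq_of_subset_of_card_le hsub hcard
    have hwmem : w ∈ (X ^ (q ^ 2) - X : (AdjoinRoot f)[X]).roots.toFinset := by
      rw [Multiset.mem_toFinset, Polynomial.mem_roots hP0, Polynomial.IsRoot.def, eval_sub,
        eval_pow, eval_X, hwq, sub_self]
    rw [← heq] at hwmem
    obtain ⟨lam, -, hl⟩ := Finset.mem_image.1 hwmem
    exact ⟨lam, hl⟩

/-- a sign computation in a commutative ring -/
theorem pm_pow {R : Type*} [CommRing R] (u : R) (j m : ℕ) (hj : Odd j) (huj : u ^ j = -1)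
    (hum : u ^ (2 * m) = 1) : u ^ m = (-1) ^ m := by
  have hu2j : u ^ (2 * j) = 1 := by rw [mul_comm, pow_mul, huj]; simp
  obtain ⟨g, hg⟩ : ∃ g : ℕ, g = Nat.gcd j m := ⟨_, rfl⟩
  have hu2g : u ^ (2 * g) = 1 := by
    apply orderOf_dvd_iff_pow_eq_one.1
    rw [hg, ← Nat.gcd_mul_left]
    exact Nat.dvd_gcd (orderOf_dvd_of_pow_eq_one hu2j) (orderOf_dvd_of_pow_eq_one hum)
  obtain ⟨j', hj'⟩ : g ∣ j := hg ▸ Nat.gcd_dvd_left j m
  obtain ⟨m', hm'⟩ : g ∣ m := hg ▸ Nat.gcd_dvd_right j m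
  have hgodd : Odd g ∧ Odd j' := by
    rw [hj'] at hj
    exact Nat.odd_mul.1 hj
  obtain ⟨k, hk⟩ := hgodd.2
  have hug : u ^ g = -1 := by
    have h1 : u ^ j = u ^ g := by
      rw [hj', hk, pow_mul, pow_succ, pow_mul, ← pow_mul u g 2, mul_comm g 2, hu2g, one_pow,
        one_mul]
    rw [← h1, huj]
  rw [hm', pow_mul, hug]
  rcases Nat.even_or_odd m' with he | ho
  · have hme : Even (g * m') := Even.mul_left he g
    rw [he.neg_one_pow, hme.neg_one_pow]
  · have hmo : Odd (g * m') := hgodd.1.mul ho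
    rw [ho.neg_one_pow, hmo.neg_one_pow]

theorem sq_sub_one_nat (x : ℕ) (hx : 1 ≤ x) : x ^ 2 - 1 = (x + 1) * (x - 1) := by
  obtain ⟨y, rfl⟩ := Nat.exists_eq_add_of_le hx
  rw [Nat.add_sub_cancel_left]
  have h : (1 + y) ^ 2 = (1 + y + 1) * y + 1 := by ring
  rw [h, Nat.add_sub_cancel]

theorem geom_odd (q : ℕ) : ∀ m : ℕ, ∃ k : ℕ, ∑ i ∈ Finset.range (2 * m + 1), q ^ i = 1 + (q + 1) * k := by
  intro m
  induction m with
  | zero => exact ⟨0, by simp⟩
  | succ m ih =>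
    obtain ⟨k, hk⟩ := ih
    refine ⟨k + q ^ (2 * m + 1), ?_⟩
    have e : 2 * (m + 1) + 1 = (2 * m + 1) + 1 + 1 := by ring
    rw [e, Finset.sum_range_succ, Finset.sum_range_succ, hk]
    ring

theorem root_pow_MU [Fintype K] (hK : Fintype.card K = q ^ 2) (p a₀ : ℕ) [Fact p.Prime]
    [CharP K p] (hqp : q = p ^ a₀) (σ : K →+* K) (hq : ∀ a, σ a = a ^ q)
    (hσ : ∀ a, σ (σ a) = a)
    (T : Matrix (Fin n) (Fin n) K) (hTu : dag σ T * T = 1) (hdet : T.det = 1)
    (f : K[X]) (hfm : f.Monic) [hfi : Fact (Irreducible f)] (hf0 : f.coeff 0 ≠ 0)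
    (hμ : (minpoly K T = f ∧ pst σ f = f) ∨ (minpoly K T = f * pst σ f ∧ pst σ f ≠ f)) :
    (AdjoinRoot.root f) ^ MU q n = 1 := by
  classical
  have hfirr : Irreducible f := hfi.out
  have hQ2 : 2 ≤ q ^ 2 := by rw [← hK]; exact Fintype.one_lt_card
  have hq1 : 2 ≤ q := by
    by_contra h
    push Not at h
    have : q ^ 2 ≤ 1 := by interval_cases q <;> simp
    omega
  obtain ⟨t, ht⟩ : ∃ t : AdjoinRoot f, t = AdjoinRoot.root f := ⟨_, rfl⟩
  obtain ⟨d, hd⟩ : ∃ d : ℕ, d = f.natDegree := ⟨_, rfl⟩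
  have hd0 : 0 < d := hd ▸ hfirr.natDegree_pos
  obtain ⟨hrQ, hnorm, -⟩ := root_facts hK f hfm
  rw [← ht, ← hd] at hrQ hnorm
  rw [← ht]
  have ht0 : t ≠ 0 := by
    intro h0
    have h1 : aeval t f = 0 := by rw [ht, AdjoinRoot.aeval_eq, AdjoinRoot.mk_self]
    rw [h0, ← Polynomial.coeff_zero_eq_aeval_zero'] at h1
    exact hf0 ((map_eq_zero (algebraMap K (AdjoinRoot f))).1 h1)
  have hf'm : (pst σ f).Monic := pst_monic σ f hf0
  have hf'irr : Irreducible (pst σ f) := pst_irreducible σ hσ f hfm hf0 hfirr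
  have hμdvd : minpoly K T ∣ f * pst σ f := by
    rcases hμ with ⟨h, -⟩ | ⟨h, -⟩
    · rw [h]; exact Dvd.intro _ rfl
    · rw [h]
  obtain ⟨a, b, hχ⟩ := charpoly_two σ T f hfm hfirr hf'm hf'irr hμdvd
  have hdeg : n = a * d + b * d := by
    have h1 := Matrix.charpoly_natDegree_eq_dim T
    rw [hχ, (hfm.pow a).natDegree_mul (hf'm.pow b), hfm.natDegree_pow, hf'm.natDegree_pow,
      pst_natDegree σ f hf0, Fintype.card_fin, ← hd] at h1
    exact h1.symm
  have hdetχ : (1 : K) = (-1) ^ n * ((f.coeff 0) ^ a * ((pst σ f).coeff 0) ^ b) := by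
    have h := Matrix.det_eq_sign_charpoly_coeff T
    rw [hdet, Fintype.card_fin, hχ,
      Polynomial.coeff_zero_eq_eval_zero, eval_mul, eval_pow, eval_pow,
      ← Polynomial.coeff_zero_eq_eval_zero, ← Polynomial.coeff_zero_eq_eval_zero] at h
    exact h
  have hrQl : ∀ l : ℕ, t ^ ((q ^ 2) ^ (d * l)) = t := by
    intro l
    induction l with
    | zero => rw [mul_zero, pow_zero, pow_one]
    | succ l ih => rw [Nat.mul_succ, pow_add, pow_mul, ih, hrQ]
  rcases hμ with ⟨hμ1, hpf⟩ | ⟨hμ2, hpf⟩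
  · -- the self-dual case
    rw [hpf] at hχ hdetχ
    have hn' : n = d * (a + b) := by rw [hdeg]; ring
    have hc1 : ((-1) ^ d * f.coeff 0) ^ (a + b) = (1 : K) := by
      rw [mul_pow, ← pow_mul, ← hn', pow_add]
      exact hdetχ.symm
    have hN : t ^ (((q ^ 2) ^ n - 1) / (q ^ 2 - 1)) = 1 := by
      rw [hn', pow_geom t (q ^ 2) d hQ2 hd0 hrQ (a + b), ← hnorm, ← map_pow, hc1, map_one]
    haveI : CharP (AdjoinRoot f) p :=
      charP_of_injective_algebraMap (algebraMap K (AdjoinRoot f)).injective p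
    haveI : ExpChar (AdjoinRoot f) p := ExpChar.prime Fact.out
    obtain ⟨θ, hθdef⟩ : ∃ θ : AdjoinRoot f →+* AdjoinRoot f,
        θ = iterateFrobenius (AdjoinRoot f) p a₀ := ⟨_, rfl⟩
    have hθ : ∀ x, θ x = x ^ q := fun x => by rw [hθdef, iterateFrobenius_def, hqp]
    have hcomp : (θ.comp (algebraMap K (AdjoinRoot f))).comp σ = algebraMap K (AdjoinRoot f) := by
      apply RingHom.ext
      intro x
      show θ (algebraMap K (AdjoinRoot f) (σ x)) = algebraMap K (AdjoinRoot f) x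
      rw [hθ, ← map_pow, ← hq, hσ]
    have hpst0 : aeval t (pst σ f) = 0 := by
      rw [hpf, ht, AdjoinRoot.aeval_eq, AdjoinRoot.mk_self]
    have hσ0 : σ (f.coeff 0) ≠ 0 := (map_ne_zero σ).mpr hf0
    have hrev : eval₂ (algebraMap K (AdjoinRoot f)) t (f.map σ).reverse = 0 := by
      unfold pst at hpst0
      rw [map_mul, aeval_C, Polynomial.aeval_def] at hpst0
      rcases mul_eq_zero.1 hpst0 with h | h
      · exact absurd ((map_eq_zero (algebraMap K (AdjoinRoot f))).1 h) (inv_ne_zero hσ0)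
      · exact h
    have key : eval₂ (algebraMap K (AdjoinRoot f)) t⁻¹ (f.map σ) = 0 := by
      letI : Invertible (t⁻¹) := invertibleOfNonzero (inv_ne_zero ht0)
      have h := (Polynomial.eval₂_reverse_eq_zero_iff (algebraMap K (AdjoinRoot f)) (t⁻¹)
        (f.map σ)).1
      rw [invOf_eq_inv, inv_inv] at h
      exact h hrev
    have hroot' : eval₂ (algebraMap K (AdjoinRoot f)) ((t⁻¹) ^ q) f = 0 := by
      have h1 : θ (eval₂ (algebraMap K (AdjoinRoot f)) t⁻¹ (f.map σ)) =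
          eval₂ (algebraMap K (AdjoinRoot f)) ((t⁻¹) ^ q) f := by
        rw [Polynomial.hom_eval₂, Polynomial.eval₂_map, hcomp, hθ]
      rw [← h1, key, map_zero]
    obtain ⟨ψ, hψ⟩ : ∃ ψ : AdjoinRoot f →ₐ[K] AdjoinRoot f,
        ψ (AdjoinRoot.root f) = (t⁻¹) ^ q :=
      ⟨AdjoinRoot.liftAlgHom f (Algebra.ofId K (AdjoinRoot f)) ((t⁻¹) ^ q) hroot',
        AdjoinRoot.liftAlgHom_root f _ _ _⟩
    have hf0' : f ≠ 0 := hfirr.ne_zero
    have hfin : Module.Finite K (AdjoinRoot f) := (AdjoinRoot.powerBasis hf0').finite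
    haveI : Finite (AdjoinRoot f) := Module.finite_of_finite K
    obtain ⟨i, hi⟩ := (FiniteField.bijective_frobeniusAlgHom_pow K (AdjoinRoot f)).2 ψ
    have h2 := congrArg (fun g : AdjoinRoot f →ₐ[K] AdjoinRoot f => g (AdjoinRoot.root f)) hi
    simp only at h2
    rw [AlgHom.coe_pow, FiniteField.coe_frobeniusAlgHom, pow_iterate, hψ, hK, ← ht] at h2
    have h2' : t ^ ((q ^ 2) ^ (i : ℕ)) = (t⁻¹) ^ q := h2
    have hsum : t ^ ((q ^ 2) ^ (i : ℕ)) * t ^ q = 1 := by
      rw [h2', inv_pow, inv_mul_cancel₀ (pow_ne_zero _ ht0)]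
    obtain ⟨j, hjodd, hj⟩ : ∃ j : ℕ, Odd j ∧ t ^ (q ^ j + 1) = 1 := by
      rcases Nat.eq_zero_or_pos (i : ℕ) with hi0 | hipos
      · refine ⟨1, odd_one, ?_⟩
        rw [hi0, pow_zero, pow_one] at hsum
        rw [pow_one, pow_add, pow_one, mul_comm]
        exact hsum
      · refine ⟨2 * (i : ℕ) - 1, ⟨(i : ℕ) - 1, by omega⟩, ?_⟩
        have e : (q ^ (2 * (i : ℕ) - 1) + 1) * q = (q ^ 2) ^ (i : ℕ) + q := by
          rw [add_mul, one_mul, ← pow_succ, ← pow_mul]
          congr 2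
          omega
        have h3 : θ (t ^ (q ^ (2 * (i : ℕ) - 1) + 1)) = θ 1 := by
          rw [hθ, ← pow_mul, e, pow_add, hsum, map_one]
        exact θ.injective h3
    obtain ⟨o, ho⟩ : ∃ o : ℕ, o = orderOf t := ⟨_, rfl⟩
    have huj : ((q : ZMod o)) ^ j = -1 := by
      have h3 : o ∣ q ^ j + 1 := ho ▸ orderOf_dvd_of_pow_eq_one hj
      have h4 := (ZMod.natCast_eq_zero_iff (q ^ j + 1) o).2 h3
      push_cast at h4
      exact eq_neg_of_add_eq_zero_left h4
    have hQn1 : t ^ ((q ^ 2) ^ n - 1) = 1 := by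
      have h3 : t ^ ((q ^ 2) ^ n - 1) * t = 1 * t := by
        rw [← pow_succ, Nat.sub_add_cancel (Nat.one_le_pow _ _ (by omega)), hn', hrQl, one_mul]
      exact mul_right_cancel₀ ht0 h3
    have hum : ((q : ZMod o)) ^ (2 * n) = 1 := by
      have h3 : o ∣ (q ^ 2) ^ n - 1 := ho ▸ orderOf_dvd_of_pow_eq_one hQn1
      have h4 := (ZMod.natCast_eq_zero_iff ((q ^ 2) ^ n - 1) o).2 h3
      rw [Nat.cast_sub (Nat.one_le_pow _ _ (by omega))] at h4
      push_cast at h4
      rw [pow_mul]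
      exact sub_eq_zero.1 h4
    have hun := pm_pow (q : ZMod o) j n hjodd huj hum
    have hq1' : 1 ≤ q ^ n := Nat.one_le_pow _ _ (by omega)
    rcases Nat.even_or_odd n with hev | hodd
    · -- n even
      have hqn : t ^ (q ^ n - 1) = 1 := by
        rw [hev.neg_one_pow] at hun
        have h4 : ((q ^ n - 1 : ℕ) : ZMod o) = 0 := by
          rw [Nat.cast_sub hq1']; push_cast; rw [hun, sub_self]
        have h5 := (ZMod.natCast_eq_zero_iff _ _).1 h4
        rw [ho] at h5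
        exact orderOf_dvd_iff_pow_eq_one.1 h5
      obtain ⟨m, hm⟩ := hev
      have hqnm : q ^ n = (q ^ 2) ^ m := by rw [hm, ← two_mul, pow_mul]
      obtain ⟨E, hE⟩ : q ^ 2 - 1 ∣ q ^ n - 1 := by
        have h := Nat.sub_dvd_pow_sub_pow (q ^ 2) 1 m
        rwa [one_pow, ← hqnm] at h
      have hsq := sq_sub_one_nat q (by omega)
      have hMU : MU q n = E * (q - 1) := by
        unfold MU
        rw [if_pos ⟨m, hm⟩, hE, hsq, show (q + 1) * (q - 1) * E = (q + 1) * (E * (q - 1)) by ring,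
          Nat.mul_div_cancel_left _ (by omega)]
      have hNn : ((q ^ 2) ^ n - 1) / (q ^ 2 - 1) = E * (q ^ n + 1) := by
        have h3 : (q ^ 2) ^ n - 1 = (E * (q ^ n + 1)) * (q ^ 2 - 1) := by
          have h4 : (q ^ 2) ^ n = (q ^ n) ^ 2 := by rw [← pow_mul, ← pow_mul, mul_comm]
          rw [h4, sq_sub_one_nat (q ^ n) hq1', hE]; ring
        rw [h3, Nat.mul_div_cancel _ (by omega)]
      obtain ⟨y, hy⟩ : ∃ y : AdjoinRoot f, y = t ^ E := ⟨_, rfl⟩
      have hy1 : y ^ (q ^ n + 1) = 1 := by rw [hy, ← pow_mul, ← hNn, hN]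
      have hy2 : y ^ (q ^ 2 - 1) = 1 := by rw [hy, ← pow_mul, mul_comm, ← hE, hqn]
      have hy3 : y ^ 2 = 1 := by
        have h3 : q ^ n + 1 = (q ^ 2 - 1) * E + 2 := by rw [← hE]; omega
        rw [h3, pow_add, pow_mul, hy2, one_pow, one_mul] at hy1
        exact hy1
      rw [hMU, pow_mul, ← hy]
      rcases Nat.even_or_odd q with hqe | hqo
      · obtain ⟨m', hm'⟩ := hqe
        have h3 : y ^ (q ^ 2) = 1 := by
          have : q ^ 2 = 2 * (2 * m' * m') := by rw [hm']; ring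
          rw [this, pow_mul, hy3, one_pow]
        have h4 : y ^ (q ^ 2 - 1) * y = y ^ (q ^ 2) := by
          rw [← pow_succ, Nat.sub_add_cancel (by omega)]
        rw [hy2, one_mul, h3] at h4
        rw [h4, one_pow]
      · obtain ⟨m', hm'⟩ := hqo
        have : q - 1 = 2 * m' := by omega
        rw [this, pow_mul, hy3, one_pow]
    · -- n odd
      have hqn : t ^ (q ^ n + 1) = 1 := by
        rw [hodd.neg_one_pow] at hun
        have h4 : ((q ^ n + 1 : ℕ) : ZMod o) = 0 := by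
          push_cast; rw [hun, neg_add_cancel]
        have h5 := (ZMod.natCast_eq_zero_iff _ _).1 h4
        rw [ho] at h5
        exact orderOf_dvd_iff_pow_eq_one.1 h5
      have h1 : q + 1 ∣ q ^ n + 1 := by
        have h := Odd.nat_add_dvd_pow_add_pow q 1 hodd
        rwa [one_pow] at h
      have h2 : q - 1 ∣ q ^ n - 1 := by
        have h := Nat.sub_dvd_pow_sub_pow q 1 n
        rwa [one_pow] at h
      have hMU : MU q n = (q ^ n + 1) / (q + 1) := by
        unfold MU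
        rw [if_neg (Nat.not_even_iff_odd.2 hodd)]
      have hNfac : ((q ^ 2) ^ n - 1) / (q ^ 2 - 1) = MU q n * ((q ^ n - 1) / (q - 1)) := by
        rw [hMU, Nat.div_mul_div_comm h1 h2]
        congr 1
        · have h4 : (q ^ 2) ^ n = (q ^ n) ^ 2 := by rw [← pow_mul, ← pow_mul, mul_comm]
          rw [h4, sq_sub_one_nat (q ^ n) hq1']
        · exact sq_sub_one_nat q (by omega)
      obtain ⟨m, hm⟩ := hodd
      obtain ⟨k, hk⟩ := geom_odd q m
      rw [← hm, Nat.geomSum_eq hq1 n] at hk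
      have hMUq : MU q n * (q + 1) = q ^ n + 1 := by rw [hMU, Nat.div_mul_cancel h1]
      rw [hNfac, hk, mul_add, mul_one, pow_add, ← mul_assoc, pow_mul, hMUq, hqn, one_pow,
        mul_one] at hN
      exact hN
  · -- the case of two dual factors
    have hcop := coprime_pst σ f hfm hfirr hf'm hf'irr hpf
    have hχpst : pst σ T.charpoly = T.charpoly := by
      have h1 := charpoly_inv_dag σ T (dag σ T) (mul_eq_one_comm.mp hTu)
      rw [dag_dag σ hσ] at h1
      exact h1.symm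
    have heq : f ^ a * (pst σ f) ^ b = (pst σ f) ^ a * f ^ b := by
      have h1 := hχpst
      rw [hχ, pst_mul, pst_pow, pst_pow, pst_pst σ hσ f hfm hf0] at h1
      exact h1.symm
    have hle : ∀ (g g' : K[X]) (x y : ℕ), g.Monic → 0 < g.natDegree → IsCoprime g g' →
        g ^ x * g' ^ y = g' ^ x * g ^ y → x ≤ y := by
      intro g g' x y hg hgd hc h
      have h1 : g ^ x ∣ g ^ y * g' ^ x := by rw [mul_comm, ← h]; exact Dvd.intro _ rfl
      have h2 : g ^ x ∣ g ^ y := (IsCoprime.pow (m := x) (n := x) hc).dvd_of_dvd_mul_right h1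
      have h3 := Polynomial.natDegree_le_of_dvd h2 (pow_ne_zero _ hg.ne_zero)
      rw [hg.natDegree_pow, hg.natDegree_pow] at h3
      exact Nat.le_of_mul_le_mul_right h3 hgd
    have hab : a = b := by
      apply le_antisymm
      · exact hle f (pst σ f) a b hfm (hd ▸ hd0) hcop heq
      · refine hle (pst σ f) f b a hf'm ?_ hcop.symm ?_
        · rw [pst_natDegree σ f hf0]; exact hd ▸ hd0
        · rw [mul_comm, heq, mul_comm]
    subst hab
    have hn2 : n = 2 * (d * a) := by rw [hdeg]; ring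
    have heven : Even n := ⟨d * a, by rw [hn2]; ring⟩
    have hsign : ((-1 : K)) ^ n = 1 := heven.neg_one_pow
    rw [hsign, one_mul, pst_coeff_zero σ f hfm, ← mul_pow] at hdetχ
    have hσ0 : σ (f.coeff 0) ≠ 0 := (map_ne_zero σ).mpr hf0
    have h1 : (f.coeff 0) ^ a = σ ((f.coeff 0) ^ a) := by
      rw [map_pow]
      have h2 : (f.coeff 0) ^ a = (f.coeff 0 * (σ (f.coeff 0))⁻¹) ^ a * (σ (f.coeff 0)) ^ a := by
        rw [← mul_pow, mul_assoc, inv_mul_cancel₀ hσ0, mul_one]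
      rw [h2, ← hdetχ, one_mul]
    obtain ⟨γ, hγ⟩ : ∃ γ : K, γ = ((-1) ^ d * f.coeff 0) ^ a := ⟨_, rfl⟩
    have hγσ : γ ^ q = γ := by
      rw [← hq, hγ, mul_pow, map_mul, ← h1, map_pow, map_pow, map_neg, map_one]
    have hy : (t ^ (((q ^ 2) ^ d - 1) / (q ^ 2 - 1))) ^ a = algebraMap K (AdjoinRoot f) γ := by
      rw [← hnorm, ← map_pow, hγ]
    obtain ⟨y, hydef⟩ : ∃ y : AdjoinRoot f,
        y = t ^ (((q ^ 2) ^ (d * a) - 1) / (q ^ 2 - 1)) := ⟨_, rfl⟩
    have hyγ : y = algebraMap K (AdjoinRoot f) γ := by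
      rw [hydef, pow_geom t (q ^ 2) d hQ2 hd0 hrQ a, hy]
    have hyq : y ^ q = y := by rw [hyγ, ← map_pow, hγσ]
    have hy0 : y ≠ 0 := by rw [hydef]; exact pow_ne_zero _ ht0
    have hyq1 : y ^ (q - 1) = 1 := by
      have h2 : y ^ (q - 1) * y = 1 * y := by
        rw [← pow_succ, Nat.sub_add_cancel (by omega), hyq, one_mul]
      exact mul_right_cancel₀ hy0 h2
    have hMU : MU q n = ((q ^ 2) ^ (d * a) - 1) / (q ^ 2 - 1) * (q - 1) := by
      unfold MU
      rw [if_pos heven, hn2, pow_mul]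
      obtain ⟨k, hk⟩ : q ^ 2 - 1 ∣ (q ^ 2) ^ (d * a) - 1 := by
        have h := Nat.sub_dvd_pow_sub_pow (q ^ 2) 1 (d * a)
        rwa [one_pow] at h
      have hsq := sq_sub_one_nat q (by omega)
      rw [hk, Nat.mul_div_cancel_left _ (by omega), hsq]
      rw [show (q + 1) * (q - 1) * k = (q + 1) * (k * (q - 1)) by ring,
        Nat.mul_div_cancel_left _ (by omega)]
    rw [hMU, pow_mul, ← hydef, hyq1]

theorem bad_scalar [Fintype K] (hK : Fintype.card K = q ^ 2) (p a₀ : ℕ) [Fact p.Prime]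
    [CharP K p] (hqp : q = p ^ a₀) (σ : K →+* K) (hq : ∀ a, σ a = a ^ q)
    (hσ : ∀ a, σ (σ a) = a)
    (T : Matrix (Fin n) (Fin n) K) (hTu : dag σ T * T = 1) (hdet : T.det = 1)
    (f : K[X]) (hfm : f.Monic) (hfirr : Irreducible f) (hf0 : f.coeff 0 ≠ 0)
    (hμ : (minpoly K T = f ∧ pst σ f = f) ∨ (minpoly K T = f * pst σ f ∧ pst σ f ≠ f)) :
    ∃ s : K, T ^ NU q n = s • (1 : Matrix (Fin n) (Fin n) K) := by
  classical
  haveI hfi : Fact (Irreducible f) := ⟨hfirr⟩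
  by_cases hN0 : NU q n = 0
  · exact ⟨1, by rw [hN0, pow_zero, one_smul]⟩
  have h1 := root_pow_MU hK p a₀ hqp σ hq hσ T hTu hdet f hfm hf0 hμ
  obtain ⟨-, -, hmem⟩ := root_facts hK f hfm
  have hQ2 : 2 ≤ q ^ 2 := by rw [← hK]; exact Fintype.one_lt_card
  have hq1 : 2 ≤ q := by
    by_contra h
    push Not at h
    have : q ^ 2 ≤ 1 := by interval_cases q <;> simp
    omega
  obtain ⟨t, ht⟩ : ∃ t : AdjoinRoot f, t = AdjoinRoot.root f := ⟨_, rfl⟩
  rw [← ht] at h1
  obtain ⟨g, hg⟩ : ∃ g : ℕ, g = Nat.gcd (MU q n) (q + 1) := ⟨_, rfl⟩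
  have hgM : g ∣ MU q n := hg ▸ Nat.gcd_dvd_left _ _
  have hgq : g ∣ q + 1 := hg ▸ Nat.gcd_dvd_right _ _
  obtain ⟨w, hw⟩ : ∃ w : AdjoinRoot f, w = t ^ NU q n := ⟨_, rfl⟩
  have hwg : w ^ g = 1 := by
    rw [hw, ← pow_mul]
    unfold NU
    rw [← hg, Nat.div_mul_cancel hgM, h1]
  have hwq1 : w ^ (q + 1) = 1 := by
    obtain ⟨k, hk⟩ := hgq
    rw [hk, pow_mul, hwg, one_pow]
  have hwQ : w ^ (q ^ 2) = w := by
    have e : q ^ 2 = (q + 1) * (q - 1) + 1 := by
      rw [← sq_sub_one_nat q (by omega)]; omega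
    rw [e, pow_succ, pow_mul, hwq1, one_pow, one_mul]
  obtain ⟨s, hs⟩ := hmem w hwQ
  have hs1 : s ^ (q + 1) = 1 := by
    apply (algebraMap K (AdjoinRoot f)).injective
    rw [map_pow, hs, hwq1, map_one]
  have hs0 : s ≠ 0 := by
    intro h0
    rw [h0, zero_pow (by omega)] at hs1
    exact zero_ne_one hs1
  have hσs : (σ s)⁻¹ = s := by
    rw [hq]
    apply inv_eq_of_mul_eq_one_right
    rw [← pow_succ]
    exact hs1
  have hfd : f ∣ X ^ NU q n - C s := by
    have h3 : aeval (AdjoinRoot.root f) (X ^ NU q n - C s) = 0 := by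
      rw [map_sub, map_pow, aeval_X, aeval_C, ← ht, ← hw, hs, sub_self]
    rwa [AdjoinRoot.aeval_eq, AdjoinRoot.mk_eq_zero] at h3
  have hμd : minpoly K T ∣ X ^ NU q n - C s := by
    rcases hμ with ⟨h, -⟩ | ⟨h, hne⟩
    · rw [h]; exact hfd
    · rw [h]
      have hf'm : (pst σ f).Monic := pst_monic σ f hf0
      have hf'irr : Irreducible (pst σ f) := pst_irreducible σ hσ f hfm hf0 hfirr
      have hcop := coprime_pst σ f hfm hfirr hf'm hf'irr hne
      have h4 := pst_dvd σ f _ hfd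
      rw [pst_X_pow_sub_C σ _ (Nat.pos_of_ne_zero hN0) s hs0, hσs] at h4
      exact IsCoprime.mul_dvd hcop hfd h4
  obtain ⟨wp, hwp⟩ := hμd
  have h5 : aeval T (X ^ NU q n - C s) = 0 := by rw [hwp, map_mul, minpoly.aeval, zero_mul]
  rw [map_sub, map_pow, aeval_X, aeval_C, Algebra.algebraMap_eq_smul_one, sub_eq_zero] at h5
  exact ⟨s, h5⟩

end Cfsg.Agent.Lib.helper10.PsuAbs
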