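import Mathlib
import Cfsg.Agent.Lib.helper10.PsuB

/-!
# Element orders in `PSU_n(q)`: Singer-type elements
-/

set_option autoImplicit false

namespace Cfsg.Agent.Lib.helper10.PsuAbs

open Matrix Polynomial Cfsg.Agent.Lib.helper10.GUConj Cfsg.Agent.Lib.helper10.GUUnip
  Cfsg.Agent.Lib.helper10.GUPrime Cfsg.Agent.Lib.helper10.PGU Cfsg.Agent.Lib.helper4
  Cfsg.Agent.Lib.helper10.GUDet Cfsg.Agent.Lib.helper18.RCF Cfsg.Agent.Lib.helper18.PGL

universe u

variable {K : Type u} [Field K] {n q : ℕ}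

theorem exists_min_poly [Fintype K] (hK : Fintype.card K = q ^ 2) (p a₀ : ℕ) [Fact p.Prime]
    [CharP K p] (hqp : q = p ^ a₀) (σ : K →+* K) (hq : ∀ a, σ a = a ^ q)
    (k : ℕ) (hk : 0 < k) (u : ℕ) (hu0 : 0 < u) (hu : u ∣ (q ^ 2) ^ k - 1) :
    ∃ f : K[X], f.Monic ∧ Irreducible f ∧ f.coeff 0 ≠ 0 ∧ f.natDegree ∣ k ∧
      ((q ^ 2) ^ k - 1) / u ∣ (q ^ 2) ^ f.natDegree - 1 ∧
      (∀ (e : ℕ) (s : K), s ^ (q + 1) = 1 → f ∣ X ^ e - C s →
        ((q ^ 2) ^ k - 1) / u ∣ e * (q + 1)) ∧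
      (∀ N : ℕ, Odd N → ((q ^ 2) ^ k - 1) / u ∣ q ^ N + 1 → pst σ f = f) := by
  classical
  have hp : p.Prime := Fact.out
  have : NeZero k := ⟨hk.ne'⟩
  have hQ2 : 2 ≤ q ^ 2 := by rw [← hK]; exact Fintype.one_lt_card
  have hcardE : Nat.card (FiniteField.Extension K p k) = (q ^ 2) ^ k := by
    rw [FiniteField.natCard_extension, Nat.card_eq_fintype_card, hK]
  obtain ⟨γ, hγ⟩ := IsCyclic.exists_generator (α := (FiniteField.Extension K p k)ˣ)
  have hoγ : orderOf γ = (q ^ 2) ^ k - 1 := by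
    rw [orderOf_eq_card_of_forall_mem_zpowers hγ, Nat.card_units, hcardE]
  obtain ⟨t, ht⟩ : ∃ t : FiniteField.Extension K p k,
      t = ((γ ^ u : (FiniteField.Extension K p k)ˣ) : FiniteField.Extension K p k) := ⟨_, rfl⟩
  have hot : orderOf t = ((q ^ 2) ^ k - 1) / u := by
    rw [ht, orderOf_units, orderOf_pow_of_dvd hu0.ne' (hoγ ▸ hu), hoγ]
  have ht0 : t ≠ 0 := by rw [ht]; exact Units.ne_zero _
  have hint : IsIntegral K t := IsIntegral.of_finite K t
  obtain ⟨f, hfdef⟩ : ∃ f : K[X], f = minpoly K t := ⟨_, rfl⟩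
  have hfm : f.Monic := hfdef ▸ minpoly.monic hint
  have hfirr : Irreducible f := hfdef ▸ minpoly.irreducible hint
  have hf0 : f.coeff 0 ≠ 0 := hfdef ▸ minpoly.coeff_zero_ne_zero hint ht0
  have hft : aeval t f = 0 := by rw [hfdef]; exact minpoly.aeval K t
  haveI : Fact (Irreducible f) := ⟨hfirr⟩
  obtain ⟨φ, hφ⟩ : ∃ φ : AdjoinRoot f →ₐ[K] FiniteField.Extension K p k,
      φ (AdjoinRoot.root f) = t :=
    ⟨AdjoinRoot.liftAlgHom f (Algebra.ofId K _) t hft, AdjoinRoot.liftAlgHom_root f _ _ _⟩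
  obtain ⟨hrQ, -, -⟩ := root_facts hK f hfm
  have htQ : t ^ ((q ^ 2) ^ f.natDegree) = t := by rw [← hφ, ← map_pow, hrQ]
  refine ⟨f, hfm, hfirr, hf0, ?_, ?_, ?_, ?_⟩
  · letI : Algebra (AdjoinRoot f) (FiniteField.Extension K p k) := φ.toRingHom.toAlgebra
    have hf0' : f ≠ 0 := hfirr.ne_zero
    have hfin : Module.Finite K (AdjoinRoot f) := (AdjoinRoot.powerBasis hf0').finite
    haveI : Finite (AdjoinRoot f) := Module.finite_of_finite K
    have hrank : Module.finrank K (AdjoinRoot f) = f.natDegree := by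
      rw [(AdjoinRoot.powerBasis hf0').finrank, AdjoinRoot.powerBasis_dim]
    have hQ : Nat.card (AdjoinRoot f) = (q ^ 2) ^ f.natDegree := by
      rw [Module.natCard_eq_pow_finrank (K := K) (V := AdjoinRoot f), Nat.card_eq_fintype_card,
        hK, hrank]
    have h1 := Module.natCard_eq_pow_finrank (K := AdjoinRoot f)
      (V := FiniteField.Extension K p k)
    rw [hcardE, hQ] at h1
    have h1' : (q ^ 2) ^ k = (q ^ 2) ^ (f.natDegree *
        Module.finrank (AdjoinRoot f) (FiniteField.Extension K p k)) := by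
      rw [pow_mul]; exact h1
    exact ⟨_, Nat.pow_right_injective hQ2 h1'⟩
  · rw [← hot]
    apply orderOf_dvd_of_pow_eq_one
    have h3 : t ^ ((q ^ 2) ^ f.natDegree - 1) * t = 1 * t := by
      rw [← pow_succ, Nat.sub_add_cancel (Nat.one_le_pow _ _ (by omega)), htQ, one_mul]
    exact mul_right_cancel₀ ht0 h3
  · intro e s hs hd
    rw [← hot]
    apply orderOf_dvd_of_pow_eq_one
    obtain ⟨w, hw⟩ := hd
    have h4 : aeval t (X ^ e - C s) = 0 := by rw [hw, map_mul, hft, zero_mul]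
    rw [map_sub, map_pow, aeval_X, aeval_C, sub_eq_zero] at h4
    rw [pow_mul, h4, ← map_pow, hs, map_one]
  · intro N hN hdvd
    have htN : t ^ (q ^ N) = t⁻¹ := by
      have h5 : t ^ (q ^ N + 1) = 1 := orderOf_dvd_iff_pow_eq_one.1 (hot ▸ hdvd)
      rw [pow_succ] at h5
      exact eq_inv_of_mul_eq_one_left h5
    haveI : CharP (FiniteField.Extension K p k) p :=
      charP_of_injective_algebraMap (algebraMap K (FiniteField.Extension K p k)).injective p
    haveI : ExpChar (FiniteField.Extension K p k) p := ExpChar.prime hp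
    obtain ⟨θ, hθdef⟩ : ∃ θ : FiniteField.Extension K p k →+* FiniteField.Extension K p k,
        θ = iterateFrobenius (FiniteField.Extension K p k) p (a₀ * N) := ⟨_, rfl⟩
    have hθ : ∀ x, θ x = x ^ (q ^ N) := fun x => by
      rw [hθdef, iterateFrobenius_def, hqp, ← pow_mul]
    have hσN : ∀ x : K, x ^ (q ^ N) = σ x := by
      intro x
      obtain ⟨m, hm⟩ := hN
      have hx2 : ∀ l : ℕ, x ^ ((q ^ 2) ^ l) = x := by
        intro l
        induction l with
        | zero => rw [pow_zero, pow_one]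
        | succ l ih => rw [pow_succ, pow_mul, ih, ← hK, FiniteField.pow_card]
      have e : q ^ (2 * m + 1) = (q ^ 2) ^ m * q := by rw [pow_succ, pow_mul]
      rw [hm, e, pow_mul, hx2, hq]
    have hcomp : θ.comp (algebraMap K (FiniteField.Extension K p k)) =
        (algebraMap K (FiniteField.Extension K p k)).comp σ := by
      apply RingHom.ext
      intro x
      show θ (algebraMap K _ x) = algebraMap K _ (σ x)
      rw [hθ, ← map_pow, hσN]
    have h6 : eval₂ (algebraMap K (FiniteField.Extension K p k)) t⁻¹ (f.map σ) = 0 := by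
      rw [Polynomial.eval₂_map, ← hcomp, ← htN, ← hθ, ← Polynomial.hom_eval₂,
        ← Polynomial.aeval_def, hft, map_zero]
    have h7 : eval₂ (algebraMap K (FiniteField.Extension K p k)) t (f.map σ).reverse = 0 := by
      letI : Invertible (t⁻¹) := invertibleOfNonzero (inv_ne_zero ht0)
      have h := (Polynomial.eval₂_reverse_eq_zero_iff
        (algebraMap K (FiniteField.Extension K p k)) (t⁻¹) (f.map σ)).2 h6
      rw [invOf_eq_inv, inv_inv] at h
      exact h
    have h9 : aeval t (f.map σ).reverse = 0 := by rw [Polynomial.aeval_def]; exact h7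
    have h8 : aeval t (pst σ f) = 0 := by
      unfold pst
      rw [map_mul, h9, mul_zero]
    have h10 : f ∣ pst σ f := by
      rw [hfdef]
      exact minpoly.dvd K t (by rw [← hfdef]; exact h8)
    exact Polynomial.eq_of_monic_of_dvd_of_natDegree_le hfm (pst_monic σ f hf0) h10
      (le_of_eq (pst_natDegree σ f hf0))

theorem exists_singer_U [Fintype K] (hK : Fintype.card K = q ^ 2) (p a₀ : ℕ) [Fact p.Prime]
    [CharP K p] (hqp : q = p ^ a₀) (hn : 2 ≤ n) :
    ∃ z : Cfsg.PSU n K q, NU q n ∣ orderOf z := by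
  classical
  have hp : p.Prime := Fact.out
  have hQ2 : 2 ≤ q ^ 2 := by rw [← hK]; exact Fintype.one_lt_card
  have hq1 : 2 ≤ q := by
    by_contra h
    push Not at h
    have : q ^ 2 ≤ 1 := by interval_cases q <;> simp
    omega
  obtain ⟨σ, hq, hσ, ω₀, hω₀⟩ := exists_sigma hK
  have key : ∃ (f χ₀ : K[X]), f.Monic ∧ Irreducible f ∧ f ∣ χ₀ ∧ χ₀.Monic ∧ χ₀.natDegree = n ∧
      χ₀.coeff 0 ≠ 0 ∧ pst σ χ₀ = χ₀ ∧
      (∀ (e : ℕ) (s : K), s ^ (q + 1) = 1 → f ∣ X ^ e - C s →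
        MU q n * (q + 1) ∣ e * (q + 1)) := by
    have hq1n : 1 ≤ q ^ n := Nat.one_le_pow _ _ (by omega)
    rcases Nat.even_or_odd n with hev | hodd
    · obtain ⟨k, hk⟩ := hev
      have hk0 : 0 < k := by omega
      have hqn : q ^ n = (q ^ 2) ^ k := by rw [hk, ← two_mul, pow_mul]
      obtain ⟨f, hfm, hfirr, hf0, hdk, hdo, hes, -⟩ :=
        exists_min_poly hK p a₀ hqp σ hq k hk0 1 Nat.one_pos (one_dvd _)
      rw [Nat.div_one] at hdo hes
      have hdeg : f.natDegree = k := by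
        apply Nat.le_antisymm (Nat.le_of_dvd hk0 hdk)
        have h1 := Nat.le_of_dvd (Nat.sub_pos_of_lt
          (Nat.one_lt_pow (hfirr.natDegree_pos.ne') (by omega))) hdo
        have h2 : (q ^ 2) ^ k ≤ (q ^ 2) ^ f.natDegree := by
          have := Nat.one_le_pow k (q ^ 2) (by omega)
          have := Nat.one_le_pow f.natDegree (q ^ 2) (by omega)
          omega
        exact (Nat.pow_le_pow_iff_right (by omega)).1 h2
      have hf'm := pst_monic σ f hf0
      refine ⟨f, f * pst σ f, hfm, hfirr, Dvd.intro _ rfl, hfm.mul hf'm, ?_, ?_, ?_, ?_⟩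
      · rw [hfm.natDegree_mul hf'm, pst_natDegree σ f hf0, hdeg, hk]
      · rw [Polynomial.mul_coeff_zero]
        exact mul_ne_zero hf0 (pst_coeff_zero_ne σ f hfm hf0)
      · rw [pst_mul, pst_pst σ hσ f hfm hf0, mul_comm]
      · intro e s hs hd
        have hMU : MU q n * (q + 1) = (q ^ 2) ^ k - 1 := by
          unfold MU
          rw [if_pos ⟨k, hk⟩, hqn]
          apply Nat.div_mul_cancel
          have h1 : q ^ 2 - 1 ∣ (q ^ 2) ^ k - 1 := by
            have h := Nat.sub_dvd_pow_sub_pow (q ^ 2) 1 k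
            rwa [one_pow] at h
          exact (Dvd.intro _ (sq_sub_one_nat q (by omega)).symm).trans h1
        rw [hMU]
        exact hes e s hs hd
    · have hn0 : 0 < n := by omega
      have hu : q ^ n - 1 ∣ (q ^ 2) ^ n - 1 := by
        have h4 : (q ^ 2) ^ n = (q ^ n) ^ 2 := by rw [← pow_mul, ← pow_mul, mul_comm]
        rw [h4, sq_sub_one_nat (q ^ n) hq1n]
        exact Dvd.intro_left _ rfl
      have hu0 : 0 < q ^ n - 1 := by
        have : 2 ≤ q ^ n := by
          calc 2 ≤ q := hq1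
            _ = q ^ 1 := (pow_one q).symm
            _ ≤ q ^ n := Nat.pow_le_pow_right (by omega) hn0
        omega
      have ho : ((q ^ 2) ^ n - 1) / (q ^ n - 1) = q ^ n + 1 := by
        have h4 : (q ^ 2) ^ n = (q ^ n) ^ 2 := by rw [← pow_mul, ← pow_mul, mul_comm]
        rw [h4, sq_sub_one_nat (q ^ n) hq1n, Nat.mul_div_cancel _ hu0]
      obtain ⟨f, hfm, hfirr, hf0, hdk, hdo, hes, hpst⟩ :=
        exists_min_poly hK p a₀ hqp σ hq n hn0 (q ^ n - 1) hu0 hu
      rw [ho] at hdo hes hpst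
      have hdeg : f.natDegree = n := by
        obtain ⟨e, he⟩ := hdk
        have hd0 := hfirr.natDegree_pos
        have h1 := Nat.le_of_dvd (Nat.sub_pos_of_lt (Nat.one_lt_pow hd0.ne' (by omega))) hdo
        have h2 : q ^ n < q ^ (2 * f.natDegree) := by rw [pow_mul]; omega
        have h3 : n < 2 * f.natDegree := (Nat.pow_lt_pow_iff_right (by omega)).1 h2
        rcases Nat.lt_or_ge e 2 with h | h
        · interval_cases e
          · omega
          · rw [he, mul_one]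
        · exfalso
          have : 2 * f.natDegree ≤ f.natDegree * e := by
            rw [mul_comm]; exact Nat.mul_le_mul_left _ h
          omega
      refine ⟨f, f, hfm, hfirr, dvd_rfl, hfm, hdeg, hf0, hpst n hodd dvd_rfl, ?_⟩
      intro e s hs hd
      have hMU : MU q n * (q + 1) = q ^ n + 1 := by
        unfold MU
        rw [if_neg (Nat.not_even_iff_odd.2 hodd)]
        apply Nat.div_mul_cancel
        have h := Odd.nat_add_dvd_pow_add_pow q 1 hodd
        rwa [one_pow] at h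
      rw [hMU]
      exact hes e s hs hd
  obtain ⟨f, χ₀, hfm, hfirr, hfχ, hχm, hχd, hχ0, hχp, hord⟩ := key
  obtain ⟨A, mA, hmA, hA, hAc⟩ := exists_ss_mat χ₀ hχm hχd hχ0
  have hmA0 : 0 < mA := by
    rcases Nat.eq_zero_or_pos mA with h | h
    · rw [h, Nat.cast_zero] at hmA; exact absurd rfl hmA
    · exact h
  have hAAi : A * A ^ (mA - 1) = 1 := by rw [← pow_succ', Nat.sub_add_cancel hmA0, hA]
  have hAiA : A ^ (mA - 1) * A = 1 := by rw [← pow_succ, Nat.sub_add_cancel hmA0, hA]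
  have hNc : (dag σ (A ^ (mA - 1))).charpoly = A.charpoly := by
    rw [charpoly_inv_dag σ A _ hAAi, hAc, hχp]
  have hNr : (dag σ (A ^ (mA - 1))) ^ mA = 1 := by
    rw [← dag_pow, ← pow_mul, mul_comm, pow_mul, hA, one_pow, dag_one]
  obtain ⟨Cm, Dm, h1, h2, h3⟩ := ss_conj_mat A _ mA mA hmA hmA hA hNr hNc.symm
  obtain ⟨B, Cm', Dm', h1', h2', h3'⟩ := exists_gu_conj hK σ hq A _ hAAi hAiA Cm Dm h1 h2 h3
  obtain ⟨G, hG⟩ : ∃ G : Matrix (Fin n) (Fin n) K, G = gmat B := ⟨_, rfl⟩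
  have hGu : dag σ G * G = 1 := by rw [hG]; exact gmat_unitary σ hq B
  have hGc : G.charpoly = χ₀ := by rw [hG, ← charpoly_eq_of_conj h1' h2' h3', hAc]
  have hcomm : Commute (dag σ G) G := by
    show dag σ G * G = G * dag σ G
    rw [hGu, mul_eq_one_comm.mp hGu]
  have hpowu : ∀ e : ℕ, dag σ (G ^ e) * G ^ e = 1 := fun e => by
    rw [dag_pow, ← hcomm.mul_pow, hGu, one_pow]
  have hdetG : G.det ^ (q + 1) = 1 := by
    have h4 := congrArg Matrix.det hGu
    rw [Matrix.det_mul, det_dag, Matrix.det_one, hq] at h4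
    rw [pow_succ]
    exact h4
  have hdet1 : (G ^ (q + 1)).det = 1 := by rw [Matrix.det_pow, hdetG]
  obtain ⟨g₁, hg₁⟩ := Cfsg.Agent.S2390.mk_su σ hq (G ^ (q + 1)) hdet1 (hpowu _)
  have hg₁' : suM g₁ = G ^ (q + 1) := hg₁
  refine ⟨QuotientGroup.mk g₁, ?_⟩
  obtain ⟨k, hk⟩ : ∃ k : ℕ, k = orderOf (QuotientGroup.mk g₁ : Cfsg.PSU n K q) := ⟨_, rfl⟩
  have h5 := pow_orderOf_eq_one (QuotientGroup.mk g₁ : Cfsg.PSU n K q)
  rw [← hk] at h5 ⊢
  rw [mk_pow_eq_one_U hK hn, hg₁', ← pow_mul] at h5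
  obtain ⟨s, hs⟩ := h5
  have hs1 : s ^ (q + 1) = 1 := by
    have h6 := hpowu ((q + 1) * k)
    rw [hs, dag_smul, dag_one, Matrix.smul_mul, Matrix.one_mul, smul_smul] at h6
    have h7 := congrFun (congrFun h6 ⟨0, by omega⟩) ⟨0, by omega⟩
    rw [Matrix.smul_apply, Matrix.one_apply_eq, smul_eq_mul, mul_one, hq] at h7
    rw [pow_succ]
    exact h7
  have hfG : f ∣ minpoly K G := chi_factors G f hfirr (hGc ▸ hfχ)
  have hmin : minpoly K G ∣ X ^ ((q + 1) * k) - C s := by
    apply minpoly.dvd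
    rw [map_sub, map_pow, aeval_X, aeval_C, hs, Algebra.algebraMap_eq_smul_one, sub_self]
  have h8 := hord ((q + 1) * k) s hs1 (hfG.trans hmin)
  have hq1p : 0 < q + 1 := by omega
  have h9 : MU q n ∣ k * (q + 1) := by
    have h10 : MU q n * (q + 1) ∣ (k * (q + 1)) * (q + 1) := by
      rw [show (k * (q + 1)) * (q + 1) = (q + 1) * k * (q + 1) by ring]; exact h8
    exact Nat.dvd_of_mul_dvd_mul_right hq1p h10
  unfold NU
  obtain ⟨g, hg⟩ : ∃ g : ℕ, g = Nat.gcd (MU q n) (q + 1) := ⟨_, rfl⟩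
  rw [← hg]
  have hg0 : 0 < g := by rw [hg]; exact Nat.gcd_pos_of_pos_right _ hq1p
  have hcop : Nat.Coprime (MU q n / g) ((q + 1) / g) := by
    rw [hg]; exact Nat.coprime_div_gcd_div_gcd (hg ▸ hg0)
  have hgN : g ∣ MU q n := hg ▸ Nat.gcd_dvd_left _ _
  have hgq : g ∣ q + 1 := hg ▸ Nat.gcd_dvd_right _ _
  have h7 : MU q n / g ∣ k * ((q + 1) / g) := by
    obtain ⟨t, ht⟩ := h9
    refine ⟨t, ?_⟩
    have e1 : g * (MU q n / g) = MU q n := Nat.mul_div_cancel' hgN
    have e2 : g * ((q + 1) / g) = q + 1 := Nat.mul_div_cancel' hgq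
    apply Nat.eq_of_mul_eq_mul_left hg0
    calc g * (k * ((q + 1) / g)) = k * (g * ((q + 1) / g)) := by ring
      _ = k * (q + 1) := by rw [e2]
      _ = MU q n * t := ht
      _ = g * (MU q n / g) * t := by rw [e1]
      _ = g * (MU q n / g * t) := by ring
  exact hcop.dvd_of_dvd_mul_right h7

end Cfsg.Agent.Lib.helper10.PsuAbs
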