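import Mathlib
import Cfsg.Agent.Lib.helper10.PsuB

/-!
# Element orders in `PSU_n(q)`: the dichotomy, `p`-parts and elements of order `r * p ^ j`
-/

set_option autoImplicit false

namespace Cfsg.Agent.Lib.helper10.PsuAbs

open Matrix Polynomial Cfsg.Agent.Lib.helper10.GUConj Cfsg.Agent.Lib.helper10.GUUnip
  Cfsg.Agent.Lib.helper10.GUPrime Cfsg.Agent.Lib.helper10.PGU Cfsg.Agent.Lib.helper4
  Cfsg.Agent.Lib.helper18.Jordan

universe u

variable {K : Type u} [Field K] {n q : ℕ}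

theorem dichotomy_U [Fintype K] (hK : Fintype.card K = q ^ 2) (p a₀ : ℕ) [Fact p.Prime]
    [CharP K p] (hqp : q = p ^ a₀) (hn : 2 ≤ n) (r : ℕ) (hr : r.Prime) (hrn : ¬ r ∣ n)
    (hrq : r ∣ q + 1) (ζ : K) (hζ : ζ ^ r = 1) (hζ1 : ζ ≠ 1)
    (x : Cfsg.PSU n K q) (hrx : ¬ r ∣ orderOf x) :
    (∃ y : Cfsg.PSU n K q, orderOf y = r * orderOf x) ∨
    (∃ c j : ℕ, orderOf x = c * p ^ j ∧ ¬ p ∣ c ∧ c ∣ NU q n) := by
  classical
  have hp : p.Prime := Fact.out
  have hn0 : 0 < n := by omega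
  obtain ⟨σ, hq, hσ, ω₀, hω₀⟩ := exists_sigma hK
  have hζu : σ ζ * ζ = 1 := by
    obtain ⟨t, ht⟩ := hrq
    rw [hq, ← pow_succ, ht, pow_mul, hζ, one_pow]
  obtain ⟨g, rfl⟩ := QuotientGroup.mk_surjective x
  have hgu : dag σ (suM g) * suM g = 1 := Cfsg.Agent.S2390.su_unitary σ hq g
  by_cases hB : ∀ h : K[X], (aeval (suM g) h) ^ r = 1 →
      dag σ (aeval (suM g) h) * aeval (suM g) h = 1 →
      ∃ s : K, aeval (suM g) h = s • (1 : Matrix (Fin n) (Fin n) K)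
  · right
    have hpos : 0 < orderOf (QuotientGroup.mk g : Cfsg.PSU n K q) := orderOf_pos _
    obtain ⟨j, c, hpc, hac⟩ := Nat.exists_eq_pow_mul_and_not_dvd hpos.ne' p hp.ne_one
    refine ⟨c, j, by rw [hac, mul_comm], hpc, ?_⟩
    obtain ⟨T, hT⟩ : ∃ T : Matrix (Fin n) (Fin n) K, T = (suM g) ^ p ^ j := ⟨_, rfl⟩
    have h1 := pow_orderOf_eq_one (QuotientGroup.mk g : Cfsg.PSU n K q)
    rw [mk_pow_eq_one_U hK hn] at h1
    obtain ⟨lam, hlam⟩ := h1
    have hTc : T ^ c = lam • (1 : Matrix (Fin n) (Fin n) K) := by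
      rw [hT, ← pow_mul, ← hac, hlam]
    have hdetT : T.det = 1 := by
      have hd1 : (suM g).det = 1 := g.1.2
      rw [hT, Matrix.det_pow, hd1, one_pow]
    have hlam0 : lam ≠ 0 := by
      intro h0
      have h2 : (T ^ c).det = 1 := by rw [Matrix.det_pow, hdetT, one_pow]
      haveI : Nonempty (Fin n) := ⟨⟨0, hn0⟩⟩
      rw [hTc, h0, zero_smul, Matrix.det_zero] at h2
      exact zero_ne_one h2
    have hcF : (c : K) ≠ 0 := by
      rw [Ne, CharP.cast_eq_zero_iff K p]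
      exact hpc
    have hTu : dag σ T * T = 1 := by
      have hcomm : Commute (dag σ (suM g)) (suM g) := by
        show dag σ (suM g) * suM g = suM g * dag σ (suM g)
        rw [hgu, mul_eq_one_comm.mp hgu]
      rw [hT, dag_pow, ← hcomm.mul_pow, hgu, one_pow]
    have hBT : ∀ h : K[X], (aeval T h) ^ r = 1 → dag σ (aeval T h) * aeval T h = 1 →
        ∃ s : K, aeval T h = s • (1 : Matrix (Fin n) (Fin n) K) := by
      intro h hh hu
      have h3 : aeval T h = aeval (suM g) (h.comp (X ^ p ^ j)) := by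
        rw [aeval_comp, map_pow, aeval_X, hT]
      rw [h3] at hh hu ⊢
      exact hB _ hh hu
    obtain ⟨f, hfm, hfirr, hf0, hμ⟩ :=
      minpoly_dich σ hσ r ζ hζ hζ1 hζu hn0 T hTu c hcF lam hlam0 hTc hBT
    obtain ⟨s, hs⟩ := bad_scalar hK p a₀ hqp σ hq hσ T hTu hdetT f hfm hfirr hf0 hμ
    have h6 : orderOf ((QuotientGroup.mk g : Cfsg.PSU n K q) ^ p ^ j) = c := by
      rw [orderOf_pow_of_dvd (pow_ne_zero _ hp.ne_zero) (Dvd.intro c hac.symm), hac,
        Nat.mul_div_cancel_left _ (pow_pos hp.pos _)]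
    rw [← h6]
    apply orderOf_dvd_of_pow_eq_one
    rw [← pow_mul, mk_pow_eq_one_U hK hn]
    exact ⟨s, by rw [pow_mul, ← hT, hs]⟩
  · left
    push Not at hB
    obtain ⟨h, hh, hu, hns⟩ := hB
    have hc : aeval (suM g) h * suM g = suM g * aeval (suM g) h := by
      have e1 : aeval (suM g) (h * X) = aeval (suM g) h * suM g := by
        rw [map_mul, aeval_X]
      have e2 : aeval (suM g) (X * h) = suM g * aeval (suM g) h := by
        rw [map_mul, aeval_X]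
      rw [← e1, ← e2, mul_comm]
    exact good_of_comm_U hK hn σ hq r hr hrn hrq g _ hh hu hc (fun ⟨s, hs⟩ => hns s hs) hrx

theorem ppart_le_U [Fintype K] (hK : Fintype.card K = q ^ 2) (p : ℕ) [Fact p.Prime] [CharP K p]
    (hn : 2 ≤ n) (x : Cfsg.PSU n K q) (j J : ℕ) (hJ : n ≤ p ^ J)
    (h : orderOf x = p ^ j) : j ≤ J := by
  classical
  have : NeZero n := ⟨by omega⟩
  have hp : p.Prime := Fact.out
  obtain ⟨g, rfl⟩ := QuotientGroup.mk_surjective x
  have h1 := pow_orderOf_eq_one (QuotientGroup.mk g : Cfsg.PSU n K q)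
  rw [h, mk_pow_eq_one_U hK hn] at h1
  obtain ⟨lam, hlam⟩ := h1
  obtain ⟨μ₀, hμ₀⟩ : ∃ μ₀ : K, μ₀ ^ p ^ j = lam := by
    obtain ⟨μ₀, h2⟩ := (iterateFrobeniusEquiv K p j).surjective lam
    exact ⟨μ₀, by rw [← h2, coe_iterateFrobeniusEquiv, iterateFrobenius_def]⟩
  obtain ⟨M, hM⟩ : ∃ M : Matrix (Fin n) (Fin n) K,
      M = suM g - μ₀ • (1 : Matrix (Fin n) (Fin n) K) := ⟨_, rfl⟩
  have hcomm : Commute (suM g) (μ₀ • (1 : Matrix (Fin n) (Fin n) K)) := by
    show _ * _ = _ * _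
    rw [Matrix.mul_smul, Matrix.smul_mul, mul_one, one_mul]
  have hMnil : M ^ p ^ j = 0 := by
    rw [hM, sub_pow_char_pow_of_commute p j hcomm, hlam, _root_.smul_pow, one_pow, hμ₀, sub_self]
  have hMn : M ^ n = 0 := by
    have hnil : IsNilpotent M := ⟨p ^ j, hMnil⟩
    have h7 := Matrix.isNilpotent_charpoly_sub_pow_of_isNilpotent hnil
    have h8 : M.charpoly = X ^ Fintype.card (Fin n) := sub_eq_zero.1 h7.eq_zero
    have h9 := Matrix.aeval_self_charpoly M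
    rw [h8, map_pow, aeval_X, Fintype.card_fin] at h9
    exact h9
  have hMJ : M ^ p ^ J = 0 := by
    obtain ⟨t, ht⟩ := Nat.exists_eq_add_of_le hJ
    rw [ht, pow_add, hMn, zero_mul]
  have h3 : suM g ^ p ^ J = (μ₀ ^ p ^ J) • (1 : Matrix (Fin n) (Fin n) K) := by
    have h4 : suM g = M + μ₀ • (1 : Matrix (Fin n) (Fin n) K) := by
      rw [hM, sub_add_cancel]
    have hcomm2 : Commute M (μ₀ • (1 : Matrix (Fin n) (Fin n) K)) := by
      show _ * _ = _ * _
      rw [Matrix.mul_smul, Matrix.smul_mul, mul_one, one_mul]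
    rw [h4, add_pow_char_pow_of_commute p J hcomm2, hMJ, zero_add, _root_.smul_pow, one_pow]
  have h5 : (QuotientGroup.mk g : Cfsg.PSU n K q) ^ p ^ J = 1 := by
    rw [mk_pow_eq_one_U hK hn]; exact ⟨_, h3⟩
  have h6 := orderOf_dvd_of_pow_eq_one h5
  rw [h] at h6
  exact (Nat.pow_dvd_pow_iff_le_right hp.one_lt).1 h6

theorem exists_r_pp_U [Fintype K] (hK : Fintype.card K = q ^ 2) (p : ℕ) [Fact p.Prime]
    [CharP K p] (m : ℕ) (hm : 1 ≤ m) (r : ℕ) (hr : r.Prime) (hrp : r ≠ p) (hrn : ¬ r ∣ m + 1)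
    (hrq : r ∣ q + 1) (ζ : K) (hζ : ζ ^ r = 1) (hζ1 : ζ ≠ 1)
    (jm : ℕ) (hjm : jm = 0 ∨ p ^ (jm - 1) < m) :
    ∃ y : Cfsg.PSU (m + 1) K q, orderOf y = r * p ^ jm := by
  classical
  have : NeZero m := ⟨by omega⟩
  have hp : p.Prime := Fact.out
  obtain ⟨σ, hq, hσ, ω₀, hω₀⟩ := exists_sigma hK
  obtain ⟨S, hS⟩ : ∃ S : Matrix (Fin m) (Fin m) K, ∀ i j, S i j =
      if (i : ℕ) + 1 = (j : ℕ) then 1 else 0 :=
    ⟨Matrix.of fun i j => if (i : ℕ) + 1 = (j : ℕ) then 1 else 0, fun i j => rfl⟩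
  have hSpow : ∀ k : ℕ, 1 ≤ k → ∀ i j : Fin m, (S ^ k) i j =
      if (i : ℕ) + k = (j : ℕ) then 1 else 0 := by
    intro k hk
    induction k, hk using Nat.le_induction with
    | base => intro i j; rw [pow_one, hS]
    | succ k hk ih =>
      intro i j
      rw [pow_succ, Matrix.mul_apply]
      by_cases hc : (i : ℕ) + (k + 1) = (j : ℕ)
      · rw [if_pos hc]
        have hk' : (i : ℕ) + k < m := by have := j.2; omega
        have e1 : (S ^ k) i ⟨(i : ℕ) + k, hk'⟩ = 1 := by rw [ih, if_pos rfl]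
        have e2 : S ⟨(i : ℕ) + k, hk'⟩ j = 1 := by
          rw [hS, if_pos]
          show (i : ℕ) + k + 1 = (j : ℕ)
          omega
        rw [Finset.sum_eq_single (⟨(i : ℕ) + k, hk'⟩ : Fin m), e1, e2, mul_one]
        · intro l _ hlne
          rw [ih, if_neg, zero_mul]
          intro h1
          exact hlne (Fin.ext h1.symm)
        · intro h; exact absurd (Finset.mem_univ _) h
      · rw [if_neg hc]
        apply Finset.sum_eq_zero
        intro l _
        rw [ih, hS]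
        by_cases h1 : (i : ℕ) + k = (l : ℕ)
        · have h2 : ¬ ((l : ℕ) + 1 = (j : ℕ)) := by intro h2; exact hc (by omega)
          rw [if_pos h1, if_neg h2, mul_zero]
        · rw [if_neg h1, zero_mul]
  have hSn : ∀ k : ℕ, m ≤ k → S ^ k = 0 := by
    intro k hk
    ext i j
    have h2 : ¬ ((i : ℕ) + k = (j : ℕ)) := by have := j.2; omega
    rw [hSpow k (by omega), if_neg h2, Matrix.zero_apply]
  obtain ⟨J, hJ⟩ : ∃ J : ℕ, m ≤ p ^ J := ⟨m, (Nat.lt_pow_self hp.one_lt).le⟩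
  have hUpow : ∀ k : ℕ, (1 + S) ^ p ^ k = 1 + S ^ p ^ k := by
    intro k
    rw [add_pow_char_pow_of_commute p k (Commute.one_left S), one_pow]
  have hUJ : (1 + S) ^ p ^ J = 1 := by rw [hUpow, hSn _ hJ, add_zero]
  obtain ⟨A, hA⟩ : ∃ A : GL (Fin m) K, (A : Matrix (Fin m) (Fin m) K) = 1 + S := by
    have h1 : (1 + S) * (1 + S) ^ (p ^ J - 1) = 1 := by
      rw [← pow_succ', Nat.sub_add_cancel (Nat.one_le_pow _ _ hp.pos), hUJ]
    have h2 : (1 + S) ^ (p ^ J - 1) * (1 + S) = 1 := by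
      rw [← pow_succ, Nat.sub_add_cancel (Nat.one_le_pow _ _ hp.pos), hUJ]
    exact ⟨⟨1 + S, (1 + S) ^ (p ^ J - 1), h1, h2⟩, rfl⟩
  have hAnil : IsNilpotent (nilp A) := by
    refine ⟨m, ?_⟩
    rw [nilp_pow_eq_zero_iff, hA, add_sub_cancel_left]
    exact hSn m le_rfl
  obtain ⟨g, hgU, hconj⟩ := unip_conj_into_GU σ q hq hσ ω₀ hω₀ A hAnil
  obtain ⟨c, hc⟩ := isConj_iff.mp hconj
  obtain ⟨M, hM⟩ : ∃ M : Matrix (Fin m) (Fin m) K, M = (g : Matrix (Fin m) (Fin m) K) :=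
    ⟨_, rfl⟩
  have hMu : dag σ M * M = 1 := by rw [hM]; exact (mem_GU_iff σ q hq g).mp hgU
  obtain ⟨C, hC⟩ : ∃ C : Matrix (Fin m) (Fin m) K, C = (c : Matrix (Fin m) (Fin m) K) :=
    ⟨_, rfl⟩
  obtain ⟨Ci, hCi⟩ : ∃ Ci : Matrix (Fin m) (Fin m) K,
      Ci = ((c⁻¹ : GL (Fin m) K) : Matrix (Fin m) (Fin m) K) := ⟨_, rfl⟩
  have hCCi : C * Ci = 1 := by rw [hC, hCi, ← Units.val_mul, mul_inv_cancel, Units.val_one]
  have hCiC : Ci * C = 1 := by rw [hC, hCi, ← Units.val_mul, inv_mul_cancel, Units.val_one]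
  have hCA : C * (1 + S) = M * C := by
    have h5 : c * A = g * c := by rw [← hc, inv_mul_cancel_right]
    have h6 := congrArg (fun u : GL (Fin m) K => (u : Matrix (Fin m) (Fin m) K)) h5
    simp only [Units.val_mul] at h6
    rw [hA] at h6
    rw [hC, hM]
    exact h6
  have hMpow : ∀ k : ℕ, M ^ k = C * (1 + S) ^ k * Ci := fun k => conj_pow_eq hCCi hCA k
  have hMk : ∀ k : ℕ, M ^ k = 1 ↔ (1 + S) ^ k = 1 := by
    intro k
    rw [hMpow]
    constructor
    · intro h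
      have h7 : Ci * (C * (1 + S) ^ k * Ci) * C = Ci * 1 * C := by rw [h]
      rw [Matrix.mul_one, hCiC, ← Matrix.mul_assoc, ← Matrix.mul_assoc, hCiC, Matrix.one_mul,
        Matrix.mul_assoc, hCiC, Matrix.mul_one] at h7
      exact h7
    · intro h
      rw [h, Matrix.mul_one, hCCi]
  have hMJ : M ^ p ^ J = 1 := (hMk _).2 hUJ
  have hMdet : M.det = 1 := by
    have h1 : M.det ^ p ^ J = 1 := by rw [← Matrix.det_pow, hMJ, Matrix.det_one]
    have h2 : (M.det - 1) ^ p ^ J = 0 := by rw [sub_pow_char_pow, h1, one_pow, sub_self]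
    exact sub_eq_zero.1 ((pow_eq_zero_iff (pow_ne_zero _ hp.ne_zero)).1 h2)
  obtain ⟨g₀, hg₀⟩ := Cfsg.Agent.S2390.mk_su σ hq M hMdet hMu
  obtain ⟨g₁, hg₁⟩ : ∃ g₁ : ↥(Cfsg.SU (m + 1) K q), g₁ = ublockSU m K q g₀ := ⟨_, rfl⟩
  have hg₁M : suM g₁ = ublock M := by
    rw [hg₁, ublockSU_val]
    exact congrArg ublock hg₀
  have hubpow : ∀ k : ℕ, (ublock M) ^ k = ublock (M ^ k) := by
    intro k
    induction k with
    | zero => rw [pow_zero, pow_zero, ublock_one]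
    | succ k ih => rw [pow_succ, pow_succ, ih, ublock_mul]
  have hn2 : 2 ≤ m + 1 := by omega
  have hpowiff : ∀ k : ℕ, (QuotientGroup.mk g₁ : Cfsg.PSU (m + 1) K q) ^ k = 1 ↔
      (1 + S) ^ k = 1 := by
    intro k
    rw [mk_pow_eq_one_U hK hn2, hg₁M, hubpow, ← hMk]
    constructor
    · rintro ⟨s, hs⟩
      have h00 := congrFun (congrFun hs 0) 0
      rw [ublock_zero_zero, Matrix.smul_apply, Matrix.one_apply_eq, smul_eq_mul, mul_one] at h00
      rw [← h00, one_smul, ← ublock_one] at hs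
      exact ublock_injective hs
    · intro h
      exact ⟨1, by rw [h, ublock_one, one_smul]⟩
  have hpJ : (QuotientGroup.mk g₁ : Cfsg.PSU (m + 1) K q) ^ p ^ J = 1 := (hpowiff _).2 hUJ
  obtain ⟨i, -, hi⟩ := (Nat.dvd_prime_pow hp).1 (orderOf_dvd_of_pow_eq_one hpJ)
  have hij : jm ≤ i := by
    rcases hjm with h0 | h1
    · omega
    · by_contra hlt
      push Not at hlt
      have h2 : (QuotientGroup.mk g₁ : Cfsg.PSU (m + 1) K q) ^ p ^ (jm - 1) = 1 := by
        apply orderOf_dvd_iff_pow_eq_one.1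
        rw [hi]
        exact pow_dvd_pow p (by omega)
      rw [hpowiff, hUpow] at h2
      have hm1 : 1 ≤ p ^ (jm - 1) := Nat.one_le_pow _ _ hp.pos
      have hne : (⟨0, by omega⟩ : Fin m) ≠ ⟨p ^ (jm - 1), h1⟩ := by
        intro h
        have h' : (0 : ℕ) = p ^ (jm - 1) := congrArg Fin.val h
        omega
      have h3 := congrFun (congrFun h2 ⟨0, by omega⟩) ⟨p ^ (jm - 1), h1⟩
      rw [Matrix.add_apply, Matrix.one_apply_ne hne, zero_add, hSpow _ hm1,
        if_pos (Nat.zero_add _)] at h3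
      exact one_ne_zero h3
  obtain ⟨D, hD⟩ : ∃ D : Matrix (Fin (m + 1)) (Fin (m + 1)) K,
      D = Matrix.diagonal (fun i : Fin (m + 1) => if i = 0 then ζ else 1) := ⟨_, rfl⟩
  have hDr : D ^ r = 1 := by
    rw [hD, Matrix.diagonal_pow, ← Matrix.diagonal_one]
    congr 1
    funext k
    by_cases hk : k = 0
    · simp [hk, hζ]
    · simp [hk]
  have hζu : σ ζ * ζ = 1 := by
    obtain ⟨t, ht⟩ := hrq
    rw [hq, ← pow_succ, ht, pow_mul, hζ, one_pow]
  have hDu : dag σ D * D = 1 := by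
    rw [hD]
    unfold dag
    rw [Matrix.diagonal_map (map_zero σ), Matrix.diagonal_transpose,
      Matrix.diagonal_mul_diagonal, ← Matrix.diagonal_one]
    congr 1
    funext k
    by_cases hk : k = 0
    · simp [hk, hζu]
    · simp [hk]
  have hDcomm : D * suM g₁ = suM g₁ * D := by
    rw [hg₁M, hD]
    ext i j
    rw [Matrix.diagonal_mul, Matrix.mul_diagonal]
    refine Fin.cases ?_ (fun i' => ?_) i <;> refine Fin.cases ?_ (fun j' => ?_) j
    · simp
    · simp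
    · simp
    · simp [Fin.succ_ne_zero]
  have hDns : ¬ ∃ s : K, D = s • (1 : Matrix (Fin (m + 1)) (Fin (m + 1)) K) := by
    rintro ⟨s, hs⟩
    have h0 := congrFun (congrFun hs 0) 0
    have h1 := congrFun (congrFun hs (Fin.last m)) (Fin.last m)
    rw [hD, Matrix.diagonal_apply_eq, Matrix.smul_apply, Matrix.one_apply_eq, smul_eq_mul,
      mul_one] at h0 h1
    rw [if_pos rfl] at h0
    have hl : Fin.last m ≠ 0 := by
      intro h
      have h' := congrArg Fin.val h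
      simp at h'
      omega
    rw [if_neg hl] at h1
    exact hζ1 (h0.trans h1.symm)
  have hra : ¬ r ∣ orderOf (QuotientGroup.mk g₁ : Cfsg.PSU (m + 1) K q) := by
    rw [hi]
    intro h
    exact hrp ((Nat.prime_dvd_prime_iff_eq hr hp).1 (hr.dvd_of_dvd_pow h))
  obtain ⟨y, hy⟩ := good_of_comm_U hK hn2 σ hq r hr hrn hrq g₁ D hDr hDu hDcomm hDns hra
  rw [hi] at hy
  refine ⟨y ^ p ^ (i - jm), ?_⟩
  rw [orderOf_pow_of_dvd (pow_ne_zero _ hp.ne_zero), hy]
  · have h4 : p ^ i = p ^ jm * p ^ (i - jm) := by rw [← pow_add]; congr 1; omega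
    rw [h4, ← mul_assoc, Nat.mul_div_cancel _ (pow_pos hp.pos _)]
  · rw [hy]
    exact Dvd.dvd.mul_left (pow_dvd_pow p (Nat.sub_le _ _)) r

end Cfsg.Agent.Lib.helper10.PsuAbs
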