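import Mathlib
import Cfsg.Agent.Lib.helper26.S1454X3

set_option autoImplicit false

namespace Cfsg.Agent.Lib.helper10.S1454X3r

/-- (X3r) of S1454: relative form of helper26's `cent_centralizer`, obtained by applying it in the
subgroup `N = N_G(R) ⊓ N_G(D)`. -/
theorem cent_centralizer_rel {G : Type*} [Group G] [Finite G] (p : ℕ) [Fact p.Prime] (hp : p ≠ 2)
    (R D : Subgroup G) (hR : IsPGroup p R) (hDR : D ≤ R)
    (hr : ∀ B : Subgroup G, B ≤ R → (∀ x ∈ B, ∀ y ∈ B, x * y = y * x) → (∀ x ∈ B, x ^ p = 1) →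
      Nat.card B ≤ p ^ 2)
    (hexp : ∀ d ∈ D, d ^ p = 1) (hD3 : Nat.card D = p ^ 3)
    (hZ : Nat.card ↥(D ⊓ Subgroup.centralizer (D : Set G)) = p) (a : G)
    (haR : a ∈ Subgroup.normalizer (R : Set G)) (haD : a ∈ Subgroup.normalizer (D : Set G))
    (ha : (orderOf a).Coprime (p * (p - 1))) :
    ∀ c ∈ R ⊓ Subgroup.centralizer (D : Set G), a * c = c * a := by
  classical
  obtain ⟨N, hN⟩ : ∃ N : Subgroup G,
      N = Subgroup.normalizer (R : Set G) ⊓ Subgroup.normalizer (D : Set G) := ⟨_, rfl⟩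
  have hNmem : ∀ x : G, x ∈ N ↔
      (x ∈ Subgroup.normalizer (R : Set G) ∧ x ∈ Subgroup.normalizer (D : Set G)) := by
    intro x; rw [hN]; exact Subgroup.mem_inf
  have hRnorm : ∀ x ∈ R, x ∈ Subgroup.normalizer (R : Set G) := fun x hx =>
    Subgroup.le_normalizer hx
  have hDnorm : ∀ x ∈ D, x ∈ Subgroup.normalizer (D : Set G) := fun x hx =>
    Subgroup.le_normalizer hx
  have haN : a ∈ N := (hNmem a).2 ⟨haR, haD⟩
  have hDN : D ≤ N := fun x hx => (hNmem x).2 ⟨hRnorm x (hDR hx), hDnorm x hx⟩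
  obtain ⟨R', hR'⟩ : ∃ R' : Subgroup G, R' = R ⊓ Subgroup.normalizer (D : Set G) := ⟨_, rfl⟩
  have hR'mem : ∀ x : G, x ∈ R' ↔ (x ∈ R ∧ x ∈ Subgroup.normalizer (D : Set G)) := by
    intro x; rw [hR']; exact Subgroup.mem_inf
  obtain ⟨R2, hR2⟩ : ∃ R2 : Subgroup N, R2 = R'.subgroupOf N := ⟨_, rfl⟩
  obtain ⟨D2, hD2⟩ : ∃ D2 : Subgroup N, D2 = D.subgroupOf N := ⟨_, rfl⟩
  have hmemR2 : ∀ x : N, x ∈ R2 ↔ (x : G) ∈ R' := fun x => by
    rw [hR2]; exact Subgroup.mem_subgroupOf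
  have hmemD2 : ∀ x : N, x ∈ D2 ↔ (x : G) ∈ D := fun x => by
    rw [hD2]; exact Subgroup.mem_subgroupOf
  have hD2n : D2.Normal := by
    constructor
    intro x hx g
    rw [hmemD2] at hx ⊢
    have hg := ((hNmem (g : G)).1 g.2).2
    exact (Subgroup.mem_normalizer_iff.1 hg (x : G)).1 hx
  have hR2n : R2.Normal := by
    constructor
    intro x hx g
    rw [hmemR2, hR'mem] at hx ⊢
    have hg := (hNmem (g : G)).1 g.2
    refine ⟨(Subgroup.mem_normalizer_iff.1 hg.1 (x : G)).1 hx.1, ?_⟩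
    exact Subgroup.mul_mem _ (Subgroup.mul_mem _ hg.2 hx.2) (Subgroup.inv_mem _ hg.2)
  have hR2p : IsPGroup p R2 := by
    intro x
    obtain ⟨k, hk⟩ := hR ⟨(x : N), ((hR'mem _).1 ((hmemR2 _).1 x.2)).1⟩
    refine ⟨k, ?_⟩
    have h1 : ((x : N) : G) ^ p ^ k = 1 := congrArg Subtype.val hk
    apply Subtype.ext
    apply Subtype.ext
    simpa using h1
  have hD2R2 : D2 ≤ R2 := by
    intro x hx
    rw [hmemD2] at hx
    rw [hmemR2, hR'mem]
    exact ⟨hDR hx, hDnorm _ hx⟩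
  have hr2 : ∀ B : Subgroup N, B ≤ R2 → (∀ x ∈ B, ∀ y ∈ B, x * y = y * x) →
      (∀ x ∈ B, x ^ p = 1) → Nat.card B ≤ p ^ 2 := by
    intro B hB hBc hBp
    have hcard : Nat.card (B.map N.subtype) = Nat.card B :=
      Subgroup.card_map_of_injective N.subtype_injective
    rw [← hcard]
    apply hr
    · rintro _ ⟨x, hx, rfl⟩
      exact ((hR'mem _).1 ((hmemR2 x).1 (hB hx))).1
    · rintro _ ⟨x, hx, rfl⟩ _ ⟨y, hy, rfl⟩
      exact congrArg Subtype.val (hBc x hx y hy)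
    · rintro _ ⟨x, hx, rfl⟩
      have h1 := congrArg Subtype.val (hBp x hx)
      simpa using h1
  have hexp2 : ∀ d ∈ D2, d ^ p = 1 := by
    intro d hd
    apply Subtype.ext
    have h1 := hexp _ ((hmemD2 d).1 hd)
    simpa using h1
  have hD3' : Nat.card D2 = p ^ 3 := by
    rw [hD2, Nat.card_congr (Subgroup.subgroupOfEquivOfLe hDN).toEquiv, hD3]
  have hZ' : Nat.card ↥(D2 ⊓ Subgroup.centralizer (D2 : Set N)) = p := by
    have heq : D2 ⊓ Subgroup.centralizer (D2 : Set N) =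
        (D ⊓ Subgroup.centralizer (D : Set G)).subgroupOf N := by
      ext x
      rw [Subgroup.mem_inf, Subgroup.mem_subgroupOf, Subgroup.mem_inf, hmemD2,
        Subgroup.mem_centralizer_iff, Subgroup.mem_centralizer_iff]
      constructor
      · rintro ⟨h1, h2⟩
        refine ⟨h1, fun h hh => ?_⟩
        exact congrArg Subtype.val (h2 ⟨h, hDN hh⟩ ((hmemD2 _).2 hh))
      · rintro ⟨h1, h2⟩
        refine ⟨h1, fun h hh => ?_⟩
        exact Subtype.ext (h2 (h : G) ((hmemD2 h).1 hh))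
    rw [heq, Nat.card_congr (Subgroup.subgroupOfEquivOfLe
      ((inf_le_left : D ⊓ Subgroup.centralizer (D : Set G) ≤ D).trans hDN)).toEquiv, hZ]
  have ha' : (orderOf (⟨a, haN⟩ : N)).Coprime (p * (p - 1)) := by
    rw [Subgroup.orderOf_mk]; exact ha
  have key := Cfsg.Agent.Lib.helper26.S1454X3.cent_centralizer p hp R2 D2 hR2p hD2R2 hr2 hexp2
    hD3' hZ' ⟨a, haN⟩ ha'
  intro c hc
  rw [Subgroup.mem_inf] at hc
  have hcnorm : c ∈ Subgroup.normalizer (D : Set G) :=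
    Subgroup.centralizer_le_normalizer _ hc.2
  have hcN : c ∈ N := (hNmem c).2 ⟨hRnorm c hc.1, hcnorm⟩
  have hc2 : (⟨c, hcN⟩ : N) ∈ R2 ⊓ Subgroup.centralizer (D2 : Set N) := by
    rw [Subgroup.mem_inf, hmemR2, hR'mem, Subgroup.mem_centralizer_iff]
    refine ⟨⟨hc.1, hcnorm⟩, fun h hh => ?_⟩
    exact Subtype.ext (Subgroup.mem_centralizer_iff.1 hc.2 (h : G) ((hmemD2 h).1 hh))
  exact congrArg Subtype.val (key ⟨c, hcN⟩ hc2)

end Cfsg.Agent.Lib.helper10.S1454X3r
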